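import Mathlib
import Cfsg.Agent.Lib.helper4.UPerp

set_option autoImplicit false
set_option linter.unusedSectionVars false

/-!
# Maximality of the stabiliser of a nondegenerate subspace in `SU_n(q)`
-/

namespace Cfsg.Agent.Lib.helper4

open Matrix

section UMax2

variable {F : Type*} [Field F] [Fintype F] {q : ℕ} {n : ℕ}

theorem gl_fix_span {k : ℕ} (A : Matrix.GeneralLinearGroup (Fin n) F) (bv : Fin k → (Fin n → F))
    (h : ∀ i, (A : Matrix (Fin n) (Fin n) F) *ᵥ bv i = bv i) :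
    ∀ w ∈ Submodule.span F (Set.range bv), (A : Matrix (Fin n) (Fin n) F) *ᵥ w = w := by
  intro w hw
  have h1 : Set.EqOn (Matrix.mulVecLin (A : Matrix (Fin n) (Fin n) F))
      (LinearMap.id : (Fin n → F) →ₗ[F] (Fin n → F)) (Set.range bv) := by
    rintro _ ⟨i, rfl⟩
    show (A : Matrix (Fin n) (Fin n) F) *ᵥ bv i = bv i
    exact h i
  exact LinearMap.eqOn_span h1 hw

/-- the stabiliser in `SU` of a nondegenerate `W` is transitive on pairs
`(a, a') ∈ W × W^⊥` of nonzero vectors with prescribed norms. -/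
theorem su_nd_trans (hF : Fintype.card F = q ^ 2) (W : Submodule F (Fin n → F))
    (hWnd : ∀ w ∈ W, w ≠ 0 → ∃ x ∈ W, Cfsg.hermForm n F q w x ≠ 0)
    (hW3 : 3 ≤ Module.finrank F (uperp hF W))
    (a b a' b' : Fin n → F) (ha : a ∈ W) (hb : b ∈ W) (ha' : a' ∈ uperp hF W)
    (hb' : b' ∈ uperp hF W) (ha0 : a ≠ 0) (hb0 : b ≠ 0) (ha'0 : a' ≠ 0) (hb'0 : b' ≠ 0)
    (hab : Cfsg.hermForm n F q b b = Cfsg.hermForm n F q a a)
    (hab' : Cfsg.hermForm n F q b' b' = Cfsg.hermForm n F q a' a') :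
    ∃ A : Cfsg.SU n F q, (∀ v, v ∈ W ↔ suM A *ᵥ v ∈ W) ∧ suM A *ᵥ (a + a') = b + b' := by
  classical
  have hq := uq_ge_two hF
  obtain ⟨k, bv, hbW, hbLI, hbspan⟩ := exists_basis_vectors W
  obtain ⟨k', bv', hbW', hbLI', hbspan'⟩ := exists_basis_vectors (uperp hF W)
  have hnotW : ∀ x ∈ uperp hF W, x ≠ 0 → x ∉ W := fun x hx hx0 h =>
    hx0 (uperp_disjoint hF W hWnd x h hx)
  have hnotW' : ∀ x ∈ W, x ≠ 0 → x ∉ uperp hF W := fun x hx hx0 h =>
    hx0 (uperp_disjoint hF W hWnd x hx h)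
  -- first Witt map: fixes `W` pointwise, `a' ↦ b'`
  obtain ⟨A₁, hA₁, hA₁f⟩ := u_witt_frames hF (Fin.snoc bv a' : Fin (k + 1) → (Fin n → F))
    (Fin.snoc bv b') (by
      rw [linearIndependent_finSnoc]
      refine ⟨hbLI, ?_⟩
      rw [hbspan]
      exact hnotW a' ha' ha'0) (by
      rw [linearIndependent_finSnoc]
      refine ⟨hbLI, ?_⟩
      rw [hbspan]
      exact hnotW b' hb' hb'0) (by
      intro i j
      induction i using Fin.lastCases with
      | last =>
        induction j using Fin.lastCases with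
        | last =>
          rw [Fin.snoc_last, Fin.snoc_last, hab']
        | cast j =>
          rw [Fin.snoc_last, Fin.snoc_castSucc, Fin.snoc_last, Fin.snoc_castSucc,
            herm_zero_of_symm hF (hb' _ (hbW j)), herm_zero_of_symm hF (ha' _ (hbW j))]
      | cast i =>
        induction j using Fin.lastCases with
        | last =>
          rw [Fin.snoc_last, Fin.snoc_castSucc, Fin.snoc_last, Fin.snoc_castSucc,
            hb' _ (hbW i), ha' _ (hbW i)]
        | cast j =>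
          rw [Fin.snoc_castSucc, Fin.snoc_castSucc, Fin.snoc_castSucc, Fin.snoc_castSucc])
  have hA₁W : ∀ w ∈ W, (A₁ : Matrix (Fin n) (Fin n) F) *ᵥ w = w := by
    intro w hw
    rw [← hbspan] at hw
    refine gl_fix_span A₁ bv (fun i => ?_) w hw
    have h1 := hA₁f i.castSucc
    rw [Fin.snoc_castSucc, Fin.snoc_castSucc] at h1
    exact h1
  have hA₁a : (A₁ : Matrix (Fin n) (Fin n) F) *ᵥ a' = b' := by
    have h1 := hA₁f (Fin.last k)
    rw [Fin.snoc_last, Fin.snoc_last] at h1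
    exact h1
  -- second Witt map: fixes `W^⊥` pointwise, `a ↦ b`
  obtain ⟨A₂, hA₂, hA₂f⟩ := u_witt_frames hF (Fin.snoc bv' a : Fin (k' + 1) → (Fin n → F))
    (Fin.snoc bv' b) (by
      rw [linearIndependent_finSnoc]
      refine ⟨hbLI', ?_⟩
      rw [hbspan']
      exact hnotW' a ha ha0) (by
      rw [linearIndependent_finSnoc]
      refine ⟨hbLI', ?_⟩
      rw [hbspan']
      exact hnotW' b hb hb0) (by
      intro i j
      induction i using Fin.lastCases with
      | last =>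
        induction j using Fin.lastCases with
        | last =>
          rw [Fin.snoc_last, Fin.snoc_last, hab]
        | cast j =>
          rw [Fin.snoc_last, Fin.snoc_castSucc, Fin.snoc_last, Fin.snoc_castSucc,
            hbW' j b hb, hbW' j a ha]
      | cast i =>
        induction j using Fin.lastCases with
        | last =>
          rw [Fin.snoc_last, Fin.snoc_castSucc, Fin.snoc_last, Fin.snoc_castSucc,
            herm_zero_of_symm hF (hbW' i b hb), herm_zero_of_symm hF (hbW' i a ha)]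
        | cast j =>
          rw [Fin.snoc_castSucc, Fin.snoc_castSucc, Fin.snoc_castSucc, Fin.snoc_castSucc])
  have hA₂W' : ∀ w ∈ uperp hF W, (A₂ : Matrix (Fin n) (Fin n) F) *ᵥ w = w := by
    intro w hw
    rw [← hbspan'] at hw
    refine gl_fix_span A₂ bv' (fun i => ?_) w hw
    have h1 := hA₂f i.castSucc
    rw [Fin.snoc_castSucc, Fin.snoc_castSucc] at h1
    exact h1
  have hA₂a : (A₂ : Matrix (Fin n) (Fin n) F) *ᵥ a = b := by
    have h1 := hA₂f (Fin.last k')
    rw [Fin.snoc_last, Fin.snoc_last] at h1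
    exact h1
  have hA₂pres := (mem_GU_iff A₂).mp hA₂
  have hA₂W : ∀ w ∈ W, (A₂ : Matrix (Fin n) (Fin n) F) *ᵥ w ∈ W := by
    intro w hw
    apply uperp_uperp hF W hWnd
    intro y hy
    rw [← hA₂W' y hy, hA₂pres]
    exact herm_zero_of_symm hF (hy w hw)
  -- correct the determinant with a quasi-reflection
  obtain ⟨δ, hδ⟩ : ∃ δ : F,
      δ = ((A₂ * A₁ : Matrix.GeneralLinearGroup (Fin n) F) : Matrix (Fin n) (Fin n) F).det :=
    ⟨_, rfl⟩
  have hAA : A₂ * A₁ ∈ Cfsg.GU n F q := (Cfsg.GU n F q).mul_mem hA₂ hA₁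
  have hδ1 : δ ^ (q + 1) = 1 := by
    have h1 := Cfsg.Agent.S0783.det_pow_of_mem hF n (A₂ * A₁) hAA
    have h2 := congrArg Units.val h1
    rw [Units.val_pow_eq_pow_val, Matrix.GeneralLinearGroup.val_det_apply, Units.val_one] at h2
    rw [hδ]
    exact h2
  have hδ0 : δ ≠ 0 := by
    intro h
    rw [h, zero_pow (by omega)] at hδ1
    exact zero_ne_one hδ1
  obtain ⟨v, hvW', hvb', hvv⟩ := exists_aniso_in hF (uperp hF W) (uperp_nondeg hF W hWnd) hW3
    b' hb'
  obtain ⟨D, hD, hDv, hDdet⟩ := exists_gu_refl hF v hvv δ⁻¹ (by rw [inv_pow, hδ1, inv_one])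
  have hpres : ∀ x y, Cfsg.hermForm n F q
      (((D * (A₂ * A₁) : Matrix.GeneralLinearGroup (Fin n) F) : Matrix (Fin n) (Fin n) F) *ᵥ x)
      (((D * (A₂ * A₁) : Matrix.GeneralLinearGroup (Fin n) F) : Matrix (Fin n) (Fin n) F) *ᵥ y)
      = Cfsg.hermForm n F q x y :=
    (mem_GU_iff _).mp ((Cfsg.GU n F q).mul_mem hD hAA)
  have hdet : ((D * (A₂ * A₁) : Matrix.GeneralLinearGroup (Fin n) F) :
      Matrix (Fin n) (Fin n) F).det = 1 := by
    rw [Units.val_mul, Matrix.det_mul, hDdet, ← hδ, inv_mul_cancel₀ hδ0]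
  obtain ⟨S, hS⟩ := su_mk _ hpres hdet
  have hSv : ∀ x, suM S *ᵥ x = (D : Matrix (Fin n) (Fin n) F) *ᵥ
      ((A₂ : Matrix (Fin n) (Fin n) F) *ᵥ ((A₁ : Matrix (Fin n) (Fin n) F) *ᵥ x)) := by
    intro x
    have hS' : suM S = ((D * (A₂ * A₁) : Matrix.GeneralLinearGroup (Fin n) F) :
      Matrix (Fin n) (Fin n) F) := hS
    rw [hS', Units.val_mul, Units.val_mul, Matrix.mulVec_mulVec, Matrix.mulVec_mulVec,
      Matrix.mul_assoc]
  refine ⟨S, ?_, ?_⟩
  · apply stab_of_inj_le W _ (suM_mulVec_injective S)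
    intro w hw
    rw [hSv, hA₁W w hw, hDv, hvW' _ (hA₂W w hw), mul_zero, zero_smul, add_zero]
    exact hA₂W w hw
  · rw [hSv, Matrix.mulVec_add, hA₁W a ha, hA₁a, Matrix.mulVec_add, hA₂a, hA₂W' b' hb', hDv,
      herm_add_left, hvW' b hb, herm_zero_of_symm hF hvb', add_zero, mul_zero, zero_smul,
      add_zero]

theorem herm_line (hF : Fintype.card F = q ^ 2) (x y : Fin n → F) (μ : F) :
    Cfsg.hermForm n F q (x + μ • y) (x + μ • y) = Cfsg.hermForm n F q x x
      + μ ^ q * Cfsg.hermForm n F q x y + μ * Cfsg.hermForm n F q y x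
      + μ * μ ^ q * Cfsg.hermForm n F q y y := by
  rw [herm_add_left, herm_add_right hF, herm_add_right hF, herm_smul_left, herm_smul_left,
    herm_smul_right, herm_smul_right]
  ring

theorem utvSU_of_not (hF : Fintype.card F = q ^ 2) (v : Fin n → F) (c : F)
    (h : ¬ (Cfsg.hermForm n F q v v = 0 ∧ c + c ^ q = 0)) : utvSU hF v c = 1 := by
  unfold utvSU
  rw [dif_neg h]

/-- all transvections with centre `z` lie in `H`. -/
def uC (hF : Fintype.card F = q ^ 2) (H : Subgroup (Cfsg.SU n F q)) (z : Fin n → F) : Prop :=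
  ∀ c : F, utvSU hF z c ∈ H

theorem uC_smul (hF : Fintype.card F = q ^ 2) (H : Subgroup (Cfsg.SU n F q)) (z : Fin n → F)
    (hz : Cfsg.hermForm n F q z z = 0) (μ : F) (h : uC hF H z) : uC hF H (μ • z) := by
  intro c
  by_cases hc : c + c ^ q = 0
  · rw [utvSU_smul hF z μ c hz hc]
    exact h _
  · rw [utvSU_of_not hF _ c (fun h' => hc h'.2)]
    exact one_mem _

theorem uC_conj (hF : Fintype.card F = q ^ 2) (H : Subgroup (Cfsg.SU n F q)) (z : Fin n → F)
    (A : Cfsg.SU n F q) (hA : A ∈ H) (h : uC hF H z) : uC hF H (suM A *ᵥ z) := by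
  intro c
  by_cases hc : Cfsg.hermForm n F q z z = 0 ∧ c + c ^ q = 0
  · have h1 : utvSU hF (suM A *ᵥ z) c = A * utvSU hF z c * A⁻¹ := by
      rw [utvSU_conj hF A z c hc.1 hc.2, mul_inv_cancel_right]
    rw [h1]
    exact H.mul_mem (H.mul_mem hA (h c)) (H.inv_mem hA)
  · rw [utvSU_of_not hF _ c (fun h' => hc ⟨by rw [← su_pres A]; exact h'.1, h'.2⟩)]
    exact one_mem _

/-- closure along hyperbolic lines. -/
theorem uC_line (hF : Fintype.card F = q ^ 2) (H : Subgroup (Cfsg.SU n F q)) (x y : Fin n → F)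
    (hx : Cfsg.hermForm n F q x x = 0) (hy : Cfsg.hermForm n F q y y = 0)
    (hxy : Cfsg.hermForm n F q x y ≠ 0) (hCx : uC hF H x) (hCy : uC hF H y) (μ : F)
    (hiso : Cfsg.hermForm n F q (x + μ • y) (x + μ • y) = 0) : uC hF H (x + μ • y) := by
  have hyx : Cfsg.hermForm n F q y x ≠ 0 := fun h => hxy (herm_zero_of_symm hF h)
  have hiso' : μ ^ q * Cfsg.hermForm n F q x y + μ * Cfsg.hermForm n F q y x = 0 := by
    rw [herm_add_left, herm_add_right hF, herm_add_right hF, herm_smul_left, herm_smul_left,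
      herm_smul_right, herm_smul_right, hx, hy] at hiso
    linear_combination hiso
  have hc : μ / Cfsg.hermForm n F q x y + (μ / Cfsg.hermForm n F q x y) ^ q = 0 := by
    rw [div_pow, herm_symm hF]
    field_simp
    linear_combination hiso'
  have h1 : suM (utvSU hF y (μ / Cfsg.hermForm n F q x y)) *ᵥ x = x + μ • y := by
    rw [utvSU_mulVec hF y _ hy hc, div_mul_cancel₀ _ hxy]
  rw [← h1]
  exact uC_conj hF H x _ (hCy _) hCx

/-- a hyperbolic partner inside a nondegenerate subspace. -/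
theorem exists_hyp_in (hF : Fintype.card F = q ^ 2) (U : Submodule F (Fin n → F))
    (hU : ∀ y ∈ U, y ≠ 0 → ∃ x ∈ U, Cfsg.hermForm n F q y x ≠ 0) (e : Fin n → F) (he : e ∈ U)
    (he0 : e ≠ 0) (hee : Cfsg.hermForm n F q e e = 0) :
    ∃ f ∈ U, Cfsg.hermForm n F q f f = 0 ∧ Cfsg.hermForm n F q e f = 1 := by
  obtain ⟨x, hxU, hx⟩ := hU e he he0
  obtain ⟨x₁, hx₁⟩ : ∃ x₁ : Fin n → F, x₁ = ((Cfsg.hermForm n F q e x)⁻¹) ^ q • x := ⟨_, rfl⟩
  have hx₁U : x₁ ∈ U := by
    rw [hx₁]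
    exact U.smul_mem _ hxU
  have h1 : Cfsg.hermForm n F q e x₁ = 1 := by
    rw [hx₁, herm_smul_right, frob_frob hF, inv_mul_cancel₀ hx]
  have h1' : Cfsg.hermForm n F q x₁ e = 1 := herm_one_of_symm hF h1
  obtain ⟨lam, hlam⟩ := utrace_surj hF (-Cfsg.hermForm n F q x₁ x₁)
    (by rw [frob_neg hF, herm_self_fixed hF])
  refine ⟨x₁ + lam • e, U.add_mem hx₁U (U.smul_mem _ he), ?_, ?_⟩
  · rw [herm_add_left, herm_add_right hF, herm_add_right hF, herm_smul_left, herm_smul_left,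
      herm_smul_right, herm_smul_right, hee, h1, h1']
    linear_combination hlam
  · rw [herm_add_right hF, herm_smul_right, hee, h1, mul_zero, add_zero]

/-- a nonzero isotropic vector inside a nondegenerate subspace of dimension at least `3`. -/
theorem exists_iso_in (hF : Fintype.card F = q ^ 2) (U : Submodule F (Fin n → F))
    (hU : ∀ y ∈ U, y ≠ 0 → ∃ x ∈ U, Cfsg.hermForm n F q y x ≠ 0)
    (hU3 : 3 ≤ Module.finrank F U) :
    ∃ e ∈ U, e ≠ 0 ∧ Cfsg.hermForm n F q e e = 0 := by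
  obtain ⟨v, hvU, -, hvv⟩ := exists_aniso_in hF U hU hU3 0 U.zero_mem
  obtain ⟨v₂, hv₂U, hv₂v, hv₂⟩ := exists_aniso_in hF U hU hU3 v hvU
  obtain ⟨c, hc⟩ := unorm_surj hF (-Cfsg.hermForm n F q v v / Cfsg.hermForm n F q v₂ v₂)
    (by rw [div_pow, frob_neg hF, herm_self_fixed hF, herm_self_fixed hF])
  have hiso : Cfsg.hermForm n F q (v + c • v₂) (v + c • v₂) = 0 := by
    rw [herm_add_left, herm_add_right hF, herm_add_right hF, herm_smul_left, herm_smul_left,
      herm_smul_right, herm_smul_right, hv₂v, herm_zero_of_symm hF hv₂v]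
    have h1 : c * c ^ q = -Cfsg.hermForm n F q v v / Cfsg.hermForm n F q v₂ v₂ := by
      rw [← unorm_eq]
      exact hc
    have h2 : c * c ^ q * Cfsg.hermForm n F q v₂ v₂ = -Cfsg.hermForm n F q v v := by
      rw [h1, div_mul_cancel₀ _ hv₂]
    linear_combination h2
  refine ⟨v + c • v₂, U.add_mem hvU (U.smul_mem _ hv₂U), ?_, hiso⟩
  intro h0
  have h3 : Cfsg.hermForm n F q (v + c • v₂) v = 0 := by
    rw [h0, herm_zero_left]
  rw [herm_add_left, herm_smul_left, hv₂v, mul_zero, add_zero] at h3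
  exact hvv h3

/-- a nondegenerate subspace of dimension at least `3` is spanned by its isotropic vectors. -/
theorem le_of_iso_mem (hF : Fintype.card F = q ^ 2) (U : Submodule F (Fin n → F))
    (hU : ∀ y ∈ U, y ≠ 0 → ∃ x ∈ U, Cfsg.hermForm n F q y x ≠ 0)
    (hU3 : 3 ≤ Module.finrank F U) (S : Submodule F (Fin n → F))
    (hS : ∀ e ∈ U, Cfsg.hermForm n F q e e = 0 → e ∈ S) : U ≤ S := by
  obtain ⟨e, heU, he0, hee⟩ := exists_iso_in hF U hU hU3
  obtain ⟨f, hfU, hff, hef⟩ := exists_hyp_in hF U hU e heU he0 hee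
  have hfe : Cfsg.hermForm n F q f e = 1 := herm_one_of_symm hF hef
  intro y hy
  obtain ⟨p, hp⟩ : ∃ p : F, p = Cfsg.hermForm n F q y e := ⟨_, rfl⟩
  obtain ⟨r, hr⟩ : ∃ r : F, r = Cfsg.hermForm n F q y f := ⟨_, rfl⟩
  have hp' : Cfsg.hermForm n F q e y = p ^ q := by rw [hp, herm_symm hF]
  have hr' : Cfsg.hermForm n F q f y = r ^ q := by rw [hr, herm_symm hF]
  obtain ⟨s, hs⟩ := utrace_surj hF (-(Cfsg.hermForm n F q y y - r ^ q * p - p ^ q * r))
    (by
      rw [frob_neg hF, frob_sub hF, frob_sub hF, herm_self_fixed hF, mul_pow, mul_pow,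
        frob_frob hF, frob_frob hF]
      ring)
  obtain ⟨y₁, hy₁⟩ : ∃ y₁ : Fin n → F, y₁ = y + (s - r) • e + (1 - p) • f := ⟨_, rfl⟩
  have hy₁U : y₁ ∈ U := by
    rw [hy₁]
    exact U.add_mem (U.add_mem hy (U.smul_mem _ heU)) (U.smul_mem _ hfU)
  have hy₁iso : Cfsg.hermForm n F q y₁ y₁ = 0 := by
    rw [hy₁]
    simp only [herm_add_left, herm_add_right hF, herm_smul_left, herm_smul_right, hee, hff, hef,
      hfe, ← hp, ← hr, hp', hr', frob_sub hF, one_pow]
    linear_combination hs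
  have h1 : y = y₁ - (s - r) • e - (1 - p) • f := by
    rw [hy₁]
    abel
  rw [h1]
  exact S.sub_mem (S.sub_mem (hS y₁ hy₁U hy₁iso) (S.smul_mem _ (hS e heU hee)))
    (S.smul_mem _ (hS f hfU hff))

/-- an isotropic vector of `W^⊥` moved outside `W ∪ W^⊥`. -/
theorem su_exists_moved_iso (hF : Fintype.card F = q ^ 2) (W : Submodule F (Fin n → F))
    (hWnd : ∀ w ∈ W, w ≠ 0 → ∃ x ∈ W, Cfsg.hermForm n F q w x ≠ 0)
    (hdim : 2 * Module.finrank F W < n) (hn : 5 ≤ n) (g : Cfsg.SU n F q)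
    (hg : ¬ ∀ v, v ∈ W ↔ suM g *ᵥ v ∈ W) :
    ∃ u ∈ uperp hF W, Cfsg.hermForm n F q u u = 0 ∧ suM g *ᵥ u ∉ W ∧
      suM g *ᵥ u ∉ uperp hF W := by
  classical
  have hq := uq_ge_two hF
  have hfr := finrank_uperp hF W hWnd
  have hW3 : 3 ≤ Module.finrank F (uperp hF W) := by omega
  have hW'nd := uperp_nondeg hF W hWnd
  obtain ⟨u₁, hu₁W', hu₁iso, hu₁⟩ : ∃ u₁ ∈ uperp hF W, Cfsg.hermForm n F q u₁ u₁ = 0 ∧
      suM g *ᵥ u₁ ∉ uperp hF W := by
    by_contra hcon
    push Not at hcon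
    have hle : uperp hF W ≤ (uperp hF W).comap (Matrix.mulVecLin (suM g)) :=
      le_of_iso_mem hF (uperp hF W) hW'nd hW3 _ (fun e he hee => hcon e he hee)
    have hst := stab_of_inj_le (uperp hF W) _ (suM_mulVec_injective g) (fun w hw => hle hw)
    apply hg
    apply stab_of_inj_le W _ (suM_mulVec_injective g)
    intro w hw
    apply uperp_uperp hF W hWnd
    intro y hy
    have hy' : suM g⁻¹ *ᵥ y ∈ uperp hF W := by
      have h3 := hst (suM g⁻¹ *ᵥ y)
      rw [suM_mulVec_inv] at h3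
      exact h3.mpr hy
    rw [← suM_mulVec_inv g y, su_pres]
    exact herm_zero_of_symm hF (hy' w hw)
  obtain ⟨u₂, hu₂W', hu₂iso, hu₂⟩ : ∃ u₂ ∈ uperp hF W, Cfsg.hermForm n F q u₂ u₂ = 0 ∧
      suM g *ᵥ u₂ ∉ W := by
    by_contra hcon
    push Not at hcon
    have hle : uperp hF W ≤ W.comap (Matrix.mulVecLin (suM g)) :=
      le_of_iso_mem hF (uperp hF W) hW'nd hW3 _ (fun e he hee => hcon e he hee)
    have hle' : Submodule.map (Matrix.mulVecLin (suM g)) (uperp hF W) ≤ W :=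
      Submodule.map_le_iff_le_comap.mpr hle
    have h2 := Submodule.finrank_mono hle'
    rw [← LinearEquiv.finrank_eq (Submodule.equivMapOfInjective
      (Matrix.mulVecLin (suM g)) (suM_mulVec_injective g) (uperp hF W))] at h2
    omega
  by_cases h1 : suM g *ᵥ u₁ ∈ W
  · by_cases h2 : suM g *ᵥ u₂ ∈ uperp hF W
    · obtain ⟨μ, hμ0, hμ⟩ : ∃ μ : F, μ ≠ 0 ∧
          μ ^ q * Cfsg.hermForm n F q u₁ u₂ + μ * Cfsg.hermForm n F q u₂ u₁ = 0 := by
        by_cases h3 : Cfsg.hermForm n F q u₁ u₂ = 0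
        · refine ⟨1, one_ne_zero, ?_⟩
          rw [h3, herm_zero_of_symm hF h3]
          ring
        · obtain ⟨κ, hκ0, hκ⟩ := exists_trace_zero hF
          refine ⟨κ * Cfsg.hermForm n F q u₁ u₂, mul_ne_zero hκ0 h3, ?_⟩
          rw [mul_pow, herm_symm hF]
          linear_combination (Cfsg.hermForm n F q u₂ u₁ * Cfsg.hermForm n F q u₁ u₂) * hκ
      refine ⟨u₁ + μ • u₂, (uperp hF W).add_mem hu₁W' ((uperp hF W).smul_mem _ hu₂W'), ?_, ?_, ?_⟩
      · rw [herm_add_left, herm_add_right hF, herm_add_right hF, herm_smul_left, herm_smul_left,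
          herm_smul_right, herm_smul_right, hu₁iso, hu₂iso]
        linear_combination hμ
      · rw [Matrix.mulVec_add, Matrix.mulVec_smul]
        intro h7
        have h8 := (W.add_mem_iff_right h1).mp h7
        exact hu₂ ((W.smul_mem_iff hμ0).mp h8)
      · rw [Matrix.mulVec_add, Matrix.mulVec_smul]
        intro h7
        exact hu₁ (((uperp hF W).add_mem_iff_left ((uperp hF W).smul_mem _ h2)).mp h7)
    · exact ⟨u₂, hu₂W', hu₂iso, hu₂, h2⟩
  · exact ⟨u₁, hu₁W', hu₁iso, h1, hu₁⟩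

/-- a subgroup of `SU_n(q)` containing the stabiliser of a nondegenerate subspace `W` with
`2 dim W < n` and an element not stabilising `W` is everything. -/
theorem su_nondeg_max (hF : Fintype.card F = q ^ 2) (hn : 5 ≤ n) (W : Submodule F (Fin n → F))
    (hWnd : ∀ w ∈ W, w ≠ 0 → ∃ x ∈ W, Cfsg.hermForm n F q w x ≠ 0)
    (hdim : 2 * Module.finrank F W < n)
    (H : Subgroup (Cfsg.SU n F q))
    (hPH : ∀ A : Cfsg.SU n F q, (∀ v, v ∈ W ↔ suM A *ᵥ v ∈ W) → A ∈ H)
    (g : Cfsg.SU n F q) (hgH : g ∈ H) (hg : ¬ ∀ v, v ∈ W ↔ suM g *ᵥ v ∈ W) : H = ⊤ := by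
  classical
  have hq := uq_ge_two hF
  have hfr := finrank_uperp hF W hWnd
  have hW3 : 3 ≤ Module.finrank F (uperp hF W) := by omega
  have hW'nd := uperp_nondeg hF W hWnd
  have hCW : ∀ z ∈ W, uC hF H z := by
    intro z hz c
    by_cases hc : Cfsg.hermForm n F q z z = 0 ∧ c + c ^ q = 0
    · apply hPH
      apply stab_of_inj_le W _ (suM_mulVec_injective _)
      intro w hw
      rw [utvSU_mulVec hF z c hc.1 hc.2]
      exact W.add_mem hw (W.smul_mem _ hz)
    · rw [utvSU_of_not hF z c hc]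
      exact one_mem _
  have hCW' : ∀ z ∈ uperp hF W, uC hF H z := by
    intro z hz c
    by_cases hc : Cfsg.hermForm n F q z z = 0 ∧ c + c ^ q = 0
    · exact hPH _ (su_tv_stab hF W z hz hc.1 c hc.2)
    · rw [utvSU_of_not hF z c hc]
      exact one_mem _
  have hcross : ∀ a ∈ W, ∀ a' ∈ uperp hF W, Cfsg.hermForm n F q (a + a') (a + a')
      = Cfsg.hermForm n F q a a + Cfsg.hermForm n F q a' a' := by
    intro a ha a' ha'
    rw [herm_add_left, herm_add_right hF, herm_add_right hF, ha' a ha,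
      herm_zero_of_symm hF (ha' a ha)]
    ring
  have hne0 : ∀ a : Fin n → F, Cfsg.hermForm n F q a a ≠ 0 → a ≠ 0 := by
    rintro a ha rfl
    exact ha (herm_zero_left _)
  -- transitivity within types
  have htrans : ∀ a₀ ∈ W, ∀ a₀' ∈ uperp hF W, a₀ ≠ 0 → a₀' ≠ 0 →
      Cfsg.hermForm n F q a₀ a₀ + Cfsg.hermForm n F q a₀' a₀' = 0 → uC hF H (a₀ + a₀') →
      ∀ a ∈ W, ∀ a' ∈ uperp hF W, a ≠ 0 → a' ≠ 0 →
      Cfsg.hermForm n F q a a + Cfsg.hermForm n F q a' a' = 0 →
      (Cfsg.hermForm n F q a₀ a₀ = 0 ↔ Cfsg.hermForm n F q a a = 0) → uC hF H (a + a') := by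
    intro a₀ ha₀ a₀' ha₀' ha₀0 ha₀'0 hsum₀ hC₀ a ha a' ha' ha0 ha'0 hsum htype
    obtain ⟨μ, hμ0, hμ⟩ : ∃ μ : F, μ ≠ 0 ∧
        μ * μ ^ q * Cfsg.hermForm n F q a₀ a₀ = Cfsg.hermForm n F q a a := by
      by_cases h0 : Cfsg.hermForm n F q a₀ a₀ = 0
      · exact ⟨1, one_ne_zero, by rw [h0, htype.mp h0, mul_zero]⟩
      · obtain ⟨μ, hμ⟩ := unorm_surj hF (Cfsg.hermForm n F q a a / Cfsg.hermForm n F q a₀ a₀)
          (by rw [div_pow, herm_self_fixed hF, herm_self_fixed hF])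
        have h1 : Cfsg.hermForm n F q a a ≠ 0 := fun h => h0 (htype.mpr h)
        refine ⟨μ, ?_, ?_⟩
        · rintro rfl
          rw [zero_pow (by omega)] at hμ
          exact div_ne_zero h1 h0 hμ.symm
        · rw [← unorm_eq, hμ, div_mul_cancel₀ _ h0]
    obtain ⟨A, hAW, hA⟩ := su_nd_trans hF W hWnd hW3 (μ • a₀) a (μ • a₀') a' (W.smul_mem _ ha₀)
      ha ((uperp hF W).smul_mem _ ha₀') ha' (smul_ne_zero hμ0 ha₀0) ha0 (smul_ne_zero hμ0 ha₀'0)
      ha'0 (by
        rw [herm_smul_left, herm_smul_right]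
        linear_combination -hμ) (by
        rw [herm_smul_left, herm_smul_right]
        linear_combination hμ + hsum - μ * μ ^ q * hsum₀)
    have h1 : uC hF H (μ • (a₀ + a₀')) :=
      uC_smul hF H _ (by rw [hcross a₀ ha₀ a₀' ha₀', hsum₀]) μ hC₀
    have h2 := uC_conj hF H _ A (hPH A hAW) h1
    rw [smul_add, hA] at h2
    exact h2
  -- the initial vector
  obtain ⟨u, huW', huiso, hu1, hu2⟩ := su_exists_moved_iso hF W hWnd hdim hn g hg
  have hz₀C : uC hF H (suM g *ᵥ u) := uC_conj hF H u g hgH (hCW' u huW')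
  obtain ⟨a₀, ha₀, a₀', ha₀', hz₀⟩ := uperp_decomp hF W hWnd (suM g *ᵥ u)
  have ha₀0 : a₀ ≠ 0 := by
    intro h
    apply hu2
    rw [← hz₀, h, zero_add]
    exact ha₀'
  have ha₀'0 : a₀' ≠ 0 := by
    intro h
    apply hu1
    rw [← hz₀, h, add_zero]
    exact ha₀
  have hsum₀ : Cfsg.hermForm n F q a₀ a₀ + Cfsg.hermForm n F q a₀' a₀' = 0 := by
    rw [← hcross a₀ ha₀ a₀' ha₀', hz₀, su_pres]
    exact huiso
  rw [← hz₀] at hz₀C
  -- a centre with anisotropic components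
  obtain ⟨b₀, hb₀, b₀', hb₀', hb₀n, hb₀sum, hb₀C⟩ : ∃ b₀ ∈ W, ∃ b₀' ∈ uperp hF W,
      Cfsg.hermForm n F q b₀ b₀ ≠ 0 ∧
      Cfsg.hermForm n F q b₀ b₀ + Cfsg.hermForm n F q b₀' b₀' = 0 ∧ uC hF H (b₀ + b₀') := by
    by_cases h0 : Cfsg.hermForm n F q a₀ a₀ = 0
    · have h0' : Cfsg.hermForm n F q a₀' a₀' = 0 := by
        rw [h0, zero_add] at hsum₀
        exact hsum₀
      have hall0 : ∀ e ∈ W, ∀ e' ∈ uperp hF W, e ≠ 0 → e' ≠ 0 → Cfsg.hermForm n F q e e = 0 →
          Cfsg.hermForm n F q e' e' = 0 → uC hF H (e + e') :=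
        fun e he e' he' he0 he'0 hee hee' => htrans a₀ ha₀ a₀' ha₀' ha₀0 ha₀'0 hsum₀ hz₀C e he
          e' he' he0 he'0 (by rw [hee, hee', add_zero]) (iff_of_true h0 hee)
      obtain ⟨b, hbW, hbb, hab⟩ := exists_hyp_in hF W hWnd a₀ ha₀ ha₀0 h0
      obtain ⟨f', hf'W', hf'f', hef'⟩ := exists_hyp_in hF (uperp hF W) hW'nd a₀' ha₀' ha₀'0 h0'
      have hba : Cfsg.hermForm n F q b a₀ = 1 := herm_one_of_symm hF hab
      have hb0 : b ≠ 0 := by
        rintro rfl
        rw [herm_zero_right hF] at hab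
        exact zero_ne_one hab
      have hf'0 : f' ≠ 0 := by
        rintro rfl
        rw [herm_zero_right hF] at hef'
        exact zero_ne_one hef'
      obtain ⟨μ, hμ⟩ := utrace_surj hF 1 (one_pow q)
      have hμ0 : μ ≠ 0 := by
        rintro rfl
        rw [zero_pow (by omega), add_zero] at hμ
        exact zero_ne_one hμ
      have hμq0 : μ ^ q ≠ 0 := pow_ne_zero _ hμ0
      obtain ⟨κ, hκ0, hκ⟩ := exists_trace_zero hF
      obtain ⟨τ, hτ⟩ : ∃ τ : F, τ = κ / μ ^ q - 1 := ⟨_, rfl⟩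
      have hτ1 : 1 + τ = κ / μ ^ q := by rw [hτ]; ring
      have hτ0 : τ ≠ 0 := by
        intro h
        rw [h, add_zero] at hτ1
        have h1 : κ = μ ^ q := by
          rw [eq_div_iff hμq0, one_mul] at hτ1
          exact hτ1.symm
        rw [h1, frob_frob hF] at hκ
        apply one_ne_zero (α := F)
        rw [← hμ]
        linear_combination hκ
      have hxC : uC hF H (a₀ + τ • a₀') :=
        hall0 a₀ ha₀ (τ • a₀') ((uperp hF W).smul_mem _ ha₀') ha₀0 (smul_ne_zero hτ0 ha₀'0) h0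
          (by rw [herm_smul_left, herm_smul_right, h0']; ring)
      have hyC : uC hF H (b + f') := hall0 b hbW f' hf'W' hb0 hf'0 hbb hf'f'
      have hxiso : Cfsg.hermForm n F q (a₀ + τ • a₀') (a₀ + τ • a₀') = 0 := by
        rw [hcross a₀ ha₀ _ ((uperp hF W).smul_mem _ ha₀'), herm_smul_left, herm_smul_right, h0,
          h0']
        ring
      have hyiso : Cfsg.hermForm n F q (b + f') (b + f') = 0 := by
        rw [hcross b hbW f' hf'W', hbb, hf'f', add_zero]
      have hxy : Cfsg.hermForm n F q (a₀ + τ • a₀') (b + f') = κ / μ ^ q := by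
        rw [herm_add_left, herm_add_right hF, herm_add_right hF, herm_smul_left, herm_smul_left,
          hab, hf'W' a₀ ha₀, herm_zero_of_symm hF (ha₀' b hbW), hef', ← hτ1]
        ring
      have hyx : Cfsg.hermForm n F q (b + f') (a₀ + τ • a₀') = κ ^ q / μ := by
        rw [← herm_symm hF, hxy, div_pow, frob_frob hF]
      have hxy0 : Cfsg.hermForm n F q (a₀ + τ • a₀') (b + f') ≠ 0 := by
        rw [hxy]
        exact div_ne_zero hκ0 hμq0
      have hziso : Cfsg.hermForm n F q ((a₀ + τ • a₀') + μ • (b + f'))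
          ((a₀ + τ • a₀') + μ • (b + f')) = 0 := by
        rw [herm_line hF, hxiso, hyiso, hxy, hyx]
        field_simp
        linear_combination hκ
      have hzC := uC_line hF H _ _ hxiso hyiso hxy0 hxC hyC μ hziso
      have hzeq : (a₀ + τ • a₀') + μ • (b + f') = (a₀ + μ • b) + (τ • a₀' + μ • f') := by
        module
      rw [hzeq] at hzC hziso
      have hb₀W : a₀ + μ • b ∈ W := W.add_mem ha₀ (W.smul_mem _ hbW)
      have hb₀W' : τ • a₀' + μ • f' ∈ uperp hF W :=
        (uperp hF W).add_mem ((uperp hF W).smul_mem _ ha₀') ((uperp hF W).smul_mem _ hf'W')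
      have hnorm : Cfsg.hermForm n F q (a₀ + μ • b) (a₀ + μ • b) = 1 := by
        rw [herm_add_left, herm_add_right hF, herm_add_right hF, herm_smul_left, herm_smul_left,
          herm_smul_right, herm_smul_right, h0, hbb, hab, hba]
        linear_combination hμ
      refine ⟨_, hb₀W, _, hb₀W', ?_, ?_, hzC⟩
      · rw [hnorm]
        exact one_ne_zero
      · rw [← hcross _ hb₀W _ hb₀W']
        exact hziso
    · exact ⟨a₀, ha₀, a₀', ha₀', h0, hsum₀, hz₀C⟩
  have hb₀n' : Cfsg.hermForm n F q b₀' b₀' ≠ 0 := by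
    intro h
    rw [h, add_zero] at hb₀sum
    exact hb₀n hb₀sum
  have hall1 : ∀ a ∈ W, ∀ a' ∈ uperp hF W, Cfsg.hermForm n F q a a ≠ 0 →
      Cfsg.hermForm n F q a a + Cfsg.hermForm n F q a' a' = 0 → uC hF H (a + a') := by
    intro a ha a' ha' han hsum
    have han' : Cfsg.hermForm n F q a' a' ≠ 0 := by
      intro h
      rw [h, add_zero] at hsum
      exact han hsum
    exact htrans b₀ hb₀ b₀' hb₀' (hne0 _ hb₀n) (hne0 _ hb₀n') hb₀sum hb₀C a ha a' ha'
      (hne0 _ han) (hne0 _ han') hsum (iff_of_false hb₀n han)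
  have hall0 : ∀ e ∈ W, ∀ e' ∈ uperp hF W, e ≠ 0 → e' ≠ 0 → Cfsg.hermForm n F q e e = 0 →
      Cfsg.hermForm n F q e' e' = 0 → uC hF H (e + e') := by
    intro e he e' he' he0 he'0 hee hee'
    obtain ⟨a₁, ha₁W, ha₁⟩ := hWnd e he he0
    have ha₁' : Cfsg.hermForm n F q a₁ e ≠ 0 := fun h => ha₁ (herm_zero_of_symm hF h)
    obtain ⟨α, β, hv, hα⟩ := exists_aniso_comb hF a₁ e ha₁'
    obtain ⟨a, hadef⟩ : ∃ a : Fin n → F, a = α • a₁ + β • e := ⟨_, rfl⟩
    rw [← hadef] at hv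
    have haW : a ∈ W := by
      rw [hadef]
      exact W.add_mem (W.smul_mem _ ha₁W) (W.smul_mem _ he)
    obtain ⟨η, hη⟩ : ∃ η : F, η = Cfsg.hermForm n F q a e := ⟨_, rfl⟩
    have hη0 : η ≠ 0 := by
      rw [hη, hadef, herm_add_left, herm_smul_left, herm_smul_left, hee, mul_zero, add_zero]
      exact mul_ne_zero (hα hee) ha₁'
    have hη' : Cfsg.hermForm n F q e a = η ^ q := by rw [hη, herm_symm hF]
    obtain ⟨v, hvW', hve', hvv⟩ := exists_aniso_in hF (uperp hF W) hW'nd hW3 e' he'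
    obtain ⟨lam, hlam⟩ := unorm_surj hF (-Cfsg.hermForm n F q a a / Cfsg.hermForm n F q v v)
      (by rw [div_pow, frob_neg hF, herm_self_fixed hF, herm_self_fixed hF])
    have hlam' : lam * lam ^ q * Cfsg.hermForm n F q v v = -Cfsg.hermForm n F q a a := by
      rw [← unorm_eq, hlam, div_mul_cancel₀ _ hvv]
    have ha'W' : lam • v ∈ uperp hF W := (uperp hF W).smul_mem _ hvW'
    have ha'n : Cfsg.hermForm n F q (lam • v) (lam • v) = -Cfsg.hermForm n F q a a := by
      rw [herm_smul_left, herm_smul_right]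
      linear_combination hlam'
    have ha'e' : Cfsg.hermForm n F q (lam • v) e' = 0 := by
      rw [herm_smul_left, hve', mul_zero]
    have he'a' : Cfsg.hermForm n F q e' (lam • v) = 0 := herm_zero_of_symm hF ha'e'
    have hxC : uC hF H (a + lam • v) := hall1 a haW _ ha'W' hv (by rw [ha'n]; ring)
    have hxiso : Cfsg.hermForm n F q (a + lam • v) (a + lam • v) = 0 := by
      rw [hcross a haW _ ha'W', ha'n]
      ring
    obtain ⟨κ, hκ0, hκ⟩ := exists_trace_zero hF
    obtain ⟨μ, hμdef⟩ : ∃ μ : F, μ = κ * η := ⟨_, rfl⟩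
    have hμ0 : μ ≠ 0 := by
      rw [hμdef]
      exact mul_ne_zero hκ0 hη0
    have hμ : μ ^ q * η + μ * η ^ q = 0 := by
      rw [hμdef, mul_pow]
      linear_combination (η * η ^ q) * hκ
    have hyW : a + μ • e ∈ W := W.add_mem haW (W.smul_mem _ he)
    have hyW' : lam • v + μ • e' ∈ uperp hF W :=
      (uperp hF W).add_mem ha'W' ((uperp hF W).smul_mem _ he')
    have hyn : Cfsg.hermForm n F q (a + μ • e) (a + μ • e) = Cfsg.hermForm n F q a a := by
      rw [herm_add_left, herm_add_right hF, herm_add_right hF, herm_smul_left, herm_smul_left,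
        herm_smul_right, herm_smul_right, hee, ← hη, hη']
      linear_combination hμ
    have hyn' : Cfsg.hermForm n F q (lam • v + μ • e') (lam • v + μ • e')
        = -Cfsg.hermForm n F q a a := by
      rw [herm_add_left, herm_add_right hF, herm_add_right hF, herm_smul_left μ, herm_smul_left μ,
        herm_smul_right μ, herm_smul_right μ, hee', ha'e', he'a', ha'n]
      ring
    have hyC : uC hF H ((a + μ • e) + (lam • v + μ • e')) :=
      hall1 _ hyW _ hyW' (by rw [hyn]; exact hv) (by rw [hyn, hyn']; ring)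
    have hyiso : Cfsg.hermForm n F q ((a + μ • e) + (lam • v + μ • e'))
        ((a + μ • e) + (lam • v + μ • e')) = 0 := by
      rw [hcross _ hyW _ hyW', hyn, hyn']
      ring
    have hxy : Cfsg.hermForm n F q (a + lam • v) ((a + μ • e) + (lam • v + μ • e'))
        = μ ^ q * η := by
      have h1 : (a + μ • e) + (lam • v + μ • e') = (a + lam • v) + μ • (e + e') := by module
      rw [h1, herm_add_right hF, hxiso, herm_smul_right, herm_add_left, herm_add_right hF,
        herm_add_right hF, ← hη, he' a haW, ha'e', herm_zero_of_symm hF (ha'W' e he)]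
      ring
    have hxy0 : Cfsg.hermForm n F q (a + lam • v) ((a + μ • e) + (lam • v + μ • e')) ≠ 0 := by
      rw [hxy]
      exact mul_ne_zero (pow_ne_zero _ hμ0) hη0
    have heq : (a + lam • v) + (-1 : F) • ((a + μ • e) + (lam • v + μ • e'))
        = (-μ) • (e + e') := by
      module
    have hpiso : Cfsg.hermForm n F q (e + e') (e + e') = 0 := by
      rw [hcross e he e' he', hee, hee', add_zero]
    have hline := uC_line hF H _ _ hxiso hyiso hxy0 hxC hyC (-1) (by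
      rw [heq, herm_smul_left, herm_smul_right, hpiso]
      ring)
    rw [heq] at hline
    have h2 := uC_smul hF H _ (by
      rw [herm_smul_left, herm_smul_right, hpiso]
      ring) (-μ)⁻¹ hline
    rw [smul_smul, inv_mul_cancel₀ (neg_ne_zero.mpr hμ0), one_smul] at h2
    exact h2
  -- conclusion
  rw [eq_top_iff, ← su_eq_uT hF n (by omega) (by omega)]
  unfold uT
  rw [Subgroup.closure_le]
  rintro A ⟨z, c, hz, hA⟩
  have hA' : suM A = Cfsg.unitaryTransvection n q z c := hA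
  show A ∈ H
  by_cases hz0 : z = 0
  · have hA1 : A = 1 := by
      apply su_ext
      intro x
      rw [hA', utv_mulVec, suM_one, Matrix.one_mulVec, hz0, smul_zero, add_zero]
    rw [hA1]
    exact one_mem _
  · obtain ⟨hc, hA2⟩ := eq_utvSU hF A z c hz0 hz hA'
    rw [hA2]
    obtain ⟨a, ha, a', ha', hz'⟩ := uperp_decomp hF W hWnd z
    have hsum : Cfsg.hermForm n F q a a + Cfsg.hermForm n F q a' a' = 0 := by
      rw [← hcross a ha a' ha', hz']
      exact hz
    rw [← hz']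
    by_cases ha0 : a = 0
    · rw [ha0, zero_add]
      exact hCW' a' ha' c
    · by_cases ha'0 : a' = 0
      · rw [ha'0, add_zero]
        exact hCW a ha c
      · by_cases han : Cfsg.hermForm n F q a a = 0
        · exact hall0 a ha a' ha' ha0 ha'0 han (by rw [han, zero_add] at hsum; exact hsum) c
        · exact hall1 a ha a' ha' han hsum c

/-- generic bridge: maximality in `GU ⊓ SL` from the statement in `Cfsg.SU`. -/
theorem suGL_isMaximalIn_of (W : Submodule F (Fin n → F))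
    (hlt : ∃ A : Cfsg.SU n F q, ¬ ∀ v, v ∈ W ↔ suM A *ᵥ v ∈ W)
    (hmax : ∀ H : Subgroup (Cfsg.SU n F q),
      (∀ A : Cfsg.SU n F q, (∀ v, v ∈ W ↔ suM A *ᵥ v ∈ W) → A ∈ H) →
      ∀ g ∈ H, (¬ ∀ v, v ∈ W ↔ suM g *ᵥ v ∈ W) → H = ⊤) :
    Cfsg.Geo.IsMaximalIn (Cfsg.GU n F q ⊓ Cfsg.Geo.specialLinear (Fin n) F)
      (Cfsg.Geo.subspaceStabilizer W ⊓ (Cfsg.GU n F q ⊓ Cfsg.Geo.specialLinear (Fin n) F)) := by
  classical
  have hmemP : ∀ A : Cfsg.SU n F q,
      suToGL n F q A ∈ Cfsg.Geo.subspaceStabilizer W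
          ⊓ (Cfsg.GU n F q ⊓ Cfsg.Geo.specialLinear (Fin n) F) ↔
      ∀ v, v ∈ W ↔ suM A *ᵥ v ∈ W := by
    intro A
    constructor
    · intro h
      exact h.1
    · intro h
      exact ⟨h, suToGL_mem A⟩
  refine ⟨lt_of_le_of_ne inf_le_right ?_, ?_⟩
  · intro heq
    obtain ⟨A, hA⟩ := hlt
    apply hA
    apply (hmemP A).mp
    rw [heq]
    exact suToGL_mem A
  · intro M hPM hMS
    by_cases hMP : M ≤ Cfsg.Geo.subspaceStabilizer W
        ⊓ (Cfsg.GU n F q ⊓ Cfsg.Geo.specialLinear (Fin n) F)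
    · left
      exact le_antisymm hMP hPM
    · right
      obtain ⟨g₀, hg₀M, hg₀P⟩ := SetLike.not_le_iff_exists.mp hMP
      obtain ⟨A₀, hA₀⟩ := exists_su_of_mem g₀ (hMS hg₀M)
      have hkey := hmax (M.comap (suToGL n F q))
        (fun A hA => hPM ((hmemP A).mpr hA)) A₀ (by
          show suToGL n F q A₀ ∈ M
          rw [hA₀]
          exact hg₀M) (by
          intro h
          apply hg₀P
          have h1 := (hmemP A₀).mpr h
          rw [hA₀] at h1
          exact h1)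
      apply le_antisymm hMS
      intro g' hg'
      obtain ⟨A', hA'⟩ := exists_su_of_mem g' hg'
      have h1 : A' ∈ M.comap (suToGL n F q) := by
        rw [hkey]
        trivial
      have h2 : suToGL n F q A' ∈ M := h1
      rw [hA'] at h2
      exact h2

/-- an element of `SU` not stabilising a nondegenerate `W` (`W ≠ 0`, `2 dim W < n`). -/
theorem su_exists_not_stab (hF : Fintype.card F = q ^ 2) (hn : 5 ≤ n)
    (W : Submodule F (Fin n → F)) (hW0 : W ≠ ⊥)
    (hWnd : ∀ w ∈ W, w ≠ 0 → ∃ x ∈ W, Cfsg.hermForm n F q w x ≠ 0)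
    (hdim : 2 * Module.finrank F W < n) :
    ∃ A : Cfsg.SU n F q, ¬ ∀ v, v ∈ W ↔ suM A *ᵥ v ∈ W := by
  classical
  have hq := uq_ge_two hF
  have hfr := finrank_uperp hF W hWnd
  have hW3 : 3 ≤ Module.finrank F (uperp hF W) := by omega
  have hW'nd := uperp_nondeg hF W hWnd
  obtain ⟨w₀, hw₀W, hw₀0⟩ := Submodule.exists_mem_ne_zero_of_ne_bot hW0
  obtain ⟨x, hxW, hx⟩ := hWnd w₀ hw₀W hw₀0
  obtain ⟨α, β, hv, -⟩ := exists_aniso_comb hF w₀ x hx
  obtain ⟨a, hadef⟩ : ∃ a : Fin n → F, a = α • w₀ + β • x := ⟨_, rfl⟩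
  rw [← hadef] at hv
  have haW : a ∈ W := by
    rw [hadef]
    exact W.add_mem (W.smul_mem _ hw₀W) (W.smul_mem _ hxW)
  obtain ⟨v, hvW', -, hvv⟩ := exists_aniso_in hF (uperp hF W) hW'nd hW3 0 (uperp hF W).zero_mem
  obtain ⟨lam, hlam⟩ := unorm_surj hF (-Cfsg.hermForm n F q a a / Cfsg.hermForm n F q v v)
    (by rw [div_pow, frob_neg hF, herm_self_fixed hF, herm_self_fixed hF])
  have hlam' : lam * lam ^ q * Cfsg.hermForm n F q v v = -Cfsg.hermForm n F q a a := by
    rw [← unorm_eq, hlam, div_mul_cancel₀ _ hvv]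
  have ha'W' : lam • v ∈ uperp hF W := (uperp hF W).smul_mem _ hvW'
  have ha'n : Cfsg.hermForm n F q (lam • v) (lam • v) = -Cfsg.hermForm n F q a a := by
    rw [herm_smul_left, herm_smul_right]
    linear_combination hlam'
  have ha'0 : lam • v ≠ 0 := by
    intro h
    rw [h, herm_zero_left] at ha'n
    exact hv (by linear_combination ha'n)
  have hziso : Cfsg.hermForm n F q (a + lam • v) (a + lam • v) = 0 := by
    rw [herm_add_left, herm_add_right hF, herm_add_right hF, ha'W' a haW,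
      herm_zero_of_symm hF (ha'W' a haW), ha'n]
    ring
  obtain ⟨κ, hκ0, hκ⟩ := exists_trace_zero hF
  refine ⟨utvSU hF (a + lam • v) κ, fun h => ?_⟩
  have h1 := (h a).mp haW
  rw [utvSU_mulVec hF _ κ hziso hκ, herm_add_right hF, ha'W' a haW, add_zero] at h1
  have h2 := (W.add_mem_iff_right haW).mp h1
  have h3 := (W.smul_mem_iff (mul_ne_zero hκ0 hv)).mp h2
  have h4 := (W.add_mem_iff_right haW).mp h3
  exact ha'0 (uperp_disjoint hF W hWnd _ h4 ha'W')

end UMax2

end Cfsg.Agent.Lib.helper4
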