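import Mathlib

/-!
# The 2-part of the centraliser of commuting reflections
-/

namespace Cfsg.Agent.Lib.helper4.GLCent

universe u

open Module

variable {F : Type u} [Field F]

/-- The 2-adic valuation of `|GL_k(F)|`. -/
noncomputable def g (F : Type u) [Field F] (k : ℕ) : ℕ :=
  padicValNat 2 (Nat.card (Matrix.GeneralLinearGroup (Fin k) F))

/-- Reflections. -/
def IsRefl {V : Type u} [AddCommGroup V] [Module F V] (ρ : V →ₗ[F] V) : Prop :=
  (∀ v, ρ (ρ v) = v) ∧ finrank F (LinearMap.ker (ρ + LinearMap.id)) = 1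

theorem card_units_end {W : Type u} [AddCommGroup W] [Module F W] [FiniteDimensional F W] (k : ℕ)
    (hk : finrank F W = k) :
    Nat.card (W →ₗ[F] W)ˣ = Nat.card (Matrix.GeneralLinearGroup (Fin k) F) := by
  have b : Basis (Fin k) F W := Module.finBasisOfFinrankEq F W hk
  exact Nat.card_congr (Units.mapEquiv (LinearMap.toMatrixAlgEquiv b).toMulEquiv).toEquiv

theorem sub_val {X : Type*} [Group X] [Finite X] (P : Subgroup X) :
    padicValNat 2 (Nat.card P) ≤ padicValNat 2 (Nat.card X) := by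
  haveI : Fact (Nat.Prime 2) := ⟨Nat.prime_two⟩
  have h1 : Nat.card P ∣ Nat.card X := Subgroup.card_subgroup_dvd_card P
  have h2 : 2 ^ padicValNat 2 (Nat.card P) ∣ Nat.card X := dvd_trans pow_padicValNat_dvd h1
  exact (padicValNat_dvd_iff_le (Nat.card_pos.ne')).mp h2

/-- Restriction of a group of linear automorphisms to an invariant subspace. -/
def restrictHom {V : Type u} [AddCommGroup V] [Module F V] (P : Subgroup (V →ₗ[F] V)ˣ)
    (W : Submodule F V) (hW : ∀ p ∈ P, ∀ w ∈ W, (p : V →ₗ[F] V) w ∈ W) : P →* (W →ₗ[F] W)ˣ :=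
  MonoidHom.toHomUnits
    { toFun := fun p => (p.1 : V →ₗ[F] V).restrict (hW p.1 p.2)
      map_one' := by ext w; rfl
      map_mul' := fun p q => by ext w; rfl }

theorem restrictHom_apply {V : Type u} [AddCommGroup V] [Module F V] (P : Subgroup (V →ₗ[F] V)ˣ)
    (W : Submodule F V) (hW : ∀ p ∈ P, ∀ w ∈ W, (p : V →ₗ[F] V) w ∈ W) (p : P) (w : W) :
    (((restrictHom P W hW p : (W →ₗ[F] W)ˣ) : W →ₗ[F] W) w : V) = (p.1 : V →ₗ[F] V) w := rfl

theorem refl_decomp (h2 : (2 : F) ≠ 0) {V : Type u} [AddCommGroup V] [Module F V]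
    (ρ : V →ₗ[F] V) (hρ : ∀ v, ρ (ρ v) = v) (v : V) :
    ∃ a b, ρ a = -a ∧ ρ b = b ∧ v = a + b := by
  refine ⟨(2 : F)⁻¹ • (v - ρ v), (2 : F)⁻¹ • (v + ρ v), ?_, ?_, ?_⟩
  · rw [map_smul, map_sub, hρ, ← smul_neg, neg_sub]
  · rw [map_smul, map_add, hρ, add_comm]
  · rw [← smul_add]
    have : v - ρ v + (v + ρ v) = (2 : F) • v := by rw [two_smul]; abel
    rw [this, smul_smul, inv_mul_cancel₀ h2, one_smul]

theorem eq_zero_of_two (h2 : (2 : F) ≠ 0) {V : Type u} [AddCommGroup V] [Module F V] (v : V)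
    (h : v = -v) : v = 0 := by
  have h3 : (2 : F) • v = 0 := by
    rw [two_smul]
    nth_rewrite 1 [h]
    rw [neg_add_cancel]
  rcases smul_eq_zero.mp h3 with h4 | h4
  · exact absurd h4 h2
  · exact h4

/-- Distinct commuting reflections: each fixes the line of the other. -/
theorem refl_fix (h2 : (2 : F) ≠ 0) {V : Type u} [AddCommGroup V] [Module F V]
    [FiniteDimensional F V] (ρ ρ' : V →ₗ[F] V) (hρ : IsRefl ρ) (hρ' : IsRefl ρ')
    (hc : ∀ v, ρ (ρ' v) = ρ' (ρ v)) (hne : ρ ≠ ρ') :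
    ∀ v, ρ v = -v → ρ' v = v := by
  obtain ⟨v₀, hv₀, hspan⟩ := finrank_eq_one_iff'.mp hρ.2
  have hv₀L : ρ (v₀ : V) = -(v₀ : V) := by
    have := v₀.2
    rw [LinearMap.mem_ker, LinearMap.add_apply, LinearMap.id_apply, add_eq_zero_iff_eq_neg] at this
    exact this
  have hmemL : ∀ v, ρ v = -v → v ∈ LinearMap.ker (ρ + LinearMap.id) := by
    intro v hv
    rw [LinearMap.mem_ker, LinearMap.add_apply, LinearMap.id_apply, hv, neg_add_cancel]
  have h1 : ρ (ρ' (v₀ : V)) = -(ρ' (v₀ : V)) := by rw [hc, hv₀L, map_neg]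
  obtain ⟨c, hc'⟩ := hspan ⟨ρ' (v₀ : V), hmemL _ h1⟩
  have hc'' : c • (v₀ : V) = ρ' (v₀ : V) := congrArg Subtype.val hc'
  have hcc : (c * c) • (v₀ : V) = (v₀ : V) := by
    rw [mul_smul, hc'', ← map_smul, hc'', hρ'.1]
  have hv₀ne : (v₀ : V) ≠ 0 := fun h => hv₀ (Subtype.ext h)
  have hc1 : c * c = 1 := by
    have h3 : (c * c - 1) • (v₀ : V) = 0 := by rw [sub_smul, hcc, one_smul, sub_self]
    rcases smul_eq_zero.mp h3 with h4 | h4
    · exact sub_eq_zero.mp h4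
    · exact absurd h4 hv₀ne
  have hc2 : c = 1 ∨ c = -1 := by
    have h3 : (c - 1) * (c + 1) = 0 := by linear_combination hc1
    rcases mul_eq_zero.mp h3 with h4 | h4
    · exact Or.inl (sub_eq_zero.mp h4)
    · exact Or.inr (eq_neg_of_add_eq_zero_left h4)
  rcases hc2 with hc3 | hc3
  · intro v hv
    obtain ⟨a, ha⟩ := hspan ⟨v, hmemL v hv⟩
    have ha' : a • (v₀ : V) = v := congrArg Subtype.val ha
    rw [← ha', map_smul, ← hc'', hc3, one_smul]
  · exfalso
    apply hne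
    have hv₀' : ρ' (v₀ : V) = -(v₀ : V) := by rw [← hc'', hc3, neg_smul, one_smul]
    -- the (-1)-spaces coincide
    have hle : LinearMap.ker (ρ + LinearMap.id) ≤ LinearMap.ker (ρ' + LinearMap.id) := by
      intro v hv
      obtain ⟨a, ha⟩ := hspan ⟨v, hv⟩
      have ha' : a • (v₀ : V) = v := congrArg Subtype.val ha
      rw [LinearMap.mem_ker, LinearMap.add_apply, LinearMap.id_apply, ← ha', map_smul, hv₀',
        smul_neg, neg_add_cancel]
    have heq := Submodule.eq_of_le_of_finrank_eq hle (by rw [hρ.2, hρ'.2])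
    have hL' : ∀ v, ρ' v = -v → ρ v = -v := by
      intro v hv
      have : v ∈ LinearMap.ker (ρ + LinearMap.id) := by
        rw [heq, LinearMap.mem_ker, LinearMap.add_apply, LinearMap.id_apply, hv, neg_add_cancel]
      rw [LinearMap.mem_ker, LinearMap.add_apply, LinearMap.id_apply, add_eq_zero_iff_eq_neg] at this
      exact this
    ext v
    obtain ⟨a, b, ha, hb, rfl⟩ := refl_decomp h2 ρ' hρ'.1 v
    rw [map_add, map_add, ha, hb, hL' a ha]
    congr 1
    -- `ρ b = b`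
    have h5 : ρ' (b - ρ b) = b - ρ b := by rw [map_sub, ← hc, hb]
    have h6 : ρ (b - ρ b) = -(b - ρ b) := by rw [map_sub, hρ.1]; abel
    have h7 : ρ' (b - ρ b) = -(b - ρ b) := by
      have : b - ρ b ∈ LinearMap.ker (ρ' + LinearMap.id) := by
        rw [← heq]
        exact hmemL _ h6
      rw [LinearMap.mem_ker, LinearMap.add_apply, LinearMap.id_apply, add_eq_zero_iff_eq_neg] at this
      exact this
    have h8 : b - ρ b = 0 := eq_zero_of_two h2 _ (h5.symm.trans h7)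
    exact (sub_eq_zero.mp h8).symm

theorem cent_bound [Fintype F] (h2 : (2 : F) ≠ 0) :
    ∀ (m : ℕ) (V : Type u) [AddCommGroup V] [Module F V] [FiniteDimensional F V]
      (R : Set (V →ₗ[F] V)), R.ncard = m → (∀ ρ ∈ R, IsRefl ρ) →
      (∀ ρ ∈ R, ∀ ρ' ∈ R, ∀ v, ρ (ρ' v) = ρ' (ρ v)) →
      ∀ P : Subgroup (V →ₗ[F] V)ˣ,
        (∀ p ∈ P, ∀ ρ ∈ R, ∀ v, (p : V →ₗ[F] V) (ρ v) = ρ ((p : V →ₗ[F] V) v)) →
        m ≤ finrank F V ∧
          padicValNat 2 (Nat.card P) ≤ m * g F 1 + g F (finrank F V - m) := by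
  classical
  haveI : Fact (Nat.Prime 2) := ⟨Nat.prime_two⟩
  intro m
  induction m with
  | zero =>
    intro V _ _ _ R hR hrefl hcomm P hP
    haveI : Finite V := Module.finite_of_finite F
    haveI : Finite (V →ₗ[F] V) := Finite.of_injective (fun f => (f : V → V)) DFunLike.coe_injective
    refine ⟨Nat.zero_le _, ?_⟩
    have := sub_val P
    rw [card_units_end (finrank F V) rfl] at this
    simpa [g] using this
  | succ m ih =>
    intro V _ _ _ R hR hrefl hcomm P hP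
    haveI : Finite V := Module.finite_of_finite F
    haveI : Finite (V →ₗ[F] V) := Finite.of_injective (fun f => (f : V → V)) DFunLike.coe_injective
    have hRne : R.Nonempty := by
      apply Set.nonempty_of_ncard_ne_zero
      omega
    obtain ⟨ρ, hρR⟩ := hRne
    have hρ := hrefl ρ hρR
    obtain ⟨L, hL⟩ : ∃ L : Submodule F V, L = LinearMap.ker (ρ + LinearMap.id) := ⟨_, rfl⟩
    haveI : Finite (L →ₗ[F] L) := Finite.of_injective (fun f => (f : L → L)) DFunLike.coe_injective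
    obtain ⟨Hs, hHs⟩ : ∃ Hs : Submodule F V, Hs = LinearMap.ker (ρ - LinearMap.id) := ⟨_, rfl⟩
    have hmL : ∀ v, v ∈ L ↔ ρ v = -v := by
      intro v
      rw [hL, LinearMap.mem_ker, LinearMap.add_apply, LinearMap.id_apply, add_eq_zero_iff_eq_neg]
    have hmH : ∀ v, v ∈ Hs ↔ ρ v = v := by
      intro v
      rw [hHs, LinearMap.mem_ker, LinearMap.sub_apply, LinearMap.id_apply, sub_eq_zero]
    have hdec : ∀ v, ∃ a ∈ L, ∃ b ∈ Hs, v = a + b := by
      intro v
      obtain ⟨a, b, ha, hb, hv⟩ := refl_decomp h2 ρ hρ.1 v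
      exact ⟨a, (hmL a).mpr ha, b, (hmH b).mpr hb, hv⟩
    have hdisj : Disjoint L Hs := by
      rw [Submodule.disjoint_def]
      intro v hv1 hv2
      rw [hmL] at hv1
      rw [hmH] at hv2
      exact eq_zero_of_two h2 v (hv2.symm.trans hv1)
    have hcod : Codisjoint L Hs := by
      rw [codisjoint_iff, eq_top_iff]
      intro v _
      obtain ⟨a, ha, b, hb, rfl⟩ := hdec v
      exact Submodule.add_mem_sup ha hb
    have hsum := Submodule.finrank_add_eq_of_isCompl (IsCompl.mk hdisj hcod)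
    have hL1 : finrank F L = 1 := by rw [hL]; exact hρ.2
    rw [hL1] at hsum
    -- invariance under `P`
    have hPL : ∀ p ∈ P, ∀ w ∈ L, (p : V →ₗ[F] V) w ∈ L := by
      intro p hp w hw
      rw [hmL] at hw ⊢
      rw [← hP p hp ρ hρR, hw, map_neg]
    have hPH : ∀ p ∈ P, ∀ w ∈ Hs, (p : V →ₗ[F] V) w ∈ Hs := by
      intro p hp w hw
      rw [hmH] at hw ⊢
      rw [← hP p hp ρ hρR, hw]
    -- the other reflections
    have hK1 : ∀ ρ' ∈ R, ρ' ≠ ρ → ∀ v ∈ L, ρ' v = v := by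
      intro ρ' hρ' hne v hv
      exact refl_fix h2 ρ ρ' hρ (hrefl ρ' hρ') (hcomm ρ hρR ρ' hρ') (Ne.symm hne) v ((hmL v).mp hv)
    have hK2 : ∀ ρ' ∈ R, ∀ w ∈ Hs, ρ' w ∈ Hs := by
      intro ρ' hρ' w hw
      rw [hmH] at hw ⊢
      rw [hcomm ρ hρR ρ' hρ', hw]
    have hK3 : ∀ ρ' ∈ R, ρ' ≠ ρ → ∀ v, ρ' v = -v → v ∈ Hs := by
      intro ρ' hρ' hne v hv
      rw [hmH]
      exact refl_fix h2 ρ' ρ (hrefl ρ' hρ') hρ (hcomm ρ' hρ' ρ hρR) hne v hv
    obtain ⟨rs, hrs⟩ : ∃ rs : (V →ₗ[F] V) → (Hs →ₗ[F] Hs),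
        ∀ ρ' ∈ R, ∀ w : Hs, ((rs ρ' w : Hs) : V) = ρ' w := by
      refine ⟨fun h => if hh : ∀ v ∈ Hs, h v ∈ Hs then h.restrict hh else 0, ?_⟩
      intro ρ' hρ' w
      have h1 : ∀ v ∈ Hs, ρ' v ∈ Hs := hK2 ρ' hρ'
      simp only [dif_pos h1]
      rfl
    have hinjrs : Set.InjOn rs (R \ {ρ}) := by
      intro ρ₁ h₁ ρ₂ h₂ heq
      ext v
      obtain ⟨a, ha, b, hb, rfl⟩ := hdec v
      rw [map_add, map_add, hK1 ρ₁ h₁.1 h₁.2 a ha, hK1 ρ₂ h₂.1 h₂.2 a ha,
        ← hrs ρ₁ h₁.1 ⟨b, hb⟩, ← hrs ρ₂ h₂.1 ⟨b, hb⟩, heq]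
    have hR' : (rs '' (R \ {ρ})).ncard = m := by
      rw [Set.InjOn.ncard_image hinjrs, Set.ncard_sdiff_singleton_of_mem hρR, hR]
      rfl
    -- the restriction homomorphisms
    obtain ⟨rL, hrL⟩ : ∃ rL : P →* (L →ₗ[F] L)ˣ, ∀ (p : P) (w : L),
        (((rL p : (L →ₗ[F] L)ˣ) : L →ₗ[F] L) w : V) = (p.1 : V →ₗ[F] V) w :=
      ⟨restrictHom P L hPL, restrictHom_apply P L hPL⟩
    obtain ⟨rH, hrH⟩ : ∃ rH : P →* (Hs →ₗ[F] Hs)ˣ, ∀ (p : P) (w : Hs),
        (((rH p : (Hs →ₗ[F] Hs)ˣ) : Hs →ₗ[F] Hs) w : V) = (p.1 : V →ₗ[F] V) w :=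
      ⟨restrictHom P Hs hPH, restrictHom_apply P Hs hPH⟩
    have hinj : Function.Injective (rH.comp rL.ker.subtype) := by
      rw [injective_iff_map_eq_one]
      intro p hp
      have hp1 : rL p.1 = 1 := p.2
      have hp2 : rH p.1 = 1 := hp
      apply Subtype.ext
      apply Subtype.ext
      apply Units.ext
      ext v
      obtain ⟨a, ha, b, hb, rfl⟩ := hdec v
      have e1 : (p.1.1 : V →ₗ[F] V) a = a := by
        rw [← hrL p.1 ⟨a, ha⟩, hp1]
        rfl
      have e2 : (p.1.1 : V →ₗ[F] V) b = b := by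
        rw [← hrH p.1 ⟨b, hb⟩, hp2]
        rfl
      show (p.1.1 : V →ₗ[F] V) (a + b) = a + b
      rw [map_add, e1, e2]
    have hihyp := ih Hs (rs '' (R \ {ρ})) hR' (by
      rintro _ ⟨ρ', hρ', rfl⟩
      constructor
      · intro w
        apply Subtype.ext
        rw [hrs ρ' hρ'.1, hrs ρ' hρ'.1]
        exact (hrefl ρ' hρ'.1).1 _
      · have e : (LinearMap.ker (rs ρ' + LinearMap.id)).map Hs.subtype
            = LinearMap.ker (ρ' + LinearMap.id) := by
          ext v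
          rw [Submodule.mem_map, LinearMap.mem_ker]
          constructor
          · rintro ⟨w, hw, rfl⟩
            rw [LinearMap.mem_ker, LinearMap.add_apply, LinearMap.id_apply] at hw
            have := congrArg Subtype.val hw
            rw [Submodule.coe_add, hrs ρ' hρ'.1] at this
            exact this
          · intro hv
            rw [LinearMap.add_apply, LinearMap.id_apply, add_eq_zero_iff_eq_neg] at hv
            refine ⟨⟨v, hK3 ρ' hρ'.1 hρ'.2 v hv⟩, ?_, rfl⟩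
            rw [LinearMap.mem_ker, LinearMap.add_apply, LinearMap.id_apply]
            apply Subtype.ext
            rw [Submodule.coe_add, hrs ρ' hρ'.1]
            show ρ' v + v = 0
            rw [hv, neg_add_cancel]
        rw [← Submodule.finrank_map_subtype_eq, e]
        exact (hrefl ρ' hρ'.1).2) (by
      rintro _ ⟨ρ₁, h₁, rfl⟩ _ ⟨ρ₂, h₂, rfl⟩ w
      apply Subtype.ext
      rw [hrs ρ₁ h₁.1, hrs ρ₂ h₂.1, hrs ρ₂ h₂.1, hrs ρ₁ h₁.1]
      exact hcomm ρ₁ h₁.1 ρ₂ h₂.1 _) (rH.comp rL.ker.subtype).range (by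
      rintro _ ⟨p, rfl⟩ _ ⟨ρ', hρ', rfl⟩ w
      apply Subtype.ext
      show (((rH p.1 : (Hs →ₗ[F] Hs)ˣ) : Hs →ₗ[F] Hs) (rs ρ' w) : V)
        = ((rs ρ' (((rH p.1 : (Hs →ₗ[F] Hs)ˣ) : Hs →ₗ[F] Hs) w) : Hs) : V)
      rw [hrH, hrs ρ' hρ'.1, hrs ρ' hρ'.1, hrH]
      exact hP p.1.1 p.1.2 ρ' hρ'.1 _)
    obtain ⟨hm1, hm2⟩ := hihyp
    have hcQ : Nat.card (rH.comp rL.ker.subtype).range = Nat.card rL.ker :=
      (Nat.card_congr (MonoidHom.ofInjective hinj).toEquiv).symm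
    rw [hcQ] at hm2
    have hcard : Nat.card P = Nat.card rL.ker * Nat.card rL.range := by
      rw [← Subgroup.index_ker, Subgroup.card_mul_index]
    have hrange : padicValNat 2 (Nat.card rL.range) ≤ g F 1 := by
      have := sub_val rL.range
      rw [card_units_end 1 hL1] at this
      exact this
    refine ⟨by omega, ?_⟩
    rw [hcard, padicValNat.mul (Nat.card_pos.ne') (Nat.card_pos.ne')]
    have e : finrank F Hs - m = finrank F V - (m + 1) := by omega
    rw [e] at hm2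
    have : (m + 1) * g F 1 = m * g F 1 + g F 1 := by ring
    omega

end Cfsg.Agent.Lib.helper4.GLCent
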