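import Mathlib

/-!
# Counting sequences of monic polynomials with nonzero constant term

`S F n J` is the set of sequences `u 1, …, u J` of monic polynomials with nonzero constant term
and `∑ j * deg (u j) = n`.  Its cardinality is at most `q ^ n`.
-/

namespace Cfsg.Agent.Lib.helper4.GLClassCount

open Polynomial

variable {F : Type*} [Field F]

/-- Sequences of weight `n` supported on `1..J`. -/
def S (F : Type*) [Field F] (n J : ℕ) : Set (ℕ → F[X]) :=
  {u | (∀ j, (u j).Monic) ∧ (∀ j, (u j).coeff 0 ≠ 0) ∧ (∀ j, J < j → u j = 1) ∧ u 0 = 1 ∧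
    ∑ j ∈ Finset.range (J + 1), j * (u j).natDegree = n}

/-- The same, but the `J`-th polynomial may have zero constant term. -/
def Sp (F : Type*) [Field F] (n J : ℕ) : Set (ℕ → F[X]) :=
  {u | (∀ j, (u j).Monic) ∧ (∀ j, j ≠ J → (u j).coeff 0 ≠ 0) ∧ (∀ j, J < j → u j = 1) ∧ u 0 = 1 ∧
    ∑ j ∈ Finset.range (J + 1), j * (u j).natDegree = n}

theorem monic_divX (p : F[X]) (hp : p.Monic) (hd : 1 ≤ p.natDegree) : (divX p).Monic := by
  unfold Monic leadingCoeff
  rw [coeff_divX, natDegree_divX_eq_natDegree_tsub_one, Nat.sub_add_cancel hd]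
  exact hp.coeff_natDegree

/-- The peeling map. -/
noncomputable def ρ (J : ℕ) (u : ℕ → F[X]) : F × (ℕ → F[X]) :=
  ((u J).coeff 0, Function.update u J (divX (u J)))

theorem ρ_injective (J : ℕ) : Function.Injective (ρ (F := F) J) := by
  intro u v h
  have h1 : (u J).coeff 0 = (v J).coeff 0 := congrArg Prod.fst h
  have h2 : Function.update u J (divX (u J)) = Function.update v J (divX (v J)) :=
    congrArg Prod.snd h
  funext j
  by_cases hj : j = J
  · subst hj
    have h3 := congrFun h2 j
    rw [Function.update_self, Function.update_self] at h3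
    rw [← divX_mul_X_add (u j), ← divX_mul_X_add (v j), h3, h1]
  · have h3 := congrFun h2 j
    rw [Function.update_of_ne hj, Function.update_of_ne hj] at h3
    exact h3

theorem peel_core (u : ℕ → F[X]) (J n : ℕ) (hmon : ∀ j, (u j).Monic)
    (hc : ∀ j, j ≠ J + 1 → (u j).coeff 0 ≠ 0) (h1 : ∀ j, J + 1 < j → u j = 1) (h0 : u 0 = 1)
    (hsum : ∑ j ∈ Finset.range (J + 1 + 1), j * (u j).natDegree = n) (hne : u (J + 1) ≠ 1) :
    J + 1 ≤ n ∧ Function.update u (J + 1) (divX (u (J + 1))) ∈ Sp F (n - (J + 1)) (J + 1) := by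
  have hd : 1 ≤ (u (J + 1)).natDegree := by
    by_contra hlt
    exact hne (eq_one_of_monic_natDegree_zero (hmon (J + 1)) (by omega))
  obtain ⟨d', hd'⟩ : ∃ d', (u (J + 1)).natDegree = d' + 1 := ⟨(u (J + 1)).natDegree - 1, by omega⟩
  rw [Finset.sum_range_succ, hd', Nat.mul_succ] at hsum
  refine ⟨by omega, ?_, ?_, ?_, ?_, ?_⟩
  · intro j
    by_cases hj : j = J + 1
    · subst hj
      rw [Function.update_self]
      exact monic_divX _ (hmon _) hd
    · rw [Function.update_of_ne hj]
      exact hmon j
  · intro j hj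
    rw [Function.update_of_ne hj]
    exact hc j hj
  · intro j hj
    rw [Function.update_of_ne (by omega)]
    exact h1 j hj
  · rw [Function.update_of_ne (by omega)]
    exact h0
  · rw [Finset.sum_range_succ, Function.update_self, natDegree_divX_eq_natDegree_tsub_one, hd']
    have e : ∑ j ∈ Finset.range (J + 1),
        j * (Function.update u (J + 1) (divX (u (J + 1))) j).natDegree
        = ∑ j ∈ Finset.range (J + 1), j * (u j).natDegree := by
      apply Finset.sum_congr rfl
      intro j hj
      rw [Function.update_of_ne (by have := Finset.mem_range.mp hj; omega)]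
    rw [e]
    have : d' + 1 - 1 = d' := by omega
    rw [this]
    omega

theorem mem_S_of_eq_one (u : ℕ → F[X]) (J n : ℕ) (hmon : ∀ j, (u j).Monic)
    (hc : ∀ j, j ≠ J + 1 → (u j).coeff 0 ≠ 0) (h1 : ∀ j, J + 1 < j → u j = 1) (h0 : u 0 = 1)
    (hsum : ∑ j ∈ Finset.range (J + 1 + 1), j * (u j).natDegree = n) (he : u (J + 1) = 1) :
    u ∈ S F n J := by
  refine ⟨hmon, ?_, ?_, h0, ?_⟩
  · intro j
    by_cases hj : j = J + 1
    · subst hj
      rw [he]
      simp
    · exact hc j hj
  · intro j hj
    by_cases hj' : j = J + 1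
    · subst hj'; exact he
    · exact h1 j (by omega)
  · rw [Finset.sum_range_succ, he, natDegree_one, mul_zero, add_zero] at hsum
    exact hsum

theorem peel_bound {α β : Type*} (A B : Set α) (C : Set β) (T : Set α) (ρ : α → β × α)
    (hρ : Function.Injective ρ) (hmap : ∀ u ∈ A, u ∉ B → ρ u ∈ C ×ˢ T) (hB : B.Finite)
    (hC : C.Finite) (hT : T.Finite) : A.Finite ∧ A.ncard ≤ B.ncard + C.ncard * T.ncard := by
  have hD : (A \ B).Finite := Set.Finite.of_injOn (f := ρ) (t := C ×ˢ T)
    (fun u hu => hmap u hu.1 hu.2) hρ.injOn (hC.prod hT)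
  have hsub : A ⊆ B ∪ (A \ B) := by
    intro u hu
    by_cases hb : u ∈ B
    · exact Or.inl hb
    · exact Or.inr ⟨hu, hb⟩
  have hfin : A.Finite := (hB.union hD).subset hsub
  refine ⟨hfin, ?_⟩
  calc A.ncard ≤ (B ∪ (A \ B)).ncard := Set.ncard_le_ncard hsub (hB.union hD)
    _ ≤ B.ncard + (A \ B).ncard := Set.ncard_union_le _ _
    _ ≤ B.ncard + (C ×ˢ T).ncard := by
        apply Nat.add_le_add_left
        exact Set.ncard_le_ncard_of_injOn ρ (fun u hu => hmap u hu.1 hu.2) hρ.injOn (hC.prod hT)
    _ = B.ncard + C.ncard * T.ncard := by rw [Set.ncard_prod]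

theorem ncard_ne_zero [Fintype F] : ({a : F | a ≠ 0} : Set F).ncard = Fintype.card F - 1 := by
  have : ({a : F | a ≠ 0} : Set F) = ({0} : Set F)ᶜ := by
    ext a; simp
  rw [this, Set.ncard_compl, Set.ncard_singleton, Nat.card_eq_fintype_card]

theorem count [Fintype F] : ∀ J n : ℕ, (S F n J).Finite ∧
    (1 ≤ n → (S F n J).ncard + Fintype.card F ^ (n - J) ≤ Fintype.card F ^ n) ∧
    (n = 0 → (S F n J).ncard ≤ 1) := by
  have hq : 1 ≤ Fintype.card F := Fintype.card_pos
  intro J
  induction J with
  | zero =>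
    intro n
    have hsub : S F n 0 ⊆ {fun _ => 1} := by
      intro u hu
      rw [Set.mem_singleton_iff]
      funext j
      by_cases hj : j = 0
      · subst hj; exact hu.2.2.2.1
      · exact hu.2.2.1 j (by omega)
    refine ⟨(Set.finite_singleton _).subset hsub, ?_, ?_⟩
    · intro hn
      have hemp : S F n 0 = ∅ := by
        ext u
        simp only [Set.mem_empty_iff_false, iff_false]
        intro hu
        have h1 := hu.2.2.2.2
        simp at h1
        omega
      rw [hemp, Set.ncard_empty]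
      simp
    · intro _
      have := Set.ncard_le_ncard hsub (Set.finite_singleton _)
      rwa [Set.ncard_singleton] at this
  | succ J ih =>
    have hplus : ∀ n, (Sp F n (J + 1)).Finite ∧ (Sp F n (J + 1)).ncard ≤ Fintype.card F ^ n := by
      intro n
      induction n using Nat.strong_induction_on with
      | _ n ihn =>
      obtain ⟨hBf, hB1, hB0⟩ := ih n
      have hBle : (S F n J).ncard ≤ Fintype.card F ^ n := by
        rcases Nat.eq_zero_or_pos n with h0 | h0
        · have := hB0 h0
          subst h0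
          simpa using this
        · have := hB1 h0
          omega
      by_cases hn : J + 1 ≤ n
      · obtain ⟨hTf, hT⟩ := ihn (n - (J + 1)) (by omega)
        obtain ⟨hAf, hA⟩ := peel_bound (Sp F n (J + 1)) (S F n J) (Set.univ : Set F)
          (Sp F (n - (J + 1)) (J + 1)) (ρ (J + 1)) (ρ_injective _) (by
            intro u hu hnu
            have hne : u (J + 1) ≠ 1 := fun he =>
              hnu (mem_S_of_eq_one u J n hu.1 hu.2.1 hu.2.2.1 hu.2.2.2.1 hu.2.2.2.2 he)
            exact ⟨Set.mem_univ _,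
              (peel_core u J n hu.1 hu.2.1 hu.2.2.1 hu.2.2.2.1 hu.2.2.2.2 hne).2⟩)
          hBf Set.finite_univ hTf
        refine ⟨hAf, ?_⟩
        rw [Set.ncard_univ, Nat.card_eq_fintype_card] at hA
        have h1 := hB1 (by omega)
        have e : n - J = (n - (J + 1)) + 1 := by omega
        rw [e, pow_succ] at h1
        have h2 : Fintype.card F * (Sp F (n - (J + 1)) (J + 1)).ncard
            ≤ Fintype.card F ^ (n - (J + 1)) * Fintype.card F := by
          rw [mul_comm]
          exact Nat.mul_le_mul_right _ hT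
        omega
      · have hsub : Sp F n (J + 1) ⊆ S F n J := by
          intro u hu
          by_contra hnu
          have hne : u (J + 1) ≠ 1 := fun he =>
            hnu (mem_S_of_eq_one u J n hu.1 hu.2.1 hu.2.2.1 hu.2.2.2.1 hu.2.2.2.2 he)
          exact hn (peel_core u J n hu.1 hu.2.1 hu.2.2.1 hu.2.2.2.1 hu.2.2.2.2 hne).1
        exact ⟨hBf.subset hsub, (Set.ncard_le_ncard hsub hBf).trans hBle⟩
    intro n
    obtain ⟨hBf, hB1, hB0⟩ := ih n
    by_cases hn : J + 1 ≤ n
    · obtain ⟨hTf, hT⟩ := hplus (n - (J + 1))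
      obtain ⟨hAf, hA⟩ := peel_bound (S F n (J + 1)) (S F n J) ({a : F | a ≠ 0} : Set F)
        (Sp F (n - (J + 1)) (J + 1)) (ρ (J + 1)) (ρ_injective _) (by
          intro u hu hnu
          have hc : ∀ j, j ≠ J + 1 → (u j).coeff 0 ≠ 0 := fun j _ => hu.2.1 j
          have hne : u (J + 1) ≠ 1 := fun he =>
            hnu (mem_S_of_eq_one u J n hu.1 hc hu.2.2.1 hu.2.2.2.1 hu.2.2.2.2 he)
          exact ⟨hu.2.1 (J + 1),
            (peel_core u J n hu.1 hc hu.2.2.1 hu.2.2.2.1 hu.2.2.2.2 hne).2⟩)
        hBf (Set.toFinite _) hTf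
      refine ⟨hAf, ?_, ?_⟩
      · intro _
        rw [ncard_ne_zero] at hA
        have h1 := hB1 (by omega)
        have e : n - J = (n - (J + 1)) + 1 := by omega
        rw [e, pow_succ] at h1
        have h2 : (Fintype.card F - 1) * (Sp F (n - (J + 1)) (J + 1)).ncard
            ≤ (Fintype.card F - 1) * Fintype.card F ^ (n - (J + 1)) :=
          Nat.mul_le_mul_left _ hT
        have h3 : (Fintype.card F - 1) * Fintype.card F ^ (n - (J + 1))
            + Fintype.card F ^ (n - (J + 1))
            = Fintype.card F ^ (n - (J + 1)) * Fintype.card F := by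
          obtain ⟨c, hc⟩ : ∃ c, Fintype.card F = c + 1 := ⟨Fintype.card F - 1, by omega⟩
          rw [hc]
          simp only [Nat.add_sub_cancel]
          ring
        omega
      · intro h0
        omega
    · have hsub : S F n (J + 1) ⊆ S F n J := by
        intro u hu
        by_contra hnu
        have hc : ∀ j, j ≠ J + 1 → (u j).coeff 0 ≠ 0 := fun j _ => hu.2.1 j
        have hne : u (J + 1) ≠ 1 := fun he =>
          hnu (mem_S_of_eq_one u J n hu.1 hc hu.2.2.1 hu.2.2.2.1 hu.2.2.2.2 he)
        exact hn (peel_core u J n hu.1 hc hu.2.2.1 hu.2.2.2.1 hu.2.2.2.2 hne).1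
      have hle := Set.ncard_le_ncard hsub hBf
      refine ⟨hBf.subset hsub, ?_, ?_⟩
      · intro h1
        have h2 := hB1 h1
        have e1 : n - J = 0 := by omega
        have e2 : n - (J + 1) = 0 := by omega
        rw [e1] at h2
        rw [e2]
        omega
      · intro h0
        exact hle.trans (hB0 h0)

/-- The number of sequences of weight `n ≥ 1` is at most `q ^ n`. -/
theorem card_S_le [Fintype F] (n : ℕ) :
    (S F n n).Finite ∧ (S F n n).ncard ≤ Fintype.card F ^ n := by
  obtain ⟨h1, h2, h3⟩ := count (F := F) n n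
  refine ⟨h1, ?_⟩
  rcases Nat.eq_zero_or_pos n with h0 | h0
  · have := h3 h0
    subst h0
    simpa using this
  · have := h2 h0
    omega

end Cfsg.Agent.Lib.helper4.GLClassCount
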