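import Mathlib
import Cfsg.Agent.Lib.helper4.GLClassCount

/-!
# From multisets of elementary divisors to sequences of squarefree-type polynomials
-/

namespace Cfsg.Agent.Lib.helper4.GLClassSeq

open Polynomial Cfsg.Agent.Lib.helper4.GLClassCount

variable {F : Type*} [Field F]

/-- A polynomial is a positive power of a monic irreducible polynomial. -/
def IsPP (g : F[X]) : Prop := ∃ (p : F[X]) (e : ℕ), Irreducible p ∧ p.Monic ∧ 1 ≤ e ∧ g = p ^ e

open Classical in
/-- The chosen prime of a prime power. -/
noncomputable def pr (g : F[X]) : F[X] := if h : IsPP g then Classical.choose h else 1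

open Classical in
/-- The chosen exponent of a prime power. -/
noncomputable def ex (g : F[X]) : ℕ :=
  if h : IsPP g then Classical.choose (Classical.choose_spec h) else 0

theorem pr_spec (g : F[X]) (h : IsPP g) :
    Irreducible (pr g) ∧ (pr g).Monic ∧ 1 ≤ ex g ∧ g = pr g ^ ex g := by
  unfold pr ex
  rw [dif_pos h, dif_pos h]
  exact Classical.choose_spec (Classical.choose_spec h)

/-- Multisets of prime powers with nonzero constant terms. -/
def Good (B : Multiset F[X]) : Prop := ∀ g ∈ B, IsPP g ∧ g.coeff 0 ≠ 0

open Classical in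
/-- The sequence attached to a multiset of prime powers. -/
noncomputable def U (B : Multiset F[X]) : ℕ → F[X] :=
  fun j => ((B.filter (fun g => ex g = j)).map pr).prod

open Classical in
theorem U_cons (g : F[X]) (B : Multiset F[X]) (j : ℕ) :
    U (g ::ₘ B) j = if ex g = j then pr g * U B j else U B j := by
  unfold U
  by_cases h : ex g = j
  · rw [if_pos h, Multiset.filter_cons_of_pos (p := fun g => ex g = j) B h, Multiset.map_cons,
      Multiset.prod_cons]
  · rw [if_neg h, Multiset.filter_cons_of_neg (p := fun g => ex g = j) B h]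

theorem U_zero (j : ℕ) : U (0 : Multiset F[X]) j = 1 := by
  unfold U
  simp

theorem pr_coeff_zero (g : F[X]) (h : IsPP g) (h0 : g.coeff 0 ≠ 0) : (pr g).coeff 0 ≠ 0 := by
  obtain ⟨-, -, h1, h2⟩ := pr_spec g h
  intro hz
  apply h0
  rw [h2, coeff_zero_eq_eval_zero, eval_pow, ← coeff_zero_eq_eval_zero, hz, zero_pow (by omega)]

theorem good_cons {g : F[X]} {B : Multiset F[X]} (h : Good (g ::ₘ B)) :
    (IsPP g ∧ g.coeff 0 ≠ 0) ∧ Good B :=
  ⟨h g (Multiset.mem_cons_self g B), fun x hx => h x (Multiset.mem_cons_of_mem hx)⟩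

theorem U_monic (B : Multiset F[X]) (hB : Good B) (j : ℕ) :
    (U B j).Monic ∧ (U B j).coeff 0 ≠ 0 := by
  induction B using Multiset.induction with
  | empty => rw [U_zero]; exact ⟨monic_one, by simp⟩
  | cons g B ih =>
    obtain ⟨⟨hg, hg0⟩, hB'⟩ := good_cons hB
    obtain ⟨h1, h2⟩ := ih hB'
    rw [U_cons]
    split_ifs with h
    · refine ⟨(pr_spec g hg).2.1.mul h1, ?_⟩
      rw [mul_coeff_zero]
      exact mul_ne_zero (pr_coeff_zero g hg hg0) h2
    · exact ⟨h1, h2⟩

theorem U_weight (B : Multiset F[X]) (hB : Good B) (N : ℕ) (hN : ∀ g ∈ B, ex g ≤ N) :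
    ∑ j ∈ Finset.range (N + 1), j * (U B j).natDegree = (B.map natDegree).sum := by
  induction B using Multiset.induction with
  | empty => simp [U_zero]
  | cons g B ih =>
    obtain ⟨⟨hg, hg0⟩, hB'⟩ := good_cons hB
    have ih' := ih hB' (fun x hx => hN x (Multiset.mem_cons_of_mem hx))
    have hgN := hN g (Multiset.mem_cons_self g B)
    obtain ⟨-, hm, h1, h2⟩ := pr_spec g hg
    rw [Multiset.map_cons, Multiset.sum_cons, ← ih']
    have e : ∀ j ∈ Finset.range (N + 1), j * (U (g ::ₘ B) j).natDegree
        = (if ex g = j then j * (pr g).natDegree else 0) + j * (U B j).natDegree := by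
      intro j _
      rw [U_cons]
      split_ifs with h
      · rw [Monic.natDegree_mul hm (U_monic B hB' j).1]
        ring
      · ring
    rw [Finset.sum_congr rfl e, Finset.sum_add_distrib, Finset.sum_ite_eq,
      if_pos (Finset.mem_range.mpr (by omega))]
    congr 1
    have h3 : g.natDegree = (pr g ^ ex g).natDegree := congrArg natDegree h2
    rw [h3, natDegree_pow]

theorem ex_le (g : F[X]) (hg : IsPP g) : ex g ≤ g.natDegree := by
  obtain ⟨hi, -, h1, h2⟩ := pr_spec g hg
  have hpos := hi.natDegree_pos
  have h3 : g.natDegree = (pr g ^ ex g).natDegree := congrArg natDegree h2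
  rw [h3, natDegree_pow]
  exact Nat.le_mul_of_pos_right _ hpos

open Classical in
theorem U_eq_one (B : Multiset F[X]) (j : ℕ) (hj : ∀ g ∈ B, ex g ≠ j) : U B j = 1 := by
  unfold U
  have : B.filter (fun g => ex g = j) = 0 := by
    rw [Multiset.filter_eq_nil]
    exact hj
  rw [this]
  simp

theorem U_mem (B : Multiset F[X]) (hB : Good B) (n : ℕ) (hn : (B.map natDegree).sum = n) :
    U B ∈ S F n n := by
  have hN : ∀ g ∈ B, ex g ≤ n := by
    intro g hg
    have h1 := ex_le g (hB g hg).1
    have h2 : g.natDegree ≤ (B.map natDegree).sum :=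
      Multiset.le_sum_of_mem (Multiset.mem_map_of_mem _ hg)
    omega
  refine ⟨fun j => (U_monic B hB j).1, fun j => (U_monic B hB j).2, ?_, ?_, ?_⟩
  · intro j hj
    apply U_eq_one
    intro g hg
    have := hN g hg
    omega
  · apply U_eq_one
    intro g hg
    have := (pr_spec g (hB g hg).1).2.2.1
    omega
  · rw [U_weight B hB n hN, hn]

open Classical in
theorem filter_eq_of_U (B B' : Multiset F[X]) (hB : Good B) (hB' : Good B') (h : U B = U B')
    (j : ℕ) : B.filter (fun g => ex g = j) = B'.filter (fun g => ex g = j) := by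
  have key : ∀ C : Multiset F[X], Good C →
      UniqueFactorizationMonoid.normalizedFactors (U C j)
        = (C.filter (fun g => ex g = j)).map pr := by
    intro C hC
    unfold U
    rw [UniqueFactorizationMonoid.normalizedFactors_prod_eq]
    · rw [Multiset.map_map]
      apply Multiset.map_congr rfl
      intro g hg
      have hg' := (Multiset.mem_filter.mp hg).1
      exact (pr_spec g (hC g hg').1).2.1.normalize_eq_self
    · intro a ha
      obtain ⟨g, hg, rfl⟩ := Multiset.mem_map.mp ha
      have hg' := (Multiset.mem_filter.mp hg).1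
      exact (pr_spec g (hC g hg').1).1
  have back : ∀ C : Multiset F[X], Good C →
      ((C.filter (fun g => ex g = j)).map pr).map (fun p => p ^ j)
        = C.filter (fun g => ex g = j) := by
    intro C hC
    rw [Multiset.map_map]
    conv_rhs => rw [← Multiset.map_id (C.filter (fun g => ex g = j))]
    apply Multiset.map_congr rfl
    intro g hg
    obtain ⟨hg', hgj⟩ := Multiset.mem_filter.mp hg
    have := (pr_spec g (hC g hg').1).2.2.2
    simp only [Function.comp_apply, id_eq]
    rw [← hgj]
    exact this.symm
  rw [← back B hB, ← back B' hB', ← key B hB, ← key B' hB', h]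

open Classical in
theorem U_inj (B B' : Multiset F[X]) (hB : Good B) (hB' : Good B') (h : U B = U B') : B = B' := by
  rw [Multiset.ext]
  intro a
  have h1 := filter_eq_of_U B B' hB hB' h (ex a)
  have h2 := congrArg (Multiset.count a) h1
  rw [Multiset.count_filter_of_pos (p := fun g => ex g = ex a) rfl,
    Multiset.count_filter_of_pos (p := fun g => ex g = ex a) rfl] at h2
  exact h2

end Cfsg.Agent.Lib.helper4.GLClassSeq
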