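import Mathlib
import Cfsg.Agent.Lib.helper18.RCF3
import Cfsg.Agent.Lib.helper4.GLClassSeq

/-!
# The number of conjugacy classes of `GL_n(q)`
-/

namespace Cfsg.Agent.Lib.helper4.GLClassRcf

open Polynomial Cfsg.Agent.Lib.helper18.RCF Cfsg.Agent.Lib.helper4.GLClassCount
  Cfsg.Agent.Lib.helper4.GLClassSeq

universe u
variable {F : Type u} [Field F] {n : ℕ}

/-- `B` is the multiset of elementary divisors of some rational canonical form of `A`. -/
def RcfOf (A : Matrix (Fin n) (Fin n) F) (B : Multiset F[X]) : Prop :=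
  ∃ (ι : Type u) (_ : Fintype ι) (g : ι → F[X]), (∀ i, (g i).Monic) ∧
    (∀ i, ∃ (p : F[X]) (e : ℕ), Irreducible p ∧ Associated (g i) (p ^ e)) ∧
    (∃ Ψ : (Fin n → F) ≃ₗ[F] Mg g, ∀ v, Ψ (Matrix.toLin' A v) = (X : F[X]) • Ψ v) ∧ blk g = B

theorem exists_rcfOf (A : Matrix (Fin n) (Fin n) F) : ∃ B, RcfOf A B := by
  obtain ⟨ι, _, g, hg, hpp, Ψ, hΨ⟩ := exists_rcf (Matrix.toLin' A)
  exact ⟨blk g, ι, inferInstance, g, hg, hpp, ⟨Ψ, hΨ⟩, rfl⟩

theorem sim_of_rcf (A A' : Matrix (Fin n) (Fin n) F) (B : Multiset F[X]) (h : RcfOf A B)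
    (h' : RcfOf A' B) :
    ∃ C D : Matrix (Fin n) (Fin n) F, C * D = 1 ∧ D * C = 1 ∧ C * A = A' * C := by
  obtain ⟨ι, _, g, hg, hpp, ⟨Ψ, hΨ⟩, hB⟩ := h
  obtain ⟨ι', _, g', hg', hpp', ⟨Ψ', hΨ'⟩, hB'⟩ := h'
  obtain ⟨θ, hθ⟩ := Mg_equiv g g' hg hg' (by
    intro h hh
    rw [count_blk g h hh, count_blk g' h hh, hB, hB'])
  obtain ⟨φ, hφdef⟩ : ∃ φ : (Fin n → F) ≃ₗ[F] (Fin n → F), φ = Ψ.trans (θ.trans Ψ'.symm) :=
    ⟨_, rfl⟩
  have hφ : ∀ v, φ (Matrix.toLin' A v) = Matrix.toLin' A' (φ v) := by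
    intro v
    apply Ψ'.injective
    rw [hΨ', hφdef, LinearEquiv.trans_apply, LinearEquiv.trans_apply, LinearEquiv.apply_symm_apply,
      hΨ, hθ, LinearEquiv.trans_apply, LinearEquiv.trans_apply, LinearEquiv.apply_symm_apply]
  refine ⟨LinearMap.toMatrix' (φ : (Fin n → F) →ₗ[F] (Fin n → F)),
    LinearMap.toMatrix' (φ.symm : (Fin n → F) →ₗ[F] (Fin n → F)), ?_, ?_, ?_⟩
  · rw [← LinearMap.toMatrix'_comp, LinearEquiv.comp_coe, LinearEquiv.symm_trans_self,
      LinearEquiv.refl_toLinearMap, LinearMap.toMatrix'_id]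
  · rw [← LinearMap.toMatrix'_comp, LinearEquiv.comp_coe, LinearEquiv.self_trans_symm,
      LinearEquiv.refl_toLinearMap, LinearMap.toMatrix'_id]
  · have h3 : (φ : (Fin n → F) →ₗ[F] (Fin n → F)) ∘ₗ Matrix.toLin' A =
        Matrix.toLin' A' ∘ₗ (φ : (Fin n → F) →ₗ[F] (Fin n → F)) := LinearMap.ext hφ
    have h4 := congrArg LinearMap.toMatrix' h3
    rw [LinearMap.toMatrix'_comp, LinearMap.toMatrix'_comp, LinearMap.toMatrix'_toLin',
      LinearMap.toMatrix'_toLin'] at h4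
    exact h4

theorem rcf_good (A : Matrix (Fin n) (Fin n) F) (B : Multiset F[X]) (h : RcfOf A B)
    (hdet : A.det ≠ 0) : Good B ∧ (B.map natDegree).sum = n := by
  classical
  obtain ⟨ι, _, g, hg, hpp, ⟨Ψ, hΨ⟩, rfl⟩ := h
  have hprod : (blk g).prod = A.charpoly := by
    rw [blk_prod, ← charpoly_of_rcf (Matrix.toLin' A) g hg Ψ hΨ, Matrix.charpoly_toLin']
  have hmem : ∀ h ∈ blk g, ∃ i, g i = h ∧ h ≠ 1 := by
    intro h hh
    unfold blk at hh
    rw [Multiset.mem_filter, Multiset.mem_map] at hh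
    obtain ⟨⟨i, _, rfl⟩, h1⟩ := hh
    exact ⟨i, rfl, h1⟩
  have hc0 : A.charpoly.coeff 0 ≠ 0 := by
    intro hz
    apply hdet
    rw [Matrix.det_eq_sign_charpoly_coeff, hz, mul_zero]
  constructor
  · intro h hh
    obtain ⟨i, rfl, h1⟩ := hmem h hh
    constructor
    · obtain ⟨p, e, hp, hassoc⟩ := hpp i
      have hu : IsUnit (C (leadingCoeff p)⁻¹ : F[X]) :=
        Polynomial.isUnit_C.mpr (IsUnit.mk0 _ (inv_ne_zero (leadingCoeff_ne_zero.mpr hp.ne_zero)))
      have hmon : (p * C (leadingCoeff p)⁻¹).Monic := monic_mul_leadingCoeff_inv hp.ne_zero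
      have hass : Associated p (p * C (leadingCoeff p)⁻¹) := associated_mul_unit_right p _ hu
      have e1 : g i = (p * C (leadingCoeff p)⁻¹) ^ e :=
        eq_of_monic_of_associated (hg i) (hmon.pow e) (hassoc.trans hass.pow_pow)
      refine ⟨p * C (leadingCoeff p)⁻¹, e, hass.irreducible hp, hmon, ?_, e1⟩
      by_contra he
      have he0 : e = 0 := by omega
      rw [he0, pow_zero] at e1
      exact h1 e1
    · intro hz
      apply hc0
      obtain ⟨c, hc⟩ := Multiset.dvd_prod hh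
      rw [← hprod, hc, mul_coeff_zero, hz, zero_mul]
  · have h1 := natDegree_multiset_prod_of_monic (blk g) (by
      intro f hf
      obtain ⟨i, rfl, -⟩ := hmem f hf
      exact hg i)
    rw [← h1, hprod, Matrix.charpoly_natDegree_eq_dim, Fintype.card_fin]

theorem card_conjClasses_le [Fintype F] (n : ℕ) :
    Nat.card (ConjClasses (Matrix.GeneralLinearGroup (Fin n) F)) ≤ Fintype.card F ^ n := by
  obtain ⟨hfin, hle⟩ := card_S_le (F := F) n
  haveI : Finite ↥(S F n n) := hfin.to_subtype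
  choose β hβ using fun g : Matrix.GeneralLinearGroup (Fin n) F =>
    exists_rcfOf (g : Matrix (Fin n) (Fin n) F)
  have hgood : ∀ g : Matrix.GeneralLinearGroup (Fin n) F,
      Good (β g) ∧ ((β g).map natDegree).sum = n := fun g =>
    rcf_good _ _ (hβ g) ((Matrix.isUnit_iff_isUnit_det _).mp g.isUnit).ne_zero
  obtain ⟨φ, hφ⟩ : ∃ φ : ConjClasses (Matrix.GeneralLinearGroup (Fin n) F) → ↥(S F n n),
      ∀ C, (φ C).1 = U (β (Quotient.out C)) :=
    ⟨fun C => ⟨U (β (Quotient.out C)), U_mem _ (hgood _).1 n (hgood _).2⟩, fun _ => rfl⟩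
  have hinj : Function.Injective φ := by
    intro C C' h
    have h1 : U (β (Quotient.out C)) = U (β (Quotient.out C')) := by
      rw [← hφ, ← hφ, h]
    have h2 := U_inj _ _ (hgood _).1 (hgood _).1 h1
    have hβ' := hβ (Quotient.out C')
    rw [← h2] at hβ'
    obtain ⟨P, D, hPD, hDP, hPA⟩ := sim_of_rcf _ _ _ (hβ (Quotient.out C)) hβ'
    have hconj : IsConj (Quotient.out C) (Quotient.out C') := by
      rw [isConj_iff]
      refine ⟨⟨P, D, hPD, hDP⟩, ?_⟩
      apply Units.ext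
      show P * (Quotient.out C).1 * D = (Quotient.out C').1
      rw [hPA, Matrix.mul_assoc, hPD, Matrix.mul_one]
    have e1 := ConjClasses.mk_eq_mk_iff_isConj.mpr hconj
    have e2 : ConjClasses.mk (Quotient.out C) = C := Quotient.out_eq C
    have e3 : ConjClasses.mk (Quotient.out C') = C' := Quotient.out_eq C'
    rw [← e2, ← e3, e1]
  have := Nat.card_le_card_of_injective φ hinj
  rw [Nat.card_coe_set_eq] at this
  exact this.trans hle

theorem card_conjClasses_ge [Fintype F] (n : ℕ) (hn : 1 ≤ n) :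
    Fintype.card F ^ n - Fintype.card F ^ (n - 1)
      ≤ Nat.card (ConjClasses (Matrix.GeneralLinearGroup (Fin n) F)) := by
  obtain ⟨k, rfl⟩ : ∃ k, n = k + 1 := ⟨n - 1, by omega⟩
  have hc := card_fun_ne_zero (F := F) k
  have hex : ∀ c : {c : Fin (k + 1) → F // c 0 ≠ 0},
      ∃ g : Matrix.GeneralLinearGroup (Fin (k + 1)) F,
        (g : Matrix (Fin (k + 1)) (Fin (k + 1)) F).charpoly = mkpoly (k + 1) c.1 := by
    intro c
    obtain ⟨A, m, hm, hA, hchar⟩ := exists_ss_mat (mkpoly (k + 1) c.1) (mkpoly_monic _ _)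
      (mkpoly_natDegree _ _) (by
        have := mkpoly_coeff (k + 1) c.1 0
        rw [show (((0 : Fin (k + 1)) : ℕ)) = 0 from rfl] at this
        rw [this]
        exact c.2)
    have hm0 : m ≠ 0 := by
      rintro rfl
      simp at hm
    refine ⟨⟨A, A ^ (m - 1), ?_, ?_⟩, hchar⟩
    · rw [← pow_succ', Nat.sub_add_cancel (by omega), hA]
    · rw [← pow_succ, Nat.sub_add_cancel (by omega), hA]
  choose γ hγ using hex
  have hinj : Function.Injective (fun c => ConjClasses.mk (γ c)) := by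
    intro c c' h
    have hconj := ConjClasses.mk_eq_mk_iff_isConj.mp h
    obtain ⟨x, hx⟩ := isConj_iff.mp hconj
    have hch : (γ c' : Matrix (Fin (k + 1)) (Fin (k + 1)) F).charpoly
        = (γ c : Matrix (Fin (k + 1)) (Fin (k + 1)) F).charpoly := by
      rw [← hx]
      have := Matrix.charpoly_units_conj x (γ c : Matrix (Fin (k + 1)) (Fin (k + 1)) F)
      rw [← this]
      congr 1
      simp [Matrix.coe_units_inv]
    rw [hγ, hγ] at hch
    apply Subtype.ext
    funext j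
    rw [← mkpoly_coeff (k + 1) c.1 j, ← mkpoly_coeff (k + 1) c'.1 j, hch]
  have := Nat.card_le_card_of_injective _ hinj
  rw [hc] at this
  have e : Fintype.card F ^ (k + 1) - Fintype.card F ^ (k + 1 - 1)
      = (Fintype.card F - 1) * Fintype.card F ^ k := by
    rw [Nat.add_sub_cancel, pow_succ, Nat.sub_mul, one_mul, mul_comm]
  rw [e]
  exact this

end Cfsg.Agent.Lib.helper4.GLClassRcf
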