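import Mathlib

/-!
# Commuting involutions and reflections in their bicommutant
-/

namespace Cfsg.Agent.Lib.helper4.GLRefl

universe u

open Module

variable {F : Type u} [Field F]

/-- `ρ` is a reflection lying in the bicommutant of `H` and commuting with `H`. -/
def Good {V : Type u} [AddCommGroup V] [Module F V] (H : Finset (V →ₗ[F] V))
    (ρ : V →ₗ[F] V) : Prop :=
  (∀ v, ρ (ρ v) = v) ∧ finrank F (LinearMap.ker (ρ + LinearMap.id)) = 1 ∧
  (∀ g : V →ₗ[F] V, (∀ h ∈ H, ∀ v, g (h v) = h (g v)) → ∀ v, g (ρ v) = ρ (g v)) ∧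
  (∀ h ∈ H, ∀ v, ρ (h v) = h (ρ v))

theorem ext_good (h2 : (2 : F) ≠ 0) {V : Type u} [AddCommGroup V] [Module F V]
    [FiniteDimensional F V] (A B : Submodule F V) (π : V →ₗ[F] V) (hπA : ∀ v, π v ∈ A)
    (hπa : ∀ a ∈ A, π a = a) (hπb : ∀ b ∈ B, π b = 0) (hπB : ∀ v, v - π v ∈ B)
    (H : Finset (V →ₗ[F] V)) (HA : Finset (A →ₗ[F] A))
    (hres : ∀ hA ∈ HA, ∃ h ∈ H, ∀ a : A, ((hA a : A) : V) = h a)
    (hpres : ∀ g : V →ₗ[F] V, (∀ h ∈ H, ∀ v, g (h v) = h (g v)) →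
      (∀ a ∈ A, g a ∈ A) ∧ (∀ b ∈ B, g b ∈ B))
    (hHinv : ∀ h ∈ H, (∀ a ∈ A, h a ∈ A) ∧ (∀ b ∈ B, h b ∈ B))
    (hHres : ∀ h ∈ H, ∃ hA ∈ HA, ∀ a : A, ((hA a : A) : V) = h a)
    (ρ : A →ₗ[F] A) (hρ : Good HA ρ) :
    ∃ ρ' : V →ₗ[F] V, Good H ρ' ∧ (∀ a : A, ρ' a = ρ a) ∧ (∀ b ∈ B, ρ' b = b) := by
  obtain ⟨ρ', hval⟩ : ∃ ρ' : V →ₗ[F] V, ∀ v, ρ' v = (ρ ⟨π v, hπA v⟩ : V) + (v - π v) :=
    ⟨A.subtype ∘ₗ ρ ∘ₗ (π.codRestrict A hπA) + (LinearMap.id - π), fun v => rfl⟩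
  have ha : ∀ a : A, ρ' a = ρ a := by
    intro a
    rw [hval]
    have e : (⟨π a, hπA a⟩ : A) = a := Subtype.ext (hπa a a.2)
    rw [e, hπa a a.2, sub_self, add_zero]
  have hb : ∀ b ∈ B, ρ' b = b := by
    intro b hb
    rw [hval]
    have e : (⟨π b, hπA b⟩ : A) = 0 := Subtype.ext (hπb b hb)
    rw [e, map_zero, hπb b hb, sub_zero, Submodule.coe_zero, zero_add]
  have hdec : ∀ v, v = ((⟨π v, hπA v⟩ : A) : V) + (v - π v) := by
    intro v
    simp
  refine ⟨ρ', ⟨?_, ?_, ?_, ?_⟩, ha, hb⟩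
  · intro v
    have h1 : ρ' v = (ρ ⟨π v, hπA v⟩ : V) + (v - π v) := hval v
    rw [h1, map_add, ha, hb _ (hπB v), hρ.1]
    exact (hdec v).symm
  · have e : LinearMap.ker (ρ' + LinearMap.id) = (LinearMap.ker (ρ + LinearMap.id)).map A.subtype := by
      ext v
      rw [LinearMap.mem_ker, Submodule.mem_map]
      constructor
      · intro hv
        rw [LinearMap.add_apply, LinearMap.id_apply, hval] at hv
        have h3 : ((ρ ⟨π v, hπA v⟩ : A) : V) + ((⟨π v, hπA v⟩ : A) : V)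
            + ((v - π v) + (v - π v)) = 0 := by
          have := hdec v
          calc ((ρ ⟨π v, hπA v⟩ : A) : V) + ((⟨π v, hπA v⟩ : A) : V) + ((v - π v) + (v - π v))
              = ((ρ ⟨π v, hπA v⟩ : A) : V) + (v - π v) + (((⟨π v, hπA v⟩ : A) : V) + (v - π v)) := by
                abel
            _ = ((ρ ⟨π v, hπA v⟩ : A) : V) + (v - π v) + v := by rw [← this]
            _ = 0 := hv
        have h4 := congrArg π h3
        rw [map_add, map_add, map_add, hπa _ (ρ ⟨π v, hπA v⟩).2, hπa _ (hπA v), hπb _ (hπB v),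
          add_zero, add_zero, map_zero] at h4
        have h5 : (v - π v) + (v - π v) = 0 := by
          have h6 : ((ρ ⟨π v, hπA v⟩ : A) : V) + ((⟨π v, hπA v⟩ : A) : V) = 0 := h4
          rw [h6, zero_add] at h3
          exact h3
        have h7 : v - π v = 0 := by
          have h8 : (2 : F) • (v - π v) = 0 := by rw [two_smul]; exact h5
          rcases smul_eq_zero.mp h8 with h9 | h9
          · exact absurd h9 h2
          · exact h9
        refine ⟨⟨π v, hπA v⟩, ?_, ?_⟩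
        · rw [LinearMap.mem_ker, LinearMap.add_apply, LinearMap.id_apply]
          apply Subtype.ext
          exact h4
        · show π v = v
          exact (sub_eq_zero.mp h7).symm
      · rintro ⟨a, ha', rfl⟩
        rw [LinearMap.mem_ker, LinearMap.add_apply, LinearMap.id_apply] at ha'
        rw [LinearMap.add_apply, LinearMap.id_apply, Submodule.subtype_apply, ha]
        exact congrArg Subtype.val ha'
    rw [e, Submodule.finrank_map_subtype_eq]
    exact hρ.2.1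
  · intro g hg v
    obtain ⟨hgA, hgB⟩ := hpres g hg
    have hgA' : ∀ a : A, (g.restrict hgA) (ρ a) = ρ ((g.restrict hgA) a) := by
      apply hρ.2.2.1
      intro hA hhA a
      obtain ⟨h, hh, hcoe⟩ := hres hA hhA
      apply Subtype.ext
      show g ((hA a : A) : V) = ((hA ((g.restrict hgA) a) : A) : V)
      rw [hcoe, hcoe]
      exact hg h hh a
    have h1 : ρ' v = (ρ ⟨π v, hπA v⟩ : V) + (v - π v) := hval v
    rw [h1, map_add]
    have h3 : g v = g ((⟨π v, hπA v⟩ : A) : V) + g (v - π v) := by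
      rw [← map_add, ← hdec v]
    rw [h3, map_add, hb _ (hgB _ (hπB v))]
    congr 1
    have h4 : g ((⟨π v, hπA v⟩ : A) : V) = (((g.restrict hgA) ⟨π v, hπA v⟩ : A) : V) := rfl
    rw [h4, ha, ← hgA']
    rfl
  · intro h hh v
    obtain ⟨hhA, hhB⟩ := hHinv h hh
    obtain ⟨hA, hhA', hcoe⟩ := hHres h hh
    have h1 : ρ' v = (ρ ⟨π v, hπA v⟩ : V) + (v - π v) := hval v
    have h3 : h v = h ((⟨π v, hπA v⟩ : A) : V) + h (v - π v) := by
      rw [← map_add, ← hdec v]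
    rw [h3, map_add, hb _ (hhB _ (hπB v)), h1, map_add]
    congr 1
    rw [← hcoe, ha, hρ.2.2.2 hA hhA', hcoe]

theorem not_fix_of_good (h2 : (2 : F) ≠ 0) {V : Type u} [AddCommGroup V] [Module F V]
    (H : Finset (V →ₗ[F] V)) (ρ : V →ₗ[F] V) (hρ : Good H ρ) : ¬ ∀ v, ρ v = v := by
  intro hfix
  have e : LinearMap.ker (ρ + LinearMap.id) = ⊥ := by
    rw [eq_bot_iff]
    intro v hv
    rw [LinearMap.mem_ker, LinearMap.add_apply, LinearMap.id_apply, hfix] at hv
    have h8 : (2 : F) • v = 0 := by rw [two_smul]; exact hv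
    rcases smul_eq_zero.mp h8 with h9 | h9
    · exact absurd h9 h2
    · rw [h9]; exact Submodule.zero_mem _
  have := hρ.2.1
  rw [e, finrank_bot] at this
  omega

theorem refl_bound (h2 : (2 : F) ≠ 0) :
    ∀ (d : ℕ) (V : Type u) [AddCommGroup V] [Module F V] [FiniteDimensional F V]
      (H : Finset (V →ₗ[F] V)), finrank F V = d →
      (∀ h ∈ H, ∀ v, h (h v) = v) →
      (∀ h ∈ H, ∀ k ∈ H, ∀ v, h (k v) = k (h v)) →
      H.card ≤ 2 ^ d ∧ (H.card ≤ 2 ^ (d / 2) ∨ (H.card ≤ 2 ^ ((d + 1) / 2) ∧ ∃ ρ, Good H ρ) ∨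
        ∃ ρ₁ ρ₂, ρ₁ ≠ ρ₂ ∧ Good H ρ₁ ∧ Good H ρ₂) := by
  classical
  intro d
  induction d using Nat.strong_induction_on with
  | _ d ih =>
  intro V _ _ _ H hd hH hcomm
  by_cases hall : ∀ h ∈ H, h = LinearMap.id ∨ h = -LinearMap.id
  · have hsub : H ⊆ {LinearMap.id, -LinearMap.id} := by
      intro h hh
      rcases hall h hh with h1 | h1
      · simp [h1]
      · simp [h1]
    have h1 := Finset.card_le_card hsub
    have h3 : ({LinearMap.id, -LinearMap.id} : Finset (V →ₗ[F] V)).card ≤ 2 :=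
      Finset.card_insert_le _ _
    have hc2 : H.card ≤ 2 := h1.trans h3
    rcases Nat.lt_or_ge d 2 with hd2 | hd2
    · have hd01 : d = 0 ∨ d = 1 := by omega
      rcases hd01 with h0 | h1'
      · subst h0
        have hs : Subsingleton V := Module.finrank_zero_iff.mp hd
        have : H.card ≤ 1 :=
          Finset.card_le_one.mpr (fun a _ b _ => LinearMap.ext (fun v => Subsingleton.elim _ _))
        exact ⟨by simpa using this, Or.inl (by simpa using this)⟩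
      · subst h1'
        refine ⟨by simpa using hc2, Or.inr (Or.inl ⟨by simpa using hc2, -LinearMap.id, ?_, ?_, ?_, ?_⟩)⟩
        · intro v
          simp
        · have : (-LinearMap.id + LinearMap.id : V →ₗ[F] V) = 0 := by simp
          rw [this, LinearMap.ker_zero, finrank_top, hd]
        · intro g _ v
          simp
        · intro h _ v
          simp
    · have h4 : 2 ^ 1 ≤ 2 ^ (d / 2) := Nat.pow_le_pow_right (by norm_num) (by omega)
      have h5 : 2 ^ 1 ≤ 2 ^ d := Nat.pow_le_pow_right (by norm_num) (by omega)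
      exact ⟨by omega, Or.inl (by omega)⟩
  · push Not at hall
    obtain ⟨t, ht, ht1, ht2⟩ := hall
    obtain ⟨Vp, hVp⟩ : ∃ Vp : Submodule F V, Vp = LinearMap.ker (t - LinearMap.id) := ⟨_, rfl⟩
    obtain ⟨Vm, hVm⟩ : ∃ Vm : Submodule F V, Vm = LinearMap.ker (t + LinearMap.id) := ⟨_, rfl⟩
    have hmp : ∀ v, v ∈ Vp ↔ t v = v := by
      intro v
      rw [hVp, LinearMap.mem_ker, LinearMap.sub_apply, LinearMap.id_apply, sub_eq_zero]
    have hmm : ∀ v, v ∈ Vm ↔ t v = -v := by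
      intro v
      rw [hVm, LinearMap.mem_ker, LinearMap.add_apply, LinearMap.id_apply, add_eq_zero_iff_eq_neg]
    have htt := hH t ht
    have hsplit : ∀ v, v = (2 : F)⁻¹ • (v + t v) + (2 : F)⁻¹ • (v - t v) := by
      intro v
      rw [← smul_add]
      have : v + t v + (v - t v) = (2 : F) • v := by rw [two_smul]; abel
      rw [this, smul_smul, inv_mul_cancel₀ h2, one_smul]
    have hap : ∀ v, (2 : F)⁻¹ • (v + t v) ∈ Vp := by
      intro v
      rw [hmp, map_smul, map_add, htt, add_comm]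
    have ham : ∀ v, (2 : F)⁻¹ • (v - t v) ∈ Vm := by
      intro v
      rw [hmm, map_smul, map_sub, htt, ← smul_neg, neg_sub]
    have hdec : ∀ v, ∃ a ∈ Vp, ∃ b ∈ Vm, v = a + b := fun v =>
      ⟨_, hap v, _, ham v, hsplit v⟩
    have hdisj : Disjoint Vp Vm := by
      rw [Submodule.disjoint_def]
      intro v hv1 hv2
      rw [hmp] at hv1
      rw [hmm] at hv2
      have h3 : (2 : F) • v = 0 := by
        rw [two_smul]
        nth_rewrite 1 [← hv1]
        rw [hv2, neg_add_cancel]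
      rcases smul_eq_zero.mp h3 with h4 | h4
      · exact absurd h4 h2
      · exact h4
    have hcod : Codisjoint Vp Vm := by
      rw [codisjoint_iff, eq_top_iff]
      intro v _
      obtain ⟨a, ha, b, hb, rfl⟩ := hdec v
      exact Submodule.add_mem_sup ha hb
    have hsum := Submodule.finrank_add_eq_of_isCompl (IsCompl.mk hdisj hcod)
    have hp_top : Vp ≠ ⊤ := by
      intro h
      apply ht1
      ext v
      have : v ∈ Vp := by rw [h]; trivial
      rw [LinearMap.id_apply]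
      exact (hmp v).mp this
    have hm_top : Vm ≠ ⊤ := by
      intro h
      apply ht2
      ext v
      have : v ∈ Vm := by rw [h]; trivial
      rw [LinearMap.neg_apply, LinearMap.id_apply]
      exact (hmm v).mp this
    have hlp := Submodule.finrank_lt hp_top
    have hlm := Submodule.finrank_lt hm_top
    rw [hd] at hlp hlm hsum
    have hinvp : ∀ h ∈ H, ∀ v ∈ Vp, h v ∈ Vp := by
      intro h hh v hv
      rw [hmp] at hv ⊢
      rw [hcomm t ht h hh, hv]
    have hinvm : ∀ h ∈ H, ∀ v ∈ Vm, h v ∈ Vm := by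
      intro h hh v hv
      rw [hmm] at hv ⊢
      rw [hcomm t ht h hh, hv, map_neg]
    obtain ⟨rp, hrp⟩ : ∃ rp : (V →ₗ[F] V) → (Vp →ₗ[F] Vp),
        ∀ h ∈ H, ∀ v : Vp, ((rp h v : Vp) : V) = h v := by
      refine ⟨fun h => if hh : ∀ v ∈ Vp, h v ∈ Vp then h.restrict hh else 0, ?_⟩
      intro h hh v
      have h1 : ∀ v ∈ Vp, h v ∈ Vp := hinvp h hh
      simp only [dif_pos h1]
      rfl
    obtain ⟨rm, hrm⟩ : ∃ rm : (V →ₗ[F] V) → (Vm →ₗ[F] Vm),
        ∀ h ∈ H, ∀ v : Vm, ((rm h v : Vm) : V) = h v := by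
      refine ⟨fun h => if hh : ∀ v ∈ Vm, h v ∈ Vm then h.restrict hh else 0, ?_⟩
      intro h hh v
      have h1 : ∀ v ∈ Vm, h v ∈ Vm := hinvm h hh
      simp only [dif_pos h1]
      rfl
    have hbp := ih _ hlp Vp (H.image rp) rfl (by
      intro h' hh' v
      obtain ⟨h, hh, rfl⟩ := Finset.mem_image.mp hh'
      apply Subtype.ext
      rw [hrp h hh, hrp h hh]
      exact hH h hh _) (by
      intro h' hh' k' hk' v
      obtain ⟨h, hh, rfl⟩ := Finset.mem_image.mp hh'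
      obtain ⟨k, hk, rfl⟩ := Finset.mem_image.mp hk'
      apply Subtype.ext
      rw [hrp h hh, hrp k hk, hrp k hk, hrp h hh]
      exact hcomm h hh k hk _)
    have hbm := ih _ hlm Vm (H.image rm) rfl (by
      intro h' hh' v
      obtain ⟨h, hh, rfl⟩ := Finset.mem_image.mp hh'
      apply Subtype.ext
      rw [hrm h hh, hrm h hh]
      exact hH h hh _) (by
      intro h' hh' k' hk' v
      obtain ⟨h, hh, rfl⟩ := Finset.mem_image.mp hh'
      obtain ⟨k, hk, rfl⟩ := Finset.mem_image.mp hk'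
      apply Subtype.ext
      rw [hrm h hh, hrm k hk, hrm k hk, hrm h hh]
      exact hcomm h hh k hk _)
    have hinj : H.card ≤ ((H.image rp) ×ˢ (H.image rm)).card := by
      refine Finset.card_le_card_of_injOn (fun h => (rp h, rm h)) ?_ ?_
      · intro h hh
        exact Finset.mem_product.mpr ⟨Finset.mem_image_of_mem _ hh, Finset.mem_image_of_mem _ hh⟩
      · intro h hh k hk hhk
        have hhk' := Prod.mk.inj hhk
        ext v
        obtain ⟨a, ha, b, hb, rfl⟩ := hdec v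
        rw [map_add, map_add]
        have e1 : h a = k a := by
          rw [← hrp h hh ⟨a, ha⟩, ← hrp k hk ⟨a, ha⟩, hhk'.1]
        have e2 : h b = k b := by
          rw [← hrm h hh ⟨b, hb⟩, ← hrm k hk ⟨b, hb⟩, hhk'.2]
        rw [e1, e2]
    rw [Finset.card_product] at hinj
    -- the projections
    obtain ⟨πp, hπp⟩ : ∃ πp : V →ₗ[F] V, ∀ v, πp v = (2 : F)⁻¹ • (v + t v) :=
      ⟨(2 : F)⁻¹ • (LinearMap.id + t), fun v => rfl⟩
    obtain ⟨πm, hπm⟩ : ∃ πm : V →ₗ[F] V, ∀ v, πm v = (2 : F)⁻¹ • (v - t v) :=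
      ⟨(2 : F)⁻¹ • (LinearMap.id - t), fun v => rfl⟩
    have hpres : ∀ g : V →ₗ[F] V, (∀ h ∈ H, ∀ v, g (h v) = h (g v)) →
        (∀ a ∈ Vp, g a ∈ Vp) ∧ (∀ b ∈ Vm, g b ∈ Vm) := by
      intro g hg
      constructor
      · intro a ha
        rw [hmp] at ha ⊢
        rw [← hg t ht, ha]
      · intro b hb
        rw [hmm] at hb ⊢
        rw [← hg t ht, hb, map_neg]
    have liftp : ∀ ρ : Vp →ₗ[F] Vp, Good (H.image rp) ρ →
        ∃ ρ' : V →ₗ[F] V, Good H ρ' ∧ (∀ a : Vp, ρ' a = ρ a) ∧ (∀ b ∈ Vm, ρ' b = b) := by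
      intro ρ hρ
      refine ext_good h2 Vp Vm πp (fun v => by rw [hπp]; exact hap v) ?_ ?_ ?_ H (H.image rp)
        ?_ hpres (fun h hh => ⟨hinvp h hh, hinvm h hh⟩) ?_ ρ hρ
      · intro a ha
        rw [hmp] at ha
        rw [hπp, ha, ← two_smul F a, smul_smul, inv_mul_cancel₀ h2, one_smul]
      · intro b hb
        rw [hmm] at hb
        rw [hπp, hb, add_neg_cancel, smul_zero]
      · intro v
        have e : v - πp v = (2 : F)⁻¹ • (v - t v) := by
          rw [hπp]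
          nth_rewrite 1 [hsplit v]
          abel
        rw [e]
        exact ham v
      · intro hA hhA
        obtain ⟨h, hh, rfl⟩ := Finset.mem_image.mp hhA
        exact ⟨h, hh, hrp h hh⟩
      · intro h hh
        exact ⟨rp h, Finset.mem_image_of_mem _ hh, hrp h hh⟩
    have liftm : ∀ ρ : Vm →ₗ[F] Vm, Good (H.image rm) ρ →
        ∃ ρ' : V →ₗ[F] V, Good H ρ' ∧ (∀ a : Vm, ρ' a = ρ a) ∧ (∀ b ∈ Vp, ρ' b = b) := by
      intro ρ hρ
      refine ext_good h2 Vm Vp πm (fun v => by rw [hπm]; exact ham v) ?_ ?_ ?_ H (H.image rm)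
        ?_ (fun g hg => ⟨(hpres g hg).2, (hpres g hg).1⟩)
        (fun h hh => ⟨hinvm h hh, hinvp h hh⟩) ?_ ρ hρ
      · intro a ha
        rw [hmm] at ha
        rw [hπm, ha, sub_neg_eq_add, ← two_smul F a, smul_smul, inv_mul_cancel₀ h2, one_smul]
      · intro b hb
        rw [hmp] at hb
        rw [hπm, hb, sub_self, smul_zero]
      · intro v
        have e : v - πm v = (2 : F)⁻¹ • (v + t v) := by
          rw [hπm]
          nth_rewrite 1 [hsplit v]
          abel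
        rw [e]
        exact hap v
      · intro hA hhA
        obtain ⟨h, hh, rfl⟩ := Finset.mem_image.mp hhA
        exact ⟨h, hh, hrm h hh⟩
      · intro h hh
        exact ⟨rm h, Finset.mem_image_of_mem _ hh, hrm h hh⟩
    have hbp' : (H.image rp).card ≤ 2 ^ (finrank F Vp / 2) ∨
        ((H.image rp).card ≤ 2 ^ ((finrank F Vp + 1) / 2) ∧
          ∃ ρ' : V →ₗ[F] V, Good H ρ' ∧ (∀ b ∈ Vm, ρ' b = b)) ∨
        ∃ ρ₁ ρ₂ : V →ₗ[F] V, ρ₁ ≠ ρ₂ ∧ Good H ρ₁ ∧ Good H ρ₂ := by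
      rcases hbp.2 with h | ⟨h, ρ, hρ⟩ | ⟨ρ₁, ρ₂, hne, hρ₁, hρ₂⟩
      · exact Or.inl h
      · obtain ⟨ρ', hg, -, hfix⟩ := liftp ρ hρ
        exact Or.inr (Or.inl ⟨h, ρ', hg, hfix⟩)
      · obtain ⟨ρ₁', hg₁, hv₁, -⟩ := liftp ρ₁ hρ₁
        obtain ⟨ρ₂', hg₂, hv₂, -⟩ := liftp ρ₂ hρ₂
        refine Or.inr (Or.inr ⟨ρ₁', ρ₂', ?_, hg₁, hg₂⟩)
        intro heq
        apply hne
        ext a
        rw [← hv₁, ← hv₂, heq]
    have hbm' : (H.image rm).card ≤ 2 ^ (finrank F Vm / 2) ∨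
        ((H.image rm).card ≤ 2 ^ ((finrank F Vm + 1) / 2) ∧
          ∃ ρ' : V →ₗ[F] V, Good H ρ' ∧ (∀ b ∈ Vp, ρ' b = b)) ∨
        ∃ ρ₁ ρ₂ : V →ₗ[F] V, ρ₁ ≠ ρ₂ ∧ Good H ρ₁ ∧ Good H ρ₂ := by
      rcases hbm.2 with h | ⟨h, ρ, hρ⟩ | ⟨ρ₁, ρ₂, hne, hρ₁, hρ₂⟩
      · exact Or.inl h
      · obtain ⟨ρ', hg, -, hfix⟩ := liftm ρ hρ
        exact Or.inr (Or.inl ⟨h, ρ', hg, hfix⟩)
      · obtain ⟨ρ₁', hg₁, hv₁, -⟩ := liftm ρ₁ hρ₁
        obtain ⟨ρ₂', hg₂, hv₂, -⟩ := liftm ρ₂ hρ₂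
        refine Or.inr (Or.inr ⟨ρ₁', ρ₂', ?_, hg₁, hg₂⟩)
        intro heq
        apply hne
        ext a
        rw [← hv₁, ← hv₂, heq]
    constructor
    · calc H.card ≤ (H.image rp).card * (H.image rm).card := hinj
        _ ≤ 2 ^ finrank F Vp * 2 ^ finrank F Vm := Nat.mul_le_mul hbp.1 hbm.1
        _ = 2 ^ d := by rw [← pow_add, hsum]
    · have mulb : ∀ x y : ℕ, (H.image rp).card ≤ 2 ^ x → (H.image rm).card ≤ 2 ^ y →
          ∀ z, x + y ≤ z → H.card ≤ 2 ^ z := by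
        intro x y hx hy z hz
        calc H.card ≤ (H.image rp).card * (H.image rm).card := hinj
          _ ≤ 2 ^ x * 2 ^ y := Nat.mul_le_mul hx hy
          _ = 2 ^ (x + y) := by rw [pow_add]
          _ ≤ 2 ^ z := Nat.pow_le_pow_right (by norm_num) hz
      rcases hbp' with hp | ⟨hp, ρp, hgp, hfixp⟩ | h3
      · rcases hbm' with hm | ⟨hm, ρm, hgm, hfixm⟩ | h3
        · exact Or.inl (mulb _ _ hp hm _ (by omega))
        · exact Or.inr (Or.inl ⟨mulb _ _ hp hm _ (by omega), ρm, hgm⟩)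
        · exact Or.inr (Or.inr h3)
      · rcases hbm' with hm | ⟨hm, ρm, hgm, hfixm⟩ | h3
        · exact Or.inr (Or.inl ⟨mulb _ _ hp hm _ (by omega), ρp, hgp⟩)
        · refine Or.inr (Or.inr ⟨ρp, ρm, ?_, hgp, hgm⟩)
          intro heq
          apply not_fix_of_good h2 H ρp hgp
          intro v
          obtain ⟨a, ha, b, hb, rfl⟩ := hdec v
          rw [map_add, hfixp b hb, heq, hfixm a ha]
        · exact Or.inr (Or.inr h3)
      · exact Or.inr (Or.inr h3)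

end Cfsg.Agent.Lib.helper4.GLRefl
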