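import Mathlib
import Cfsg.Agent.Lib.helper4.GLRefl
import Cfsg.Agent.Lib.helper4.GLCent

/-!
# Normal elementary abelian 2-subgroups of 2-subgroups of `GL(V)`
-/

namespace Cfsg.Agent.Lib.helper4.GLNormal

universe u

open Module

open Cfsg.Agent.Lib.helper4

variable {F : Type u} [Field F] {V : Type u} [AddCommGroup V] [Module F V]

theorem good_iff (H : Finset (V →ₗ[F] V)) (ρ : V →ₗ[F] V) :
    GLRefl.Good H ρ ↔ (ρ * ρ = 1 ∧ finrank F (LinearMap.ker (ρ + LinearMap.id)) = 1 ∧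
      (∀ g : V →ₗ[F] V, (∀ h ∈ H, g * h = h * g) → g * ρ = ρ * g) ∧
      (∀ h ∈ H, ρ * h = h * ρ)) := by
  unfold GLRefl.Good
  simp only [LinearMap.ext_iff, Module.End.mul_apply, Module.End.one_apply]

theorem good_conj (H : Finset (V →ₗ[F] V)) (a b : V →ₗ[F] V) (hab : a * b = 1) (hba : b * a = 1)
    (hs : ∀ h ∈ H, a * h * b ∈ H) (hs' : ∀ h ∈ H, b * h * a ∈ H) (ρ : V →ₗ[F] V)
    (hρ : GLRefl.Good H ρ) : GLRefl.Good H (a * ρ * b) := by
  rw [good_iff] at hρ ⊢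
  obtain ⟨h1, h2, h3, h4⟩ := hρ
  have habr : ∀ x : V →ₗ[F] V, a * (b * x) = x := fun x => by rw [← mul_assoc, hab, one_mul]
  have hbar : ∀ x : V →ₗ[F] V, b * (a * x) = x := fun x => by rw [← mul_assoc, hba, one_mul]
  have h1r : ∀ x : V →ₗ[F] V, ρ * (ρ * x) = x := fun x => by rw [← mul_assoc, h1, one_mul]
  refine ⟨?_, ?_, ?_, ?_⟩
  · simp only [mul_assoc, habr, hbar, hab, hba, h1r, h1, mul_one]
  · have e : LinearMap.ker (a * ρ * b + LinearMap.id)
        = (LinearMap.ker (ρ + LinearMap.id)).map a := by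
      ext v
      rw [LinearMap.mem_ker, Submodule.mem_map]
      constructor
      · intro hv
        refine ⟨b v, ?_, LinearMap.congr_fun hab v⟩
        rw [LinearMap.mem_ker]
        have : (ρ + LinearMap.id : V →ₗ[F] V) (b v) = b ((a * ρ * b + LinearMap.id : V →ₗ[F] V) v) := by
          simp only [LinearMap.add_apply, LinearMap.id_apply, Module.End.mul_apply, map_add]
          congr 1
          exact (LinearMap.congr_fun hba _).symm
        rw [this, hv, map_zero]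
      · rintro ⟨w, hw, rfl⟩
        rw [LinearMap.mem_ker] at hw
        have : (a * ρ * b + LinearMap.id : V →ₗ[F] V) (a w) = a ((ρ + LinearMap.id : V →ₗ[F] V) w) := by
          simp only [LinearMap.add_apply, LinearMap.id_apply, Module.End.mul_apply, map_add]
          have := LinearMap.congr_fun hba w
          simp only [Module.End.mul_apply, Module.End.one_apply] at this
          rw [this]
        rw [this, hw, map_zero]
    rw [e, ← h2]
    have hinj : Function.Injective a := by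
      intro x y hxy
      have := congrArg b hxy
      rw [← Module.End.mul_apply, ← Module.End.mul_apply, hba] at this
      exact this
    exact (Submodule.equivMapOfInjective _ hinj _).finrank_eq.symm
  · intro g hg
    have hg' : ∀ h ∈ H, (b * g * a) * h = h * (b * g * a) := by
      intro h hh
      have h5 := hg _ (hs h hh)
      have := congrArg (fun t => b * t * a) h5
      simp only [mul_assoc, habr, hbar, hab, hba, mul_one] at this
      simp only [mul_assoc]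
      exact this
    have h6 := h3 _ hg'
    have := congrArg (fun t => a * t * b) h6
    simp only [mul_assoc, habr, hbar, hab, hba, mul_one] at this
    simp only [mul_assoc]
    exact this
  · intro h hh
    have h5 := h4 _ (hs' h hh)
    have := congrArg (fun t => a * t * b) h5
    simp only [mul_assoc, habr, hbar, hab, hba, mul_one] at this
    simp only [mul_assoc]
    exact this

/-- The conjugation action on a stable set of endomorphisms. -/
def θ (S : Subgroup (V →ₗ[F] V)ˣ) (R : Set (V →ₗ[F] V))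
    (hR : ∀ s ∈ S, ∀ ρ ∈ R,
      (s : V →ₗ[F] V) * ρ * ((s⁻¹ : (V →ₗ[F] V)ˣ) : V →ₗ[F] V) ∈ R) :
    S →* Equiv.Perm R where
  toFun s :=
    { toFun := fun ρ => ⟨(s.1 : V →ₗ[F] V) * ρ.1 * ((s.1⁻¹ : (V →ₗ[F] V)ˣ) : V →ₗ[F] V),
        hR s.1 s.2 ρ.1 ρ.2⟩
      invFun := fun ρ => ⟨((s.1⁻¹ : (V →ₗ[F] V)ˣ) : V →ₗ[F] V) * ρ.1 * (s.1 : V →ₗ[F] V), by
        have := hR s.1⁻¹ (S.inv_mem s.2) ρ.1 ρ.2
        rwa [inv_inv] at this⟩
      left_inv := fun ρ => Subtype.ext (by simp [mul_assoc])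
      right_inv := fun ρ => Subtype.ext (by simp [mul_assoc]) }
  map_one' := by
    ext ρ
    simp
  map_mul' s t := by
    ext ρ
    simp [mul_assoc]

theorem θ_apply (S : Subgroup (V →ₗ[F] V)ˣ) (R : Set (V →ₗ[F] V))
    (hR : ∀ s ∈ S, ∀ ρ ∈ R,
      (s : V →ₗ[F] V) * ρ * ((s⁻¹ : (V →ₗ[F] V)ˣ) : V →ₗ[F] V) ∈ R) (s : S) (ρ : R) :
    ((θ S R hR s ρ : R) : V →ₗ[F] V)
      = (s.1 : V →ₗ[F] V) * ρ.1 * ((s.1⁻¹ : (V →ₗ[F] V)ˣ) : V →ₗ[F] V) := rfl

theorem exists_H [Finite (V →ₗ[F] V)] (E : Subgroup (V →ₗ[F] V)ˣ)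
    (hexp : ∀ e ∈ E, e * e = 1) (hcomm : ∀ a ∈ E, ∀ b ∈ E, a * b = b * a) :
    ∃ H : Finset (V →ₗ[F] V), (∀ x, x ∈ H ↔ ∃ e ∈ E, (e : V →ₗ[F] V) = x) ∧
      H.card = Nat.card E ∧ (∀ h ∈ H, ∀ v, h (h v) = v) ∧
      (∀ h ∈ H, ∀ k ∈ H, ∀ v, h (k v) = k (h v)) := by
  classical
  obtain ⟨H, hH⟩ : ∃ H : Finset (V →ₗ[F] V), ∀ x, x ∈ H ↔ ∃ e ∈ E, (e : V →ₗ[F] V) = x :=
    ⟨(Set.toFinite ((fun e : (V →ₗ[F] V)ˣ => (e : V →ₗ[F] V)) '' (E : Set (V →ₗ[F] V)ˣ))).toFinset,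
      fun x => by simp⟩
  refine ⟨H, hH, ?_, ?_, ?_⟩
  · rw [← Nat.card_eq_finsetCard]
    symm
    apply Nat.card_congr
    refine Equiv.ofBijective (fun e : E => (⟨(e.1 : V →ₗ[F] V), (hH _).mpr ⟨e.1, e.2, rfl⟩⟩ : H))
      ⟨?_, ?_⟩
    · intro a b hab
      have := congrArg Subtype.val hab
      exact Subtype.ext (Units.ext this)
    · rintro ⟨x, hx⟩
      obtain ⟨e, he, rfl⟩ := (hH x).mp hx
      exact ⟨⟨e, he⟩, rfl⟩
  · intro h hh v
    obtain ⟨e, he, rfl⟩ := (hH h).mp hh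
    have h1 : (e : V →ₗ[F] V) * (e : V →ₗ[F] V) = 1 := by
      rw [← Units.val_mul, hexp e he, Units.val_one]
    exact LinearMap.congr_fun h1 v
  · intro h hh k hk v
    obtain ⟨e, he, rfl⟩ := (hH h).mp hh
    obtain ⟨e', he', rfl⟩ := (hH k).mp hk
    have h1 : (e : V →ₗ[F] V) * (e' : V →ₗ[F] V) = e' * e := by
      rw [← Units.val_mul, hcomm e he e' he', Units.val_mul]
    exact LinearMap.congr_fun h1 v

/-- Any subgroup of exponent two of `GL(V)` has order at most `2 ^ dim V`. -/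
theorem exp2_bound [Fintype F] (h2 : (2 : F) ≠ 0) [FiniteDimensional F V]
    (E : Subgroup (V →ₗ[F] V)ˣ)
    (hexp : ∀ e ∈ E, e * e = 1) (hcomm : ∀ a ∈ E, ∀ b ∈ E, a * b = b * a) :
    Nat.card E ≤ 2 ^ finrank F V := by
  haveI : Finite V := Module.finite_of_finite F
  haveI : Finite (V →ₗ[F] V) := Finite.of_injective (fun f => (f : V → V)) DFunLike.coe_injective
  obtain ⟨H, hH, hcard, hinv, hcm⟩ := exists_H E hexp hcomm
  rw [← hcard]
  exact (GLRefl.refl_bound h2 (finrank F V) V H rfl hinv hcm).1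

/-- A normal subgroup of exponent two of a large 2-subgroup of `GL(V)` is small. -/
theorem normal_bound [Fintype F] (h2 : (2 : F) ≠ 0) [FiniteDimensional F V]
    (S E : Subgroup (V →ₗ[F] V)ˣ)
    (hnorm : ∀ s ∈ S, ∀ e ∈ E, s * e * s⁻¹ ∈ E)
    (hexp : ∀ e ∈ E, e * e = 1) (hcomm : ∀ a ∈ E, ∀ b ∈ E, a * b = b * a)
    (hnum : ∀ m, 2 ≤ m → m ≤ finrank F V →
      m * GLCent.g F 1 + GLCent.g F (finrank F V - m) + padicValNat 2 m.factorial
        < padicValNat 2 (Nat.card S)) :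
    Nat.card E ≤ 2 ^ ((finrank F V + 1) / 2) := by
  classical
  haveI : Fact (Nat.Prime 2) := ⟨Nat.prime_two⟩
  haveI : Finite V := Module.finite_of_finite F
  haveI : Finite (V →ₗ[F] V) := Finite.of_injective (fun f => (f : V → V)) DFunLike.coe_injective
  haveI : Finite (V →ₗ[F] V)ˣ :=
    Finite.of_injective (fun u : (V →ₗ[F] V)ˣ => (u : V →ₗ[F] V)) Units.val_injective
  obtain ⟨H, hH, hcard, hinv, hcm⟩ := exists_H E hexp hcomm
  obtain ⟨-, hb⟩ := GLRefl.refl_bound h2 (finrank F V) V H rfl hinv hcm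
  by_contra hcon
  push Not at hcon
  rw [← hcard] at hcon
  have hthird : ∃ ρ₁ ρ₂, ρ₁ ≠ ρ₂ ∧ GLRefl.Good H ρ₁ ∧ GLRefl.Good H ρ₂ := by
    rcases hb with h | h | h
    · exfalso
      have : 2 ^ (finrank F V / 2) ≤ 2 ^ ((finrank F V + 1) / 2) :=
        Nat.pow_le_pow_right (by omega) (by omega)
      omega
    · exfalso; omega
    · exact h
  obtain ⟨ρ₁, ρ₂, hne, hg1, hg2⟩ := hthird
  obtain ⟨R, hR⟩ : ∃ R : Set (V →ₗ[F] V), R = {ρ | GLRefl.Good H ρ} := ⟨_, rfl⟩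
  have hstab : ∀ s ∈ S, ∀ h ∈ H,
      (s : V →ₗ[F] V) * h * ((s⁻¹ : (V →ₗ[F] V)ˣ) : V →ₗ[F] V) ∈ H := by
    intro s hs h hh
    obtain ⟨e, he, rfl⟩ := (hH h).mp hh
    exact (hH _).mpr ⟨s * e * s⁻¹, hnorm s hs e he, by simp [Units.val_mul]⟩
  have hRstab : ∀ s ∈ S, ∀ ρ ∈ R,
      (s : V →ₗ[F] V) * ρ * ((s⁻¹ : (V →ₗ[F] V)ˣ) : V →ₗ[F] V) ∈ R := by
    intro s hs ρ hρ
    rw [hR] at hρ ⊢
    apply good_conj H _ _ (Units.mul_inv s) (Units.inv_mul s) (hstab s hs) ?_ ρ hρ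
    intro h hh
    have := hstab s⁻¹ (S.inv_mem hs) h hh
    rwa [inv_inv] at this
  have hm2 : 2 ≤ R.ncard := by
    have : 1 < R.ncard := by
      rw [Set.one_lt_ncard_iff]
      exact ⟨ρ₁, ρ₂, by rw [hR]; exact hg1, by rw [hR]; exact hg2, hne⟩
    omega
  have hrefl : ∀ ρ ∈ R, GLCent.IsRefl ρ := by
    intro ρ hρ
    rw [hR] at hρ
    exact ⟨hρ.1, hρ.2.1⟩
  have hcommR : ∀ ρ ∈ R, ∀ ρ' ∈ R, ∀ v, ρ (ρ' v) = ρ' (ρ v) := by
    intro ρ hρ ρ' hρ' v
    rw [hR] at hρ hρ'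
    exact hρ'.2.2.1 ρ hρ.2.2.2 v
  have hker : ∀ p ∈ (θ S R hRstab).ker.map S.subtype, ∀ ρ ∈ R, ∀ v,
      (p : V →ₗ[F] V) (ρ v) = ρ ((p : V →ₗ[F] V) v) := by
    rintro _ ⟨s, hs, rfl⟩ ρ hρ v
    have hs1 : θ S R hRstab s = 1 := MonoidHom.mem_ker.mp hs
    have h5 : ((θ S R hRstab s ⟨ρ, hρ⟩ : R) : V →ₗ[F] V) = ρ := by rw [hs1]; rfl
    rw [θ_apply] at h5
    have h6 : (s.1 : V →ₗ[F] V) * ρ = ρ * (s.1 : V →ₗ[F] V) := by
      have := congrArg (fun t => t * (s.1 : V →ₗ[F] V)) h5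
      simpa [mul_assoc] using this
    exact LinearMap.congr_fun h6 v
  obtain ⟨hmd, hval⟩ := GLCent.cent_bound h2 R.ncard V R rfl hrefl hcommR
    ((θ S R hRstab).ker.map S.subtype) hker
  rw [Subgroup.card_map_of_injective (Subgroup.subtype_injective S)] at hval
  have hS : Nat.card S = Nat.card (θ S R hRstab).ker * Nat.card (θ S R hRstab).range := by
    rw [← Subgroup.index_ker, Subgroup.card_mul_index]
  have hrange : padicValNat 2 (Nat.card (θ S R hRstab).range)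
      ≤ padicValNat 2 R.ncard.factorial := by
    have := GLCent.sub_val (θ S R hRstab).range
    rwa [Nat.card_perm, Nat.card_coe_set_eq] at this
  have := hnum R.ncard hm2 hmd
  rw [hS, padicValNat.mul Nat.card_pos.ne' Nat.card_pos.ne'] at this
  omega

end Cfsg.Agent.Lib.helper4.GLNormal
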