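import Mathlib
import Cfsg.Agent.Lib.helper4.GLCent
import Cfsg.Agent.Lib.helper4.SpSylowEA

/-!
# The 2-adic valuation of `|GL_k(q)|`, `q` odd
-/

namespace Cfsg.Agent.Lib.helper4.GLNum

open Cfsg.Agent.Lib.helper4.GLCent

universe u

theorem val_prod {ι : Type*} (s : Finset ι) (a : ι → ℕ) (h : ∀ i ∈ s, a i ≠ 0) :
    padicValNat 2 (∏ i ∈ s, a i) = ∑ i ∈ s, padicValNat 2 (a i) := by
  classical
  haveI : Fact (Nat.Prime 2) := ⟨Nat.prime_two⟩
  induction s using Finset.induction_on with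
  | empty => simp
  | insert x s hx ih =>
    rw [Finset.prod_insert hx, Finset.sum_insert hx,
      padicValNat.mul (h x (Finset.mem_insert_self x s))
        (Finset.prod_ne_zero_iff.mpr (fun i hi => h i (Finset.mem_insert_of_mem hi))),
      ih (fun i hi => h i (Finset.mem_insert_of_mem hi))]

/-- `f q j = v_2(q^j - 1)`. -/
def f (q j : ℕ) : ℕ := padicValNat 2 (q ^ j - 1)

theorem g_sum {F : Type u} [Field F] [Fintype F] (hodd : Odd (Fintype.card F)) (k : ℕ) :
    g F k = ∑ i ∈ Finset.range k, f (Fintype.card F) (i + 1) := by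
  haveI : Fact (Nat.Prime 2) := ⟨Nat.prime_two⟩
  have hq1 : 1 < Fintype.card F := Fintype.one_lt_card
  have hnd : ¬ 2 ∣ Fintype.card F := by
    rw [Nat.odd_iff] at hodd
    omega
  unfold g
  rw [Matrix.card_GL_field, Fin.prod_univ_eq_prod_range (fun i => Fintype.card F ^ k - Fintype.card F ^ i) k]
  have hfac : ∀ i ∈ Finset.range k, Fintype.card F ^ k - Fintype.card F ^ i
      = Fintype.card F ^ i * (Fintype.card F ^ (k - i) - 1) := by
    intro i hi
    have hik : i < k := Finset.mem_range.mp hi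
    have : Fintype.card F ^ k = Fintype.card F ^ i * Fintype.card F ^ (k - i) := by
      rw [← pow_add]
      congr 1
      omega
    rw [this, Nat.mul_sub, mul_one]
  rw [Finset.prod_congr rfl hfac, val_prod]
  · rw [← Finset.sum_range_reflect (fun j => f (Fintype.card F) (j + 1)) k]
    apply Finset.sum_congr rfl
    intro i hi
    have hik : i < k := Finset.mem_range.mp hi
    have hne : Fintype.card F ^ (k - i) - 1 ≠ 0 := by
      have := Nat.one_lt_pow (n := k - i) (by omega) hq1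
      omega
    have e : k - 1 - i + 1 = k - i := by omega
    rw [padicValNat.mul (pow_ne_zero _ (by omega)) hne, padicValNat.pow,
      padicValNat.eq_zero_of_not_dvd hnd, mul_zero, zero_add, e]
    rfl
  · intro i hi
    have hik : i < k := Finset.mem_range.mp hi
    have hne : Fintype.card F ^ (k - i) - 1 ≠ 0 := by
      have := Nat.one_lt_pow (n := k - i) (by omega) hq1
      omega
    exact mul_ne_zero (pow_ne_zero _ (by omega)) hne

theorem geom (r i : ℕ) : r * ∑ t ∈ Finset.range i, (r + 1) ^ t = (r + 1) ^ i - 1 := by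
  induction i with
  | zero => simp
  | succ i ih =>
    rw [Finset.sum_range_succ, mul_add, ih, pow_succ]
    have h1 : 1 ≤ (r + 1) ^ i := Nat.one_le_pow _ _ (by omega)
    have h2 : (r + 1) ^ i * (r + 1) = r * (r + 1) ^ i + (r + 1) ^ i := by ring
    rw [h2]
    omega

theorem geom_parity (q : ℕ) (hq : Odd q) (i : ℕ) :
    (∑ t ∈ Finset.range i, q ^ t) % 2 = i % 2 := by
  induction i with
  | zero => simp
  | succ i ih =>
    rw [Finset.sum_range_succ]
    have h1 : q ^ i % 2 = 1 := Nat.odd_iff.mp (hq.pow)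
    omega

theorem f_odd (q : ℕ) (hq : Odd q) (hq1 : 1 < q) (i : ℕ) (hi : Odd i) :
    f q i = padicValNat 2 (q - 1) := by
  haveI : Fact (Nat.Prime 2) := ⟨Nat.prime_two⟩
  obtain ⟨r, rfl⟩ : ∃ r, q = r + 1 := ⟨q - 1, by omega⟩
  unfold f
  rw [← geom r i, Nat.add_sub_cancel]
  have hpar := geom_parity (r + 1) hq i
  rw [Nat.odd_iff] at hi
  have hs : ¬ 2 ∣ ∑ t ∈ Finset.range i, (r + 1) ^ t := by omega
  have hs0 : ∑ t ∈ Finset.range i, (r + 1) ^ t ≠ 0 := by
    intro h
    rw [h] at hs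
    exact hs (dvd_zero 2)
  rw [padicValNat.mul (by omega) hs0, padicValNat.eq_zero_of_not_dvd hs, add_zero]

theorem f_even (q : ℕ) (hq : Odd q) (hq1 : 1 < q) (j : ℕ) :
    f q (2 * (j + 1)) = padicValNat 2 (q ^ 2 - 1) + padicValNat 2 (j + 1) :=
  Cfsg.Agent.Lib.helper4.SpSylowEA.v2_lte q hq hq1 j

theorem val_two_mul (j : ℕ) (hj : j ≠ 0) : padicValNat 2 (2 * j) = 1 + padicValNat 2 j := by
  haveI : Fact (Nat.Prime 2) := ⟨Nat.prime_two⟩
  rw [padicValNat.mul (by norm_num) hj, padicValNat_self]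

theorem val_odd (i : ℕ) (hi : Odd i) : padicValNat 2 i = 0 := by
  apply padicValNat.eq_zero_of_not_dvd
  rw [Nat.odd_iff] at hi
  omega

theorem val_fact_succ (k : ℕ) :
    padicValNat 2 (k + 1).factorial = padicValNat 2 (k + 1) + padicValNat 2 k.factorial := by
  haveI : Fact (Nat.Prime 2) := ⟨Nat.prime_two⟩
  rw [Nat.factorial_succ, padicValNat.mul (by omega) (Nat.factorial_ne_zero k)]

theorem val_sq_sub_one (q : ℕ) (hq1 : 1 < q) :
    padicValNat 2 (q ^ 2 - 1) = padicValNat 2 (q + 1) + padicValNat 2 (q - 1) := by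
  haveI : Fact (Nat.Prime 2) := ⟨Nat.prime_two⟩
  have : q ^ 2 - 1 = (q + 1) * (q - 1) := by
    have := Nat.sq_sub_sq q 1
    rw [one_pow] at this
    exact this
  rw [this, padicValNat.mul (by omega) (by omega)]

/-- `q ≡ 1 (mod 4)`. -/
theorem g_formula1 {F : Type u} [Field F] [Fintype F] (hq : Fintype.card F % 4 = 1) (k : ℕ) :
    g F k = k * padicValNat 2 (Fintype.card F - 1) + padicValNat 2 k.factorial := by
  haveI : Fact (Nat.Prime 2) := ⟨Nat.prime_two⟩
  have hodd : Odd (Fintype.card F) := by rw [Nat.odd_iff]; omega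
  have hq1 : 1 < Fintype.card F := Fintype.one_lt_card
  have hplus : padicValNat 2 (Fintype.card F + 1) = 1 := by
    obtain ⟨t, ht⟩ : ∃ t, Fintype.card F + 1 = 2 * (2 * t + 1) :=
      ⟨Fintype.card F / 4, by omega⟩
    rw [ht, val_two_mul _ (by omega), val_odd _ ⟨t, rfl⟩]
  rw [g_sum hodd]
  induction k with
  | zero => simp
  | succ k ih =>
    rw [Finset.sum_range_succ, ih, val_fact_succ]
    rcases Nat.even_or_odd (k + 1) with he | ho
    · obtain ⟨j, hj⟩ := he
      obtain ⟨j', rfl⟩ : ∃ j', k = 2 * j' + 1 := ⟨(k - 1) / 2, by omega⟩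
      rw [show 2 * j' + 1 + 1 = 2 * (j' + 1) by ring, f_even _ hodd hq1, val_sq_sub_one _ hq1,
        hplus, val_two_mul _ (by omega)]
      ring
    · rw [f_odd _ hodd hq1 _ ho, val_odd _ ho]
      ring

/-- `q ≡ 3 (mod 4)`. -/
theorem g_formula3 {F : Type u} [Field F] [Fintype F] (hq : Fintype.card F % 4 = 3) :
    ∃ c, 3 ≤ c ∧ ∀ k : ℕ, g F k = k + padicValNat 2 k.factorial + (c - 2) * (k / 2) := by
  haveI : Fact (Nat.Prime 2) := ⟨Nat.prime_two⟩
  have hodd : Odd (Fintype.card F) := by rw [Nat.odd_iff]; omega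
  have hq1 : 1 < Fintype.card F := Fintype.one_lt_card
  have hminus : padicValNat 2 (Fintype.card F - 1) = 1 := by
    obtain ⟨t, ht⟩ : ∃ t, Fintype.card F - 1 = 2 * (2 * t + 1) :=
      ⟨Fintype.card F / 4, by omega⟩
    rw [ht, val_two_mul _ (by omega), val_odd _ ⟨t, rfl⟩]
  have hplus : 2 ≤ padicValNat 2 (Fintype.card F + 1) := by
    apply (padicValNat_dvd_iff_le (by omega)).mp
    exact ⟨(Fintype.card F + 1) / 4, by omega⟩
  refine ⟨padicValNat 2 (Fintype.card F ^ 2 - 1), ?_, ?_⟩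
  · rw [val_sq_sub_one _ hq1, hminus]
    omega
  · intro k
    have hc3 : 3 ≤ padicValNat 2 (Fintype.card F ^ 2 - 1) := by
      rw [val_sq_sub_one _ hq1, hminus]
      omega
    obtain ⟨c', hc'⟩ : ∃ c', padicValNat 2 (Fintype.card F ^ 2 - 1) = c' + 2 :=
      ⟨padicValNat 2 (Fintype.card F ^ 2 - 1) - 2, by omega⟩
    rw [g_sum hodd, hc', Nat.add_sub_cancel]
    induction k with
    | zero => simp
    | succ k ih =>
      rw [Finset.sum_range_succ, ih, val_fact_succ]
      rcases Nat.even_or_odd (k + 1) with he | ho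
      · obtain ⟨j, hj⟩ := he
        obtain ⟨j', rfl⟩ : ∃ j', k = 2 * j' + 1 := ⟨(k - 1) / 2, by omega⟩
        have e1 : (2 * j' + 1 + 1) / 2 = j' + 1 := by omega
        have e2 : (2 * j' + 1) / 2 = j' := by omega
        rw [e1, e2, show 2 * j' + 1 + 1 = 2 * (j' + 1) by ring, f_even _ hodd hq1, hc',
          val_two_mul _ (by omega)]
        ring
      · have hk2 : (k + 1) / 2 = k / 2 := by
          rw [Nat.odd_iff] at ho
          omega
        rw [hk2, f_odd _ hodd hq1 _ ho, hminus, val_odd _ ho]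
        ring

theorem val_fact_add (a b : ℕ) :
    padicValNat 2 a.factorial + padicValNat 2 b.factorial ≤ padicValNat 2 (a + b).factorial := by
  haveI : Fact (Nat.Prime 2) := ⟨Nat.prime_two⟩
  have h1 : a.factorial * b.factorial ∣ (a + b).factorial :=
    Nat.factorial_mul_factorial_dvd_factorial_add a b
  have h2 : 2 ^ padicValNat 2 (a.factorial * b.factorial) ∣ (a + b).factorial :=
    dvd_trans pow_padicValNat_dvd h1
  have h3 := (padicValNat_dvd_iff_le (Nat.factorial_ne_zero (a + b))).mp h2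
  rw [padicValNat.mul (Nat.factorial_ne_zero a) (Nat.factorial_ne_zero b)] at h3
  exact h3

/-- The numeric contradiction for `q ≡ 3 (mod 4)`. -/
theorem num3 {F : Type u} [Field F] [Fintype F] (hq : Fintype.card F % 4 = 3) (n m : ℕ)
    (hm : 2 ≤ m) (hmn : m ≤ n) :
    m * g F 1 + g F (n - m) + padicValNat 2 m.factorial < g F n := by
  obtain ⟨c, hc, hg⟩ := g_formula3 hq
  obtain ⟨c', rfl⟩ : ∃ c', c = c' + 3 := ⟨c - 3, by omega⟩
  rw [hg 1, hg (n - m), hg n]
  have h1 : padicValNat 2 (Nat.factorial 1) = 0 := by simp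
  rw [h1]
  have h2 := val_fact_add m (n - m)
  have h3 : m + (n - m) = n := by omega
  rw [h3] at h2
  have h4 : (n - m) / 2 + 1 ≤ n / 2 := by omega
  have h5 : (c' + 3 - 2) * ((n - m) / 2) + (c' + 3 - 2) ≤ (c' + 3 - 2) * (n / 2) := by
    calc (c' + 3 - 2) * ((n - m) / 2) + (c' + 3 - 2)
        = (c' + 3 - 2) * ((n - m) / 2 + 1) := by ring
      _ ≤ (c' + 3 - 2) * (n / 2) := Nat.mul_le_mul_left _ h4
  have h6 : (c' + 3 - 2) * (1 / 2) = 0 := by simp
  have h7 : 1 ≤ c' + 3 - 2 := by omega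
  rw [h6]
  omega

end Cfsg.Agent.Lib.helper4.GLNum
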