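import Mathlib
import Cfsg.Prelude.Def_Transfer
import Cfsg.Agent.Lib.helper4.GLNormal
import Cfsg.Agent.Lib.helper4.GLNum
import Cfsg.Agent.Lib.helper4.GLWreath

/-!
# Normal elementary abelian 2-subgroups of Sylow 2-subgroups of `GL_n(q)`, `q` odd
-/

namespace Cfsg.Agent.Lib.helper4.GLSylowEA

universe u

open Matrix

open Cfsg.Agent.Lib.helper4

theorem exists_EA_of_K {G : Type*} [Group G] [Finite G] (K E₀ : Subgroup G) (hEK : E₀ ≤ K)
    (hKN : K ≤ Subgroup.normalizer (E₀ : Set G)) (hsq : ∀ a ∈ E₀, a ^ 2 = 1) (c : ℕ)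
    (hcE : Nat.card E₀ = 2 ^ c)
    (hv : padicValNat 2 (Nat.card G) = padicValNat 2 (Nat.card K)) (S : Sylow 2 G) :
    ∃ E : Subgroup ↥(S : Subgroup G), E.Normal ∧ Cfsg.IsElementaryAbelian 2 E ∧
      Nat.card E = 2 ^ c := by
  haveI : Fact (Nat.Prime 2) := ⟨Nat.prime_two⟩
  obtain ⟨P⟩ : Nonempty (Sylow 2 K) := inferInstance
  have hcP : Nat.card ((P : Subgroup K).map K.subtype) = 2 ^ (Nat.card G).factorization 2 := by
    rw [Subgroup.card_map_of_injective K.subtype_injective, P.card_eq_multiplicity,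
      Nat.factorization_def _ Nat.prime_two, Nat.factorization_def _ Nat.prime_two, hv]
  have hS₀N : ((P : Subgroup K).map K.subtype) ≤ Subgroup.normalizer (E₀ : Set G) :=
    (Subgroup.map_subtype_le _).trans hKN
  obtain ⟨S₀, hS₀⟩ : ∃ S₀ : Sylow 2 G, (S₀ : Subgroup G) = (P : Subgroup K).map K.subtype :=
    ⟨Sylow.ofCard _ hcP, rfl⟩
  have hES : E₀ ≤ S₀ := by
    have hp : IsPGroup 2 ↥(((P : Subgroup K).map K.subtype) ⊔ E₀ : Subgroup G) :=
      IsPGroup.to_sup_of_normal_right' (IsPGroup.of_card hcP) (IsPGroup.of_card hcE) hS₀N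
    have hmax := S₀.is_maximal' (Q := ((P : Subgroup K).map K.subtype) ⊔ E₀) hp
      (by rw [hS₀]; exact le_sup_left)
    intro x hx
    have : x ∈ ((P : Subgroup K).map K.subtype) ⊔ E₀ := (le_sup_right : E₀ ≤ _) hx
    rw [hmax] at this
    exact this
  have hSN : (S₀ : Subgroup G) ≤ Subgroup.normalizer (E₀ : Set G) := by rw [hS₀]; exact hS₀N
  obtain ⟨g, hg⟩ := MulAction.exists_smul_eq G S₀ S
  have hmem : ∀ x, x ∈ (S : Subgroup G) ↔ g⁻¹ * x * g ∈ (S₀ : Subgroup G) := by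
    intro x
    rw [← hg, Sylow.coe_subgroup_smul, Subgroup.mem_pointwise_smul_iff_inv_smul_mem,
      MulAut.smul_def, MulAut.conj_inv_apply]
  obtain ⟨E₁, hE₁⟩ : ∃ E₁ : Subgroup G, E₁ = E₀.map (MulAut.conj g).toMonoidHom := ⟨_, rfl⟩
  have hE₁S : E₁ ≤ S := by
    rw [hE₁]
    rintro _ ⟨a, ha, rfl⟩
    rw [hmem]
    have : g⁻¹ * (MulAut.conj g).toMonoidHom a * g = a := by
      show g⁻¹ * (g * a * g⁻¹) * g = a
      group
    rw [this]
    exact hES ha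
  have hSN₁ : (S : Subgroup G) ≤ Subgroup.normalizer (E₁ : Set G) := by
    rw [hE₁]
    apply Cfsg.Agent.Lib.helper4.SpWreath.le_normalizer_of
    rintro x hx _ ⟨a, ha, rfl⟩
    rw [hmem] at hx
    have hs := hSN hx
    have h1 := (Subgroup.mem_normalizer_iff.mp hs a).mp ha
    refine ⟨_, h1, ?_⟩
    show g * ((g⁻¹ * x * g) * a * (g⁻¹ * x * g)⁻¹) * g⁻¹ = x * (g * a * g⁻¹) * x⁻¹
    group
  have hsq₁ : ∀ a ∈ E₁, a ^ 2 = 1 := by
    rw [hE₁]
    rintro _ ⟨a, ha, rfl⟩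
    rw [← map_pow, hsq a ha, map_one]
  have hc₁ : Nat.card E₁ = 2 ^ c := by
    rw [hE₁, Subgroup.card_map_of_injective (MulAut.conj g).injective, hcE]
  refine ⟨E₁.subgroupOf S, (Subgroup.normal_subgroupOf_iff_le_normalizer hE₁S).mpr hSN₁,
      ⟨⟨⟨fun a b => ?_⟩⟩, ?_⟩, ?_⟩
  · apply Subtype.ext
    apply Subtype.ext
    exact SpSylowEA.comm_of_sq E₁ hsq₁ a.1.1 b.1.1 a.2 b.2
  · intro a ha
    apply Subtype.ext
    exact hsq₁ a.1 ha
  · rw [Nat.card_congr (Subgroup.subgroupOfEquivOfLe hE₁S).toEquiv, hc₁]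

theorem upper_aux {F : Type u} [Field F] [Fintype F] (h2 : (2 : F) ≠ 0) (n : ℕ)
    (S : Sylow 2 (GL (Fin n) F)) (E : Subgroup ↥(S : Subgroup (GL (Fin n) F)))
    (hN : E.Normal) (hE : Cfsg.IsElementaryAbelian 2 E) :
    Nat.card E ≤ 2 ^ n ∧ ((∀ m, 2 ≤ m → m ≤ n →
      m * GLCent.g F 1 + GLCent.g F (n - m) + padicValNat 2 m.factorial < GLCent.g F n) →
      Nat.card E ≤ 2 ^ ((n + 1) / 2)) := by
  haveI : Fact (Nat.Prime 2) := ⟨Nat.prime_two⟩
  obtain ⟨φ, hφ⟩ : ∃ φ : GL (Fin n) F →* ((Fin n → F) →ₗ[F] (Fin n → F))ˣ,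
      Function.Injective φ :=
    ⟨Matrix.GeneralLinearGroup.toLin.toMonoidHom, Matrix.GeneralLinearGroup.toLin.injective⟩
  obtain ⟨E', hE'⟩ : ∃ E' : Subgroup ((Fin n → F) →ₗ[F] (Fin n → F))ˣ,
      E' = (E.map (S : Subgroup (GL (Fin n) F)).subtype).map φ := ⟨_, rfl⟩
  obtain ⟨S', hS'⟩ : ∃ S' : Subgroup ((Fin n → F) →ₗ[F] (Fin n → F))ˣ,
      S' = (S : Subgroup (GL (Fin n) F)).map φ := ⟨_, rfl⟩
  have hcE : Nat.card E' = Nat.card E := by
    rw [hE', Subgroup.card_map_of_injective hφ,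
      Subgroup.card_map_of_injective (Subgroup.subtype_injective _)]
  have hcS : padicValNat 2 (Nat.card S') = GLCent.g F n := by
    rw [hS', Subgroup.card_map_of_injective hφ, S.card_eq_multiplicity, padicValNat.prime_pow,
      Nat.factorization_def _ Nat.prime_two]
    rfl
  have hexp : ∀ e ∈ E', e * e = 1 := by
    rw [hE']
    rintro _ ⟨_, ⟨e, he, rfl⟩, rfl⟩
    rw [← map_mul, ← map_mul, ← pow_two, hE.2 e he, map_one, map_one]
  have hcomm : ∀ a ∈ E', ∀ b ∈ E', a * b = b * a := fun a ha b hb =>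
    SpSylowEA.comm_of_sq E' (fun x hx => by rw [pow_two]; exact hexp x hx) a b ha hb
  have hnorm : ∀ s ∈ S', ∀ e ∈ E', s * e * s⁻¹ ∈ E' := by
    rw [hS', hE']
    rintro _ ⟨s, hs, rfl⟩ _ ⟨_, ⟨e, he, rfl⟩, rfl⟩
    have h5 : (S : Subgroup (GL (Fin n) F)).subtype (⟨s, hs⟩ * e * ⟨s, hs⟩⁻¹)
        = s * (S : Subgroup (GL (Fin n) F)).subtype e * s⁻¹ := by
      rw [map_mul, map_mul, map_inv]
      rfl
    refine ⟨_, ⟨_, hN.conj_mem e he ⟨s, hs⟩, rfl⟩, ?_⟩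
    rw [h5, map_mul, map_mul, map_inv]
  have hfr : Module.finrank F (Fin n → F) = n := Module.finrank_fin_fun F
  constructor
  · have := GLNormal.exp2_bound h2 E' hexp hcomm
    rwa [hcE, hfr] at this
  · intro hnum
    have := GLNormal.normal_bound h2 S' E' hnorm hexp hcomm (by rw [hfr, hcS]; exact hnum)
    rwa [hcE, hfr] at this

theorem hv1 {F : Type u} [Field F] [Fintype F] (hq : Fintype.card F % 4 = 1) (n : ℕ)
    (K : Subgroup (GL (Fin n) F))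
    (hcK : Nat.card K = Nat.card (GL (Fin 1) F) ^ n * n.factorial * (Fintype.card F - 1) ^ 0) :
    padicValNat 2 (Nat.card (GL (Fin n) F)) = padicValNat 2 (Nat.card K) := by
  haveI : Fact (Nat.Prime 2) := ⟨Nat.prime_two⟩
  have h1 : padicValNat 2 (Nat.card (GL (Fin n) F)) = GLCent.g F n := rfl
  have h2 : padicValNat 2 (Nat.card (GL (Fin 1) F)) = GLCent.g F 1 := rfl
  rw [hcK, pow_zero, mul_one, padicValNat.mul (pow_ne_zero _ Nat.card_pos.ne')
    (Nat.factorial_ne_zero n), padicValNat.pow, h1, h2, GLNum.g_formula1 hq n,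
    GLNum.g_formula1 hq 1]
  simp

theorem hv3 {F : Type u} [Field F] [Fintype F] (hq : Fintype.card F % 4 = 3) (n : ℕ)
    (K : Subgroup (GL (Fin n) F))
    (hcK : Nat.card K = Nat.card (GL (Fin 2) F) ^ (n / 2) * (n / 2).factorial
      * (Fintype.card F - 1) ^ (n % 2)) :
    padicValNat 2 (Nat.card (GL (Fin n) F)) = padicValNat 2 (Nat.card K) := by
  haveI : Fact (Nat.Prime 2) := ⟨Nat.prime_two⟩
  have h1 : padicValNat 2 (Nat.card (GL (Fin n) F)) = GLCent.g F n := rfl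
  have h2 : padicValNat 2 (Nat.card (GL (Fin 2) F)) = GLCent.g F 2 := rfl
  have hq1 : 1 < Fintype.card F := Fintype.one_lt_card
  have hminus : padicValNat 2 (Fintype.card F - 1) = 1 := by
    obtain ⟨t, ht⟩ : ∃ t, Fintype.card F - 1 = 2 * (2 * t + 1) :=
      ⟨Fintype.card F / 4, by omega⟩
    rw [ht, GLNum.val_two_mul _ (by omega), GLNum.val_odd _ ⟨t, rfl⟩]
  obtain ⟨c, hc, hg⟩ := GLNum.g_formula3 hq
  have hfact : padicValNat 2 n.factorial = padicValNat 2 (n / 2).factorial + n / 2 := by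
    rcases Nat.mod_two_eq_zero_or_one n with h | h
    · have e : n = 2 * (n / 2) := by omega
      conv_lhs => rw [e]
      exact padicValNat_factorial_mul (n / 2)
    · have e : n = 2 * (n / 2) + 1 := by omega
      conv_lhs => rw [e]
      rw [GLNum.val_fact_succ, GLNum.val_odd _ ⟨n / 2, rfl⟩, zero_add]
      exact padicValNat_factorial_mul (n / 2)
  rw [hcK, padicValNat.mul (mul_ne_zero (pow_ne_zero _ Nat.card_pos.ne')
    (Nat.factorial_ne_zero _)) (pow_ne_zero _ (by omega)),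
    padicValNat.mul (pow_ne_zero _ Nat.card_pos.ne') (Nat.factorial_ne_zero _),
    padicValNat.pow, padicValNat.pow, h1, h2, hminus, hg n, hg 2, hfact]
  have e2 : padicValNat 2 (Nat.factorial 2) = 1 := by
    rw [show Nat.factorial 2 = 2 from rfl]
    exact padicValNat_self
  rw [e2]
  obtain ⟨c', rfl⟩ : ∃ c', c = c' + 2 := ⟨c - 2, by omega⟩
  rw [Nat.add_sub_cancel]
  have e3 : (2 : ℕ) / 2 = 1 := rfl
  rw [e3]
  have e4 : n = 2 * (n / 2) + n % 2 := by omega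
  have e5 : n / 2 * (2 + 1 + c' * 1) = 3 * (n / 2) + c' * (n / 2) := by ring
  rw [e5]
  omega

/-- The normal 2-rank of a Sylow 2-subgroup of `GL_n(q)`, `q` odd. -/
theorem gl_sylow_EA {F : Type u} [Field F] [Fintype F] (hodd : Odd (Fintype.card F)) (n : ℕ)
    (S : Sylow 2 (GL (Fin n) F)) :
    (Fintype.card F % 4 = 1 →
      ((∃ E : Subgroup ↥(S : Subgroup (GL (Fin n) F)),
          E.Normal ∧ Cfsg.IsElementaryAbelian 2 E ∧ 2 ^ n ≤ Nat.card ↥E) ∧
        ∀ E : Subgroup ↥(S : Subgroup (GL (Fin n) F)),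
          E.Normal → Cfsg.IsElementaryAbelian 2 E → Nat.card ↥E ≤ 2 ^ n)) ∧
    (Fintype.card F % 4 = 3 →
      ((∃ E : Subgroup ↥(S : Subgroup (GL (Fin n) F)),
          E.Normal ∧ Cfsg.IsElementaryAbelian 2 E ∧ 2 ^ ((n + 1) / 2) ≤ Nat.card ↥E) ∧
        ∀ E : Subgroup ↥(S : Subgroup (GL (Fin n) F)),
          E.Normal → Cfsg.IsElementaryAbelian 2 E → Nat.card ↥E ≤ 2 ^ ((n + 1) / 2))) := by
  have h2 := SpSylowEA.two_ne_zero_of_odd hodd
  refine ⟨fun hq => ⟨?_, ?_⟩, fun hq => ⟨?_, ?_⟩⟩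
  · obtain ⟨K, E₀, hEK, hKN, hsq, hcE, hcK⟩ :=
      GLWreath.exists_KE (F := F) (β := Fin 1) h2 n 0 n (by simp)
    obtain ⟨E, hEn, hEA, hEc⟩ := exists_EA_of_K K E₀ hEK hKN hsq (n + 0) hcE (hv1 hq n K hcK) S
    exact ⟨E, hEn, hEA, by rw [hEc]; simp⟩
  · intro E hEn hEA
    exact (upper_aux h2 n S E hEn hEA).1
  · obtain ⟨K, E₀, hEK, hKN, hsq, hcE, hcK⟩ :=
      GLWreath.exists_KE (F := F) (β := Fin 2) h2 (n / 2) (n % 2) n (by simp; omega)
    obtain ⟨E, hEn, hEA, hEc⟩ := exists_EA_of_K K E₀ hEK hKN hsq (n / 2 + n % 2) hcE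
      (hv3 hq n K hcK) S
    refine ⟨E, hEn, hEA, ?_⟩
    rw [hEc]
    have : (n + 1) / 2 = n / 2 + n % 2 := by omega
    rw [this]
  · intro E hEn hEA
    exact (upper_aux h2 n S E hEn hEA).2 (fun m hm hmn => GLNum.num3 hq n m hm hmn)

end Cfsg.Agent.Lib.helper4.GLSylowEA
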