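import Mathlib
import Cfsg.Agent.Lib.helper4.OrthForms

set_option autoImplicit false

/-!
# Membership in `Ω` in characteristic two via the rank of `g - 1`

`rank_sub_one_add_fix`, `c2_mem_omega_iff_rank`.
-/

namespace Cfsg.Agent.Lib.helper4

open Cfsg.Agent.Lib.helper13

section OrthRank

variable {F : Type*} [Field F] {ι : Type} [Fintype ι] [DecidableEq ι]

lemma rank_sub_one_add_fix (M : Matrix ι ι F) :
    (M - 1).rank + Module.finrank F ↥(fixSub M) = Fintype.card ι := by
  have h1 := LinearMap.finrank_range_add_finrank_ker (Matrix.mulVecLin (M - 1))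
  rw [Module.finrank_fintype_fun_eq_card] at h1
  have h2 : LinearMap.ker (Matrix.mulVecLin (M - 1)) = fixSub M := by
    ext x
    rw [mem_fixSub, LinearMap.mem_ker, Matrix.mulVecLin_apply, Matrix.sub_mulVec,
      Matrix.one_mulVec, sub_eq_zero]
  rw [h2] at h1
  exact h1

/-- in characteristic two an isometry lies in `Ω` iff the rank of `g - 1` is even -/
theorem c2_mem_omega_iff_rank [Fintype F] [CharP F 2]
    (h : Fintype.card F ≠ 2 ∨ Fintype.card ι ≠ 4)
    (Q : QuadraticForm F (ι → F)) (hQ : (QuadraticMap.polarBilin Q).Nondegenerate)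
    (g : ↥(Cfsg.isometryGroup F ⇑Q)) :
    g ∈ Cfsg.Omega F ⇑Q ↔ Even ((mat Q g) - 1).rank := by
  rw [c2_mem_omega_iff h Q hQ g]
  unfold dick
  rw [neg_one_pow_units_eq_one_iff]
  have h1 := rank_sub_one_add_fix (mat Q g)
  constructor
  · intro h2
    obtain ⟨k, hk⟩ := h2
    exact ⟨k - Module.finrank F ↥(fixSub (mat Q g)), by omega⟩
  · intro h2
    obtain ⟨k, hk⟩ := h2
    exact ⟨k + Module.finrank F ↥(fixSub (mat Q g)), by omega⟩

end OrthRank

end Cfsg.Agent.Lib.helper4
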