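import Mathlib
import Cfsg.Agent.Lib.helper4.OrthCenter
import Cfsg.Agent.Lib.helper4.OrthIdx
import Cfsg.Agent.S2616

set_option autoImplicit false

/-!
# General Siegel transformations and generation of `Ω`

`sigEl Q e u` is the Siegel transformation `x ↦ x + B(e,x) u - (B(u,x) + Q(u) B(e,x)) e`
(`e` singular, `u ⟂ e`).  `SigGrp Q` is the subgroup generated by the `sigEl Q e u` with `u`
non-singular; `omega_eq_SigGrp` shows that it is `Ω` (any characteristic, dimension `≥ 5`).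
-/

namespace Cfsg.Agent.Lib.helper4

open Cfsg.Agent.Lib.helper13

section OrthSig

variable {F : Type*} [Field F] {ι : Type} [Fintype ι] [DecidableEq ι]

/-- the Siegel transformation `x ↦ x + B(e,x) u - (B(u,x) + Q(u) B(e,x)) e` as a linear map -/
noncomputable def sigLin (Q : QuadraticForm F (ι → F)) (e u : ι → F) : (ι → F) →ₗ[F] (ι → F) :=
  LinearMap.id + (QuadraticMap.polarBilin Q e).smulRight u
    - (QuadraticMap.polarBilin Q u + Q u • QuadraticMap.polarBilin Q e).smulRight e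

lemma sigLin_apply (Q : QuadraticForm F (ι → F)) (e u x : ι → F) :
    sigLin Q e u x = x + QuadraticMap.polar (⇑Q) e x • u
      - (QuadraticMap.polar (⇑Q) u x + Q u * QuadraticMap.polar (⇑Q) e x) • e := by
  simp [sigLin]

/-- the matrix of the Siegel transformation -/
noncomputable def sigMat (Q : QuadraticForm F (ι → F)) (e u : ι → F) : Matrix ι ι F :=
  LinearMap.toMatrix' (sigLin Q e u)

lemma sigMat_mulVec (Q : QuadraticForm F (ι → F)) (e u x : ι → F) :
    (sigMat Q e u).mulVec x = x + QuadraticMap.polar (⇑Q) e x • u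
      - (QuadraticMap.polar (⇑Q) u x + Q u * QuadraticMap.polar (⇑Q) e x) • e := by
  rw [← sigLin_apply, sigMat, ← Matrix.toLin'_apply, Matrix.toLin'_toMatrix']

lemma sigMat_pres (Q : QuadraticForm F (ι → F)) (e u : ι → F) (hQe : Q e = 0)
    (heu : QuadraticMap.polar (⇑Q) e u = 0) (x : ι → F) :
    Q ((sigMat Q e u).mulVec x) = Q x := by
  rw [sigMat_mulVec, Q_sub, Q_add, QuadraticMap.map_smul, QuadraticMap.map_smul, hQe]
  simp only [QuadraticMap.polar_add_left, QuadraticMap.polar_smul_left,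
    QuadraticMap.polar_smul_right, smul_eq_mul, QuadraticMap.polar_comm (⇑Q) x e,
    QuadraticMap.polar_comm (⇑Q) x u, QuadraticMap.polar_comm (⇑Q) u e, heu]
  ring

lemma sigMat_mul (Q : QuadraticForm F (ι → F)) (e u v : ι → F) (hQe : Q e = 0)
    (heu : QuadraticMap.polar (⇑Q) e u = 0) (hev : QuadraticMap.polar (⇑Q) e v = 0) :
    sigMat Q e u * sigMat Q e v = sigMat Q e (u + v) := by
  have hee : QuadraticMap.polar (⇑Q) e e = 0 := by rw [polar_self_eq, hQe, mul_zero]
  apply Matrix.mulVec_injective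
  funext x
  rw [← Matrix.mulVec_mulVec, sigMat_mulVec, sigMat_mulVec, sigMat_mulVec, Q_add]
  simp only [QuadraticMap.polar_add_left, QuadraticMap.polar_add_right,
    QuadraticMap.polar_sub_right, QuadraticMap.polar_smul_right, smul_eq_mul, hee, heu, hev,
    QuadraticMap.polar_comm (⇑Q) u e, mul_zero, add_zero, sub_zero]
  module

lemma sigMat_zero (Q : QuadraticForm F (ι → F)) (e : ι → F) : sigMat Q e 0 = 1 := by
  apply Matrix.mulVec_injective
  funext x
  rw [sigMat_mulVec, Matrix.one_mulVec]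
  simp

open Classical in
/-- the Siegel transformation as an element of the isometry group (the identity unless `e` is
singular and `u ⟂ e`) -/
noncomputable def sigEl (Q : QuadraticForm F (ι → F)) (e u : ι → F) :
    ↥(Cfsg.isometryGroup F ⇑Q) :=
  if h : Q e = 0 ∧ QuadraticMap.polar (⇑Q) e u = 0 then
    ⟨⟨sigMat Q e u, sigMat Q e (-u), by
        rw [sigMat_mul Q e u (-u) h.1 h.2 (by rw [QuadraticMap.polar_neg_right, h.2, neg_zero]),
          add_neg_cancel, sigMat_zero], by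
        rw [sigMat_mul Q e (-u) u h.1 (by rw [QuadraticMap.polar_neg_right, h.2, neg_zero]) h.2,
          neg_add_cancel, sigMat_zero]⟩,
      fun x _ => sigMat_pres Q e u h.1 h.2 x⟩
  else 1

lemma sigEl_coe (Q : QuadraticForm F (ι → F)) (e u : ι → F) (hQe : Q e = 0)
    (heu : QuadraticMap.polar (⇑Q) e u = 0) :
    ((sigEl Q e u : Matrix.GeneralLinearGroup ι F) : Matrix ι ι F) = sigMat Q e u := by
  unfold sigEl
  rw [dif_pos ⟨hQe, heu⟩]

lemma sigEl_mulVec (Q : QuadraticForm F (ι → F)) (e u : ι → F) (hQe : Q e = 0)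
    (heu : QuadraticMap.polar (⇑Q) e u = 0) (x : ι → F) :
    (mat Q (sigEl Q e u)).mulVec x = x + QuadraticMap.polar (⇑Q) e x • u
      - (QuadraticMap.polar (⇑Q) u x + Q u * QuadraticMap.polar (⇑Q) e x) • e := by
  show (((sigEl Q e u : Matrix.GeneralLinearGroup ι F) : Matrix ι ι F)).mulVec x = _
  rw [sigEl_coe Q e u hQe heu, sigMat_mulVec]

lemma sig_mul (Q : QuadraticForm F (ι → F)) (e u v : ι → F) (hQe : Q e = 0)
    (heu : QuadraticMap.polar (⇑Q) e u = 0) (hev : QuadraticMap.polar (⇑Q) e v = 0) :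
    sigEl Q e u * sigEl Q e v = sigEl Q e (u + v) := by
  apply isom_ext
  rw [isom_coe_mul, sigEl_coe Q e u hQe heu, sigEl_coe Q e v hQe hev,
    sigEl_coe Q e (u + v) hQe (by rw [QuadraticMap.polar_add_right, heu, hev, add_zero]),
    sigMat_mul Q e u v hQe heu hev]

lemma sig_zero_right (Q : QuadraticForm F (ι → F)) (e : ι → F) (hQe : Q e = 0) :
    sigEl Q e 0 = 1 := by
  apply isom_ext
  rw [sigEl_coe Q e 0 hQe (QuadraticMap.polar_zero_right Q e), sigMat_zero]
  rfl

lemma sig_zero_left (Q : QuadraticForm F (ι → F)) (u : ι → F) : sigEl Q 0 u = 1 := by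
  apply isom_ext
  rw [sigEl_coe Q 0 u (map_zero Q) (QuadraticMap.polar_zero_left Q u)]
  apply Matrix.mulVec_injective
  funext x
  rw [sigMat_mulVec]
  show _ = (1 : Matrix ι ι F).mulVec x
  rw [Matrix.one_mulVec]
  simp

lemma sig_inv (Q : QuadraticForm F (ι → F)) (e u : ι → F) (hQe : Q e = 0)
    (heu : QuadraticMap.polar (⇑Q) e u = 0) : (sigEl Q e u)⁻¹ = sigEl Q e (-u) := by
  rw [inv_eq_iff_mul_eq_one,
    sig_mul Q e u (-u) hQe heu (by rw [QuadraticMap.polar_neg_right, heu, neg_zero]),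
    add_neg_cancel, sig_zero_right Q e hQe]

lemma sig_conj (Q : QuadraticForm F (ι → F)) (h : ↥(Cfsg.isometryGroup F ⇑Q)) (e u : ι → F)
    (hQe : Q e = 0) (heu : QuadraticMap.polar (⇑Q) e u = 0) :
    h * sigEl Q e u * h⁻¹ = sigEl Q ((mat Q h).mulVec e) ((mat Q h).mulVec u) := by
  have hQe' : Q ((mat Q h).mulVec e) = 0 := by rw [isom_pres]; exact hQe
  have heu' : QuadraticMap.polar (⇑Q) ((mat Q h).mulVec e) ((mat Q h).mulVec u) = 0 := by
    rw [isom_polar]; exact heu
  rw [mul_inv_eq_iff_eq_mul]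
  apply isom_ext
  rw [isom_coe_mul, isom_coe_mul, sigEl_coe Q e u hQe heu, sigEl_coe Q _ _ hQe' heu']
  apply Matrix.mulVec_injective
  funext x
  rw [← Matrix.mulVec_mulVec, ← Matrix.mulVec_mulVec, sigMat_mulVec, sigMat_mulVec, isom_polar,
    isom_polar, isom_pres, Matrix.mulVec_sub, Matrix.mulVec_add, Matrix.mulVec_smul,
    Matrix.mulVec_smul]

lemma sig_smul (Q : QuadraticForm F (ι → F)) (e u : ι → F) (c : F) (hQe : Q e = 0)
    (heu : QuadraticMap.polar (⇑Q) e u = 0) : sigEl Q (c • e) u = sigEl Q e (c • u) := by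
  apply isom_ext
  rw [sigEl_coe Q (c • e) u (by rw [QuadraticMap.map_smul, hQe, smul_zero])
      (by rw [QuadraticMap.polar_smul_left, heu, smul_zero]),
    sigEl_coe Q e (c • u) hQe (by rw [QuadraticMap.polar_smul_right, heu, smul_zero])]
  apply Matrix.mulVec_injective
  funext x
  rw [sigMat_mulVec, sigMat_mulVec]
  simp only [QuadraticMap.polar_smul_left, QuadraticMap.map_smul, smul_eq_mul]
  module

lemma sig_fix (Q : QuadraticForm F (ι → F)) (e u : ι → F) (hQe : Q e = 0)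
    (heu : QuadraticMap.polar (⇑Q) e u = 0) : (mat Q (sigEl Q e u)).mulVec e = e := by
  have hee : QuadraticMap.polar (⇑Q) e e = 0 := by rw [polar_self_eq, hQe, mul_zero]
  rw [sigEl_mulVec Q e u hQe heu, hee, QuadraticMap.polar_comm (⇑Q) u e, heu]
  simp

/-- the product of the reflections in `w` and `w + e` is a Siegel transformation -/
lemma sig_pair (Q : QuadraticForm F (ι → F)) (e w : ι → F) (hQe : Q e = 0)
    (hwe : QuadraticMap.polar (⇑Q) w e = 0) (hw : Q w ≠ 0) :
    reflEl Q w * reflEl Q (w + e) = sigEl Q e ((Q w)⁻¹ • w) := by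
  have hew : QuadraticMap.polar (⇑Q) e w = 0 := by rw [QuadraticMap.polar_comm, hwe]
  apply isom_ext
  rw [sigEl_coe Q e _ hQe (by rw [QuadraticMap.polar_smul_right, hew, smul_zero])]
  apply Matrix.mulVec_injective
  funext x
  rw [siegel_pair_mulVec Q e w hQe hwe hw x, sigMat_mulVec]
  have h : (Q w)⁻¹ * (Q w)⁻¹ * Q w = (Q w)⁻¹ := by field_simp
  simp only [QuadraticMap.polar_smul_left, QuadraticMap.map_smul, smul_eq_mul, h]
  module

lemma sig_eq_pair (Q : QuadraticForm F (ι → F)) (e u : ι → F) (hQe : Q e = 0)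
    (heu : QuadraticMap.polar (⇑Q) e u = 0) (hu : Q u ≠ 0) :
    sigEl Q e u = reflEl Q ((Q u)⁻¹ • u) * reflEl Q ((Q u)⁻¹ • u + e) := by
  have hw : Q ((Q u)⁻¹ • u) = (Q u)⁻¹ := by
    rw [QuadraticMap.map_smul, smul_eq_mul]
    field_simp
  rw [sig_pair Q e _ hQe (by rw [QuadraticMap.polar_smul_left, QuadraticMap.polar_comm, heu,
    smul_zero]) (by rw [hw]; exact inv_ne_zero hu), hw, inv_inv, smul_smul, mul_inv_cancel₀ hu,
    one_smul]

/-! ### existence lemmas -/

lemma exists_sing_in [Fintype F] (Q : QuadraticForm F (ι → F)) (U : Submodule F (ι → F))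
    (hU : 3 ≤ Module.finrank F ↥U) : ∃ v ∈ U, v ≠ 0 ∧ Q v = 0 := by
  obtain ⟨v, hv0, hQv⟩ := Cfsg.Agent.S2616.exists_singular (Q.comp U.subtype) hU
  exact ⟨v.1, v.2, fun h => hv0 (Subtype.ext h), hQv⟩

lemma exists_perp_pairing (Q : QuadraticForm F (ι → F))
    (hQ : (QuadraticMap.polarBilin Q).Nondegenerate) (K : Submodule F (ι → F)) (w : ι → F)
    (hw : w ∉ K) : ∃ a ∈ orthSub Q K, QuadraticMap.polar (⇑Q) w a ≠ 0 := by
  by_contra hcon
  push Not at hcon
  apply hw
  rw [← orthSub_orthSub Q hQ K, mem_orthSub]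
  intro a ha
  rw [QuadraticMap.polar_comm]
  exact hcon a ha

lemma exists_nonsing_perp (Q : QuadraticForm F (ι → F))
    (hQ : (QuadraticMap.polarBilin Q).Nondegenerate) (K : Submodule F (ι → F))
    (hK : 2 * Module.finrank F ↥K < Fintype.card ι) : ∃ y ∈ orthSub Q K, Q y ≠ 0 := by
  by_contra hcon
  push Not at hcon
  have h1 : orthSub Q K ≤ orthSub Q (orthSub Q K) := ts_le_orthSub Q _ hcon
  rw [orthSub_orthSub Q hQ] at h1
  have h2 := Submodule.finrank_mono h1
  rw [finrank_orthSub Q hQ] at h2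
  omega

lemma mem_orthSub_span (Q : QuadraticForm F (ι → F)) (s : Set (ι → F)) (x : ι → F) :
    x ∈ orthSub Q (Submodule.span F s) ↔ ∀ a ∈ s, QuadraticMap.polar (⇑Q) a x = 0 := by
  rw [mem_orthSub]
  constructor
  · intro h a ha
    exact h a (Submodule.subset_span ha)
  · intro h y hy
    induction hy using Submodule.span_induction with
    | mem a ha => exact h a ha
    | zero => exact QuadraticMap.polar_zero_left Q x
    | add a b _ _ iha ihb => rw [QuadraticMap.polar_add_left, iha, ihb, add_zero]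
    | smul c a _ iha => rw [QuadraticMap.polar_smul_left, iha, smul_zero]

omit [Fintype ι] [DecidableEq ι] in
lemma finrank_span_single_le (a : ι → F) :
    Module.finrank F ↥(Submodule.span F {a}) ≤ 1 := by
  classical
  have h3 := finrank_span_finset_le_card (R := F) ({a} : Finset (ι → F))
  rw [Finset.coe_singleton, Finset.card_singleton] at h3
  exact h3

omit [Fintype ι] [DecidableEq ι] in
lemma finrank_span_pair_le (a b : ι → F) :
    Module.finrank F ↥(Submodule.span F {a, b}) ≤ 2 := by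
  classical
  have h3 := finrank_span_finset_le_card (R := F) ({a, b} : Finset (ι → F))
  rw [Finset.coe_pair] at h3
  exact h3.trans Finset.card_le_two

omit [Fintype ι] [DecidableEq ι] in
lemma finrank_span_triple_le (a b c : ι → F) :
    Module.finrank F ↥(Submodule.span F {a, b, c}) ≤ 3 := by
  classical
  have h3 := finrank_span_finset_le_card (R := F) ({a, b, c} : Finset (ι → F))
  rw [Finset.coe_insert, Finset.coe_pair] at h3
  exact h3.trans Finset.card_le_three

/-- a singular vector orthogonal to the non-singular `x` but not to `x'` -/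
lemma exists_sing_perp_pair [Fintype F] (hn : 4 ≤ Fintype.card ι) (Q : QuadraticForm F (ι → F))
    (hQ : (QuadraticMap.polarBilin Q).Nondegenerate) (x x' : ι → F) (hx : Q x ≠ 0)
    (hx' : x' ∉ Submodule.span F {x}) :
    ∃ r, Q r = 0 ∧ QuadraticMap.polar (⇑Q) x r = 0 ∧ QuadraticMap.polar (⇑Q) x' r ≠ 0 := by
  have hdim : 3 ≤ Module.finrank F ↥(orthSub Q (Submodule.span F {x})) := by
    rw [finrank_orthSub Q hQ]
    have := finrank_span_single_le (F := F) x
    omega
  obtain ⟨s₁, hs₁U, hs₁0, hQs₁⟩ := exists_sing_in Q _ hdim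
  have hxs₁ : QuadraticMap.polar (⇑Q) x s₁ = 0 := (mem_orthSub_span Q _ s₁).mp hs₁U x rfl
  by_cases h1 : QuadraticMap.polar (⇑Q) x' s₁ = 0
  swap
  · exact ⟨s₁, hQs₁, hxs₁, h1⟩
  have hs₁K : s₁ ∉ Submodule.span F {x} := by
    intro h
    obtain ⟨c, rfl⟩ := Submodule.mem_span_singleton.mp h
    rw [QuadraticMap.map_smul, smul_eq_mul] at hQs₁
    rcases mul_eq_zero.mp hQs₁ with h | h
    · have hc : c = 0 := mul_self_eq_zero.mp h
      exact hs₁0 (by rw [hc, zero_smul])
    · exact hx h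
  obtain ⟨a, haU, ha⟩ := exists_perp_pairing Q hQ _ s₁ hs₁K
  have hxa : QuadraticMap.polar (⇑Q) x a = 0 := (mem_orthSub_span Q _ a).mp haU x rfl
  obtain ⟨a₁, ha₁⟩ : ∃ a₁, a₁ = (QuadraticMap.polar (⇑Q) s₁ a)⁻¹ • a := ⟨_, rfl⟩
  have hs₁a₁ : QuadraticMap.polar (⇑Q) s₁ a₁ = 1 := by
    rw [ha₁, QuadraticMap.polar_smul_right, smul_eq_mul, inv_mul_cancel₀ ha]
  have hxa₁ : QuadraticMap.polar (⇑Q) x a₁ = 0 := by
    rw [ha₁, QuadraticMap.polar_smul_right, hxa, smul_zero]
  obtain ⟨s₂, hs₂⟩ : ∃ s₂, s₂ = a₁ - Q a₁ • s₁ := ⟨_, rfl⟩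
  have hQs₂ : Q s₂ = 0 := by
    rw [hs₂, Q_sub, QuadraticMap.map_smul, hQs₁, QuadraticMap.polar_smul_right,
      QuadraticMap.polar_comm (⇑Q) a₁ s₁, hs₁a₁]
    simp only [smul_eq_mul]
    ring
  have hs₁s₂ : QuadraticMap.polar (⇑Q) s₁ s₂ = 1 := by
    rw [hs₂, QuadraticMap.polar_sub_right, QuadraticMap.polar_smul_right, polar_self_eq, hQs₁,
      hs₁a₁]
    simp
  have hxs₂ : QuadraticMap.polar (⇑Q) x s₂ = 0 := by
    rw [hs₂, QuadraticMap.polar_sub_right, QuadraticMap.polar_smul_right, hxa₁, hxs₁]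
    simp
  by_cases h2 : QuadraticMap.polar (⇑Q) x' s₂ = 0
  swap
  · exact ⟨s₂, hQs₂, hxs₂, h2⟩
  obtain ⟨v, hvU, hv⟩ := exists_perp_pairing Q hQ _ x' hx'
  have hxv : QuadraticMap.polar (⇑Q) x v = 0 := (mem_orthSub_span Q _ v).mp hvU x rfl
  obtain ⟨v', hv'⟩ : ∃ v', v' = v - QuadraticMap.polar (⇑Q) v s₂ • s₁
      - QuadraticMap.polar (⇑Q) v s₁ • s₂ := ⟨_, rfl⟩
  have hv's₁ : QuadraticMap.polar (⇑Q) v' s₁ = 0 := by
    rw [hv', QuadraticMap.polar_sub_left, QuadraticMap.polar_sub_left,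
      QuadraticMap.polar_smul_left, QuadraticMap.polar_smul_left, polar_self_eq, hQs₁,
      QuadraticMap.polar_comm (⇑Q) s₂ s₁, hs₁s₂]
    simp
  have hv's₂ : QuadraticMap.polar (⇑Q) v' s₂ = 0 := by
    rw [hv', QuadraticMap.polar_sub_left, QuadraticMap.polar_sub_left,
      QuadraticMap.polar_smul_left, QuadraticMap.polar_smul_left, polar_self_eq, hQs₂, hs₁s₂]
    simp
  have hxv' : QuadraticMap.polar (⇑Q) x v' = 0 := by
    rw [hv', QuadraticMap.polar_sub_right, QuadraticMap.polar_sub_right,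
      QuadraticMap.polar_smul_right, QuadraticMap.polar_smul_right, hxv, hxs₁, hxs₂]
    simp
  have hx'v' : QuadraticMap.polar (⇑Q) x' v' = QuadraticMap.polar (⇑Q) x' v := by
    rw [hv', QuadraticMap.polar_sub_right, QuadraticMap.polar_sub_right,
      QuadraticMap.polar_smul_right, QuadraticMap.polar_smul_right, h1, h2]
    simp
  refine ⟨v' + s₁ - Q v' • s₂, ?_, ?_, ?_⟩
  · rw [Q_sub, Q_add, QuadraticMap.map_smul, hQs₁, hQs₂, hv's₁, QuadraticMap.polar_smul_right,
      QuadraticMap.polar_add_left, hv's₂, hs₁s₂]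
    simp
  · rw [QuadraticMap.polar_sub_right, QuadraticMap.polar_add_right,
      QuadraticMap.polar_smul_right, hxv', hxs₁, hxs₂]
    simp
  · rw [QuadraticMap.polar_sub_right, QuadraticMap.polar_add_right,
      QuadraticMap.polar_smul_right, hx'v', h1, h2]
    simpa using hv

/-! ### the group generated by the Siegel transformations -/

/-- the Siegel transformations with non-singular parameter -/
def SigGen (Q : QuadraticForm F (ι → F)) : Set ↥(Cfsg.isometryGroup F ⇑Q) :=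
  {g | ∃ e u : ι → F, Q e = 0 ∧ QuadraticMap.polar (⇑Q) e u = 0 ∧ Q u ≠ 0 ∧ g = sigEl Q e u}

/-- the subgroup generated by the Siegel transformations -/
def SigGrp (Q : QuadraticForm F (ι → F)) : Subgroup ↥(Cfsg.isometryGroup F ⇑Q) :=
  Subgroup.closure (SigGen Q)

lemma SigGrp_conj (Q : QuadraticForm F (ι → F)) (h g : ↥(Cfsg.isometryGroup F ⇑Q))
    (hg : g ∈ SigGrp Q) : h * g * h⁻¹ ∈ SigGrp Q := by
  unfold SigGrp at hg
  induction hg using Subgroup.closure_induction with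
  | mem x hx =>
    obtain ⟨e, u, hQe, heu, hu, rfl⟩ := hx
    rw [sig_conj Q h e u hQe heu]
    refine Subgroup.subset_closure ⟨_, _, ?_, ?_, ?_, rfl⟩
    · rw [isom_pres]; exact hQe
    · rw [isom_polar]; exact heu
    · rw [isom_pres]; exact hu
  | one =>
    rw [mul_one, mul_inv_cancel]
    exact one_mem _
  | mul x y _ _ ihx ihy =>
    have e : h * (x * y) * h⁻¹ = (h * x * h⁻¹) * (h * y * h⁻¹) := by group
    rw [e]
    exact mul_mem ihx ihy
  | inv x _ ih =>
    have e : h * x⁻¹ * h⁻¹ = (h * x * h⁻¹)⁻¹ := by group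
    rw [e]
    exact inv_mem ih

lemma adj_mem_SigGrp (Q : QuadraticForm F (ι → F)) (x r : ι → F) (hx : Q x ≠ 0) (hr : Q r = 0)
    (hxr : QuadraticMap.polar (⇑Q) x r = 0) : reflEl Q x * reflEl Q (x + r) ∈ SigGrp Q := by
  rw [sig_pair Q r x hr hxr hx]
  refine Subgroup.subset_closure ⟨r, (Q x)⁻¹ • x, hr, ?_, ?_, rfl⟩
  · rw [QuadraticMap.polar_smul_right, QuadraticMap.polar_comm, hxr, smul_zero]
  · rw [QuadraticMap.map_smul]
    exact mul_ne_zero (mul_ne_zero (inv_ne_zero hx) (inv_ne_zero hx)) hx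

/-- reflections in vectors of the same norm are congruent modulo the Siegel group -/
theorem same_norm_mem_SigGrp [Fintype F] (hn : 4 ≤ Fintype.card ι) (Q : QuadraticForm F (ι → F))
    (hQ : (QuadraticMap.polarBilin Q).Nondegenerate) (x x' : ι → F) (hx : Q x ≠ 0)
    (hxx' : Q x' = Q x) : reflEl Q x * reflEl Q x' ∈ SigGrp Q := by
  by_cases hsp : x' ∈ Submodule.span F {x}
  · obtain ⟨c, rfl⟩ := Submodule.mem_span_singleton.mp hsp
    have hc : c ≠ 0 := by
      rintro rfl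
      rw [zero_smul, map_zero] at hxx'
      exact hx hxx'.symm
    rw [reflEl_smul Q x hx c hc, reflEl_mul_self]
    exact one_mem _
  obtain ⟨r₀, hr₀, hxr₀, hx'r₀⟩ := exists_sing_perp_pair hn Q hQ x x' hx hsp
  obtain ⟨κ, hκ⟩ : ∃ κ : F, κ = 2 * Q x - QuadraticMap.polar (⇑Q) x x' := ⟨_, rfl⟩
  obtain ⟨r, hrdef⟩ : ∃ r, r = (κ / QuadraticMap.polar (⇑Q) x' r₀) • r₀ := ⟨_, rfl⟩
  have hr : Q r = 0 := by rw [hrdef, QuadraticMap.map_smul, hr₀, smul_zero]
  have hxr : QuadraticMap.polar (⇑Q) x r = 0 := by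
    rw [hrdef, QuadraticMap.polar_smul_right, hxr₀, smul_zero]
  have hx'r : QuadraticMap.polar (⇑Q) x' r = κ := by
    rw [hrdef, QuadraticMap.polar_smul_right, smul_eq_mul, div_mul_cancel₀ _ hx'r₀]
  have hrx : QuadraticMap.polar (⇑Q) r x = 0 := by
    rw [QuadraticMap.polar_comm]; exact hxr
  have hrx' : QuadraticMap.polar (⇑Q) r x' = κ := by
    rw [QuadraticMap.polar_comm]; exact hx'r
  have hQy : Q (x + r) = Q x := by
    rw [Q_add, hr, hxr]
    ring
  have e1 := adj_mem_SigGrp Q x r hx hr hxr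
  have hr' : Q (x' - (x + r)) = 0 := by
    rw [Q_sub, hQy, hxx', QuadraticMap.polar_add_right, hx'r, QuadraticMap.polar_comm (⇑Q) x' x,
      hκ]
    ring
  have hyr' : QuadraticMap.polar (⇑Q) (x + r) (x' - (x + r)) = 0 := by
    rw [QuadraticMap.polar_sub_right, QuadraticMap.polar_add_left, QuadraticMap.polar_add_left,
      QuadraticMap.polar_add_right, QuadraticMap.polar_add_right, polar_self_eq, polar_self_eq,
      hr, hxr, hrx, hrx', hκ]
    ring
  have e2 := adj_mem_SigGrp Q (x + r) (x' - (x + r)) (by rw [hQy]; exact hx) hr' hyr'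
  have e3 : x + r + (x' - (x + r)) = x' := by abel
  rw [e3] at e2
  have e4 : reflEl Q x * reflEl Q x'
      = (reflEl Q x * reflEl Q (x + r)) * (reflEl Q (x + r) * reflEl Q x') := by
    rw [mul_assoc, ← mul_assoc (reflEl Q (x + r)), reflEl_mul_self, one_mul]
  rw [e4]
  exact mul_mem e1 e2

/-- the Siegel transformations with non-singular parameter lie in `Ω` -/
lemma sig_mem_omega_ns [Fintype F] (h : Fintype.card F ≠ 2 ∨ Fintype.card ι ≠ 4)
    (Q : QuadraticForm F (ι → F)) (hQ : (QuadraticMap.polarBilin Q).Nondegenerate)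
    (e u : ι → F) (hQe : Q e = 0) (heu : QuadraticMap.polar (⇑Q) e u = 0) (hu : Q u ≠ 0) :
    sigEl Q e u ∈ Cfsg.Omega F ⇑Q := by
  rw [sig_eq_pair Q e u hQe heu hu]
  apply siegel_pair_mem h Q hQ e _ hQe
  · rw [QuadraticMap.polar_smul_left, QuadraticMap.polar_comm, heu, smul_zero]
  · rw [QuadraticMap.map_smul]
    exact mul_ne_zero (mul_ne_zero (inv_ne_zero hu) (inv_ne_zero hu)) hu

/-- all Siegel transformations lie in `Ω` -/
lemma sig_mem_omega [Fintype F] (hn : 5 ≤ Fintype.card ι)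
    (Q : QuadraticForm F (ι → F)) (hQ : (QuadraticMap.polarBilin Q).Nondegenerate)
    (e u : ι → F) (hQe : Q e = 0) (heu : QuadraticMap.polar (⇑Q) e u = 0) :
    sigEl Q e u ∈ Cfsg.Omega F ⇑Q := by
  have hh : Fintype.card F ≠ 2 ∨ Fintype.card ι ≠ 4 := Or.inr (by omega)
  by_cases hu : Q u = 0
  swap
  · exact sig_mem_omega_ns hh Q hQ e u hQe heu hu
  obtain ⟨u₁, hu₁K, hQu₁⟩ := exists_nonsing_perp Q hQ (Submodule.span F {e, u}) (by
    have := finrank_span_pair_le (F := F) e u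
    omega)
  rw [mem_orthSub_span] at hu₁K
  have heu₁ : QuadraticMap.polar (⇑Q) e u₁ = 0 := hu₁K e (by simp)
  have huu₁ : QuadraticMap.polar (⇑Q) u u₁ = 0 := hu₁K u (by simp)
  have heu₂ : QuadraticMap.polar (⇑Q) e (u - u₁) = 0 := by
    rw [QuadraticMap.polar_sub_right, heu, heu₁, sub_zero]
  have hQu₂ : Q (u - u₁) ≠ 0 := by
    rw [Q_sub, hu, huu₁, zero_add, sub_zero]
    exact hQu₁
  have e1 : sigEl Q e u = sigEl Q e u₁ * sigEl Q e (u - u₁) := by
    rw [sig_mul Q e u₁ (u - u₁) hQe heu₁ heu₂]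
    congr 1
    abel
  rw [e1]
  exact mul_mem (sig_mem_omega_ns hh Q hQ e u₁ hQe heu₁ hQu₁)
    (sig_mem_omega_ns hh Q hQ e _ hQe heu₂ hQu₂)

lemma SigGrp_le_omega [Fintype F] (h : Fintype.card F ≠ 2 ∨ Fintype.card ι ≠ 4)
    (Q : QuadraticForm F (ι → F)) (hQ : (QuadraticMap.polarBilin Q).Nondegenerate) :
    SigGrp Q ≤ Cfsg.Omega F ⇑Q := by
  unfold SigGrp
  rw [Subgroup.closure_le]
  rintro g ⟨e, u, hQe, heu, hu, rfl⟩
  exact sig_mem_omega_ns h Q hQ e u hQe heu hu

/-- `Ω` is generated by the Siegel transformations (any characteristic) -/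
theorem omega_le_SigGrp [Fintype F] (hn : 5 ≤ Fintype.card ι) (Q : QuadraticForm F (ι → F))
    (hQ : (QuadraticMap.polarBilin Q).Nondegenerate) : Cfsg.Omega F ⇑Q ≤ SigGrp Q := by
  classical
  have hh : Fintype.card F ≠ 2 ∨ Fintype.card ι ≠ 4 := Or.inr (by omega)
  have hnormal : (SigGrp Q).Normal := ⟨fun g hg h => SigGrp_conj Q h g hg⟩
  obtain ⟨π, hπdef⟩ : ∃ π : ↥(Cfsg.isometryGroup F ⇑Q) →* (↥(Cfsg.isometryGroup F ⇑Q) ⧸ SigGrp Q),
      π = QuotientGroup.mk' (SigGrp Q) := ⟨_, rfl⟩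
  have key : ∀ a b : ι → F, Q a ≠ 0 → Q b ≠ 0 →
      π (reflEl Q a) * π (reflEl Q b) = π (reflEl Q b) * π (reflEl Q a) := by
    intro a b ha hb
    rw [← map_mul, ← map_mul, hπdef]
    apply (QuotientGroup.eq).mpr
    have e : (reflEl Q a * reflEl Q b)⁻¹ * (reflEl Q b * reflEl Q a)
        = reflEl Q ((mat Q (reflEl Q b)).mulVec a) * reflEl Q a := by
      rw [← reflEl_conj Q (reflEl Q b) a ha, mul_inv_rev, reflEl_inv, reflEl_inv]
      group
    rw [e]
    exact same_norm_mem_SigGrp (by omega) Q hQ _ a (by rw [isom_pres]; exact ha)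
      (isom_pres Q _ a).symm
  have hA : ∀ a : ι → F, Q a ≠ 0 → ∀ vs : List (ι → F), (∀ v ∈ vs, Q v ≠ 0) →
      π (reflEl Q a) * π ((vs.map (reflEl Q)).prod)
        = π ((vs.map (reflEl Q)).prod) * π (reflEl Q a) := by
    intro a ha vs
    induction vs with
    | nil =>
      intro _
      simp
    | cons v vs ih =>
      intro hvs
      rw [List.map_cons, List.prod_cons, map_mul, ← mul_assoc, key a v ha (hvs v List.mem_cons_self),
        mul_assoc, ih (fun u hu => hvs u (List.mem_cons_of_mem _ hu)), mul_assoc]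
  have hB : ∀ g h : ↥(Cfsg.isometryGroup F ⇑Q), π g * π h = π h * π g := by
    intro g h
    obtain ⟨vs, hvs, rfl⟩ := exists_list_of_mem Q g (cd_all hh Q hQ g)
    obtain ⟨ws, hws, rfl⟩ := exists_list_of_mem Q h (cd_all hh Q hQ h)
    induction vs with
    | nil => simp
    | cons v vs ih =>
      rw [List.map_cons, List.prod_cons, map_mul, mul_assoc,
        ih (fun u hu => hvs u (List.mem_cons_of_mem _ hu)), ← mul_assoc,
        hA v (hvs v List.mem_cons_self) ws hws, mul_assoc]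
  show commutator ↥(Cfsg.isometryGroup F ⇑Q) ≤ SigGrp Q
  rw [commutator_def, Subgroup.commutator_le]
  intro g _ h _
  rw [← QuotientGroup.eq_one_iff (N := SigGrp Q), commutatorElement_def]
  have h1 : π (g * h * g⁻¹ * h⁻¹) = 1 := by
    rw [map_mul, map_mul, map_mul, map_inv, map_inv, hB g h, mul_inv_cancel_right, mul_inv_cancel]
  rw [hπdef] at h1
  exact h1

theorem omega_eq_SigGrp [Fintype F] (hn : 5 ≤ Fintype.card ι) (Q : QuadraticForm F (ι → F))
    (hQ : (QuadraticMap.polarBilin Q).Nondegenerate) : Cfsg.Omega F ⇑Q = SigGrp Q :=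
  le_antisymm (omega_le_SigGrp hn Q hQ) (SigGrp_le_omega (Or.inr (by omega)) Q hQ)

end OrthSig

end Cfsg.Agent.Lib.helper4
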