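import Mathlib
import Cfsg.Agent.Lib.helper4.OrthRank
import Cfsg.Agent.Lib.helper4.OrthSig
import Cfsg.Agent.Lib.helper6.QCount

set_option autoImplicit false

/-!
# Involutions of orthogonal groups in characteristic two: class splitting in `Ω`

`minus_no_maxTS`, `c2_omega_iff_ts_parity`, `invol_range_le_fix`, `invol_fix_finrank`,
`invol_exists_nonsing`, `c2_conj_omega_of_fix`, `conj_range`.
-/

namespace Cfsg.Agent.Lib.helper4

open Cfsg.Agent.Lib.helper13

section OrthInvol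

variable {F : Type*} [Field F] {ι : Type} [Fintype ι] [DecidableEq ι]

/-- the standard minus-type form has no totally singular subspace of half the dimension -/
lemma minus_no_maxTS [Fintype F] (m : ℕ) (hm : 1 ≤ m) (a b : F)
    (hab : ∀ z₁ z₂ : F, z₁ ^ 2 + a * z₁ * z₂ + b * z₂ ^ 2 = 0 → z₁ = 0 ∧ z₂ = 0)
    (U : Submodule F ((Fin (m - 1) ⊕ Fin (m - 1)) ⊕ Fin 2 → F))
    (hU : MaxTS (Cfsg.Agent.S2679.qMg F (m - 1) a b) U) : False := by
  classical
  have hcard : Fintype.card ((Fin (m - 1) ⊕ Fin (m - 1)) ⊕ Fin 2) = 2 * m := by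
    simp only [Fintype.card_sum, Fintype.card_fin]
    omega
  have hUm : Module.finrank F ↥U = m := by
    have := hU.2
    rw [hcard] at this
    omega
  have hV : Module.finrank F ((Fin (m - 1) ⊕ Fin (m - 1)) ⊕ Fin 2 → F) = 2 * m := by
    rw [Module.finrank_fintype_fun_eq_card, hcard]
  have h2 := Cfsg.Agent.S2562.ts_count (Cfsg.Agent.S2679.qMg F (m - 1) a b)
    (nondeg_qMg (m - 1) a b hab) U hU.1 (by rw [hV, hUm])
  have h3 := Cfsg.Agent.Lib.helper6.card_quadMinus_zero (F := F) rfl m hm a b hab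
  have e : {v : (Fin (m - 1) ⊕ Fin (m - 1)) ⊕ Fin 2 → F //
        Cfsg.Agent.S2679.qMg F (m - 1) a b v = 0} ≃
      {v : (Fin (m - 1) ⊕ Fin (m - 1)) ⊕ Fin 2 → F // Cfsg.quadFormMinus (m - 1) F a b v = 0} :=
    Equiv.subtypeEquivRight (fun v => by rw [Cfsg.Agent.S2679.qMg_apply])
  rw [Nat.card_congr e, Module.natCard_eq_pow_finrank (K := F) (V := U), hUm,
    Module.natCard_eq_pow_finrank (K := F) (V := (Fin (m - 1) ⊕ Fin (m - 1)) ⊕ Fin 2 → F),
    hV, h3, Nat.card_eq_fintype_card] at h2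
  obtain ⟨q, hq⟩ : ∃ q, q = Fintype.card F := ⟨_, rfl⟩
  rw [← hq] at h2
  have hq2 : 2 ≤ q := by
    rw [hq]
    exact Fintype.one_lt_card
  obtain ⟨A, hA⟩ : ∃ A, A = q ^ (m - 1) := ⟨_, rfl⟩
  have hA1 : 1 ≤ A := by
    rw [hA]
    exact Nat.one_le_pow _ _ (by omega)
  have e1 : q ^ m = q * A := by
    rw [hA, ← pow_succ']
    congr 1
    omega
  have e2 : q ^ (2 * m - 1) = q * A * A := by
    rw [hA, mul_assoc, ← pow_add, ← pow_succ']
    congr 1
    omega
  have e3 : q ^ (2 * m) = q * A * (q * A) := by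
    rw [← e1, ← pow_add]
    congr 1
    omega
  rw [e1, e2, e3, ← hA] at h2
  have h4 : q * A ≤ q * A * A + A := by
    have h41 : q * A * 1 ≤ q * A * A := Nat.mul_le_mul_left _ hA1
    omega
  obtain ⟨X, hX⟩ : ∃ X, X = q * A * A + A - q * A := ⟨_, rfl⟩
  rw [← hX] at h2
  have h5 : X + q * A = q * A * A + A := by omega
  have h6 : X * q + q * A * q = q * A * A * q + A * q := by
    rw [← add_mul, h5, add_mul]
  have h7 : q * A * 1 = q * A * q := by
    have h71 : X * q + q * A = q * (q * A) + q * A * (q * A) := h2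
    have h72 : q * A * A * q = q * A * (q * A) := by ring
    have h73 : A * q = q * A := by ring
    have h74 : q * (q * A) = q * A * q := by ring
    rw [h72, h73] at h6
    rw [h74] at h71
    omega
  have h8 := Nat.eq_of_mul_eq_mul_left (show 0 < q * A by positivity) h7
  omega

/-- in characteristic two, membership in `Ω` is read off from the intersection with the image of
a maximal totally singular subspace -/
lemma c2_omega_iff_ts_parity [Fintype F] [CharP F 2]
    (h : Fintype.card F ≠ 2 ∨ Fintype.card ι ≠ 4)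
    (Q : QuadraticForm F (ι → F)) (hQ : (QuadraticMap.polarBilin Q).Nondegenerate)
    (U : Submodule F (ι → F)) (hU : MaxTS Q U) (g : ↥(Cfsg.isometryGroup F ⇑Q)) :
    g ∈ Cfsg.Omega F ⇑Q
      ↔ Even (Module.finrank F ↥U + Module.finrank F ↥(U ⊓ imgSub Q g U)) := by
  obtain ⟨vs, hvs, rfl⟩ := exists_list_of_mem Q g (cd_all h Q hQ g)
  rw [c2_mem_omega_iff h Q hQ, dick_list Q hQ vs hvs, neg_one_pow_units_eq_one_iff]
  have h2 := maxTS_parity Q hQ U hU vs hvs
  rw [Nat.even_add] at h2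
  exact h2.symm

/-- for an involution in characteristic two the image of `t - 1` consists of fixed vectors -/
lemma invol_range_le_fix [CharP F 2] (M : Matrix ι ι F) (hM : M * M = 1) :
    LinearMap.range (Matrix.toLin' (M - 1)) ≤ fixSub M := by
  rintro x ⟨z, rfl⟩
  rw [mem_fixSub, Matrix.toLin'_apply, Matrix.sub_mulVec, Matrix.one_mulVec, Matrix.mulVec_sub,
    Matrix.mulVec_mulVec, hM, Matrix.one_mulVec, ← neg_sub, c2_neg]

lemma invol_fix_finrank [CharP F 2] (M : Matrix ι ι F) (hM : M * M = 1) :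
    Fintype.card ι ≤ 2 * Module.finrank F ↥(fixSub M) := by
  have h1 := rank_sub_one_add_fix M
  have h2 := Submodule.finrank_mono (invol_range_le_fix M hM)
  have h3 : (M - 1).rank = Module.finrank F ↥(LinearMap.range (Matrix.toLin' (M - 1))) := rfl
  omega

/-- an involution whose fixed space is not totally singular fixes a non-singular vector -/
lemma ts_of_forall_fix (Q : QuadraticForm F (ι → F))
    (hQ : (QuadraticMap.polarBilin Q).Nondegenerate) [CharP F 2] (M : Matrix ι ι F)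
    (hM : M * M = 1) (hall : ∀ v ∈ fixSub M, Q v = 0) : MaxTS Q (fixSub M) := by
  refine ⟨hall, ?_⟩
  have h1 := invol_fix_finrank M hM
  have h2 := Submodule.finrank_mono (ts_le_orthSub Q _ hall)
  rw [finrank_orthSub Q hQ] at h2
  omega

/-- a conjugating element can be corrected by a reflection in a fixed non-singular vector -/
lemma c2_conj_omega_of_fix [Fintype F] [CharP F 2]
    (h : Fintype.card F ≠ 2 ∨ Fintype.card ι ≠ 4)
    (Q : QuadraticForm F (ι → F)) (hQ : (QuadraticMap.polarBilin Q).Nondegenerate)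
    (t s g : ↥(Cfsg.isometryGroup F ⇑Q)) (hg : g * t * g⁻¹ = s) (v : ι → F)
    (hv : (mat Q t).mulVec v = v) (hQv : Q v ≠ 0) :
    ∃ g' ∈ Cfsg.Omega F ⇑Q, g' * t * g'⁻¹ = s := by
  by_cases hgΩ : g ∈ Cfsg.Omega F ⇑Q
  · exact ⟨g, hgΩ, hg⟩
  have hd : dick Q g = -1 := by
    rcases Int.units_eq_one_or (dick Q g) with h1 | h1
    · exact absurd ((c2_mem_omega_iff h Q hQ g).mpr h1) hgΩ
    · exact h1
  have hcomm : t * reflEl Q v * t⁻¹ = reflEl Q v := by
    rw [reflEl_conj Q t v hQv]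
    congr 1
  refine ⟨g * reflEl Q v, ?_, ?_⟩
  · rw [c2_mem_omega_iff h Q hQ, dick_mul_refl Q hQ g v hQv, hd, neg_neg]
  · have h1 : reflEl Q v * t * (reflEl Q v)⁻¹ = t := by
      have h2 : reflEl Q v * t = t * reflEl Q v := by
        rw [mul_inv_eq_iff_eq_mul] at hcomm
        exact hcomm.symm
      rw [h2, mul_inv_cancel_right]
    rw [mul_inv_rev, ← hg]
    calc g * reflEl Q v * t * ((reflEl Q v)⁻¹ * g⁻¹)
        = g * (reflEl Q v * t * (reflEl Q v)⁻¹) * g⁻¹ := by group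
      _ = g * t * g⁻¹ := by rw [h1]

/-- the image of `s - 1` for a conjugate `s = g t g⁻¹` -/
lemma conj_range (Q : QuadraticForm F (ι → F)) (t s g : ↥(Cfsg.isometryGroup F ⇑Q))
    (hg : g * t * g⁻¹ = s) :
    LinearMap.range (Matrix.toLin' (mat Q s - 1))
      = imgSub Q g (LinearMap.range (Matrix.toLin' (mat Q t - 1))) := by
  have hs : mat Q s = mat Q g * mat Q t * mat Q g⁻¹ := by
    rw [← hg, mat_mul, mat_mul]
  ext x
  rw [mem_imgSub]
  constructor
  · rintro ⟨z, rfl⟩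
    refine ⟨(mat Q t - 1).mulVec ((mat Q g⁻¹).mulVec z), ⟨(mat Q g⁻¹).mulVec z, ?_⟩, ?_⟩
    · rw [Matrix.toLin'_apply]
    · rw [Matrix.toLin'_apply, hs, Matrix.sub_mulVec, Matrix.sub_mulVec, Matrix.one_mulVec,
        Matrix.one_mulVec, Matrix.mulVec_sub, mat_mulVec_inv, Matrix.mulVec_mulVec,
        Matrix.mulVec_mulVec, mul_assoc]
  · rintro ⟨u, ⟨z, rfl⟩, rfl⟩
    refine ⟨(mat Q g).mulVec z, ?_⟩
    rw [Matrix.toLin'_apply, Matrix.toLin'_apply, hs, Matrix.sub_mulVec, Matrix.sub_mulVec,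
      Matrix.one_mulVec, Matrix.one_mulVec, Matrix.mulVec_sub, ← Matrix.mulVec_mulVec,
      ← Matrix.mulVec_mulVec, mat_inv_mulVec, Matrix.mulVec_mulVec]

lemma invol_mat_sq (Q : QuadraticForm F (ι → F)) (t : ↥(Cfsg.isometryGroup F ⇑Q))
    (ht : orderOf t = 2) : mat Q t * mat Q t = 1 := by
  have h1 : t ^ 2 = 1 := by
    rw [← ht]
    exact pow_orderOf_eq_one t
  rw [pow_two] at h1
  rw [← mat_mul, h1, mat_one]

/-- an involution whose fixed space is not a maximal totally singular subspace keeps its class -/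
lemma c2_invol_conj_of_not_ts [Fintype F] [CharP F 2]
    (h : Fintype.card F ≠ 2 ∨ Fintype.card ι ≠ 4)
    (Q : QuadraticForm F (ι → F)) (hQ : (QuadraticMap.polarBilin Q).Nondegenerate)
    (t s : ↥(Cfsg.isometryGroup F ⇑Q)) (ht : orderOf t = 2) (hconj : IsConj t s)
    (hnots : ¬ MaxTS Q (fixSub (mat Q t))) :
    ∃ g' ∈ Cfsg.Omega F ⇑Q, g' * t * g'⁻¹ = s := by
  obtain ⟨g, hg⟩ := isConj_iff.mp hconj
  have hM := invol_mat_sq Q t ht
  by_cases hall : ∀ v ∈ fixSub (mat Q t), Q v = 0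
  · exact absurd (ts_of_forall_fix Q hQ _ hM hall) hnots
  · obtain ⟨v, hv'⟩ := not_forall.mp hall
    obtain ⟨hv, hQv⟩ := Classical.not_imp.mp hv'
    rw [mem_fixSub] at hv
    exact c2_conj_omega_of_fix h Q hQ t s g hg v hv hQv

lemma invol_maxTS_fix_cond [CharP F 2] (Q : QuadraticForm F (ι → F)) (M : Matrix ι ι F)
    (hM : M * M = 1) (hU : MaxTS Q (fixSub M)) (m : ℕ) (hcard : Fintype.card ι = 2 * m) :
    (M - 1).rank = m ∧ ∀ v : ι → F, Q (v + M.mulVec v) = 0 := by
  constructor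
  · have h1 := rank_sub_one_add_fix M
    have h2 := hU.2
    omega
  · intro v
    apply hU.1
    rw [mem_fixSub, Matrix.mulVec_add, Matrix.mulVec_mulVec, hM, Matrix.one_mulVec, add_comm]

lemma invol_cond_maxTS [CharP F 2] (Q : QuadraticForm F (ι → F)) (M : Matrix ι ι F)
    (m : ℕ) (hcard : Fintype.card ι = 2 * m) (hr : (M - 1).rank = m)
    (hv : ∀ v : ι → F, Q (v + M.mulVec v) = 0) :
    MaxTS Q (LinearMap.range (Matrix.toLin' (M - 1))) := by
  constructor
  · rintro x ⟨z, rfl⟩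
    rw [Matrix.toLin'_apply, Matrix.sub_mulVec, Matrix.one_mulVec, sub_eq_add_neg, c2_neg,
      add_comm]
    exact hv z
  · have h3 : (M - 1).rank = Module.finrank F ↥(LinearMap.range (Matrix.toLin' (M - 1))) := rfl
    omega

/-- class splitting of involutions from `O` to `Ω` in characteristic two, dimension `2m` -/
lemma c2_invol_split [Fintype F] [CharP F 2]
    (h : Fintype.card F ≠ 2 ∨ Fintype.card ι ≠ 4)
    (Q : QuadraticForm F (ι → F)) (hQ : (QuadraticMap.polarBilin Q).Nondegenerate)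
    (t s : ↥(Cfsg.isometryGroup F ⇑Q)) (ht : orderOf t = 2)
    (htO : t ∈ Cfsg.Omega F ⇑Q) (hconj : IsConj t s)
    (m : ℕ) (hcard : Fintype.card ι = 2 * m) :
    (¬ ((mat Q t - 1).rank = m ∧ ∀ v : ι → F, Q (v + (mat Q t).mulVec v) = 0) →
      ∃ g ∈ Cfsg.Omega F ⇑Q, g * t * g⁻¹ = s) ∧
    (((mat Q t - 1).rank = m ∧ ∀ v : ι → F, Q (v + (mat Q t).mulVec v) = 0) →
      ((∃ g ∈ Cfsg.Omega F ⇑Q, g * t * g⁻¹ = s) ↔
        Even (Module.finrank F ↥(LinearMap.range (Matrix.toLin' (mat Q t - 1))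
          ⊓ LinearMap.range (Matrix.toLin' (mat Q s - 1)))))) := by
  have hM := invol_mat_sq Q t ht
  constructor
  · intro hC
    apply c2_invol_conj_of_not_ts h Q hQ t s ht hconj
    intro hU
    exact hC (invol_maxTS_fix_cond Q _ hM hU m hcard)
  · rintro ⟨hr, hv⟩
    have hU := invol_cond_maxTS Q _ m hcard hr hv
    have hUm : Module.finrank F ↥(LinearMap.range (Matrix.toLin' (mat Q t - 1))) = m := hr
    have hme : Even m := by
      have := (c2_mem_omega_iff_rank h Q hQ t).mp htO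
      rwa [hr] at this
    have key : ∀ g : ↥(Cfsg.isometryGroup F ⇑Q), g * t * g⁻¹ = s →
        (g ∈ Cfsg.Omega F ⇑Q ↔ Even (Module.finrank F
          ↥(LinearMap.range (Matrix.toLin' (mat Q t - 1))
            ⊓ LinearMap.range (Matrix.toLin' (mat Q s - 1))))) := by
      intro g hg
      rw [c2_omega_iff_ts_parity h Q hQ _ hU g, ← conj_range Q t s g hg, hUm, Nat.even_add]
      exact ⟨fun h1 => h1.mp hme, fun h1 => ⟨fun _ => h1, fun _ => hme⟩⟩
    constructor
    · rintro ⟨g, hgO, hg⟩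
      exact (key g hg).mp hgO
    · intro he
      obtain ⟨g, hg⟩ := isConj_iff.mp hconj
      exact ⟨g, (key g hg).mpr he, hg⟩

end OrthInvol

end Cfsg.Agent.Lib.helper4
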