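import Mathlib
import Cfsg.Agent.Lib.helper4.OrthInvol
import Cfsg.Agent.Lib.helper4.WittExt

set_option autoImplicit false

/-!
# Normal forms of involutions of orthogonal groups in characteristic two

An involution of `O(Q)` (characteristic two) has the shape
`v ↦ v + ∑ y, β(u y, v) • u (σ y)` for a linearly independent, mutually orthogonal family `u`
indexed by a finite type `κ` with an involution `σ`, where `Q (u x) = 1` if `σ x = x` and
`Q (u x) = 0` otherwise (`IsNF`).  Two involutions with normal forms of the same shape `(κ, σ)` are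
conjugate in `O(Q)` by Witt's theorem (`nf_conj`).
-/

namespace Cfsg.Agent.Lib.helper4

open Cfsg.Agent.Lib.helper13

section OrthInvNF

variable {F : Type*} [Field F] {ι : Type} [Fintype ι] [DecidableEq ι]

/-- the value of a quadratic form on a combination of mutually orthogonal vectors -/
lemma Q_sum_orth (Q : QuadraticForm F (ι → F)) {κ : Type*} (s : Finset κ) (c : κ → F)
    (u : κ → ι → F) (horth : ∀ x y, x ≠ y → QuadraticMap.polar (⇑Q) (u x) (u y) = 0) :
    Q (∑ x ∈ s, c x • u x) = ∑ x ∈ s, c x * c x * Q (u x) := by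
  classical
  induction s using Finset.induction_on with
  | empty => simp
  | insert a s ha ih =>
    rw [Finset.sum_insert ha, Finset.sum_insert ha, Q_add, ih, QuadraticMap.map_smul, smul_eq_mul]
    have h1 : QuadraticMap.polar (⇑Q) (c a • u a) (∑ x ∈ s, c x • u x) = 0 := by
      show QuadraticMap.polarBilin Q (c a • u a) (∑ x ∈ s, c x • u x) = 0
      rw [map_sum]
      apply Finset.sum_eq_zero
      intro x hx
      show QuadraticMap.polar (⇑Q) (c a • u a) (c x • u x) = 0
      rw [QuadraticMap.polar_smul_left, QuadraticMap.polar_smul_right,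
        horth a x (fun h => ha (h ▸ hx)), smul_zero, smul_zero]
    rw [h1, add_zero]

/-- a standard family for the shape `σ` -/
def SigStd (Q : QuadraticForm F (ι → F)) {κ : Type} [Fintype κ] [DecidableEq κ] (σ : κ → κ)
    (u : κ → ι → F) : Prop :=
  LinearIndependent F u ∧ (∀ x y, QuadraticMap.polar (⇑Q) (u x) (u y) = 0) ∧
    ∀ x, Q (u x) = if σ x = x then 1 else 0

/-- `t` has a normal form of shape `σ` -/
def IsNF (Q : QuadraticForm F (ι → F)) {κ : Type} [Fintype κ] [DecidableEq κ] (σ : κ → κ)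
    (t : ↥(Cfsg.isometryGroup F ⇑Q)) : Prop :=
  ∃ u : κ → ι → F, SigStd Q σ u ∧
    ∀ v, (mat Q t).mulVec v = v + ∑ y, QuadraticMap.polar (⇑Q) (u y) v • u (σ y)

/-- the linear map of a normal form -/
noncomputable def nfLin (Q : QuadraticForm F (ι → F)) {κ : Type} [Fintype κ] (σ : κ → κ)
    (u : κ → ι → F) : (ι → F) →ₗ[F] (ι → F) :=
  LinearMap.id + ∑ y, (QuadraticMap.polarBilin Q (u y)).smulRight (u (σ y))

lemma nfLin_apply (Q : QuadraticForm F (ι → F)) {κ : Type} [Fintype κ] (σ : κ → κ)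
    (u : κ → ι → F) (v : ι → F) :
    nfLin Q σ u v = v + ∑ y, QuadraticMap.polar (⇑Q) (u y) v • u (σ y) := by
  simp [nfLin, LinearMap.sum_apply]

lemma nfLin_polar (Q : QuadraticForm F (ι → F)) {κ : Type} [Fintype κ] (σ : κ → κ)
    (u : κ → ι → F) (hu : ∀ x y, QuadraticMap.polar (⇑Q) (u x) (u y) = 0) (z : κ) (v : ι → F) :
    QuadraticMap.polar (⇑Q) (u z) (nfLin Q σ u v) = QuadraticMap.polar (⇑Q) (u z) v := by
  rw [nfLin_apply, QuadraticMap.polar_add_right]
  have h1 : QuadraticMap.polar (⇑Q) (u z) (∑ y, QuadraticMap.polar (⇑Q) (u y) v • u (σ y)) = 0 := by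
    show QuadraticMap.polarBilin Q (u z) (∑ y, QuadraticMap.polar (⇑Q) (u y) v • u (σ y)) = 0
    rw [map_sum]
    apply Finset.sum_eq_zero
    intro x _
    show QuadraticMap.polar (⇑Q) (u z) (QuadraticMap.polar (⇑Q) (u x) v • u (σ x)) = 0
    rw [QuadraticMap.polar_smul_right, hu, smul_zero]
  rw [h1, add_zero]

lemma nfLin_nfLin [CharP F 2] (Q : QuadraticForm F (ι → F)) {κ : Type} [Fintype κ] (σ : κ → κ)
    (u : κ → ι → F) (hu : ∀ x y, QuadraticMap.polar (⇑Q) (u x) (u y) = 0) (v : ι → F) :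
    nfLin Q σ u (nfLin Q σ u v) = v := by
  rw [nfLin_apply Q σ u (nfLin Q σ u v)]
  have h1 : ∀ y, QuadraticMap.polar (⇑Q) (u y) (nfLin Q σ u v) = QuadraticMap.polar (⇑Q) (u y) v :=
    fun y => nfLin_polar Q σ u hu y v
  have h2 : ∀ x : ι → F, x + x = 0 := fun x => by
    rw [← two_smul F x, CharTwo.two_eq_zero, zero_smul]
  rw [Finset.sum_congr rfl (fun y _ => by rw [h1 y]), nfLin_apply, add_assoc, h2, add_zero]

lemma nfLin_pres [CharP F 2] (Q : QuadraticForm F (ι → F)) {κ : Type} [Fintype κ]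
    [DecidableEq κ] (σ : κ → κ) (hσ : ∀ x, σ (σ x) = x) (u : κ → ι → F) (hstd : SigStd Q σ u)
    (v : ι → F) : Q (nfLin Q σ u v) = Q v := by
  obtain ⟨-, hu, hQu⟩ := hstd
  rw [nfLin_apply, Q_add,
    Q_sum_orth Q Finset.univ (fun y => QuadraticMap.polar (⇑Q) (u y) v) (fun y => u (σ y))
      (fun x y _ => hu _ _)]
  have h1 : QuadraticMap.polar (⇑Q) v (∑ y, QuadraticMap.polar (⇑Q) (u y) v • u (σ y))
      = ∑ y, QuadraticMap.polar (⇑Q) (u y) v * QuadraticMap.polar (⇑Q) (u (σ y)) v := by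
    show QuadraticMap.polarBilin Q v (∑ y, QuadraticMap.polar (⇑Q) (u y) v • u (σ y)) = _
    rw [map_sum]
    apply Finset.sum_congr rfl
    intro y _
    show QuadraticMap.polar (⇑Q) v (QuadraticMap.polar (⇑Q) (u y) v • u (σ y)) = _
    rw [QuadraticMap.polar_smul_right, smul_eq_mul, QuadraticMap.polar_comm (⇑Q) v (u (σ y))]
  rw [h1, add_assoc, ← Finset.sum_add_distrib]
  have h2 : ∑ y, (QuadraticMap.polar (⇑Q) (u y) v * QuadraticMap.polar (⇑Q) (u y) v * Q (u (σ y))
      + QuadraticMap.polar (⇑Q) (u y) v * QuadraticMap.polar (⇑Q) (u (σ y)) v) = 0 := by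
    apply Finset.sum_ninvolution σ
    · intro a
      by_cases h : σ a = a
      · rw [h, h, hQu, h, if_pos rfl, mul_one]
        have h3 := CharTwo.add_self_eq_zero
          (QuadraticMap.polar (⇑Q) (u a) v * QuadraticMap.polar (⇑Q) (u a) v)
        linear_combination 2 * h3
      · rw [hσ a, hQu (σ a), hQu a, hσ a, if_neg (fun h' => h h'.symm), if_neg h, mul_zero,
          mul_zero, zero_add, zero_add, mul_comm]
        exact CharTwo.add_self_eq_zero _
    · intro a ha h
      apply ha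
      rw [h, hQu, h, if_pos rfl, mul_one]
      exact CharTwo.add_self_eq_zero _
    · intro a
      exact Finset.mem_univ _
    · exact hσ
  rw [h2, add_zero]

/-- an isometry given as a linear map with an inverse is an element of the isometry group -/
lemma exists_isom_of_linear (Q : QuadraticForm F (ι → F)) (g g' : (ι → F) →ₗ[F] (ι → F))
    (h1 : ∀ v, g' (g v) = v) (h2 : ∀ v, g (g' v) = v) (hg : ∀ v, Q (g v) = Q v) :
    ∃ h : ↥(Cfsg.isometryGroup F ⇑Q), ∀ v, (mat Q h).mulVec v = g v := by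
  have e1 : LinearMap.toMatrix' g * LinearMap.toMatrix' g' = 1 := by
    rw [← LinearMap.toMatrix'_comp, ← LinearMap.toMatrix'_id]
    congr 1
    exact LinearMap.ext h2
  have e2 : LinearMap.toMatrix' g' * LinearMap.toMatrix' g = 1 := by
    rw [← LinearMap.toMatrix'_comp, ← LinearMap.toMatrix'_id]
    congr 1
    exact LinearMap.ext h1
  have hmv : ∀ v, (LinearMap.toMatrix' g).mulVec v = g v := by
    intro v
    rw [← Matrix.toLin'_apply, Matrix.toLin'_toMatrix']
  refine ⟨⟨⟨LinearMap.toMatrix' g, LinearMap.toMatrix' g', e1, e2⟩, ?_⟩, hmv⟩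
  intro u _
  show Q ((LinearMap.toMatrix' g).mulVec u) = Q u
  rw [hmv, hg]

/-- existence of an isometry with a given normal form -/
lemma nf_exists [CharP F 2] (Q : QuadraticForm F (ι → F)) {κ : Type} [Fintype κ] [DecidableEq κ]
    (σ : κ → κ) (hσ : ∀ x, σ (σ x) = x) (u : κ → ι → F) (hstd : SigStd Q σ u) :
    ∃ t : ↥(Cfsg.isometryGroup F ⇑Q), IsNF Q σ t := by
  obtain ⟨t, ht⟩ := exists_isom_of_linear Q (nfLin Q σ u) (nfLin Q σ u)
    (nfLin_nfLin Q σ u hstd.2.1) (nfLin_nfLin Q σ u hstd.2.1) (nfLin_pres Q σ hσ u hstd)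
  exact ⟨t, u, hstd, fun v => by rw [ht v, nfLin_apply]⟩

/-- two isometries with normal forms of the same shape are conjugate -/
theorem nf_conj (Q : QuadraticForm F (ι → F)) (hQ : (QuadraticMap.polarBilin Q).Nondegenerate)
    {κ : Type} [Fintype κ] [DecidableEq κ] (σ : κ → κ) (t t' : ↥(Cfsg.isometryGroup F ⇑Q))
    (ht : IsNF Q σ t) (ht' : IsNF Q σ t') : IsConj t t' := by
  obtain ⟨u, ⟨hli, hu, hQu⟩, htf⟩ := ht
  obtain ⟨u', ⟨hli', hu', hQu'⟩, htf'⟩ := ht'
  obtain ⟨b, hb⟩ : ∃ b : Module.Basis κ F ↥(Submodule.span F (Set.range u)),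
      ∀ i, (b i : ι → F) = u i :=
    ⟨Module.Basis.span hli, fun i => congrArg Subtype.val (Module.Basis.span_apply hli i)⟩
  obtain ⟨b', hb'⟩ : ∃ b' : Module.Basis κ F ↥(Submodule.span F (Set.range u')),
      ∀ i, (b' i : ι → F) = u' i :=
    ⟨Module.Basis.span hli', fun i => congrArg Subtype.val (Module.Basis.span_apply hli' i)⟩
  obtain ⟨φ, hφdef⟩ : ∃ φ : ↥(Submodule.span F (Set.range u))
      ≃ₗ[F] ↥(Submodule.span F (Set.range u')), φ = b.equiv b' (Equiv.refl κ) := ⟨_, rfl⟩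
  have hx : ∀ x : ↥(Submodule.span F (Set.range u)),
      (x : ι → F) = ∑ i, b.repr x i • u i := by
    intro x
    conv_lhs => rw [← b.sum_repr x]
    rw [Submodule.coe_sum]
    apply Finset.sum_congr rfl
    intro i _
    rw [Submodule.coe_smul, hb]
  have hφx : ∀ x : ↥(Submodule.span F (Set.range u)),
      ((φ x : ↥(Submodule.span F (Set.range u'))) : ι → F) = ∑ i, b.repr x i • u' i := by
    intro x
    have h1 : φ x = ∑ i, b.repr x i • b' i := by
      conv_lhs => rw [← b.sum_repr x]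
      rw [map_sum]
      apply Finset.sum_congr rfl
      intro i _
      rw [map_smul, hφdef, Module.Basis.equiv_apply]
      rfl
    rw [h1, Submodule.coe_sum]
    apply Finset.sum_congr rfl
    intro i _
    rw [Submodule.coe_smul, hb']
  have hφQ : ∀ x : ↥(Submodule.span F (Set.range u)),
      Q ((φ x : ↥(Submodule.span F (Set.range u'))) : ι → F) = Q (x : ι → F) := by
    intro x
    rw [hφx, hx x, Q_sum_orth Q _ _ u' (fun a c _ => hu' a c),
      Q_sum_orth Q _ _ u (fun a c _ => hu a c)]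
    apply Finset.sum_congr rfl
    intro i _
    rw [hQu, hQu']
  obtain ⟨g, hgQ, hgx⟩ := witt_ext Q hQ _ _ φ hφQ
  have hgu : ∀ i, g (u i) = u' i := by
    intro i
    have h1 := hgx (b i)
    rw [hb i] at h1
    rw [h1, hφdef, Module.Basis.equiv_apply, Equiv.refl_apply, hb']
  obtain ⟨h, hh⟩ := exists_isom_of_linear Q g.toLinearMap g.symm.toLinearMap
    (fun v => g.symm_apply_apply v) (fun v => g.apply_symm_apply v) hgQ
  have hpol : ∀ x y, QuadraticMap.polar (⇑Q) (g x) (g y) = QuadraticMap.polar (⇑Q) x y := by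
    intro x y
    unfold QuadraticMap.polar
    rw [← map_add, hgQ, hgQ, hgQ]
  rw [isConj_iff]
  refine ⟨h, ?_⟩
  apply isom_ext
  apply Matrix.mulVec_injective
  funext v
  show (mat Q (h * t * h⁻¹)).mulVec v = (mat Q t').mulVec v
  obtain ⟨w, hw⟩ : ∃ w, w = (mat Q h⁻¹).mulVec v := ⟨_, rfl⟩
  have hgw : g w = v := by
    have h1 := hh w
    rw [hw, mat_mulVec_inv] at h1
    rw [hw]
    exact h1.symm
  rw [mat_mul, mat_mul, ← Matrix.mulVec_mulVec, ← Matrix.mulVec_mulVec, ← hw, htf, hh, htf',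
    show (g.toLinearMap) (w + ∑ y, QuadraticMap.polar (⇑Q) (u y) w • u (σ y))
      = g w + ∑ y, QuadraticMap.polar (⇑Q) (u y) w • g (u (σ y)) by
        rw [LinearEquiv.coe_coe, map_add, map_sum]
        congr 1
        apply Finset.sum_congr rfl
        intro y _
        rw [map_smul],
    hgw]
  congr 1
  apply Finset.sum_congr rfl
  intro y _
  rw [hgu, ← hpol (u y) w, hgu, hgw]

/-- the rank of `t - 1` for a normal form -/
lemma nf_rank (Q : QuadraticForm F (ι → F)) (hQ : (QuadraticMap.polarBilin Q).Nondegenerate)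
    {κ : Type} [Fintype κ] [DecidableEq κ] (σ : κ → κ) (hσ : ∀ x, σ (σ x) = x)
    (t : ↥(Cfsg.isometryGroup F ⇑Q)) (ht : IsNF Q σ t) :
    (mat Q t - 1).rank = Fintype.card κ := by
  obtain ⟨u, ⟨hli, hu, hQu⟩, htf⟩ := ht
  have hinj : Function.Injective σ := fun a b h => by rw [← hσ a, ← hσ b, h]
  have hli' : LinearIndependent F (u ∘ σ) := hli.comp σ hinj
  have hfix : fixSub (mat Q t) = orthSub Q (Submodule.span F (Set.range u)) := by
    ext v
    rw [mem_fixSub, mem_orthSub_span, htf, add_eq_left]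
    constructor
    · rintro h a ⟨x, rfl⟩
      exact Fintype.linearIndependent_iff.mp hli' _ h x
    · intro h
      apply Finset.sum_eq_zero
      intro y _
      rw [h (u y) ⟨y, rfl⟩, zero_smul]
  have h1 := rank_sub_one_add_fix (mat Q t)
  rw [hfix, finrank_orthSub Q hQ, finrank_span_eq_card hli] at h1
  have h2 : Fintype.card κ ≤ Fintype.card ι := by
    have h3 := hli.fintype_card_le_finrank
    rwa [Module.finrank_fintype_fun_eq_card] at h3
  omega

lemma nf_Q_N [CharP F 2] (Q : QuadraticForm F (ι → F)) {κ : Type} [Fintype κ] [DecidableEq κ]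
    (σ : κ → κ) (hσ : ∀ x, σ (σ x) = x) (t : ↥(Cfsg.isometryGroup F ⇑Q)) (u : κ → ι → F)
    (hstd : SigStd Q σ u)
    (htf : ∀ v, (mat Q t).mulVec v = v + ∑ y, QuadraticMap.polar (⇑Q) (u y) v • u (σ y))
    (v : ι → F) :
    Q ((mat Q t).mulVec v + v) = ∑ y, QuadraticMap.polar (⇑Q) (u y) v
      * QuadraticMap.polar (⇑Q) (u y) v * (if σ y = y then 1 else 0) := by
  obtain ⟨-, hu, hQu⟩ := hstd
  have h2 : ∀ x : ι → F, x + x = 0 := fun x => by
    rw [← two_smul F x, CharTwo.two_eq_zero, zero_smul]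
  have h1 : (mat Q t).mulVec v + v = ∑ y, QuadraticMap.polar (⇑Q) (u y) v • u (σ y) := by
    rw [htf, add_comm v, add_assoc, h2, add_zero]
  rw [h1, Q_sum_orth Q Finset.univ (fun y => QuadraticMap.polar (⇑Q) (u y) v) (fun y => u (σ y))
    (fun x y _ => hu _ _)]
  apply Finset.sum_congr rfl
  intro y _
  rw [hQu, hσ y]
  by_cases h : σ y = y
  · rw [if_pos h, if_pos h.symm]
  · rw [if_neg h, if_neg (fun h' => h h'.symm)]

/-- a normal form without fixed points of `σ` is of alternating type -/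
lemma nf_alt [CharP F 2] (Q : QuadraticForm F (ι → F)) {κ : Type} [Fintype κ] [DecidableEq κ]
    (σ : κ → κ) (hσ : ∀ x, σ (σ x) = x) (hfp : ∀ x, σ x ≠ x) (t : ↥(Cfsg.isometryGroup F ⇑Q))
    (ht : IsNF Q σ t) (v : ι → F) : Q ((mat Q t).mulVec v + v) = 0 := by
  obtain ⟨u, hstd, htf⟩ := ht
  rw [nf_Q_N Q σ hσ t u hstd htf]
  apply Finset.sum_eq_zero
  intro y _
  rw [if_neg (hfp y), mul_zero]

/-- a non-trivial normal form with `σ = id` is not of alternating type -/
lemma nf_not_alt [CharP F 2] (Q : QuadraticForm F (ι → F))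
    (hQ : (QuadraticMap.polarBilin Q).Nondegenerate) {κ : Type} [Fintype κ] [DecidableEq κ]
    [Nonempty κ] (σ : κ → κ) (hfp : ∀ x, σ x = x) (t : ↥(Cfsg.isometryGroup F ⇑Q))
    (ht : IsNF Q σ t) : ∃ v : ι → F, Q ((mat Q t).mulVec v + v) ≠ 0 := by
  obtain ⟨u, hstd, htf⟩ := ht
  have hz : ∑ y, u y ≠ 0 := by
    intro h
    have h1 := Fintype.linearIndependent_iff.mp hstd.1 (fun _ => (1 : F))
      (by simpa using h) (Classical.arbitrary κ)
    exact one_ne_zero h1
  obtain ⟨v, hv⟩ : ∃ v, QuadraticMap.polar (⇑Q) (∑ y, u y) v ≠ 0 := by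
    by_contra hcon
    push Not at hcon
    exact hz (hQ.1 _ hcon)
  refine ⟨v, ?_⟩
  rw [nf_Q_N Q σ (fun x => by rw [hfp, hfp]) t u hstd htf]
  have h1 : ∑ y, QuadraticMap.polar (⇑Q) (u y) v * QuadraticMap.polar (⇑Q) (u y) v
      * (if σ y = y then 1 else 0)
      = (∑ y, QuadraticMap.polar (⇑Q) (u y) v) * (∑ y, QuadraticMap.polar (⇑Q) (u y) v) := by
    rw [CharTwo.sum_mul_self]
    apply Finset.sum_congr rfl
    intro y _
    rw [if_pos (hfp y), mul_one]
  have h2 : ∑ y, QuadraticMap.polar (⇑Q) (u y) v = QuadraticMap.polar (⇑Q) (∑ y, u y) v := by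
    show ∑ y, QuadraticMap.polarBilin Q (u y) v = QuadraticMap.polarBilin Q (∑ y, u y) v
    rw [map_sum, LinearMap.sum_apply]
  rw [h1, h2]
  exact mul_ne_zero hv hv

/-- the family of a normal form spans an isotropic subspace -/
lemma nf_card_le (Q : QuadraticForm F (ι → F)) (hQ : (QuadraticMap.polarBilin Q).Nondegenerate)
    {κ : Type} [Fintype κ] [DecidableEq κ] (σ : κ → κ) (t : ↥(Cfsg.isometryGroup F ⇑Q))
    (ht : IsNF Q σ t) : 2 * Fintype.card κ ≤ Fintype.card ι := by
  obtain ⟨u, ⟨hli, hu, hQu⟩, htf⟩ := ht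
  have h1 : Submodule.span F (Set.range u) ≤ orthSub Q (Submodule.span F (Set.range u)) := by
    rw [Submodule.span_le]
    rintro x ⟨y, rfl⟩
    show u y ∈ orthSub Q (Submodule.span F (Set.range u))
    rw [mem_orthSub_span]
    rintro a ⟨z, rfl⟩
    exact hu z y
  have h2 := Submodule.finrank_mono h1
  rw [finrank_orthSub Q hQ, finrank_span_eq_card hli] at h2
  have h3 : Fintype.card κ ≤ Fintype.card ι := by
    have h4 := hli.fintype_card_le_finrank
    rwa [Module.finrank_fintype_fun_eq_card] at h4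
  omega

/-- the family of a normal form of alternating type spans a totally singular subspace -/
lemma nf_ts (Q : QuadraticForm F (ι → F)) {κ : Type} [Fintype κ] [DecidableEq κ] (σ : κ → κ)
    (hfp : ∀ x, σ x ≠ x) (t : ↥(Cfsg.isometryGroup F ⇑Q)) (ht : IsNF Q σ t) :
    ∃ U : Submodule F (ι → F), (∀ x ∈ U, Q x = 0) ∧ Module.finrank F ↥U = Fintype.card κ := by
  obtain ⟨u, ⟨hli, hu, hQu⟩, htf⟩ := ht
  refine ⟨Submodule.span F (Set.range u), ?_, finrank_span_eq_card hli⟩
  intro x hx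
  obtain ⟨c, rfl⟩ := (Submodule.mem_span_range_iff_exists_fun F).mp hx
  rw [Q_sum_orth Q Finset.univ c u (fun a b _ => hu a b)]
  apply Finset.sum_eq_zero
  intro y _
  rw [hQu, if_neg (hfp y), mul_zero]

/-- the rank of `t - 1` is a class invariant -/
lemma rank_conj (Q : QuadraticForm F (ι → F)) (t t' : ↥(Cfsg.isometryGroup F ⇑Q))
    (h : IsConj t t') : (mat Q t - 1).rank = (mat Q t' - 1).rank := by
  obtain ⟨g, hg⟩ := isConj_iff.mp h
  have h1 := conj_range Q t t' g hg
  have h2 : (mat Q t' - 1).rank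
      = Module.finrank F ↥(LinearMap.range (Matrix.toLin' (mat Q t' - 1))) := rfl
  have h3 : (mat Q t - 1).rank
      = Module.finrank F ↥(LinearMap.range (Matrix.toLin' (mat Q t - 1))) := rfl
  rw [h2, h1, imgSub_finrank, h3]

/-- being of alternating type is a class invariant -/
lemma alt_conj (Q : QuadraticForm F (ι → F)) (t t' : ↥(Cfsg.isometryGroup F ⇑Q))
    (h : IsConj t t') (halt : ∀ v, Q ((mat Q t).mulVec v + v) = 0) (v : ι → F) :
    Q ((mat Q t').mulVec v + v) = 0 := by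
  obtain ⟨g, hg⟩ := isConj_iff.mp h
  obtain ⟨w, hw⟩ : ∃ w, w = (mat Q g⁻¹).mulVec v := ⟨_, rfl⟩
  have hgw : (mat Q g).mulVec w = v := by rw [hw, mat_mulVec_inv]
  have h1 : (mat Q t').mulVec v + v = (mat Q g).mulVec ((mat Q t).mulVec w + w) := by
    rw [← hg, mat_mul, mat_mul, ← Matrix.mulVec_mulVec, ← Matrix.mulVec_mulVec, ← hw,
      Matrix.mulVec_add, hgw]
  rw [h1]
  show Q (((g : Matrix.GeneralLinearGroup ι F) : Matrix ι ι F).mulVec _) = 0
  rw [isom_pres]
  exact halt w

end OrthInvNF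

end Cfsg.Agent.Lib.helper4
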