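import Mathlib
import Cfsg.Agent.Lib.helper4.OrthForms

set_option autoImplicit false

/-!
# Conjugacy in the orthogonal group versus the symplectic group in characteristic two

Over a finite field of characteristic two, two isometries of a quadratic form with non-degenerate
polar form which are conjugate under an element preserving the polar form are conjugate in the
isometry group (`c2_isConj_iff_symp`).  The proof uses the quadratic character sum
`gaussS Q = ∑ ψ(Q v)` where `ψ` is the character of `F` with kernel `{u² + u}`.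
-/

namespace Cfsg.Agent.Lib.helper4

open Cfsg.Agent.Lib.helper13

section ArtinSchreier

variable {F : Type*} [Field F] [CharP F 2]

/-- the Artin–Schreier map `u ↦ u² + u` -/
def asHom (F : Type*) [Field F] [CharP F 2] : F →+ F where
  toFun u := u * u + u
  map_zero' := by simp
  map_add' a b := by
    rw [CharTwo.add_mul_self]
    abel

lemma asHom_apply (u : F) : asHom F u = u * u + u := rfl

lemma asHom_ker_card : Nat.card ↥(asHom F).ker = 2 := by
  rw [Nat.card_eq_two_iff]
  have h0 : (0 : F) ∈ (asHom F).ker := by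
    rw [AddMonoidHom.mem_ker, asHom_apply]
    simp
  have h1 : (1 : F) ∈ (asHom F).ker := by
    rw [AddMonoidHom.mem_ker, asHom_apply, mul_one]
    exact CharTwo.add_self_eq_zero 1
  refine ⟨⟨0, h0⟩, ⟨1, h1⟩, ?_, ?_⟩
  · intro h
    exact zero_ne_one (congrArg Subtype.val h)
  · ext x
    simp only [Set.mem_insert_iff, Set.mem_singleton_iff, Set.mem_univ, iff_true]
    have hx := x.2
    rw [AddMonoidHom.mem_ker, asHom_apply] at hx
    have h2 : (x : F) * ((x : F) + 1) = 0 := by
      rw [mul_add, mul_one]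
      exact hx
    rcases mul_eq_zero.mp h2 with h3 | h3
    · left
      exact Subtype.ext h3
    · right
      apply Subtype.ext
      have h4 : (x : F) = -1 := eq_neg_of_add_eq_zero_left h3
      rw [h4, CharTwo.neg_eq]

lemma asHom_range_index [Finite F] : (asHom F).range.index = 2 := by
  have h1 := AddSubgroup.index_ker (asHom F)
  have h2 := AddSubgroup.card_mul_index (asHom F).ker
  have h3 := AddSubgroup.card_mul_index (asHom F).range
  rw [asHom_ker_card] at h2
  rw [h1] at h2
  have hpos : 0 < Nat.card ↥(asHom F).range := Nat.card_pos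
  rw [← h2] at h3
  have h4 : Nat.card ↥(asHom F).range * (asHom F).range.index
      = Nat.card ↥(asHom F).range * 2 := by rw [h3, mul_comm]
  exact Nat.eq_of_mul_eq_mul_left hpos h4

open Classical in
/-- the quadratic additive character with kernel the image of the Artin–Schreier map -/
noncomputable def psi (x : F) : ℤ := if x ∈ (asHom F).range then 1 else -1

lemma psi_of_mem (x : F) (hx : x ∈ (asHom F).range) : psi x = 1 := by
  unfold psi
  rw [if_pos hx]

lemma psi_of_not_mem (x : F) (hx : x ∉ (asHom F).range) : psi x = -1 := by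
  unfold psi
  rw [if_neg hx]

lemma mem_of_psi (x : F) (hx : psi x = 1) : x ∈ (asHom F).range := by
  by_contra h
  rw [psi_of_not_mem x h] at hx
  omega

lemma psi_zero : psi (0 : F) = 1 := psi_of_mem 0 (zero_mem _)

lemma psi_add [Finite F] (x y : F) : psi (x + y) = psi x * psi y := by
  have h := AddSubgroup.add_mem_iff_of_index_two (asHom_range_index (F := F)) (a := x) (b := y)
  by_cases hx : x ∈ (asHom F).range <;> by_cases hy : y ∈ (asHom F).range
  · rw [psi_of_mem x hx, psi_of_mem y hy, psi_of_mem _ (h.mpr ⟨fun _ => hy, fun _ => hx⟩)]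
    rfl
  · rw [psi_of_mem x hx, psi_of_not_mem y hy, psi_of_not_mem _ (fun h' => hy ((h.mp h').mp hx))]
    rfl
  · rw [psi_of_not_mem x hx, psi_of_mem y hy, psi_of_not_mem _ (fun h' => hx ((h.mp h').mpr hy))]
    rfl
  · rw [psi_of_not_mem x hx, psi_of_not_mem y hy,
      psi_of_mem _ (h.mpr ⟨fun h' => absurd h' hx, fun h' => absurd h' hy⟩)]
    rfl

lemma psi_mul_self [Finite F] (u : F) : psi (u * u) = psi u := by
  have h1 : u * u = asHom F u + u := by
    rw [asHom_apply, add_assoc, CharTwo.add_self_eq_zero, add_zero]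
  rw [h1, psi_add, psi_of_mem _ ⟨u, rfl⟩, one_mul]

lemma exists_psi_neg [Finite F] : ∃ x : F, psi x = -1 := by
  have h1 : (asHom F).range ≠ ⊤ := by
    intro h
    have h2 := asHom_range_index (F := F)
    rw [h, AddSubgroup.index_top] at h2
    omega
  obtain ⟨x, -, hx⟩ := SetLike.exists_of_lt (lt_top_iff_ne_top.mpr h1)
  exact ⟨x, psi_of_not_mem x hx⟩

end ArtinSchreier

section GaussSum

variable {F : Type*} [Field F] [Fintype F] [CharP F 2] {ι : Type} [Fintype ι] [DecidableEq ι]

/-- the quadratic character sum of a quadratic form -/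
noncomputable def gaussS (Q : QuadraticForm F (ι → F)) : ℤ := ∑ v : ι → F, psi (Q v)

lemma sum_psi_polar (Q : QuadraticForm F (ι → F))
    (hQ : (QuadraticMap.polarBilin Q).Nondegenerate) (u : ι → F) (hu : u ≠ 0) :
    ∑ v : ι → F, psi (QuadraticMap.polar (⇑Q) v u) = 0 := by
  obtain ⟨x₀, hx₀⟩ := exists_psi_neg (F := F)
  obtain ⟨w, hw⟩ : ∃ w, QuadraticMap.polar (⇑Q) w u ≠ 0 := by
    by_contra hcon
    push Not at hcon
    exact hu (hQ.2 u (fun x => hcon x))
  obtain ⟨v₀, hv₀⟩ : ∃ v₀, v₀ = (x₀ / QuadraticMap.polar (⇑Q) w u) • w := ⟨_, rfl⟩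
  have hv₀u : QuadraticMap.polar (⇑Q) v₀ u = x₀ := by
    rw [hv₀, QuadraticMap.polar_smul_left, smul_eq_mul, div_mul_cancel₀ _ hw]
  have h1 : ∑ v : ι → F, psi (QuadraticMap.polar (⇑Q) (v + v₀) u)
      = ∑ v : ι → F, psi (QuadraticMap.polar (⇑Q) v u) :=
    Fintype.sum_equiv (Equiv.addRight v₀) (fun v => psi (QuadraticMap.polar (⇑Q) (v + v₀) u))
      (fun v => psi (QuadraticMap.polar (⇑Q) v u)) (fun v => rfl)
  have h2 : ∑ v : ι → F, psi (QuadraticMap.polar (⇑Q) (v + v₀) u)
      = - ∑ v : ι → F, psi (QuadraticMap.polar (⇑Q) v u) := by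
    rw [← Finset.sum_neg_distrib]
    apply Finset.sum_congr rfl
    intro v _
    rw [QuadraticMap.polar_add_left, psi_add, hv₀u, hx₀]
    ring
  rw [h2] at h1
  linarith

lemma gaussS_mul_self (Q : QuadraticForm F (ι → F))
    (hQ : (QuadraticMap.polarBilin Q).Nondegenerate) :
    gaussS Q * gaussS Q = (Fintype.card (ι → F) : ℤ) := by
  classical
  unfold gaussS
  rw [Finset.sum_mul_sum]
  have h1 : ∀ v : ι → F, ∑ w : ι → F, psi (Q v) * psi (Q w)
      = ∑ u : ι → F, psi (Q u) * psi (QuadraticMap.polar (⇑Q) v u) := by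
    intro v
    rw [← Fintype.sum_equiv (Equiv.addLeft v) (fun u => psi (Q v) * psi (Q (v + u)))
      (fun w => psi (Q v) * psi (Q w)) (fun u => rfl)]
    apply Finset.sum_congr rfl
    intro u _
    rw [← psi_add, ← psi_add, Q_add]
    congr 1
    rw [← add_assoc, ← add_assoc, CharTwo.add_self_eq_zero, zero_add]
  rw [Finset.sum_congr rfl (fun v _ => h1 v), Finset.sum_comm]
  have h2 : ∀ u : ι → F, ∑ v : ι → F, psi (Q u) * psi (QuadraticMap.polar (⇑Q) v u)
      = if u = 0 then (Fintype.card (ι → F) : ℤ) else 0 := by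
    intro u
    rw [← Finset.mul_sum]
    split_ifs with hu
    · rw [hu, map_zero, psi_zero, one_mul]
      simp [psi_zero]
    · rw [sum_psi_polar Q hQ u hu, mul_zero]
  rw [Finset.sum_congr rfl (fun u _ => h2 u)]
  simp

lemma gaussS_ne_zero (Q : QuadraticForm F (ι → F))
    (hQ : (QuadraticMap.polarBilin Q).Nondegenerate) : gaussS Q ≠ 0 := by
  intro h
  have h1 := gaussS_mul_self Q hQ
  rw [h, mul_zero] at h1
  have h2 : (Fintype.card (ι → F) : ℤ) ≠ 0 := by
    exact_mod_cast Fintype.card_ne_zero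
  exact h2 h1.symm

/-- if `Q ∘ e = Q + β(·, a)²` for a bijection `e`, then `Q a` lies in the Artin–Schreier image -/
lemma psi_of_shift (Q : QuadraticForm F (ι → F))
    (hQ : (QuadraticMap.polarBilin Q).Nondegenerate) (e : (ι → F) ≃ (ι → F)) (a : ι → F)
    (h : ∀ v, Q (e v) = Q v + QuadraticMap.polar (⇑Q) v a * QuadraticMap.polar (⇑Q) v a) :
    psi (Q a) = 1 := by
  have h1 : gaussS Q = psi (Q a) * gaussS Q := by
    unfold gaussS
    rw [Finset.mul_sum]
    calc ∑ v : ι → F, psi (Q v) = ∑ v : ι → F, psi (Q (e v)) :=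
          (Fintype.sum_equiv e (fun v => psi (Q (e v))) (fun v => psi (Q v)) (fun v => rfl)).symm
      _ = ∑ v : ι → F, psi (Q a) * psi (Q (v + a)) := by
          apply Finset.sum_congr rfl
          intro v _
          rw [h v, psi_add, psi_mul_self, ← psi_add, ← psi_add, Q_add]
          congr 1
          have h2 := CharTwo.add_self_eq_zero (Q a)
          have h3 : Q a + (Q v + Q a + QuadraticMap.polar (⇑Q) v a)
              = (Q a + Q a) + (Q v + QuadraticMap.polar (⇑Q) v a) := by ring
          rw [h3, h2, zero_add]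
      _ = ∑ v : ι → F, psi (Q a) * psi (Q v) :=
          Fintype.sum_equiv (Equiv.addRight a) (fun v => psi (Q a) * psi (Q (v + a)))
            (fun v => psi (Q a) * psi (Q v)) (fun v => rfl)
  have h2 := gaussS_ne_zero Q hQ
  have h3 : (psi (Q a) - 1) * gaussS Q = 0 := by linarith
  rcases mul_eq_zero.mp h3 with h4 | h4
  · linarith
  · exact absurd h4 h2

end GaussSum

section SympConj

variable {F : Type*} [Field F] [Fintype F] [CharP F 2] {ι : Type} [Fintype ι] [DecidableEq ι]

omit [Fintype F] in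
lemma c2_mul_self_inj (x y : F) (h : x * x = y * y) : x = y := by
  have h1 : (x + y) * (x + y) = 0 := by
    rw [CharTwo.add_mul_self, h, CharTwo.add_self_eq_zero]
  have h2 : x + y = 0 := mul_self_eq_zero.mp h1
  have h3 : x = -y := eq_neg_of_add_eq_zero_left h2
  rw [h3, CharTwo.neg_eq]

/-- the transvection `v ↦ v + c β(a, v) a` -/
noncomputable def tauLin (Q : QuadraticForm F (ι → F)) (a : ι → F) (c : F) :
    (ι → F) →ₗ[F] (ι → F) :=
  LinearMap.id + (c • QuadraticMap.polarBilin Q a).smulRight a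

omit [Fintype F] [CharP F 2] [DecidableEq ι] [Fintype ι] in
lemma tauLin_apply (Q : QuadraticForm F (ι → F)) (a : ι → F) (c : F) (x : ι → F) :
    tauLin Q a c x = x + (c * QuadraticMap.polar (⇑Q) a x) • a := by
  simp [tauLin]

noncomputable def tauMat (Q : QuadraticForm F (ι → F)) (a : ι → F) (c : F) : Matrix ι ι F :=
  LinearMap.toMatrix' (tauLin Q a c)

omit [Fintype F] [CharP F 2] in
lemma tauMat_mulVec (Q : QuadraticForm F (ι → F)) (a : ι → F) (c : F) (x : ι → F) :
    (tauMat Q a c).mulVec x = x + (c * QuadraticMap.polar (⇑Q) a x) • a := by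
  rw [← tauLin_apply, tauMat, ← Matrix.toLin'_apply, Matrix.toLin'_toMatrix']

omit [Fintype F] in
lemma tauMat_mul_self (Q : QuadraticForm F (ι → F)) (a : ι → F) (c : F) :
    tauMat Q a c * tauMat Q a c = 1 := by
  apply Matrix.mulVec_injective
  funext x
  rw [← Matrix.mulVec_mulVec, tauMat_mulVec, tauMat_mulVec, Matrix.one_mulVec,
    QuadraticMap.polar_add_right, QuadraticMap.polar_smul_right, polar_self_eq,
    CharTwo.two_eq_zero, zero_mul, smul_zero, add_zero, add_assoc, ← add_smul,
    CharTwo.add_self_eq_zero, zero_smul, add_zero]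

noncomputable def tauGL (Q : QuadraticForm F (ι → F)) (a : ι → F) (c : F) :
    Matrix.GeneralLinearGroup ι F :=
  ⟨tauMat Q a c, tauMat Q a c, tauMat_mul_self Q a c, tauMat_mul_self Q a c⟩

/-- in characteristic two, isometries conjugate under the symplectic group of the polar form are
conjugate in the isometry group -/
theorem c2_conj_of_symp_conj (Q : QuadraticForm F (ι → F))
    (hQ : (QuadraticMap.polarBilin Q).Nondegenerate)
    (t s : ↥(Cfsg.isometryGroup F ⇑Q)) (g : Matrix.GeneralLinearGroup ι F)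
    (hg : ∀ u v : ι → F, QuadraticMap.polar (⇑Q) ((g : Matrix ι ι F).mulVec u)
      ((g : Matrix ι ι F).mulVec v) = QuadraticMap.polar (⇑Q) u v)
    (hconj : g * (t : Matrix.GeneralLinearGroup ι F) * g⁻¹
      = (s : Matrix.GeneralLinearGroup ι F)) :
    IsConj t s := by
  classical
  have : ExpChar F 2 := ExpChar.prime Nat.prime_two
  obtain ⟨D, hD⟩ : ∃ D : (ι → F) → F, D = fun v => Q ((g : Matrix ι ι F).mulVec v) + Q v :=
    ⟨_, rfl⟩
  have hDv : ∀ v, D v = Q ((g : Matrix ι ι F).mulVec v) + Q v := fun v => by rw [hD]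
  have hDadd : ∀ v w, D (v + w) = D v + D w := by
    intro v w
    rw [hDv, hDv, hDv, Matrix.mulVec_add, Q_add, Q_add, hg]
    have h1 := CharTwo.add_self_eq_zero (QuadraticMap.polar (⇑Q) v w)
    linear_combination h1
  have hDsmul : ∀ (c : F) v, D (c • v) = c * c * D v := by
    intro c v
    rw [hDv, hDv, Matrix.mulVec_smul, QuadraticMap.map_smul, QuadraticMap.map_smul]
    simp only [smul_eq_mul]
    ring
  let φ : (ι → F) →ₗ[F] F :=
    { toFun := fun v => (frobeniusEquiv F 2).symm (D v)
      map_add' := fun v w => by rw [hDadd, map_add]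
      map_smul' := fun c v => by
        have h1 : c * c = frobenius F 2 c := by rw [frobenius_def, pow_two]
        rw [hDsmul, map_mul, h1, frobeniusEquiv_symm_apply_frobenius, RingHom.id_apply,
          smul_eq_mul] }
  have hφ : ∀ v, φ v * φ v = D v := by
    intro v
    have h1 := frobenius_apply_frobeniusEquiv_symm F 2 (D v)
    rw [frobenius_def, pow_two] at h1
    exact h1
  obtain ⟨a, ha⟩ : ∃ a : ι → F, ∀ v, QuadraticMap.polar (⇑Q) a v = φ v :=
    ⟨(LinearMap.BilinForm.toDual (QuadraticMap.polarBilin Q) hQ).symm φ, fun v =>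
      LinearMap.BilinForm.apply_toDual_symm_apply (B := QuadraticMap.polarBilin Q) (hB := hQ)
        φ v⟩
  have h1 : ∀ v, Q ((g : Matrix ι ι F).mulVec v)
      = Q v + QuadraticMap.polar (⇑Q) v a * QuadraticMap.polar (⇑Q) v a := by
    intro v
    rw [QuadraticMap.polar_comm (⇑Q) v a, ha v, hφ v, hDv, add_comm (Q _) (Q v), ← add_assoc,
      CharTwo.add_self_eq_zero, zero_add]
  let e : (ι → F) ≃ (ι → F) :=
    { toFun := fun v => (g : Matrix ι ι F).mulVec v
      invFun := fun v => ((g⁻¹ : Matrix.GeneralLinearGroup ι F) : Matrix ι ι F).mulVec v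
      left_inv := fun v => by
        show ((g⁻¹ : Matrix.GeneralLinearGroup ι F) : Matrix ι ι F).mulVec
          ((g : Matrix ι ι F).mulVec v) = v
        rw [Matrix.mulVec_mulVec, ← Units.val_mul, inv_mul_cancel, Units.val_one,
          Matrix.one_mulVec]
      right_inv := fun v => by
        show (g : Matrix ι ι F).mulVec
          (((g⁻¹ : Matrix.GeneralLinearGroup ι F) : Matrix ι ι F).mulVec v) = v
        rw [Matrix.mulVec_mulVec, ← Units.val_mul, mul_inv_cancel, Units.val_one,
          Matrix.one_mulVec] }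
  have hψ := psi_of_shift Q hQ e a h1
  obtain ⟨u, hu⟩ := mem_of_psi _ hψ
  rw [asHom_apply] at hu
  obtain ⟨c, hc⟩ : ∃ c : F, c + c * c * Q a = 1 := by
    by_cases hQa : Q a = 0
    · exact ⟨1, by rw [hQa]; ring⟩
    · refine ⟨u / Q a, ?_⟩
      have h2 : u / Q a + u / Q a * (u / Q a) * Q a = (u * u + u) / Q a := by
        field_simp
        ring
      rw [h2, hu, div_self hQa]
  -- `t` preserves `β(a, ·)`
  have hgt : (g : Matrix ι ι F) * ((t : Matrix.GeneralLinearGroup ι F) : Matrix ι ι F)
      = ((s : Matrix.GeneralLinearGroup ι F) : Matrix ι ι F) * (g : Matrix ι ι F) := by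
    have h2 : g * (t : Matrix.GeneralLinearGroup ι F)
        = (s : Matrix.GeneralLinearGroup ι F) * g := by
      rw [← hconj, inv_mul_cancel_right]
    have h3 := congrArg (fun x : Matrix.GeneralLinearGroup ι F => (x : Matrix ι ι F)) h2
    simpa only [Units.val_mul] using h3
  have hat : ∀ v, QuadraticMap.polar (⇑Q) a
      (((t : Matrix.GeneralLinearGroup ι F) : Matrix ι ι F).mulVec v)
        = QuadraticMap.polar (⇑Q) a v := by
    intro v
    have h3 : D (((t : Matrix.GeneralLinearGroup ι F) : Matrix ι ι F).mulVec v) = D v := by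
      rw [hDv, hDv, isom_pres Q t v, Matrix.mulVec_mulVec, hgt, ← Matrix.mulVec_mulVec,
        isom_pres Q s]
    apply c2_mul_self_inj
    rw [ha, ha, hφ, hφ, h3]
  have hta : ((t : Matrix.GeneralLinearGroup ι F) : Matrix ι ι F).mulVec a = a := by
    have h2 : a - ((t : Matrix.GeneralLinearGroup ι F) : Matrix ι ι F).mulVec a = 0 := by
      apply hQ.1
      intro w
      show QuadraticMap.polar (⇑Q)
        (a - ((t : Matrix.GeneralLinearGroup ι F) : Matrix ι ι F).mulVec a) w = 0
      have h3 := hat ((mat Q t⁻¹).mulVec w)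
      rw [show ((t : Matrix.GeneralLinearGroup ι F) : Matrix ι ι F).mulVec
        ((mat Q t⁻¹).mulVec w) = w from mat_mulVec_inv Q t w] at h3
      have h4 := isom_polar Q t a ((mat Q t⁻¹).mulVec w)
      rw [show ((t : Matrix.GeneralLinearGroup ι F) : Matrix ι ι F).mulVec
        ((mat Q t⁻¹).mulVec w) = w from mat_mulVec_inv Q t w] at h4
      rw [QuadraticMap.polar_sub_left, h3, h4, sub_self]
    exact (sub_eq_zero.mp h2).symm
  obtain ⟨τ, hτ⟩ : ∃ τ, τ = tauGL Q a c := ⟨_, rfl⟩
  have hτv : ∀ v, (τ : Matrix ι ι F).mulVec v = v + (c * QuadraticMap.polar (⇑Q) a v) • a := by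
    intro v
    rw [hτ]
    exact tauMat_mulVec Q a c v
  have hmem : g * τ ∈ Cfsg.isometryGroup F ⇑Q := by
    intro v _
    show Q (((g * τ : Matrix.GeneralLinearGroup ι F) : Matrix ι ι F).mulVec v) = Q v
    rw [Units.val_mul, ← Matrix.mulVec_mulVec, h1, hτv, Q_add, QuadraticMap.map_smul,
      QuadraticMap.polar_smul_right, QuadraticMap.polar_add_left, QuadraticMap.polar_smul_left,
      polar_self_eq, QuadraticMap.polar_comm (⇑Q) v a, CharTwo.two_eq_zero]
    simp only [smul_eq_mul, zero_mul, mul_zero, add_zero]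
    have h2 : (2 : F) = 0 := CharTwo.two_eq_zero
    linear_combination (QuadraticMap.polar (⇑Q) a v * QuadraticMap.polar (⇑Q) a v) * hc
      + (QuadraticMap.polar (⇑Q) a v * QuadraticMap.polar (⇑Q) a v) * h2
  have hcomm : τ * (t : Matrix.GeneralLinearGroup ι F)
      = (t : Matrix.GeneralLinearGroup ι F) * τ := by
    apply Units.ext
    rw [Units.val_mul, Units.val_mul]
    apply Matrix.mulVec_injective
    funext x
    rw [← Matrix.mulVec_mulVec, ← Matrix.mulVec_mulVec, hτv, hτv, Matrix.mulVec_add,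
      Matrix.mulVec_smul, hta, hat]
  rw [isConj_iff]
  refine ⟨⟨g * τ, hmem⟩, ?_⟩
  apply Subtype.ext
  show g * τ * (t : Matrix.GeneralLinearGroup ι F) * (g * τ)⁻¹
    = (s : Matrix.GeneralLinearGroup ι F)
  calc g * τ * (t : Matrix.GeneralLinearGroup ι F) * (g * τ)⁻¹
      = g * (τ * (t : Matrix.GeneralLinearGroup ι F) * τ⁻¹) * g⁻¹ := by group
    _ = g * (t : Matrix.GeneralLinearGroup ι F) * g⁻¹ := by rw [hcomm, mul_inv_cancel_right]
    _ = (s : Matrix.GeneralLinearGroup ι F) := hconj

/-- conjugacy in `O(Q)` is the same as conjugacy under the symplectic group of the polar form -/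
theorem c2_isConj_iff_symp (Q : QuadraticForm F (ι → F))
    (hQ : (QuadraticMap.polarBilin Q).Nondegenerate) (t s : ↥(Cfsg.isometryGroup F ⇑Q)) :
    IsConj t s ↔ ∃ g ∈ Cfsg.preserving (Units.coeHom (Matrix ι ι F))
        (fun u v => Q (u + v) - Q u - Q v),
      g * (t : Matrix.GeneralLinearGroup ι F) * g⁻¹ = (s : Matrix.GeneralLinearGroup ι F) := by
  constructor
  · intro h
    obtain ⟨c, hc⟩ := isConj_iff.mp h
    refine ⟨(c : Matrix.GeneralLinearGroup ι F), ?_, ?_⟩
    · intro u v
      show Q (((c : Matrix.GeneralLinearGroup ι F) : Matrix ι ι F).mulVec u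
          + ((c : Matrix.GeneralLinearGroup ι F) : Matrix ι ι F).mulVec v)
        - Q (((c : Matrix.GeneralLinearGroup ι F) : Matrix ι ι F).mulVec u)
        - Q (((c : Matrix.GeneralLinearGroup ι F) : Matrix ι ι F).mulVec v)
        = Q (u + v) - Q u - Q v
      rw [← Matrix.mulVec_add, isom_pres, isom_pres, isom_pres]
    · rw [← hc]
      rfl
  · rintro ⟨g, hg, hconj⟩
    exact c2_conj_of_symp_conj Q hQ t s g (fun u v => hg u v) hconj

end SympConj

end Cfsg.Agent.Lib.helper4
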