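import Mathlib
import Cfsg.Agent.Lib.helper4.OrthInvNF
import Cfsg.Agent.Lib.helper4.OrthSympConj
import Cfsg.Agent.Lib.helper13.Embed

set_option autoImplicit false

/-!
# Classification of involutions of orthogonal groups in characteristic two

`exists_orthonormal` (orthonormal bases for non-alternating symmetric forms in characteristic two),
`nf_of_family`, `nf_of_invol` (every involution has a normal form), `invol_class_count`.
-/

namespace Cfsg.Agent.Lib.helper4

open Cfsg.Agent.Lib.helper13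

universe u v

section Orthonormal

open Module

/-- over a finite field of characteristic two, a non-degenerate symmetric bilinear form which is
not alternating has an orthonormal basis -/
lemma exists_orthonormal {F : Type u} [Field F] [Finite F] [CharP F 2] :
    ∀ (d : ℕ) {W : Type v} [AddCommGroup W] [Module F W] [FiniteDimensional F W]
      (B : LinearMap.BilinForm F W), B.IsSymm → B.Nondegenerate → (∃ x, B x x ≠ 0) →
      finrank F W = d → ∃ w : Fin d → W, ∀ i j, B (w i) (w j) = if i = j then 1 else 0 := by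
  intro d
  induction d using Nat.strong_induction_on with
  | _ d ih =>
    intro W _ _ _ B hS hB hna hd
    have symm : ∀ x y, B x y = B y x := fun x y => hS.eq x y
    have hsq : ∀ a : F, ∃ c, c * c = a := by
      have hinj : Function.Injective (fun x : F => x * x) := fun x y h => c2_mul_self_inj x y h
      exact fun a => Finite.injective_iff_surjective.mp hinj a
    obtain ⟨x₀, hx₀⟩ := hna
    have hdpos : 1 ≤ d := by
      have hx₀0 : x₀ ≠ 0 := by
        rintro rfl
        exact hx₀ (by simp)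
      have h1 : 0 < finrank F W := Module.finrank_pos_iff_exists_ne_zero.mpr ⟨x₀, hx₀0⟩
      omega
    obtain ⟨c, hc⟩ := hsq (B x₀ x₀)⁻¹
    obtain ⟨x₁, hx₁def⟩ : ∃ x₁, x₁ = c • x₀ := ⟨_, rfl⟩
    have hx₁ : B x₁ x₁ = 1 := by
      rw [hx₁def]
      simp only [map_smul, LinearMap.smul_apply, smul_eq_mul]
      rw [← mul_assoc, hc, inv_mul_cancel₀ hx₀]
    have key : ∃ x, B x x = 1 ∧ (d = 1 ∨ ∃ y, B x y = 0 ∧ B y y ≠ 0) := by
      by_cases hd1 : d = 1
      · exact ⟨x₁, hx₁, Or.inl hd1⟩
      by_cases hex : ∃ y, B x₁ y = 0 ∧ B y y ≠ 0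
      · exact ⟨x₁, hx₁, Or.inr hex⟩
      push Not at hex
      obtain ⟨e, he0, hx₁e⟩ : ∃ e, e ≠ 0 ∧ B x₁ e = 0 := by
        have h1 := LinearMap.finrank_range_add_finrank_ker (B x₁)
        have h2 : finrank F ↥(LinearMap.range (B x₁)) ≤ 1 := by
          have h3 := Submodule.finrank_le (LinearMap.range (B x₁))
          rwa [Module.finrank_self] at h3
        have h3 : 0 < finrank F ↥(LinearMap.ker (B x₁)) := by omega
        obtain ⟨⟨e, he⟩, he0⟩ := Module.finrank_pos_iff_exists_ne_zero.mp h3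
        exact ⟨e, fun h => he0 (Subtype.ext h), he⟩
      obtain ⟨z, hz⟩ : ∃ z, B e z ≠ 0 := by
        by_contra h
        push Not at h
        exact he0 (hB.1 e h)
      obtain ⟨f', hf'⟩ : ∃ f', f' = (B e z)⁻¹ • (z - (B x₁ z) • x₁) := ⟨_, rfl⟩
      have hex₁ : B e x₁ = 0 := by rw [symm, hx₁e]
      have hx₁f : B x₁ f' = 0 := by
        rw [hf']
        simp only [map_smul, map_sub, hx₁, smul_eq_mul, mul_one, sub_self, mul_zero]
      have hef : B e f' = 1 := by
        rw [hf']
        simp only [map_smul, map_sub, hex₁, smul_eq_mul, mul_zero, sub_zero]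
        exact inv_mul_cancel₀ hz
      have hee : B e e = 0 := hex e hx₁e
      have hff : B f' f' = 0 := hex f' hx₁f
      have hfx₁ : B f' x₁ = 0 := by rw [symm, hx₁f]
      refine ⟨x₁ + e, ?_, Or.inr ⟨x₁ + f', ?_, ?_⟩⟩
      · simp only [map_add, LinearMap.add_apply, hx₁, hx₁e, hex₁, hee, add_zero]
      · simp only [map_add, LinearMap.add_apply, hx₁, hx₁f, hex₁, hef, add_zero, zero_add]
        exact CharTwo.add_self_eq_zero (1 : F)
      · simp only [map_add, LinearMap.add_apply, hx₁, hx₁f, hfx₁, hff, add_zero]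
        exact one_ne_zero
    obtain ⟨x, hxx, hor⟩ := key
    obtain ⟨W₁, hW₁⟩ : ∃ W₁ : Submodule F W, W₁ = LinearMap.ker (B x) := ⟨_, rfl⟩
    have memW : ∀ y, y ∈ W₁ ↔ B x y = 0 := by
      intro y
      rw [hW₁, LinearMap.mem_ker]
    have hfin : finrank F ↥W₁ + 1 = finrank F W := by
      have h1 := LinearMap.finrank_range_add_finrank_ker (B x)
      have hsurj : LinearMap.range (B x) = ⊤ := by
        rw [LinearMap.range_eq_top]
        intro a
        exact ⟨a • x, by rw [map_smul, hxx, smul_eq_mul, mul_one]⟩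
      rw [hsurj, finrank_top, Module.finrank_self, ← hW₁] at h1
      omega
    obtain ⟨d', rfl⟩ : ∃ d', d = d' + 1 := ⟨d - 1, by omega⟩
    have hS₁ : (B.restrict W₁).IsSymm := ⟨fun a b => symm a b⟩
    have hB₁ : (B.restrict W₁).Nondegenerate := by
      have hsep : ∀ y : W₁, (∀ z : W₁, B (y : W) (z : W) = 0) → y = 0 := by
        intro y hy
        apply Subtype.ext
        apply hB.1
        intro v
        have hw : v - (B x v) • x ∈ W₁ := by
          rw [memW, map_sub, map_smul, hxx, smul_eq_mul, mul_one, sub_self]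
        have h1 := hy ⟨_, hw⟩
        have hyx : B (y : W) x = 0 := by rw [symm, (memW _).mp y.2]
        simp only [map_sub, map_smul, hyx, smul_zero, sub_zero] at h1
        exact h1
      constructor
      · intro y hy
        exact hsep y (fun z => hy z)
      · intro y hy
        apply hsep y
        intro z
        rw [symm]
        exact hy z
    have hfam : ∃ w' : Fin d' → W₁, ∀ i j, B (w' i : W) (w' j : W) = if i = j then 1 else 0 := by
      rcases hor with h1 | ⟨y, hxy, hyy⟩
      · have h2 : d' = 0 := by omega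
        subst h2
        exact ⟨Fin.elim0, fun i => i.elim0⟩
      · obtain ⟨w', hw'⟩ := ih d' (by omega) (B.restrict W₁) hS₁ hB₁
          ⟨⟨y, (memW y).mpr hxy⟩, hyy⟩ (by omega)
        exact ⟨w', fun i j => hw' i j⟩
    obtain ⟨w', hw'⟩ := hfam
    refine ⟨Fin.cons x (fun i => (w' i : W)), ?_⟩
    intro i j
    refine Fin.cases ?_ (fun i' => ?_) i <;> refine Fin.cases ?_ (fun j' => ?_) j
    · simp [hxx]
    · simp [(memW _).mp (w' j').2, (Fin.succ_ne_zero j').symm]
    · have h1 : B (w' i' : W) x = 0 := by rw [symm, (memW _).mp (w' i').2]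
      simp [h1, Fin.succ_ne_zero i']
    · simpa using hw' i' j'

end Orthonormal

section NormalForm

variable {F : Type*} [Field F] [CharP F 2] {ι : Type} [Fintype ι] [DecidableEq ι]

/-- an involution with a standard family for the form `β(v, (t - 1) w)` has a normal form -/
lemma nf_of_family (Q : QuadraticForm F (ι → F)) (t : ↥(Cfsg.isometryGroup F ⇑Q))
    (hM : mat Q t * mat Q t = 1) {κ : Type} [Fintype κ] [DecidableEq κ] (σ : κ → κ)
    (hσ : ∀ x, σ (σ x) = x) (w : κ → ι → F)
    (hw : ∀ x y, QuadraticMap.polar (⇑Q) (w x) ((mat Q t).mulVec (w y) + w y)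
      = if y = σ x then 1 else 0)
    (hcard : Fintype.card κ = (mat Q t - 1).rank) : IsNF Q σ t := by
  classical
  have h2 : ∀ x : ι → F, x + x = 0 := fun x => by
    rw [← two_smul F x, CharTwo.two_eq_zero, zero_smul]
  obtain ⟨N, hN⟩ : ∃ N : (ι → F) → (ι → F), N = fun v => (mat Q t).mulVec v + v := ⟨_, rfl⟩
  have hNv : ∀ v, N v = (mat Q t).mulVec v + v := fun v => by rw [hN]
  have hNadd : ∀ a b, N (a + b) = N a + N b := by
    intro a b
    rw [hNv, hNv, hNv, Matrix.mulVec_add]
    abel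
  have hNsmul : ∀ (c : F) a, N (c • a) = c • N a := by
    intro c a
    rw [hNv, hNv, Matrix.mulVec_smul, smul_add]
  have hNN : ∀ v, N (N v) = 0 := by
    intro v
    rw [hNv (N v), hNv, Matrix.mulVec_add, Matrix.mulVec_mulVec, hM, Matrix.one_mulVec]
    have h3 : v + (mat Q t).mulVec v + ((mat Q t).mulVec v + v)
        = (v + v) + ((mat Q t).mulVec v + (mat Q t).mulVec v) := by abel
    rw [h3, h2, h2, add_zero]
  have hadj : ∀ a b, QuadraticMap.polar (⇑Q) (N a) b = QuadraticMap.polar (⇑Q) a (N b) := by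
    intro a b
    rw [hNv, hNv, QuadraticMap.polar_add_left, QuadraticMap.polar_add_right]
    congr 1
    have h3 := isom_polar Q t ((mat Q t).mulVec a) b
    rw [Matrix.mulVec_mulVec, hM, Matrix.one_mulVec] at h3
    exact h3.symm
  have hQN : ∀ v, Q (N v) = QuadraticMap.polar (⇑Q) v (N v) := by
    intro v
    rw [hNv, Q_add, isom_pres Q t v, QuadraticMap.polar_add_right, polar_self_eq,
      CharTwo.two_eq_zero, zero_mul, add_zero, CharTwo.add_self_eq_zero, zero_add,
      QuadraticMap.polar_comm]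
  obtain ⟨u, hu⟩ : ∃ u : κ → ι → F, u = fun x => N (w x) := ⟨_, rfl⟩
  have hux : ∀ x, u x = N (w x) := fun x => by rw [hu]
  have hwu : ∀ x y, QuadraticMap.polar (⇑Q) (w x) (u y) = if y = σ x then 1 else 0 := by
    intro x y
    rw [hux, hNv]
    exact hw x y
  have huu : ∀ x y, QuadraticMap.polar (⇑Q) (u x) (u y) = 0 := by
    intro x y
    rw [hux, hux, hadj, hNN, QuadraticMap.polar_zero_right]
  have hQu : ∀ x, Q (u x) = if σ x = x then 1 else 0 := by
    intro x
    rw [hux, hQN, ← hux, hwu]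
    by_cases h : σ x = x
    · rw [if_pos h, if_pos h.symm]
    · rw [if_neg h, if_neg (fun h' => h h'.symm)]
  have hpair : ∀ (c : κ → F) (z : κ),
      QuadraticMap.polar (⇑Q) (w (σ z)) (∑ x, c x • u x) = c z := by
    intro c z
    show QuadraticMap.polarBilin Q (w (σ z)) (∑ x, c x • u x) = c z
    rw [map_sum]
    have h3 : ∀ x, QuadraticMap.polarBilin Q (w (σ z)) (c x • u x)
        = if x = z then c x else 0 := by
      intro x
      show QuadraticMap.polar (⇑Q) (w (σ z)) (c x • u x) = _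
      rw [QuadraticMap.polar_smul_right, hwu, hσ z]
      by_cases h : x = z
      · rw [if_pos h, if_pos h, smul_eq_mul, mul_one]
      · rw [if_neg h, if_neg h, smul_zero]
    rw [Finset.sum_congr rfl (fun x _ => h3 x), Finset.sum_ite_eq' Finset.univ z c]
    simp
  have hli : LinearIndependent F u := by
    rw [Fintype.linearIndependent_iff]
    intro c hc z
    have h3 := hpair c z
    rw [hc, QuadraticMap.polar_zero_right] at h3
    exact h3.symm
  have hstd : SigStd Q σ u := ⟨hli, huu, hQu⟩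
  -- the range of `t - 1` is spanned by `u`
  have hNsub : ∀ v, N v = (mat Q t - 1).mulVec v := by
    intro v
    rw [hNv, Matrix.sub_mulVec, Matrix.one_mulVec, sub_eq_add_neg, c2_neg]
  have hspan : Submodule.span F (Set.range u) = LinearMap.range (Matrix.toLin' (mat Q t - 1)) := by
    apply Submodule.eq_of_le_of_finrank_eq
    · rw [Submodule.span_le]
      rintro x ⟨y, rfl⟩
      exact ⟨w y, by rw [Matrix.toLin'_apply, ← hNsub, hux]⟩
    · rw [finrank_span_eq_card hli, hcard]
      rfl
  have hform : ∀ v, N v = ∑ y, QuadraticMap.polar (⇑Q) (u y) v • u (σ y) := by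
    intro v
    have h3 : N v ∈ Submodule.span F (Set.range u) := by
      rw [hspan]
      exact ⟨v, by rw [Matrix.toLin'_apply, ← hNsub]⟩
    obtain ⟨c, hc⟩ := (Submodule.mem_span_range_iff_exists_fun F).mp h3
    have h4 : ∀ z, c z = QuadraticMap.polar (⇑Q) (u (σ z)) v := by
      intro z
      rw [← hpair c z, hc, ← hadj, ← hux]
    rw [← hc]
    rw [← Fintype.sum_equiv (Function.Involutive.toPerm σ hσ)
      (fun y => QuadraticMap.polar (⇑Q) (u y) v • u (σ y)) (fun z => c z • u z)
      (fun y => by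
        show QuadraticMap.polar (⇑Q) (u y) v • u (σ y) = c (σ y) • u (σ y)
        rw [h4, hσ])]
  refine ⟨u, hstd, fun v => ?_⟩
  rw [← hform, hNv, add_comm ((mat Q t).mulVec v) v, ← add_assoc, h2, zero_add]

/-- every involution of `O(Q)` has a normal form -/
theorem nf_of_invol [Fintype F] (Q : QuadraticForm F (ι → F))
    (hQ : (QuadraticMap.polarBilin Q).Nondegenerate) (t : ↥(Cfsg.isometryGroup F ⇑Q))
    (ht : orderOf t = 2) :
    (∃ s, 1 ≤ s ∧ IsNF Q (id : Fin s → Fin s) t) ∨
      (∃ k, 1 ≤ k ∧ IsNF Q (Sum.swap : Fin k ⊕ Fin k → Fin k ⊕ Fin k) t) := by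
  classical
  have hM := invol_mat_sq Q t ht
  have h2 : ∀ x : ι → F, x + x = 0 := fun x => by
    rw [← two_smul F x, CharTwo.two_eq_zero, zero_smul]
  obtain ⟨Nl, hNl⟩ : ∃ Nl : (ι → F) →ₗ[F] (ι → F), Nl = Matrix.toLin' (mat Q t - 1) := ⟨_, rfl⟩
  have hNv : ∀ v, Nl v = (mat Q t).mulVec v + v := by
    intro v
    rw [hNl, Matrix.toLin'_apply, Matrix.sub_mulVec, Matrix.one_mulVec, sub_eq_add_neg, c2_neg]
  have hadj : ∀ a b, QuadraticMap.polar (⇑Q) (Nl a) b = QuadraticMap.polar (⇑Q) a (Nl b) := by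
    intro a b
    rw [hNv, hNv, QuadraticMap.polar_add_left, QuadraticMap.polar_add_right]
    congr 1
    have h3 := isom_polar Q t ((mat Q t).mulVec a) b
    rw [Matrix.mulVec_mulVec, hM, Matrix.one_mulVec] at h3
    exact h3.symm
  obtain ⟨C, hC⟩ := Submodule.exists_isCompl (LinearMap.ker Nl)
  obtain ⟨s, hs⟩ : ∃ s, s = (mat Q t - 1).rank := ⟨_, rfl⟩
  have hCdim : Module.finrank F ↥C = s := by
    have h3 := Submodule.finrank_add_eq_of_isCompl hC
    have h4 := LinearMap.finrank_range_add_finrank_ker Nl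
    have h5 : (mat Q t - 1).rank = Module.finrank F ↥(LinearMap.range Nl) := by
      rw [hNl]
      rfl
    omega
  have hspos : 1 ≤ s := by
    by_contra hcon
    have hs0 : (mat Q t - 1).rank = 0 := by omega
    have h3 := rank_sub_one_add_fix (mat Q t)
    rw [hs0, zero_add] at h3
    have h4 : fixSub (mat Q t) = ⊤ := by
      apply Submodule.eq_top_of_finrank_eq
      rw [h3, Module.finrank_fintype_fun_eq_card]
    have h5 : t = 1 := by
      apply isom_ext
      apply Matrix.mulVec_injective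
      funext v
      have h6 : v ∈ fixSub (mat Q t) := by
        rw [h4]
        trivial
      rw [mem_fixSub] at h6
      show (mat Q t).mulVec v = (mat Q 1).mulVec v
      rw [h6, mat_one, Matrix.one_mulVec]
    rw [h5, orderOf_one] at ht
    omega
  obtain ⟨B, hB⟩ : ∃ B : LinearMap.BilinForm F ↥C,
      ∀ a b : C, B a b = QuadraticMap.polar (⇑Q) (a : ι → F) (Nl (b : ι → F)) :=
    ⟨(QuadraticMap.polarBilin Q).compl₁₂ C.subtype (Nl.comp C.subtype), fun a b => rfl⟩
  have hsymm : ∀ a b : C, B a b = B b a := by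
    intro a b
    rw [hB, hB, ← hadj, QuadraticMap.polar_comm]
  have hBS : B.IsSymm := ⟨hsymm⟩
  have hBnd : B.Nondegenerate := by
    have hsep : ∀ a : C, (∀ b : C, B a b = 0) → a = 0 := by
      intro a ha
      have h3 : Nl (a : ι → F) = 0 := by
        apply hQ.1
        intro v
        show QuadraticMap.polar (⇑Q) (Nl (a : ι → F)) v = 0
        have hv : v ∈ LinearMap.ker Nl ⊔ C := by
          rw [hC.sup_eq_top]
          trivial
        obtain ⟨k, hk, c, hc, rfl⟩ := Submodule.mem_sup.mp hv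
        rw [hadj, map_add, LinearMap.mem_ker.mp hk, zero_add]
        have h4 := ha ⟨c, hc⟩
        rw [hB] at h4
        exact h4
      have h4 : (a : ι → F) ∈ LinearMap.ker Nl ⊓ C := ⟨LinearMap.mem_ker.mpr h3, a.2⟩
      rw [hC.inf_eq_bot, Submodule.mem_bot] at h4
      exact Subtype.ext h4
    constructor
    · intro a ha
      exact hsep a (fun b => ha b)
    · intro a ha
      apply hsep a
      intro b
      rw [hsymm]
      exact ha b
  by_cases hna : ∃ c : C, B c c ≠ 0
  · left
    obtain ⟨w', hw'⟩ := exists_orthonormal s B hBS hBnd hna hCdim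
    refine ⟨s, hspos, ?_⟩
    apply nf_of_family Q t hM id (fun x => rfl) (fun x => (w' x : ι → F))
    · intro x y
      rw [← hNv, ← hB, hw']
      show (if x = y then (1 : F) else 0) = if y = x then 1 else 0
      by_cases h : x = y
      · rw [if_pos h, if_pos h.symm]
      · rw [if_neg h, if_neg (fun h' => h h'.symm)]
    · rw [Fintype.card_fin, hs]
  · right
    push Not at hna
    have hA : B.IsAlt := fun c => hna c
    obtain ⟨k, hk, e, f, h1, h2', h3⟩ := symp_fam_main s B hA hBnd hCdim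
    refine ⟨k, by omega, ?_⟩
    apply nf_of_family Q t hM Sum.swap (fun x => Sum.swap_swap x)
      (Sum.elim (fun i => (e i : ι → F)) (fun i => (f i : ι → F)))
    · intro x y
      rw [← hNv]
      rcases x with i | i <;> rcases y with j | j
      · simp only [Sum.elim_inl, Sum.swap_inl]
        rw [← hB, h2']
        simp
      · simp only [Sum.elim_inl, Sum.elim_inr, Sum.swap_inl]
        rw [← hB, h1]
        by_cases h : i = j
        · subst h
          simp
        · rw [if_neg h]
          exact (if_neg (fun h' => h (Sum.inr.inj h').symm)).symm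
      · simp only [Sum.elim_inl, Sum.elim_inr, Sum.swap_inr]
        rw [← hB, hsymm, h1]
        by_cases h : j = i
        · subst h
          simp
        · rw [if_neg h]
          exact (if_neg (fun h' => h (Sum.inl.inj h'))).symm
      · simp only [Sum.elim_inr, Sum.swap_inr]
        rw [← hB, h3]
        simp
    · rw [Fintype.card_sum, Fintype.card_fin, ← hs]
      omega

/-- an isometry with a non-trivial normal form is an involution -/
lemma nf_orderOf (Q : QuadraticForm F (ι → F)) (hQ : (QuadraticMap.polarBilin Q).Nondegenerate)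
    {κ : Type} [Fintype κ] [DecidableEq κ] [Nonempty κ] (σ : κ → κ) (hσ : ∀ x, σ (σ x) = x)
    (t : ↥(Cfsg.isometryGroup F ⇑Q)) (ht : IsNF Q σ t) : orderOf t = 2 := by
  have hrank := nf_rank Q hQ σ hσ t ht
  obtain ⟨u, ⟨hli, hu, hQu⟩, htf⟩ := ht
  have h2 : ∀ x : ι → F, x + x = 0 := fun x => by
    rw [← two_smul F x, CharTwo.two_eq_zero, zero_smul]
  have hfixu : ∀ z, (mat Q t).mulVec (u z) = u z := by
    intro z
    rw [htf]
    have h3 : ∑ y, QuadraticMap.polar (⇑Q) (u y) (u z) • u (σ y) = 0 :=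
      Finset.sum_eq_zero (fun y _ => by rw [hu, zero_smul])
    rw [h3, add_zero]
  have hsq : t * t = 1 := by
    apply isom_ext
    apply Matrix.mulVec_injective
    funext v
    show (mat Q (t * t)).mulVec v = (mat Q 1).mulVec v
    rw [mat_mul, mat_one, Matrix.one_mulVec, ← Matrix.mulVec_mulVec, htf v, Matrix.mulVec_add,
      Matrix.mulVec_sum, htf v]
    have h3 : ∀ y, (mat Q t).mulVec (QuadraticMap.polar (⇑Q) (u y) v • u (σ y))
        = QuadraticMap.polar (⇑Q) (u y) v • u (σ y) := by
      intro y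
      rw [Matrix.mulVec_smul, hfixu]
    rw [Finset.sum_congr rfl (fun y _ => h3 y), add_assoc, h2, add_zero]
  have hne : t ≠ 1 := by
    intro h
    rw [h, mat_one, sub_self, Matrix.rank_zero] at hrank
    have h3 := Fintype.card_pos (α := κ)
    omega
  haveI : Fact (Nat.Prime 2) := ⟨Nat.prime_two⟩
  exact orderOf_eq_prime (by rw [pow_two]; exact hsq) hne

/-- the number of classes of involutions of `O(Q)`, given the normal forms which occur -/
theorem invol_class_count [Fintype F] (Q : QuadraticForm F (ι → F))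
    (hQ : (QuadraticMap.polarBilin Q).Nondegenerate) (m w : ℕ)
    (hcard : Fintype.card ι = 2 * m)
    (hNA : ∀ s, 1 ≤ s → s ≤ m →
      ∃ t : ↥(Cfsg.isometryGroup F ⇑Q), IsNF Q (id : Fin s → Fin s) t)
    (hAL : ∀ k, 1 ≤ k → 2 * k ≤ w →
      ∃ t : ↥(Cfsg.isometryGroup F ⇑Q), IsNF Q (Sum.swap : Fin k ⊕ Fin k → Fin k ⊕ Fin k) t)
    (hB : ∀ k (t : ↥(Cfsg.isometryGroup F ⇑Q)),
      IsNF Q (Sum.swap : Fin k ⊕ Fin k → Fin k ⊕ Fin k) t → 2 * k ≤ w) :
    Nat.card {C : ConjClasses ↥(Cfsg.isometryGroup F ⇑Q) //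
      ∃ g : ↥(Cfsg.isometryGroup F ⇑Q), ConjClasses.mk g = C ∧ orderOf g = 2} = m + w / 2 := by
  classical
  choose tNA htNA using hNA
  choose tAL htAL using hAL
  have hswfp : ∀ (k : ℕ) (x : Fin k ⊕ Fin k), Sum.swap x ≠ x := by
    intro k x
    rcases x with i | i <;> simp
  obtain ⟨rep, hrepNA, hrepAL⟩ : ∃ rep : Fin m ⊕ Fin (w / 2) → ↥(Cfsg.isometryGroup F ⇑Q),
      (∀ i : Fin m, IsNF Q (id : Fin (i.1 + 1) → Fin (i.1 + 1)) (rep (Sum.inl i))) ∧
      (∀ j : Fin (w / 2), IsNF Q (Sum.swap : Fin (j.1 + 1) ⊕ Fin (j.1 + 1) → _)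
        (rep (Sum.inr j))) :=
    ⟨Sum.elim (fun i => tNA (i.1 + 1) (by omega) (by have := i.2; omega))
      (fun j => tAL (j.1 + 1) (by omega) (by have := j.2; omega)),
      fun i => htNA _ _ _, fun j => htAL _ _ _⟩
  have hrepord : ∀ x, orderOf (rep x) = 2 := by
    intro x
    rcases x with i | j
    · exact nf_orderOf Q hQ id (fun _ => rfl) _ (hrepNA i)
    · exact nf_orderOf Q hQ Sum.swap Sum.swap_swap _ (hrepAL j)
  obtain ⟨Ψ, hΨ⟩ : ∃ Ψ : Fin m ⊕ Fin (w / 2) → {C : ConjClasses ↥(Cfsg.isometryGroup F ⇑Q) //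
      ∃ g : ↥(Cfsg.isometryGroup F ⇑Q), ConjClasses.mk g = C ∧ orderOf g = 2},
      ∀ x, (Ψ x).1 = ConjClasses.mk (rep x) :=
    ⟨fun x => ⟨ConjClasses.mk (rep x), rep x, rfl, hrepord x⟩, fun x => rfl⟩
  have hinj : Function.Injective Ψ := by
    intro x y hxy
    have h1 : IsConj (rep x) (rep y) := by
      rw [← ConjClasses.mk_eq_mk_iff_isConj, ← hΨ, ← hΨ, hxy]
    have hr := rank_conj Q _ _ h1
    rcases x with i | j <;> rcases y with i' | j'
    · rw [nf_rank Q hQ id (fun _ => rfl) _ (hrepNA i),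
        nf_rank Q hQ id (fun _ => rfl) _ (hrepNA i'), Fintype.card_fin, Fintype.card_fin] at hr
      congr 1
      apply Fin.ext
      omega
    · exfalso
      obtain ⟨v, hv⟩ := nf_not_alt Q hQ id (fun _ => rfl) _ (hrepNA i)
      exact hv (alt_conj Q _ _ h1.symm
        (nf_alt Q Sum.swap Sum.swap_swap (hswfp _) _ (hrepAL j')) v)
    · exfalso
      obtain ⟨v, hv⟩ := nf_not_alt Q hQ id (fun _ => rfl) _ (hrepNA i')
      exact hv (alt_conj Q _ _ h1
        (nf_alt Q Sum.swap Sum.swap_swap (hswfp _) _ (hrepAL j)) v)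
    · rw [nf_rank Q hQ Sum.swap Sum.swap_swap _ (hrepAL j),
        nf_rank Q hQ Sum.swap Sum.swap_swap _ (hrepAL j'), Fintype.card_sum, Fintype.card_sum,
        Fintype.card_fin, Fintype.card_fin] at hr
      congr 1
      apply Fin.ext
      omega
  have hsurj : Function.Surjective Ψ := by
    rintro ⟨C, g, rfl, hg⟩
    rcases nf_of_invol Q hQ g hg with ⟨s, hs1, hnf⟩ | ⟨k, hk1, hnf⟩
    · have h1 := nf_card_le Q hQ id g hnf
      rw [Fintype.card_fin, hcard] at h1
      have hsm : s - 1 < m := by omega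
      refine ⟨Sum.inl ⟨s - 1, hsm⟩, ?_⟩
      apply Subtype.ext
      rw [hΨ]
      show ConjClasses.mk (rep (Sum.inl ⟨s - 1, hsm⟩)) = ConjClasses.mk g
      rw [ConjClasses.mk_eq_mk_iff_isConj]
      have h2 := hrepNA ⟨s - 1, hsm⟩
      have h3 : s - 1 + 1 = s := by omega
      revert h2
      show IsNF Q (id : Fin (s - 1 + 1) → Fin (s - 1 + 1)) (rep (Sum.inl ⟨s - 1, hsm⟩)) → _
      rw [h3]
      intro h2
      exact nf_conj Q hQ id _ _ h2 hnf
    · have h1 := hB k g hnf
      have hkw : k - 1 < w / 2 := by omega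
      refine ⟨Sum.inr ⟨k - 1, hkw⟩, ?_⟩
      apply Subtype.ext
      rw [hΨ]
      show ConjClasses.mk (rep (Sum.inr ⟨k - 1, hkw⟩)) = ConjClasses.mk g
      rw [ConjClasses.mk_eq_mk_iff_isConj]
      have h2 := hrepAL ⟨k - 1, hkw⟩
      have h3 : k - 1 + 1 = k := by omega
      revert h2
      show IsNF Q (Sum.swap : Fin (k - 1 + 1) ⊕ Fin (k - 1 + 1) → _)
        (rep (Sum.inr ⟨k - 1, hkw⟩)) → _
      rw [h3]
      intro h2
      exact nf_conj Q hQ Sum.swap _ _ h2 hnf
  rw [← Nat.card_congr (Equiv.ofBijective Ψ ⟨hinj, hsurj⟩), Nat.card_eq_fintype_card,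
    Fintype.card_sum, Fintype.card_fin, Fintype.card_fin]

end NormalForm

section Families

variable {F : Type*} [Field F] {ι : Type} [Fintype ι] [DecidableEq ι]

lemma li_of_coord {κ : Type} [Fintype κ] [DecidableEq κ] (u : κ → ι → F) (p : κ → ι)
    (h : ∀ x y, u x (p y) = if x = y then 1 else 0) : LinearIndependent F u := by
  rw [Fintype.linearIndependent_iff]
  intro c hc z
  have h1 := congrFun hc (p z)
  rw [Finset.sum_apply] at h1
  have h2 : ∀ x, (c x • u x) (p z) = if x = z then c x else 0 := by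
    intro x
    rw [Pi.smul_apply, h, smul_eq_mul]
    by_cases hx : x = z
    · rw [if_pos hx, if_pos hx, mul_one]
    · rw [if_neg hx, if_neg hx, mul_zero]
  rw [Finset.sum_congr rfl (fun x _ => h2 x), Finset.sum_ite_eq' Finset.univ z c] at h1
  simpa using h1

lemma sigStd_id_comp (Q : QuadraticForm F (ι → F)) {κ κ' : Type} [Fintype κ] [DecidableEq κ]
    [Fintype κ'] [DecidableEq κ'] (U : κ' → ι → F) (h : SigStd Q id U) (emb : κ → κ')
    (hinj : Function.Injective emb) : SigStd Q id (U ∘ emb) :=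
  ⟨h.1.comp emb hinj, fun x y => h.2.1 _ _, fun x => by simpa using h.2.2 (emb x)⟩

lemma sigStd_ts_comp (Q : QuadraticForm F (ι → F)) {κ κ' : Type} [Fintype κ] [DecidableEq κ]
    (U : κ' → ι → F) (hli : LinearIndependent F U)
    (hpol : ∀ x y, QuadraticMap.polar (⇑Q) (U x) (U y) = 0) (hQU : ∀ x, Q (U x) = 0)
    (σ : κ → κ) (hfp : ∀ x, σ x ≠ x) (emb : κ → κ') (hinj : Function.Injective emb) :
    SigStd Q σ (U ∘ emb) :=
  ⟨hli.comp emb hinj, fun x y => hpol _ _, fun x => by rw [if_neg (hfp x)]; exact hQU _⟩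

end Families

end Cfsg.Agent.Lib.helper4
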