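import Mathlib
import Cfsg.Agent.Lib.helper4.OrthInvClass
import Cfsg.Agent.Lib.helper4.OrthInvol
import Cfsg.Agent.Lib.helper4.OrthForms

set_option autoImplicit false

/-!
# Counting classes of involutions in `O^±(2m, q)`, `q` even

Explicit standard families for the plus and minus forms, and the resulting counts.
-/

namespace Cfsg.Agent.Lib.helper4

open Cfsg.Agent.Lib.helper13

section Counts

variable {F : Type*} [Field F] [CharP F 2]

/-- explicit polar form of the minus-type form -/
lemma polar_qMg (k : ℕ) (a c : F) (x y : (Fin k ⊕ Fin k) ⊕ Fin 2 → F) :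
    QuadraticMap.polar (Cfsg.Agent.S2679.qMg F k a c) x y =
      ∑ i, (x (Sum.inl (Sum.inl i)) * y (Sum.inl (Sum.inr i)) +
        y (Sum.inl (Sum.inl i)) * x (Sum.inl (Sum.inr i))) +
      (2 * x (Sum.inr 0) * y (Sum.inr 0) + a * (x (Sum.inr 0) * y (Sum.inr 1) +
        x (Sum.inr 1) * y (Sum.inr 0)) + 2 * c * x (Sum.inr 1) * y (Sum.inr 1)) := by
  simp only [QuadraticMap.polar, Cfsg.Agent.S2679.qMg_apply, Cfsg.quadFormMinus, Pi.add_apply]
  have h : ∀ (a b c d e f : F), (a + d) - (b + e) - (c + f) = (a - b - c) + (d - e - f) := by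
    intros; ring
  rw [h, ← Finset.sum_sub_distrib, ← Finset.sum_sub_distrib]
  congr 1
  · exact Finset.sum_congr rfl (fun i _ => by ring)
  · ring

/-- plus form: the vectors `e_j + f_j` -/
lemma plus_NA_std (m : ℕ) : SigStd (Cfsg.Agent.S2562.qP F m) (id : Fin m → Fin m)
    (fun j => Pi.single (Sum.inl j) 1 + Pi.single (Sum.inr j) 1) := by
  classical
  refine ⟨li_of_coord _ (fun j => Sum.inl j) ?_, ?_, ?_⟩
  · intro x y
    simp only [Pi.add_apply, Pi.single_apply]
    by_cases h : x = y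
    · subst h
      simp
    · have h' : ¬ y = x := fun h' => h h'.symm
      simp [h, h']
  · intro x y
    rw [Cfsg.Agent.S2562.polar_qP]
    apply Finset.sum_eq_zero
    intro i _
    have h1 : ∀ z : Fin m, (Pi.single (Sum.inl z) (1 : F) + Pi.single (Sum.inr z) 1 :
        Fin m ⊕ Fin m → F) (Sum.inl i) = (Pi.single (Sum.inl z) (1 : F) + Pi.single (Sum.inr z) 1 :
        Fin m ⊕ Fin m → F) (Sum.inr i) := by
      intro z
      simp [Pi.single_apply]
    beta_reduce
    rw [h1 x, h1 y, mul_comm]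
    exact CharTwo.add_self_eq_zero _
  · intro x
    rw [Cfsg.Agent.S2562.qP_apply, Cfsg.quadFormPlus]
    simp [Pi.single_apply]

lemma plus_ts_li (m : ℕ) : LinearIndependent F
    (fun j : Fin m => (Pi.single (Sum.inl j) 1 : Fin m ⊕ Fin m → F)) := by
  classical
  refine li_of_coord _ (fun j => Sum.inl j) ?_
  intro x y
  simp only [Pi.single_apply]
  by_cases h : x = y
  · subst h
    simp
  · have h' : ¬ y = x := fun h' => h h'.symm
    simp [h, h']

lemma plus_ts_polar (m : ℕ) (x y : Fin m) : QuadraticMap.polar (⇑(Cfsg.Agent.S2562.qP F m))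
    (Pi.single (Sum.inl x) 1 : Fin m ⊕ Fin m → F) (Pi.single (Sum.inl y) 1) = 0 := by
  classical
  rw [Cfsg.Agent.S2562.polar_qP]
  simp [Pi.single_apply]

lemma plus_ts_Q (m : ℕ) (x : Fin m) : Cfsg.Agent.S2562.qP F m
    (Pi.single (Sum.inl x) 1 : Fin m ⊕ Fin m → F) = 0 := by
  classical
  rw [Cfsg.Agent.S2562.qP_apply, Cfsg.quadFormPlus]
  simp [Pi.single_apply]

/-- the number of classes of involutions of `O⁺(2m, q)`, `q` even -/
theorem plus_invol_count [Fintype F] (m : ℕ) :
    Nat.card {C : ConjClasses ↥(Cfsg.isometryGroup F ⇑(Cfsg.Agent.S2562.qP F m)) //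
      ∃ g : ↥(Cfsg.isometryGroup F ⇑(Cfsg.Agent.S2562.qP F m)),
        ConjClasses.mk g = C ∧ orderOf g = 2} = m + m / 2 := by
  classical
  apply invol_class_count (Cfsg.Agent.S2562.qP F m) (Cfsg.Agent.S2562.nondeg_qP m) m m
    (by simp only [Fintype.card_sum, Fintype.card_fin]; omega)
  · intro s hs1 hsm
    obtain ⟨emb⟩ := Function.Embedding.nonempty_of_card_le (α := Fin s) (β := Fin m)
      (by simpa using hsm)
    exact nf_exists _ id (fun _ => rfl) _
      (sigStd_id_comp _ _ (plus_NA_std m) emb emb.injective)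
  · intro k hk1 hkm
    obtain ⟨emb⟩ := Function.Embedding.nonempty_of_card_le (α := Fin k ⊕ Fin k) (β := Fin m)
      (by simp only [Fintype.card_sum, Fintype.card_fin]; omega)
    exact nf_exists _ Sum.swap Sum.swap_swap _
      (sigStd_ts_comp _ _ (plus_ts_li m) (plus_ts_polar m) (plus_ts_Q m) Sum.swap
        (by rintro (i | i) <;> simp) emb emb.injective)
  · intro k t ht
    have h1 := nf_card_le _ (Cfsg.Agent.S2562.nondeg_qP m) _ t ht
    simp only [Fintype.card_sum, Fintype.card_fin] at h1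
    omega

/-- minus form: the vectors `e_j + f_j` and the first vector of the anisotropic part -/
lemma minus_NA_std (k : ℕ) (a c : F) :
    SigStd (Cfsg.Agent.S2679.qMg F k a c) (id : Option (Fin k) → Option (Fin k))
      (fun o => o.elim (Pi.single (Sum.inr 0) 1)
        (fun j => Pi.single (Sum.inl (Sum.inl j)) 1 + Pi.single (Sum.inl (Sum.inr j)) 1)) := by
  classical
  refine ⟨li_of_coord _ (fun o => o.elim (Sum.inr 0) (fun j => Sum.inl (Sum.inl j))) ?_, ?_, ?_⟩
  · intro x y
    rcases x with _ | x <;> rcases y with _ | y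
    · simp
    · simp
    · simp
    · simp only [Option.elim_some, Pi.add_apply, Pi.single_apply]
      by_cases h : x = y
      · subst h
        simp
      · have h' : ¬ y = x := fun h' => h h'.symm
        simp [h, h']
  · intro x y
    have h1 : ∀ (o : Option (Fin k)) (i : Fin k),
        (o.elim (Pi.single (Sum.inr 0) (1 : F))
          (fun j => Pi.single (Sum.inl (Sum.inl j)) 1 + Pi.single (Sum.inl (Sum.inr j)) 1) :
          (Fin k ⊕ Fin k) ⊕ Fin 2 → F) (Sum.inl (Sum.inl i))
        = (o.elim (Pi.single (Sum.inr 0) (1 : F))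
          (fun j => Pi.single (Sum.inl (Sum.inl j)) 1 + Pi.single (Sum.inl (Sum.inr j)) 1) :
          (Fin k ⊕ Fin k) ⊕ Fin 2 → F) (Sum.inl (Sum.inr i)) := by
      intro o i
      rcases o with _ | o
      · simp
      · simp [Pi.single_apply]
    have h2 : ∀ (o : Option (Fin k)),
        (o.elim (Pi.single (Sum.inr 0) (1 : F))
          (fun j => Pi.single (Sum.inl (Sum.inl j)) 1 + Pi.single (Sum.inl (Sum.inr j)) 1) :
          (Fin k ⊕ Fin k) ⊕ Fin 2 → F) (Sum.inr 1) = 0 := by
      intro o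
      rcases o with _ | o
      · simp
      · simp
    rw [polar_qMg]
    beta_reduce
    rw [h2 x, h2 y]
    have h3 : (2 : F) = 0 := CharTwo.two_eq_zero
    rw [h3]
    simp only [zero_mul, mul_zero, add_zero]
    apply Finset.sum_eq_zero
    intro i _
    rw [h1 x, h1 y, mul_comm]
    exact CharTwo.add_self_eq_zero _
  · intro x
    rw [Cfsg.Agent.S2679.qMg_apply, Cfsg.quadFormMinus]
    rcases x with _ | x
    · simp
    · simp [Pi.single_apply]

lemma minus_ts_li (k : ℕ) : LinearIndependent F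
    (fun j : Fin k => (Pi.single (Sum.inl (Sum.inl j)) 1 : (Fin k ⊕ Fin k) ⊕ Fin 2 → F)) := by
  classical
  refine li_of_coord _ (fun j => Sum.inl (Sum.inl j)) ?_
  intro x y
  simp only [Pi.single_apply]
  by_cases h : x = y
  · subst h
    simp
  · have h' : ¬ y = x := fun h' => h h'.symm
    simp [h, h']

lemma minus_ts_polar (k : ℕ) (a c : F) (x y : Fin k) :
    QuadraticMap.polar (⇑(Cfsg.Agent.S2679.qMg F k a c))
      (Pi.single (Sum.inl (Sum.inl x)) 1 : (Fin k ⊕ Fin k) ⊕ Fin 2 → F)
      (Pi.single (Sum.inl (Sum.inl y)) 1) = 0 := by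
  classical
  rw [polar_qMg]
  simp [Pi.single_apply]

lemma minus_ts_Q (k : ℕ) (a c : F) (x : Fin k) : Cfsg.Agent.S2679.qMg F k a c
    (Pi.single (Sum.inl (Sum.inl x)) 1 : (Fin k ⊕ Fin k) ⊕ Fin 2 → F) = 0 := by
  classical
  rw [Cfsg.Agent.S2679.qMg_apply, Cfsg.quadFormMinus]
  simp [Pi.single_apply]

/-- the number of classes of involutions of `O⁻(2m, q)`, `q` even -/
theorem minus_invol_count [Fintype F] (m : ℕ) (hm : 1 ≤ m) (a b : F)
    (hab : ∀ z₁ z₂ : F, z₁ ^ 2 + a * z₁ * z₂ + b * z₂ ^ 2 = 0 → z₁ = 0 ∧ z₂ = 0) :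
    Nat.card {C : ConjClasses ↥(Cfsg.isometryGroup F ⇑(Cfsg.Agent.S2679.qMg F (m - 1) a b)) //
      ∃ g : ↥(Cfsg.isometryGroup F ⇑(Cfsg.Agent.S2679.qMg F (m - 1) a b)),
        ConjClasses.mk g = C ∧ orderOf g = 2} = m + (m - 1) / 2 := by
  classical
  apply invol_class_count (Cfsg.Agent.S2679.qMg F (m - 1) a b) (nondeg_qMg (m - 1) a b hab) m
    (m - 1) (by simp only [Fintype.card_sum, Fintype.card_fin]; omega)
  · intro s hs1 hsm
    obtain ⟨emb⟩ := Function.Embedding.nonempty_of_card_le (α := Fin s)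
      (β := Option (Fin (m - 1)))
      (by simp only [Fintype.card_option, Fintype.card_fin]; omega)
    exact nf_exists _ id (fun _ => rfl) _
      (sigStd_id_comp _ _ (minus_NA_std (m - 1) a b) emb emb.injective)
  · intro k hk1 hkm
    obtain ⟨emb⟩ := Function.Embedding.nonempty_of_card_le (α := Fin k ⊕ Fin k)
      (β := Fin (m - 1)) (by simp only [Fintype.card_sum, Fintype.card_fin]; omega)
    exact nf_exists _ Sum.swap Sum.swap_swap _
      (sigStd_ts_comp _ _ (minus_ts_li (m - 1)) (minus_ts_polar (m - 1) a b)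
        (minus_ts_Q (m - 1) a b) Sum.swap (by rintro (i | i) <;> simp) emb emb.injective)
  · intro k t ht
    have h1 := nf_card_le _ (nondeg_qMg (m - 1) a b hab) _ t ht
    simp only [Fintype.card_sum, Fintype.card_fin] at h1
    by_contra hcon
    have h2 : 2 * k = m := by omega
    obtain ⟨U, hU, hUd⟩ := nf_ts _ Sum.swap (by rintro (i | i) <;> simp) t ht
    refine minus_no_maxTS m hm a b hab U ⟨hU, ?_⟩
    rw [hUd]
    simp only [Fintype.card_sum, Fintype.card_fin]
    omega

end Counts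

end Cfsg.Agent.Lib.helper4
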