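import Mathlib
import Cfsg.Agent.Lib.helper4.OrthInvCount
import Cfsg.Agent.Lib.helper4.OrthRank
import Cfsg.Agent.Lib.helper4.OrthIdx

set_option autoImplicit false

/-!
# Counting classes of involutions in `Ω^±(2m, q)`, `q` even
-/

namespace Cfsg.Agent.Lib.helper4

open Cfsg.Agent.Lib.helper13

section OmegaCount

variable {F : Type*} [Field F] [CharP F 2] {ι : Type} [Fintype ι] [DecidableEq ι]

omit [CharP F 2] in
/-- the vectors of a normal form are fixed -/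
lemma nf_fix_u (Q : QuadraticForm F (ι → F)) {κ : Type} [Fintype κ] [DecidableEq κ] (σ : κ → κ)
    (t : ↥(Cfsg.isometryGroup F ⇑Q)) (u : κ → ι → F)
    (hu : ∀ x y, QuadraticMap.polar (⇑Q) (u x) (u y) = 0)
    (htf : ∀ v, (mat Q t).mulVec v = v + ∑ y, QuadraticMap.polar (⇑Q) (u y) v • u (σ y))
    (z : κ) : (mat Q t).mulVec (u z) = u z := by
  rw [htf]
  have h3 : ∑ y, QuadraticMap.polar (⇑Q) (u y) (u z) • u (σ y) = 0 :=
    Finset.sum_eq_zero (fun y _ => by rw [hu, zero_smul])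
  rw [h3, add_zero]

omit [CharP F 2] in
lemma nf_fix_not_maxTS_id (Q : QuadraticForm F (ι → F)) {κ : Type} [Fintype κ] [DecidableEq κ]
    [Nonempty κ] (t : ↥(Cfsg.isometryGroup F ⇑Q)) (ht : IsNF Q (id : κ → κ) t) :
    ¬ MaxTS Q (fixSub (mat Q t)) := by
  obtain ⟨u, ⟨hli, hu, hQu⟩, htf⟩ := ht
  intro hU
  obtain ⟨z⟩ := ‹Nonempty κ›
  have h1 := hU.1 (u z) ((mem_fixSub _ _).mpr (nf_fix_u Q id t u hu htf z))
  rw [hQu] at h1
  simp at h1

omit [CharP F 2] in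
lemma nf_fix_maxTS_iff (Q : QuadraticForm F (ι → F))
    (hQ : (QuadraticMap.polarBilin Q).Nondegenerate) {κ : Type} [Fintype κ] [DecidableEq κ]
    (σ : κ → κ) (hσ : ∀ x, σ (σ x) = x) (hfp : ∀ x, σ x ≠ x) (t : ↥(Cfsg.isometryGroup F ⇑Q))
    (ht : IsNF Q σ t) :
    MaxTS Q (fixSub (mat Q t)) ↔ 2 * Fintype.card κ = Fintype.card ι := by
  have hrank := nf_rank Q hQ σ hσ t ht
  have h1 := rank_sub_one_add_fix (mat Q t)
  constructor
  · intro hU
    have := hU.2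
    omega
  · intro hc
    obtain ⟨u, ⟨hli, hu, hQu⟩, htf⟩ := ht
    have hle : Submodule.span F (Set.range u) ≤ fixSub (mat Q t) := by
      rw [Submodule.span_le]
      rintro x ⟨z, rfl⟩
      exact (mem_fixSub _ _).mpr (nf_fix_u Q σ t u hu htf z)
    have heq : Submodule.span F (Set.range u) = fixSub (mat Q t) := by
      apply Submodule.eq_of_le_of_finrank_eq hle
      rw [finrank_span_eq_card hli]
      omega
    refine ⟨?_, by omega⟩
    intro x hx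
    rw [← heq] at hx
    obtain ⟨c, rfl⟩ := (Submodule.mem_span_range_iff_exists_fun F).mp hx
    rw [Q_sum_orth Q Finset.univ c u (fun a b _ => hu a b)]
    apply Finset.sum_eq_zero
    intro y _
    rw [hQu, if_neg (hfp y), mul_zero]

omit [CharP F 2] in
lemma omega_isConj_iff (Q : QuadraticForm F (ι → F)) (t s : ↥(Cfsg.Omega F ⇑Q)) :
    IsConj t s ↔ ∃ g ∈ Cfsg.Omega F ⇑Q,
      g * (t : ↥(Cfsg.isometryGroup F ⇑Q)) * g⁻¹ = (s : ↥(Cfsg.isometryGroup F ⇑Q)) := by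
  rw [isConj_iff]
  constructor
  · rintro ⟨c, hc⟩
    exact ⟨c.1, c.2, by rw [← hc]; rfl⟩
  · rintro ⟨g, hg, h⟩
    exact ⟨⟨g, hg⟩, Subtype.ext h⟩

/-- the number of classes of involutions of `Ω(Q)`, given the normal forms which occur and the
behaviour of the classes of `O(Q)` -/
theorem omega_invol_class_count [Fintype F] (Q : QuadraticForm F (ι → F))
    (hQ : (QuadraticMap.polarBilin Q).Nondegenerate) (m w : ℕ) (hm : 1 ≤ m)
    (hcard : Fintype.card ι = 2 * m) (hwm : w ≤ m)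
    (hNA : ∀ s, 1 ≤ s → s ≤ m →
      ∃ t : ↥(Cfsg.isometryGroup F ⇑Q), IsNF Q (id : Fin s → Fin s) t)
    (hAL : ∀ k, 1 ≤ k → 2 * k ≤ w →
      ∃ t : ↥(Cfsg.isometryGroup F ⇑Q), IsNF Q (Sum.swap : Fin k ⊕ Fin k → Fin k ⊕ Fin k) t)
    (hB : ∀ k (t : ↥(Cfsg.isometryGroup F ⇑Q)),
      IsNF Q (Sum.swap : Fin k ⊕ Fin k → Fin k ⊕ Fin k) t → 2 * k ≤ w)
    (hrank : ∀ t : ↥(Cfsg.isometryGroup F ⇑Q),
      t ∈ Cfsg.Omega F ⇑Q ↔ Even (mat Q t - 1).rank)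
    (hconj : ∀ t s : ↥(Cfsg.isometryGroup F ⇑Q), orderOf t = 2 → IsConj t s →
      ¬ MaxTS Q (fixSub (mat Q t)) → ∃ g ∈ Cfsg.Omega F ⇑Q, g * t * g⁻¹ = s)
    (hsplit : ∀ t : ↥(Cfsg.isometryGroup F ⇑Q), orderOf t = 2 → t ∈ Cfsg.Omega F ⇑Q →
      MaxTS Q (fixSub (mat Q t)) → ∃ t' : ↥(Cfsg.isometryGroup F ⇑Q), IsConj t t' ∧
        (¬ ∃ g ∈ Cfsg.Omega F ⇑Q, g * t * g⁻¹ = t') ∧
        ∀ s, IsConj t s → (∃ g ∈ Cfsg.Omega F ⇑Q, g * t * g⁻¹ = s) ∨
          (∃ g ∈ Cfsg.Omega F ⇑Q, g * t' * g⁻¹ = s)) :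
    Nat.card {C : ConjClasses ↥(Cfsg.Omega F ⇑Q) //
      ∃ g : ↥(Cfsg.Omega F ⇑Q), ConjClasses.mk g = C ∧ orderOf g = 2}
      = m / 2 + w / 2 + (if w = m ∧ Even m then 1 else 0) := by
  classical
  choose tNA htNA using hNA
  choose tAL htAL using hAL
  have hswfp : ∀ (k : ℕ) (x : Fin k ⊕ Fin k), Sum.swap x ≠ x := by
    intro k x
    rcases x with i | i <;> simp
  obtain ⟨τ, hτNA, hτAL⟩ : ∃ τ : Fin (m / 2) ⊕ Fin (w / 2) → ↥(Cfsg.isometryGroup F ⇑Q),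
      (∀ i : Fin (m / 2), IsNF Q (id : Fin (2 * (i.1 + 1)) → Fin (2 * (i.1 + 1)))
        (τ (Sum.inl i))) ∧
      (∀ j : Fin (w / 2), IsNF Q (Sum.swap : Fin (j.1 + 1) ⊕ Fin (j.1 + 1) → _)
        (τ (Sum.inr j))) :=
    ⟨Sum.elim (fun i => tNA (2 * (i.1 + 1)) (by omega) (by have := i.2; omega))
      (fun j => tAL (j.1 + 1) (by omega) (by have := j.2; omega)),
      fun i => htNA _ _ _, fun j => htAL _ _ _⟩
  have hne : ∀ i : Fin (m / 2), Nonempty (Fin (2 * (i.1 + 1))) := fun i => ⟨⟨0, by omega⟩⟩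
  have hτord : ∀ x, orderOf (τ x) = 2 := by
    intro x
    rcases x with i | j
    · haveI := hne i
      exact nf_orderOf Q hQ id (fun _ => rfl) _ (hτNA i)
    · exact nf_orderOf Q hQ Sum.swap Sum.swap_swap _ (hτAL j)
  have hτΩ : ∀ x, τ x ∈ Cfsg.Omega F ⇑Q := by
    intro x
    rw [hrank]
    rcases x with i | j
    · rw [nf_rank Q hQ id (fun _ => rfl) _ (hτNA i), Fintype.card_fin]
      exact even_two_mul _
    · rw [nf_rank Q hQ Sum.swap Sum.swap_swap _ (hτAL j), Fintype.card_sum, Fintype.card_fin]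
      exact ⟨_, rfl⟩
  have hτinj : ∀ x y, IsConj (τ x) (τ y) → x = y := by
    intro x y h1
    have hr := rank_conj Q _ _ h1
    rcases x with i | j <;> rcases y with i' | j'
    · rw [nf_rank Q hQ id (fun _ => rfl) _ (hτNA i),
        nf_rank Q hQ id (fun _ => rfl) _ (hτNA i'), Fintype.card_fin, Fintype.card_fin] at hr
      congr 1
      apply Fin.ext
      omega
    · exfalso
      haveI := hne i
      obtain ⟨v, hv⟩ := nf_not_alt Q hQ id (fun _ => rfl) _ (hτNA i)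
      exact hv (alt_conj Q _ _ h1.symm
        (nf_alt Q Sum.swap Sum.swap_swap (hswfp _) _ (hτAL j')) v)
    · exfalso
      haveI := hne i'
      obtain ⟨v, hv⟩ := nf_not_alt Q hQ id (fun _ => rfl) _ (hτNA i')
      exact hv (alt_conj Q _ _ h1
        (nf_alt Q Sum.swap Sum.swap_swap (hswfp _) _ (hτAL j)) v)
    · rw [nf_rank Q hQ Sum.swap Sum.swap_swap _ (hτAL j),
        nf_rank Q hQ Sum.swap Sum.swap_swap _ (hτAL j'), Fintype.card_sum, Fintype.card_sum,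
        Fintype.card_fin, Fintype.card_fin] at hr
      congr 1
      apply Fin.ext
      omega
  have hτsurj : ∀ g : ↥(Cfsg.isometryGroup F ⇑Q), orderOf g = 2 → g ∈ Cfsg.Omega F ⇑Q →
      ∃ x, IsConj (τ x) g := by
    intro g hg hgΩ
    rcases nf_of_invol Q hQ g hg with ⟨s, hs1, hnf⟩ | ⟨k, hk1, hnf⟩
    · have h1 := nf_card_le Q hQ id g hnf
      rw [Fintype.card_fin, hcard] at h1
      have h2 := (hrank g).mp hgΩ
      rw [nf_rank Q hQ id (fun _ => rfl) g hnf, Fintype.card_fin] at h2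
      obtain ⟨c, hc⟩ := h2
      have hlt : c - 1 < m / 2 := by omega
      refine ⟨Sum.inl ⟨c - 1, hlt⟩, ?_⟩
      have h3 := hτNA ⟨c - 1, hlt⟩
      have h4 : 2 * (c - 1 + 1) = s := by omega
      revert h3
      show IsNF Q (id : Fin (2 * (c - 1 + 1)) → Fin (2 * (c - 1 + 1)))
        (τ (Sum.inl ⟨c - 1, hlt⟩)) → _
      rw [h4]
      intro h3
      exact nf_conj Q hQ id _ _ h3 hnf
    · have h1 := hB k g hnf
      have hkw : k - 1 < w / 2 := by omega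
      refine ⟨Sum.inr ⟨k - 1, hkw⟩, ?_⟩
      have h2 := hτAL ⟨k - 1, hkw⟩
      have h3 : k - 1 + 1 = k := by omega
      revert h2
      show IsNF Q (Sum.swap : Fin (k - 1 + 1) ⊕ Fin (k - 1 + 1) → _)
        (τ (Sum.inr ⟨k - 1, hkw⟩)) → _
      rw [h3]
      intro h2
      exact nf_conj Q hQ Sum.swap _ _ h2 hnf
  have hτTS : ∀ x, MaxTS Q (fixSub (mat Q (τ x))) →
      ∃ j : Fin (w / 2), x = Sum.inr j ∧ 2 * (j.1 + 1) = m := by
    intro x hU
    rcases x with i | j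
    · haveI := hne i
      exact absurd hU (nf_fix_not_maxTS_id Q _ (hτNA i))
    · have h1 := (nf_fix_maxTS_iff Q hQ Sum.swap Sum.swap_swap (hswfp _) _ (hτAL j)).mp hU
      rw [Fintype.card_sum, Fintype.card_fin, hcard] at h1
      exact ⟨j, rfl, by omega⟩
  obtain ⟨e, he⟩ : ∃ e : ℕ, e = if w = m ∧ Even m then 1 else 0 := ⟨_, rfl⟩
  have he1 : e ≤ 1 := by
    rw [he]
    split_ifs <;> omega
  obtain ⟨t', ht'⟩ : ∃ t' : Fin e → ↥(Cfsg.isometryGroup F ⇑Q), ∀ z : Fin e,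
      ∃ x, MaxTS Q (fixSub (mat Q (τ x))) ∧ IsConj (τ x) (t' z) ∧
        (¬ ∃ g ∈ Cfsg.Omega F ⇑Q, g * τ x * g⁻¹ = t' z) ∧
        ∀ s, IsConj (τ x) s → (∃ g ∈ Cfsg.Omega F ⇑Q, g * τ x * g⁻¹ = s) ∨
          (∃ g ∈ Cfsg.Omega F ⇑Q, g * t' z * g⁻¹ = s) := by
    by_cases hwe : w = m ∧ Even m
    · obtain ⟨hw, c, hc⟩ := hwe
      have hlt : c - 1 < w / 2 := by omega
      have hU : MaxTS Q (fixSub (mat Q (τ (Sum.inr ⟨c - 1, hlt⟩)))) :=
        (nf_fix_maxTS_iff Q hQ Sum.swap Sum.swap_swap (hswfp _) _ (hτAL ⟨c - 1, hlt⟩)).mpr (by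
          rw [Fintype.card_sum, Fintype.card_fin, hcard]
          show 2 * (c - 1 + 1 + (c - 1 + 1)) = 2 * m
          omega)
      obtain ⟨t₁, h1, h2, h3⟩ := hsplit _ (hτord _) (hτΩ _) hU
      exact ⟨fun _ => t₁, fun _ => ⟨_, hU, h1, h2, h3⟩⟩
    · have he0 : e = 0 := by rw [he, if_neg hwe]
      exact ⟨fun z => 1, fun z => absurd z.2 (by omega)⟩
  have ht'Ω : ∀ z, t' z ∈ Cfsg.Omega F ⇑Q := by
    intro z
    obtain ⟨x, -, hconj', -, -⟩ := ht' z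
    obtain ⟨c, hc⟩ := isConj_iff.mp hconj'
    rw [← hc]
    exact (inferInstance : (Cfsg.Omega F ⇑Q).Normal).conj_mem _ (hτΩ x) c
  have ht'ord : ∀ z, orderOf (t' z) = 2 := by
    intro z
    obtain ⟨x, -, hconj', -, -⟩ := ht' z
    obtain ⟨c, hc⟩ := isConj_iff.mp hconj'
    have h1 : SemiconjBy c (τ x) (t' z) := by
      show c * τ x = t' z * c
      rw [← hc]
      group
    rw [← h1.orderOf_eq, hτord]
  obtain ⟨ρ, hρl, hρr⟩ : ∃ ρ : (Fin (m / 2) ⊕ Fin (w / 2)) ⊕ Fin e → ↥(Cfsg.Omega F ⇑Q),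
      (∀ x, (ρ (Sum.inl x) : ↥(Cfsg.isometryGroup F ⇑Q)) = τ x) ∧
      (∀ z, (ρ (Sum.inr z) : ↥(Cfsg.isometryGroup F ⇑Q)) = t' z) :=
    ⟨Sum.elim (fun x => ⟨τ x, hτΩ x⟩) (fun z => ⟨t' z, ht'Ω z⟩), fun x => rfl, fun z => rfl⟩
  have hρord : ∀ x, orderOf (ρ x) = 2 := by
    intro x
    rw [← Subgroup.orderOf_coe]
    rcases x with x | z
    · rw [hρl, hτord]
    · rw [hρr, ht'ord]
  obtain ⟨Ψ, hΨ⟩ : ∃ Ψ : (Fin (m / 2) ⊕ Fin (w / 2)) ⊕ Fin e →
      {C : ConjClasses ↥(Cfsg.Omega F ⇑Q) //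
        ∃ g : ↥(Cfsg.Omega F ⇑Q), ConjClasses.mk g = C ∧ orderOf g = 2},
      ∀ x, (Ψ x).1 = ConjClasses.mk (ρ x) :=
    ⟨fun x => ⟨ConjClasses.mk (ρ x), ρ x, rfl, hρord x⟩, fun x => rfl⟩
  have hinj : Function.Injective Ψ := by
    intro x y hxy
    have h1 : IsConj (ρ x) (ρ y) := by
      rw [← ConjClasses.mk_eq_mk_iff_isConj, ← hΨ, ← hΨ, hxy]
    rw [omega_isConj_iff] at h1
    obtain ⟨g, hgΩ, hg⟩ := h1
    rcases x with x | z <;> rcases y with y | z'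
    · rw [hρl, hρl] at hg
      rw [hτinj x y (isConj_iff.mpr ⟨g, hg⟩)]
    · exfalso
      rw [hρl, hρr] at hg
      obtain ⟨x', -, hc', hnot, -⟩ := ht' z'
      have h2 : x = x' := hτinj x x' ((isConj_iff.mpr ⟨g, hg⟩).trans hc'.symm)
      subst h2
      exact hnot ⟨g, hgΩ, hg⟩
    · exfalso
      rw [hρl, hρr] at hg
      obtain ⟨x', -, hc', hnot, -⟩ := ht' z
      have hg' : g⁻¹ * τ y * g⁻¹⁻¹ = t' z := by
        rw [← hg]
        group
      have h2 : y = x' := hτinj y x' ((isConj_iff.mpr ⟨g⁻¹, hg'⟩).trans hc'.symm)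
      subst h2
      exact hnot ⟨g⁻¹, (Cfsg.Omega F ⇑Q).inv_mem hgΩ, hg'⟩
    · congr 1
      apply Fin.ext
      have := z.2
      have := z'.2
      omega
  have hsurj : Function.Surjective Ψ := by
    rintro ⟨C, g, rfl, hg⟩
    have hg2 : orderOf (g : ↥(Cfsg.isometryGroup F ⇑Q)) = 2 := by
      rw [Subgroup.orderOf_coe, hg]
    obtain ⟨x, hx⟩ := hτsurj g.1 hg2 g.2
    by_cases hU : MaxTS Q (fixSub (mat Q (τ x)))
    · obtain ⟨j, hj, hjm⟩ := hτTS x hU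
      have hwe : w = m ∧ Even m := by
        have := j.2
        exact ⟨by omega, ⟨j.1 + 1, by omega⟩⟩
      have he' : e = 1 := by rw [he, if_pos hwe]
      have hz : 0 < e := by omega
      obtain ⟨x', hU', hc', hnot, hall⟩ := ht' ⟨0, hz⟩
      obtain ⟨j', hj', hjm'⟩ := hτTS x' hU'
      have hxx : x' = x := by
        rw [hj, hj']
        congr 1
        apply Fin.ext
        omega
      subst hxx
      rcases hall g.1 hx with ⟨g', hg'Ω, hg'⟩ | ⟨g', hg'Ω, hg'⟩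
      · refine ⟨Sum.inl x', ?_⟩
        apply Subtype.ext
        rw [hΨ]
        show ConjClasses.mk (ρ (Sum.inl x')) = ConjClasses.mk g
        rw [ConjClasses.mk_eq_mk_iff_isConj, omega_isConj_iff]
        exact ⟨g', hg'Ω, by rw [hρl]; exact hg'⟩
      · refine ⟨Sum.inr ⟨0, hz⟩, ?_⟩
        apply Subtype.ext
        rw [hΨ]
        show ConjClasses.mk (ρ (Sum.inr ⟨0, hz⟩)) = ConjClasses.mk g
        rw [ConjClasses.mk_eq_mk_iff_isConj, omega_isConj_iff]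
        exact ⟨g', hg'Ω, by rw [hρr]; exact hg'⟩
    · obtain ⟨g', hg'Ω, hg'⟩ := hconj (τ x) g.1 (hτord x) hx hU
      refine ⟨Sum.inl x, ?_⟩
      apply Subtype.ext
      rw [hΨ]
      show ConjClasses.mk (ρ (Sum.inl x)) = ConjClasses.mk g
      rw [ConjClasses.mk_eq_mk_iff_isConj, omega_isConj_iff]
      exact ⟨g', hg'Ω, by rw [hρl]; exact hg'⟩
  rw [← Nat.card_congr (Equiv.ofBijective Ψ ⟨hinj, hsurj⟩), Nat.card_eq_fintype_card,
    Fintype.card_sum, Fintype.card_sum, Fintype.card_fin, Fintype.card_fin, Fintype.card_fin, he]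

/-- splitting of the class of maximal totally singular type -/
lemma c2_split_maxTS [Fintype F] (h : Fintype.card F ≠ 2 ∨ Fintype.card ι ≠ 4)
    (Q : QuadraticForm F (ι → F)) (hQ : (QuadraticMap.polarBilin Q).Nondegenerate)
    (m : ℕ) (hcard : Fintype.card ι = 2 * m) (i : ι)
    (t : ↥(Cfsg.isometryGroup F ⇑Q)) (ht : orderOf t = 2) (htΩ : t ∈ Cfsg.Omega F ⇑Q)
    (hU : MaxTS Q (fixSub (mat Q t))) :
    ∃ t' : ↥(Cfsg.isometryGroup F ⇑Q), IsConj t t' ∧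
        (¬ ∃ g ∈ Cfsg.Omega F ⇑Q, g * t * g⁻¹ = t') ∧
        ∀ s, IsConj t s → (∃ g ∈ Cfsg.Omega F ⇑Q, g * t * g⁻¹ = s) ∨
          (∃ g ∈ Cfsg.Omega F ⇑Q, g * t' * g⁻¹ = s) := by
  have hM := invol_mat_sq Q t ht
  obtain ⟨hr, hv⟩ := invol_maxTS_fix_cond Q _ hM hU m hcard
  have hU' := invol_cond_maxTS Q _ m hcard hr hv
  have hUm : Module.finrank F ↥(LinearMap.range (Matrix.toLin' (mat Q t - 1))) = m := hr
  have hme : Even m := by
    have := (c2_mem_omega_iff_rank h Q hQ t).mp htΩ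
    rwa [hr] at this
  obtain ⟨v₀, hv₀⟩ := exists_nonsing Q hQ i
  obtain ⟨r, hr'⟩ : ∃ r, r = reflEl Q v₀ := ⟨_, rfl⟩
  have hdr : dick Q r = -1 := by rw [hr', dick_refl Q hQ v₀ hv₀]
  have hrΩ : r ∉ Cfsg.Omega F ⇑Q := by
    rw [c2_mem_omega_iff h Q hQ, hdr]
    decide
  have key : ∀ g s : ↥(Cfsg.isometryGroup F ⇑Q), g * t * g⁻¹ = s →
      (g ∈ Cfsg.Omega F ⇑Q ↔ Even (Module.finrank F
        ↥(LinearMap.range (Matrix.toLin' (mat Q t - 1))
          ⊓ LinearMap.range (Matrix.toLin' (mat Q s - 1))))) := by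
    intro g s hg
    rw [c2_omega_iff_ts_parity h Q hQ _ hU' g, ← conj_range Q t s g hg, hUm, Nat.even_add]
    exact ⟨fun h1 => h1.mp hme, fun h1 => ⟨fun _ => h1, fun _ => hme⟩⟩
  refine ⟨r * t * r⁻¹, isConj_iff.mpr ⟨r, rfl⟩, ?_, ?_⟩
  · rintro ⟨g, hgΩ, hg⟩
    exact hrΩ ((key r _ rfl).mpr ((key g _ hg).mp hgΩ))
  · intro s hs
    obtain ⟨c, hc⟩ := isConj_iff.mp hs
    by_cases hcΩ : c ∈ Cfsg.Omega F ⇑Q
    · exact Or.inl ⟨c, hcΩ, hc⟩
    · right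
      refine ⟨c * r⁻¹, ?_, ?_⟩
      · rw [c2_mem_omega_iff h Q hQ, dick_mul h Q hQ]
        have h1 : dick Q c = -1 := by
          rcases Int.units_eq_one_or (dick Q c) with h1 | h1
          · exact absurd ((c2_mem_omega_iff h Q hQ c).mpr h1) hcΩ
          · exact h1
        have h2 : r⁻¹ = r := by
          apply inv_eq_of_mul_eq_one_left
          rw [hr']
          exact reflEl_mul_self Q v₀
        rw [h1, h2, hdr]
        decide
      · rw [← hc]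
        group

lemma plus_hNA (m : ℕ) : ∀ s, 1 ≤ s → s ≤ m →
    ∃ t : ↥(Cfsg.isometryGroup F ⇑(Cfsg.Agent.S2562.qP F m)),
      IsNF (Cfsg.Agent.S2562.qP F m) (id : Fin s → Fin s) t := by
  classical
  intro s hs1 hsm
  obtain ⟨emb⟩ := Function.Embedding.nonempty_of_card_le (α := Fin s) (β := Fin m)
    (by simpa using hsm)
  exact nf_exists _ id (fun _ => rfl) _
    (sigStd_id_comp _ _ (plus_NA_std m) emb emb.injective)

lemma plus_hAL (m : ℕ) : ∀ k, 1 ≤ k → 2 * k ≤ m →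
    ∃ t : ↥(Cfsg.isometryGroup F ⇑(Cfsg.Agent.S2562.qP F m)),
      IsNF (Cfsg.Agent.S2562.qP F m) (Sum.swap : Fin k ⊕ Fin k → Fin k ⊕ Fin k) t := by
  classical
  intro k hk1 hkm
  obtain ⟨emb⟩ := Function.Embedding.nonempty_of_card_le (α := Fin k ⊕ Fin k) (β := Fin m)
    (by simp only [Fintype.card_sum, Fintype.card_fin]; omega)
  exact nf_exists _ Sum.swap Sum.swap_swap _
    (sigStd_ts_comp _ _ (plus_ts_li m) (plus_ts_polar m) (plus_ts_Q m) Sum.swap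
      (by rintro (i | i) <;> simp) emb emb.injective)

omit [CharP F 2] in
lemma plus_hB (m : ℕ) : ∀ k (t : ↥(Cfsg.isometryGroup F ⇑(Cfsg.Agent.S2562.qP F m))),
    IsNF (Cfsg.Agent.S2562.qP F m) (Sum.swap : Fin k ⊕ Fin k → Fin k ⊕ Fin k) t → 2 * k ≤ m := by
  intro k t ht
  have h1 := nf_card_le _ (Cfsg.Agent.S2562.nondeg_qP m) _ t ht
  simp only [Fintype.card_sum, Fintype.card_fin] at h1
  omega

/-- the number of classes of involutions of `Ω⁺(2m, q)`, `q` even -/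
theorem plus_omega_invol_count [Fintype F] (m : ℕ) (hm : 1 ≤ m)
    (h : Fintype.card F ≠ 2 ∨ m ≠ 2) :
    Nat.card {C : ConjClasses ↥(Cfsg.Omega F ⇑(Cfsg.Agent.S2562.qP F m)) //
      ∃ g : ↥(Cfsg.Omega F ⇑(Cfsg.Agent.S2562.qP F m)),
        ConjClasses.mk g = C ∧ orderOf g = 2} = 2 * (m / 2) + (if Even m then 1 else 0) := by
  classical
  have hcard : Fintype.card (Fin m ⊕ Fin m) = 2 * m := by
    simp only [Fintype.card_sum, Fintype.card_fin]
    omega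
  have h' : Fintype.card F ≠ 2 ∨ Fintype.card (Fin m ⊕ Fin m) ≠ 4 := by
    rw [hcard]
    rcases h with h | h
    · exact Or.inl h
    · exact Or.inr (by omega)
  have hQ := Cfsg.Agent.S2562.nondeg_qP (F := F) m
  have key := omega_invol_class_count (Cfsg.Agent.S2562.qP F m) hQ m m hm hcard le_rfl
    (plus_hNA m) (plus_hAL m) (plus_hB m)
    (fun t => c2_mem_omega_iff_rank h' _ hQ t)
    (fun t s ht hc hU => c2_invol_conj_of_not_ts h' _ hQ t s ht hc hU)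
    (fun t ht htΩ hU => c2_split_maxTS h' _ hQ m hcard (Sum.inl ⟨0, hm⟩) t ht htΩ hU)
  rw [key]
  simp only [true_and]
  omega

end OmegaCount

end Cfsg.Agent.Lib.helper4
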