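import Mathlib
import Cfsg.Agent.Lib.helper4.SpMax

set_option autoImplicit false

/-!
# Maximality of the stabiliser of a nondegenerate subspace in `Sp_2m(F)`
-/

namespace Cfsg.Agent.Lib.helper4

open Matrix
open Cfsg.Agent.S0776 Cfsg.Agent.S0766 Cfsg.Agent.S0765

section SpMax2

variable {F : Type*} [Field F] {m : ℕ}

/-- generic bridge: maximality in `Cfsg.spGL` from the statement in `Matrix.symplecticGroup`. -/
theorem spGL_isMaximalIn_of (W : Submodule F (Fin m ⊕ Fin m → F))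
    (hlt : ∃ A : Matrix.symplecticGroup (Fin m) F,
      ¬ ∀ v, v ∈ W ↔ (A : Matrix (Fin m ⊕ Fin m) (Fin m ⊕ Fin m) F) *ᵥ v ∈ W)
    (hmax : ∀ H : Subgroup (Matrix.symplecticGroup (Fin m) F),
      (∀ A : Matrix.symplecticGroup (Fin m) F,
        (∀ v, v ∈ W ↔ (A : Matrix (Fin m ⊕ Fin m) (Fin m ⊕ Fin m) F) *ᵥ v ∈ W) → A ∈ H) →
      ∀ g ∈ H, (¬ ∀ v, v ∈ W ↔ (g : Matrix (Fin m ⊕ Fin m) (Fin m ⊕ Fin m) F) *ᵥ v ∈ W) →
        H = ⊤) :
    Cfsg.Geo.IsMaximalIn (Cfsg.spGL m F) (Cfsg.Geo.subspaceStabilizer W ⊓ Cfsg.spGL m F) := by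
  classical
  have hmemP : ∀ A : Matrix.symplecticGroup (Fin m) F,
      ((spEquiv m F A : ↥(Cfsg.spGL m F)) : Matrix.GeneralLinearGroup (Fin m ⊕ Fin m) F)
        ∈ Cfsg.Geo.subspaceStabilizer W ⊓ Cfsg.spGL m F ↔
      ∀ v, v ∈ W ↔ (A : Matrix (Fin m ⊕ Fin m) (Fin m ⊕ Fin m) F) *ᵥ v ∈ W := by
    intro A
    constructor
    · intro h
      exact h.1
    · intro h
      exact ⟨h, (spEquiv m F A).2⟩
  refine ⟨lt_of_le_of_ne inf_le_right ?_, ?_⟩
  · intro heq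
    obtain ⟨A, hA⟩ := hlt
    apply hA
    apply (hmemP A).mp
    rw [heq]
    exact (spEquiv m F A).2
  · intro M hPM hMS
    by_cases hMP : M ≤ Cfsg.Geo.subspaceStabilizer W ⊓ Cfsg.spGL m F
    · left
      exact le_antisymm hMP hPM
    · right
      obtain ⟨g₀, hg₀M, hg₀P⟩ := SetLike.not_le_iff_exists.mp hMP
      have hkey := hmax
        (M.comap ((Cfsg.spGL m F).subtype.comp (spEquiv m F).toMonoidHom))
        (fun A hA => hPM ((hmemP A).mpr hA))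
        ((spEquiv m F).symm ⟨g₀, hMS hg₀M⟩) (by
          show ((spEquiv m F ((spEquiv m F).symm ⟨g₀, hMS hg₀M⟩) : ↥(Cfsg.spGL m F)) :
            Matrix.GeneralLinearGroup (Fin m ⊕ Fin m) F) ∈ M
          rw [MulEquiv.apply_symm_apply]
          exact hg₀M) (by
          intro h
          apply hg₀P
          have h1 := (hmemP ((spEquiv m F).symm ⟨g₀, hMS hg₀M⟩)).mpr h
          rw [MulEquiv.apply_symm_apply] at h1
          exact h1)
      apply le_antisymm hMS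
      intro g' hg'
      have h1 : (spEquiv m F).symm ⟨g', hg'⟩
          ∈ M.comap ((Cfsg.spGL m F).subtype.comp (spEquiv m F).toMonoidHom) := by
        rw [hkey]
        trivial
      have h2 : ((spEquiv m F ((spEquiv m F).symm ⟨g', hg'⟩) : ↥(Cfsg.spGL m F)) :
          Matrix.GeneralLinearGroup (Fin m ⊕ Fin m) F) ∈ M := h1
      rw [MulEquiv.apply_symm_apply] at h2
      exact h2

/-- one step: moving the `U`-component of a transvection centre. -/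
theorem sp_chain_step (H : Subgroup (Matrix.symplecticGroup (Fin m) F))
    (U : Submodule F (Fin m ⊕ Fin m → F))
    (hUC : ∀ u ∈ U, ∀ c : F, tv u c ∈ H) (e : Fin m ⊕ Fin m → F)
    (he : ∀ u ∈ U, Cfsg.sympForm m F e u = 0)
    (x y : Fin m ⊕ Fin m → F) (hx : x ∈ U) (hy : y ∈ U) (hxy : Cfsg.sympForm m F x y ≠ 0)
    (hxe : ∀ c : F, tv (x + e) c ∈ H) : ∀ c : F, tv (y + e) c ∈ H := by
  intro c
  have hv : y - x ∈ U := U.sub_mem hy hx
  have h1 : Cfsg.sympForm m F (x + e) (y - x) = Cfsg.sympForm m F x y := by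
    rw [sf_add_left, he _ hv, sf_sub_right, sf_self]
    ring
  have h2 : (tv (y - x) (Cfsg.sympForm m F x y)⁻¹ : Matrix.symplecticGroup (Fin m) F).1 *ᵥ (x + e)
      = y + e := by
    rw [tv_val, tv_apply, h1, inv_mul_cancel₀ hxy, one_smul]
    abel
  have h3 : tv (y + e) c = tv (y - x) (Cfsg.sympForm m F x y)⁻¹ * tv (x + e) c
      * (tv (y - x) (Cfsg.sympForm m F x y)⁻¹)⁻¹ := by
    rw [tv_conj, mul_inv_cancel_right, h2]
  rw [h3]
  exact H.mul_mem (H.mul_mem (hUC _ hv _) (hxe c)) (H.inv_mem (hUC _ hv _))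

theorem sp_chain (H : Subgroup (Matrix.symplecticGroup (Fin m) F))
    (U : Submodule F (Fin m ⊕ Fin m → F))
    (hU : ∀ u ∈ U, u ≠ 0 → ∃ u' ∈ U, Cfsg.sympForm m F u u' ≠ 0)
    (hUC : ∀ u ∈ U, ∀ c : F, tv u c ∈ H) (e : Fin m ⊕ Fin m → F)
    (he : ∀ u ∈ U, Cfsg.sympForm m F e u = 0)
    (x y : Fin m ⊕ Fin m → F) (hx : x ∈ U) (hy : y ∈ U) (hx0 : x ≠ 0) (hy0 : y ≠ 0)
    (hxe : ∀ c : F, tv (x + e) c ∈ H) : ∀ c : F, tv (y + e) c ∈ H := by
  by_cases hxy : Cfsg.sympForm m F x y = 0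
  · obtain ⟨u', hu'U, hu'⟩ := hU x hx hx0
    obtain ⟨u'', hu''U, hu''⟩ := hU y hy hy0
    have hu''y : Cfsg.sympForm m F u'' y ≠ 0 := by
      rw [sf_anti]
      exact neg_ne_zero.mpr hu''
    obtain ⟨u₂, hu₂U, h1, h2⟩ : ∃ u₂ ∈ U, Cfsg.sympForm m F x u₂ ≠ 0
        ∧ Cfsg.sympForm m F u₂ y ≠ 0 := by
      by_cases h3 : Cfsg.sympForm m F u' y = 0
      · by_cases h4 : Cfsg.sympForm m F x u'' = 0
        · refine ⟨u' + u'', U.add_mem hu'U hu''U, ?_, ?_⟩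
          · rw [sf_add_right, h4, add_zero]; exact hu'
          · rw [sf_add_left, h3, zero_add]; exact hu''y
        · exact ⟨u'', hu''U, h4, hu''y⟩
      · exact ⟨u', hu'U, hu', h3⟩
    exact sp_chain_step H U hUC e he u₂ y hu₂U hy h2
      (sp_chain_step H U hUC e he x u₂ hx hu₂U h1 hxe)
  · exact sp_chain_step H U hUC e he x y hx hy hxy hxe

/-- a subgroup of `Sp_2m(F)` containing the stabiliser of a nondegenerate subspace `W` with
`dim W < m` and an element not stabilising `W` is everything. -/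
theorem sp_nondeg_max (W : Submodule F (Fin m ⊕ Fin m → F))
    (hWnd : ∀ w ∈ W, w ≠ 0 → ∃ x ∈ W, Cfsg.sympForm m F w x ≠ 0)
    (hdim : Module.finrank F W < m)
    (H : Subgroup (Matrix.symplecticGroup (Fin m) F))
    (hPH : ∀ A : Matrix.symplecticGroup (Fin m) F,
      (∀ v, v ∈ W ↔ (A : Matrix (Fin m ⊕ Fin m) (Fin m ⊕ Fin m) F) *ᵥ v ∈ W) → A ∈ H)
    (g : Matrix.symplecticGroup (Fin m) F) (hgH : g ∈ H)
    (hg : ¬ ∀ v, v ∈ W ↔ (g : Matrix (Fin m ⊕ Fin m) (Fin m ⊕ Fin m) F) *ᵥ v ∈ W) : H = ⊤ := by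
  classical
  obtain ⟨Wp, hWp⟩ : ∃ Wp : Submodule F (Fin m ⊕ Fin m → F), Wp = (sB m F).orthogonal W :=
    ⟨_, rfl⟩
  have hmemWp : ∀ x, x ∈ Wp ↔ ∀ w ∈ W, Cfsg.sympForm m F w x = 0 := by
    intro x
    rw [hWp, LinearMap.BilinForm.mem_orthogonal_iff]
    constructor
    · intro h w hw
      rw [← sB_apply]
      exact h w hw
    · intro h w hw
      rw [sB_apply]
      exact h w hw
  have hrefl : (sB m F).IsRefl := sB_alt.isRefl
  have hnd : ((sB m F).restrict W).Nondegenerate := by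
    refine ⟨fun x hx => ?_, fun y hy => ?_⟩
    · by_contra hx0
      obtain ⟨x', hx'W, hx'⟩ := hWnd x.1 x.2 (fun h => hx0 (Subtype.ext h))
      apply hx'
      rw [← sB_apply]
      exact hx ⟨x', hx'W⟩
    · by_contra hy0
      obtain ⟨x', hx'W, hx'⟩ := hWnd y.1 y.2 (fun h => hy0 (Subtype.ext h))
      apply hx'
      have h1 : sB m F x' y.1 = 0 := hy ⟨x', hx'W⟩
      rw [sB_apply] at h1
      rw [sf_anti, h1, neg_zero]
  have hcompl : IsCompl W Wp := by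
    rw [hWp]
    exact LinearMap.BilinForm.isCompl_orthogonal_of_restrict_nondegenerate hrefl hnd
  have hdecomp : ∀ z : Fin m ⊕ Fin m → F, ∃ a ∈ W, ∃ a' ∈ Wp, a + a' = z := by
    intro z
    have h1 : z ∈ W ⊔ Wp := by
      rw [hcompl.sup_eq_top]
      trivial
    exact Submodule.mem_sup.mp h1
  have hdisj : ∀ x, x ∈ W → x ∈ Wp → x = 0 := fun x hx hx' =>
    Submodule.disjoint_def.mp hcompl.disjoint x hx hx'
  have hfr : Module.finrank F W + Module.finrank F Wp = 2 * m := by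
    rw [Submodule.finrank_add_eq_of_isCompl hcompl, Module.finrank_fintype_fun_eq_card,
      Fintype.card_sum, Fintype.card_fin]
    ring
  have hWpnd : ∀ y ∈ Wp, y ≠ 0 → ∃ y' ∈ Wp, Cfsg.sympForm m F y y' ≠ 0 := by
    intro y hy hy0
    obtain ⟨x, hx⟩ : ∃ x, sB m F y x ≠ 0 := by
      by_contra hcon
      push Not at hcon
      exact hy0 (sB_nondeg.1 y hcon)
    rw [sB_apply] at hx
    obtain ⟨a, ha, a', ha', haa⟩ := hdecomp x
    refine ⟨a', ha', ?_⟩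
    rw [← haa, sf_add_right, sf_anti y a, (hmemWp y).mp hy a ha, neg_zero, zero_add] at hx
    exact hx
  have hinj : ∀ A : Matrix.symplecticGroup (Fin m) F, Function.Injective
      (A : Matrix (Fin m ⊕ Fin m) (Fin m ⊕ Fin m) F).mulVec :=
    fun A x y h => mulVec_injective A x y h
  have hCW : ∀ u ∈ W, ∀ c : F, tv u c ∈ H := by
    intro u hu c
    apply hPH
    apply stab_of_inj_le W _ (hinj _)
    intro w hw
    rw [tv_val, tv_apply]
    exact W.add_mem hw (W.smul_mem _ hu)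
  have hCWp : ∀ u ∈ Wp, ∀ c : F, tv u c ∈ H := fun u hu c =>
    hPH _ (sp_tv_stab W u ((hmemWp u).mp hu) c)
  -- an element of `W^⊥` moved outside `W ∪ W^⊥`
  have h1 : ∃ u₁ ∈ Wp, (g : Matrix (Fin m ⊕ Fin m) (Fin m ⊕ Fin m) F) *ᵥ u₁ ∉ W := by
    by_contra hcon
    push Not at hcon
    have hle : Submodule.map (Matrix.mulVecLin (g : Matrix (Fin m ⊕ Fin m) (Fin m ⊕ Fin m) F)) Wp
        ≤ W := by
      rintro _ ⟨u, hu, rfl⟩
      exact hcon u hu
    have h2 := Submodule.finrank_mono hle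
    rw [← LinearEquiv.finrank_eq (Submodule.equivMapOfInjective
      (Matrix.mulVecLin (g : Matrix (Fin m ⊕ Fin m) (Fin m ⊕ Fin m) F)) (hinj g) Wp)] at h2
    omega
  have h2 : ∃ u₂ ∈ Wp, (g : Matrix (Fin m ⊕ Fin m) (Fin m ⊕ Fin m) F) *ᵥ u₂ ∉ Wp := by
    by_contra hcon
    push Not at hcon
    have hst := stab_of_inj_le Wp _ (hinj g) hcon
    apply hg
    apply stab_of_inj_le W _ (hinj g)
    intro w hw
    have hWW : (sB m F).orthogonal Wp = W := by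
      rw [hWp]
      exact LinearMap.BilinForm.orthogonal_orthogonal sB_nondeg hrefl W
    rw [← hWW, LinearMap.BilinForm.mem_orthogonal_iff]
    intro y hy
    have hy' : ((g⁻¹ : Matrix.symplecticGroup (Fin m) F) :
        Matrix (Fin m ⊕ Fin m) (Fin m ⊕ Fin m) F) *ᵥ y ∈ Wp := by
      have h3 := hst (((g⁻¹ : Matrix.symplecticGroup (Fin m) F) :
        Matrix (Fin m ⊕ Fin m) (Fin m ⊕ Fin m) F) *ᵥ y)
      rw [sp_mulVec_inv] at h3
      exact h3.mpr hy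
    rw [sB_apply, ← sp_mulVec_inv g y, sp_pres, sf_anti, (hmemWp _).mp hy' w hw, neg_zero]
  obtain ⟨u, huWp, hu1, hu2⟩ : ∃ u ∈ Wp,
      (g : Matrix (Fin m ⊕ Fin m) (Fin m ⊕ Fin m) F) *ᵥ u ∉ W ∧
      (g : Matrix (Fin m ⊕ Fin m) (Fin m ⊕ Fin m) F) *ᵥ u ∉ Wp := by
    obtain ⟨u₁, hu₁, h3⟩ := h1
    obtain ⟨u₂, hu₂, h4⟩ := h2
    by_cases h5 : (g : Matrix (Fin m ⊕ Fin m) (Fin m ⊕ Fin m) F) *ᵥ u₁ ∈ Wp
    · by_cases h6 : (g : Matrix (Fin m ⊕ Fin m) (Fin m ⊕ Fin m) F) *ᵥ u₂ ∈ W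
      · refine ⟨u₁ + u₂, Wp.add_mem hu₁ hu₂, ?_, ?_⟩
        · rw [Matrix.mulVec_add]
          intro h7
          exact h3 ((W.add_mem_iff_left h6).mp h7)
        · rw [Matrix.mulVec_add]
          intro h7
          exact h4 ((Wp.add_mem_iff_right h5).mp h7)
      · exact ⟨u₂, hu₂, h6, h4⟩
    · exact ⟨u₁, hu₁, h3, h5⟩
  have hz₀C : ∀ c : F, tv ((g : Matrix (Fin m ⊕ Fin m) (Fin m ⊕ Fin m) F) *ᵥ u) c ∈ H := by
    intro c
    have h3 : tv ((g : Matrix (Fin m ⊕ Fin m) (Fin m ⊕ Fin m) F) *ᵥ u) c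
        = g * tv u c * g⁻¹ := by
      rw [tv_conj, mul_inv_cancel_right]
    rw [h3]
    exact H.mul_mem (H.mul_mem hgH (hCWp u huWp c)) (H.inv_mem hgH)
  obtain ⟨a₀, ha₀, a₀', ha₀', hz₀⟩ := hdecomp ((g : Matrix (Fin m ⊕ Fin m) (Fin m ⊕ Fin m) F) *ᵥ u)
  have ha₀0 : a₀ ≠ 0 := by
    intro h
    apply hu2
    rw [← hz₀, h, zero_add]
    exact ha₀'
  have ha₀'0 : a₀' ≠ 0 := by
    intro h
    apply hu1
    rw [← hz₀, h, add_zero]
    exact ha₀
  rw [← hz₀] at hz₀C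
  rw [eq_top_iff, ← Cfsg.Agent.S0765.result m, Subgroup.closure_le]
  rintro A ⟨z, c, hA⟩
  have hA' : A = tv z c := Subtype.ext hA
  rw [hA']
  show tv z c ∈ H
  obtain ⟨a, ha, a', ha', hz⟩ := hdecomp z
  by_cases ha0 : a = 0
  · rw [← hz, ha0, zero_add]
    exact hCWp a' ha' c
  · by_cases ha'0 : a' = 0
    · rw [← hz, ha'0, add_zero]
      exact hCW a ha c
    · have h3 : ∀ c : F, tv (a + a₀') c ∈ H :=
        sp_chain H W hWnd hCW a₀' (fun w hw => by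
          rw [sf_anti, (hmemWp a₀').mp ha₀' w hw, neg_zero]) a₀ a ha₀ ha ha₀0 ha0 hz₀C
      have h4 : ∀ c : F, tv (a₀' + a) c ∈ H := by
        intro c
        rw [add_comm]
        exact h3 c
      have h5 := sp_chain H Wp hWpnd hCWp a (fun y hy => (hmemWp y).mp hy a ha) a₀' a' ha₀' ha'
        ha₀'0 ha'0 h4 c
      rw [← hz, add_comm]
      exact h5

end SpMax2

end Cfsg.Agent.Lib.helper4
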