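import Mathlib
import Cfsg.Agent.Lib.helper4.SpMax2

set_option autoImplicit false
set_option linter.unusedSectionVars false

/-!
# Maximality of the stabiliser of a nondegenerate decomposition in `Sp_2m(F)`
-/

namespace Cfsg.Agent.Lib.helper4

open Matrix
open Cfsg.Agent.S0776 Cfsg.Agent.S0766 Cfsg.Agent.S0765

section SpDecomp

variable {F : Type*} [Field F] {m : ℕ}

theorem sf_zero_left (w : Fin m ⊕ Fin m → F) : Cfsg.sympForm m F 0 w = 0 := by
  have h := sf_smul_left (0 : F) (0 : Fin m ⊕ Fin m → F) w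
  rw [zero_smul, zero_mul] at h
  exact h

theorem sf_zero_right (w : Fin m ⊕ Fin m → F) : Cfsg.sympForm m F w 0 = 0 := by
  rw [sf_anti, sf_zero_left, neg_zero]

theorem sf_sum_left {ι : Type*} (s : Finset ι) (v : ι → (Fin m ⊕ Fin m → F))
    (w : Fin m ⊕ Fin m → F) :
    Cfsg.sympForm m F (∑ i ∈ s, v i) w = ∑ i ∈ s, Cfsg.sympForm m F (v i) w := by
  classical
  induction s using Finset.induction_on with
  | empty => rw [Finset.sum_empty, Finset.sum_empty, sf_zero_left]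
  | insert a s ha ih => rw [Finset.sum_insert ha, Finset.sum_insert ha, sf_add_left, ih]

theorem sf_sub_left (u u' v : Fin m ⊕ Fin m → F) :
    Cfsg.sympForm m F (u - u') v = Cfsg.sympForm m F u v - Cfsg.sympForm m F u' v := by
  rw [sf_anti, sf_sub_right, sf_anti v u, sf_anti v u']
  ring

/-- all transvections with centre `z` lie in `H`. -/
def sC (H : Subgroup (Matrix.symplecticGroup (Fin m) F)) (z : Fin m ⊕ Fin m → F) : Prop :=
  ∀ c : F, tv z c ∈ H

theorem sC_zero (H : Subgroup (Matrix.symplecticGroup (Fin m) F)) : sC H 0 := by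
  intro c
  have h1 : tv (0 : Fin m ⊕ Fin m → F) c = 1 := by
    apply sp_ext
    intro x
    rw [tv_val, tv_apply, smul_zero, add_zero]
    show x = (1 : Matrix (Fin m ⊕ Fin m) (Fin m ⊕ Fin m) F) *ᵥ x
    rw [Matrix.one_mulVec]
  rw [h1]
  exact one_mem _

theorem sC_conj (H : Subgroup (Matrix.symplecticGroup (Fin m) F)) (z : Fin m ⊕ Fin m → F)
    (A : Matrix.symplecticGroup (Fin m) F) (hA : A ∈ H) (h : sC H z) :
    sC H ((A : Matrix (Fin m ⊕ Fin m) (Fin m ⊕ Fin m) F) *ᵥ z) := by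
  intro c
  have h1 : tv ((A : Matrix (Fin m ⊕ Fin m) (Fin m ⊕ Fin m) F) *ᵥ z) c = A * tv z c * A⁻¹ := by
    rw [tv_conj, mul_inv_cancel_right]
  rw [h1]
  exact H.mul_mem (H.mul_mem hA (h c)) (H.inv_mem hA)

theorem sC_line (H : Subgroup (Matrix.symplecticGroup (Fin m) F)) (x y : Fin m ⊕ Fin m → F)
    (hx : sC H x) (hy : sC H y) (c : F) : sC H (x + (c * Cfsg.sympForm m F x y) • y) := by
  have h1 := sC_conj H x (tv y c) (hy c) hx
  rw [tv_val, tv_apply] at h1
  exact h1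

theorem sC_add (H : Subgroup (Matrix.symplecticGroup (Fin m) F)) (x y : Fin m ⊕ Fin m → F)
    (hx : sC H x) (hy : sC H y) (hxy : Cfsg.sympForm m F x y ≠ 0) : sC H (x + y) := by
  have h1 := sC_line H x y hx hy (Cfsg.sympForm m F x y)⁻¹
  rw [inv_mul_cancel₀ hxy, one_smul] at h1
  exact h1

theorem map_eq_of_le {ι : Type*} [Fintype ι] [DecidableEq ι] (M : Matrix ι ι F)
    (hinj : Function.Injective M.mulVec) (W W' : Submodule F (ι → F))
    (hfin : Module.finrank F W = Module.finrank F W') (h : ∀ w ∈ W, M *ᵥ w ∈ W') :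
    W.map (Matrix.toLin' M) = W' := by
  have hinj' : Function.Injective (Matrix.toLin' M) := by
    intro x y hxy
    rw [Matrix.toLin'_apply, Matrix.toLin'_apply] at hxy
    exact hinj hxy
  apply Submodule.eq_of_le_of_finrank_eq
  · rintro _ ⟨w, hw, rfl⟩
    rw [Matrix.toLin'_apply]
    exact h w hw
  · rw [← hfin]
    exact (LinearEquiv.finrank_eq (Submodule.equivMapOfInjective (Matrix.toLin' M) hinj' W)).symm

variable {t : ℕ} (D : Fin t → Submodule F (Fin m ⊕ Fin m → F))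

/-- the element `A` of `Sp` permutes the members of `D`. -/
def sStab (A : Matrix.symplecticGroup (Fin m) F) : Prop :=
  ∃ σ : Equiv.Perm (Fin t), ∀ i, (D i).map
    (Matrix.toLin' (A : Matrix (Fin m ⊕ Fin m) (Fin m ⊕ Fin m) F)) = D (σ i)

theorem sf_fam_left (horth : ∀ i j, i ≠ j → ∀ u ∈ D i, ∀ v ∈ D j, Cfsg.sympForm m F u v = 0)
    (f : Fin t → (Fin m ⊕ Fin m → F)) (hf : ∀ i, f i ∈ D i) (i : Fin t)
    (w : Fin m ⊕ Fin m → F) (hw : w ∈ D i) :
    Cfsg.sympForm m F (∑ j, f j) w = Cfsg.sympForm m F (f i) w := by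
  rw [sf_sum_left, Finset.sum_eq_single i]
  · intro j _ hj
    exact horth j i hj (f j) (hf j) w hw
  · intro h
    exact absurd (Finset.mem_univ i) h

theorem sf_fam_fam (horth : ∀ i j, i ≠ j → ∀ u ∈ D i, ∀ v ∈ D j, Cfsg.sympForm m F u v = 0)
    (f f' : Fin t → (Fin m ⊕ Fin m → F)) (hf : ∀ i, f i ∈ D i) (hf' : ∀ i, f' i ∈ D i) :
    Cfsg.sympForm m F (∑ j, f j) (∑ j, f' j) = ∑ i, Cfsg.sympForm m F (f i) (f' i) := by
  rw [sf_sum_left]
  refine Finset.sum_congr rfl (fun i _ => ?_)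
  rw [sf_anti, sf_fam_left D horth f' hf' i (f i) (hf i), ← sf_anti]

theorem eq_zero_of_perp (hnd : ∀ i, ∀ w ∈ D i, w ≠ 0 → ∃ x ∈ D i, Cfsg.sympForm m F w x ≠ 0)
    (i : Fin t) (a : Fin m ⊕ Fin m → F) (ha : a ∈ D i)
    (h : ∀ x ∈ D i, Cfsg.sympForm m F a x = 0) : a = 0 := by
  by_contra ha0
  obtain ⟨x, hx, hax⟩ := hnd i a ha ha0
  exact hax (h x hx)

theorem eq_zero_of_mem_two
    (hnd : ∀ i, ∀ w ∈ D i, w ≠ 0 → ∃ x ∈ D i, Cfsg.sympForm m F w x ≠ 0)
    (horth : ∀ i j, i ≠ j → ∀ u ∈ D i, ∀ v ∈ D j, Cfsg.sympForm m F u v = 0)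
    (i j : Fin t) (hij : i ≠ j) (x : Fin m ⊕ Fin m → F) (hi : x ∈ D i) (hj : x ∈ D j) : x = 0 :=
  eq_zero_of_perp D hnd i x hi (fun y hy => horth j i hij.symm x hj y hy)

theorem fam_comp_zero (hnd : ∀ i, ∀ w ∈ D i, w ≠ 0 → ∃ x ∈ D i, Cfsg.sympForm m F w x ≠ 0)
    (horth : ∀ i j, i ≠ j → ∀ u ∈ D i, ∀ v ∈ D j, Cfsg.sympForm m F u v = 0)
    (f : Fin t → (Fin m ⊕ Fin m → F)) (hf : ∀ i, f i ∈ D i) (j : Fin t)
    (hsum : ∑ i, f i ∈ D j) (i : Fin t) (hij : i ≠ j) : f i = 0 := by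
  apply eq_zero_of_perp D hnd i (f i) (hf i)
  intro x hx
  rw [← sf_fam_left D horth f hf i x hx]
  exact horth j i hij.symm _ hsum x hx

theorem exists_fam (hsup : iSup D = ⊤) (v : Fin m ⊕ Fin m → F) :
    ∃ f : Fin t → (Fin m ⊕ Fin m → F), (∀ i, f i ∈ D i) ∧ ∑ i, f i = v := by
  have hv : v ∈ iSup D := by
    rw [hsup]
    trivial
  obtain ⟨f, hf, hfv⟩ := (Submodule.mem_iSup_iff_exists_finsupp D v).mp hv
  refine ⟨f, hf, ?_⟩
  rw [← hfv, Finsupp.sum_fintype]
  intro i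
  rfl

theorem two_comp (hnd : ∀ i, ∀ w ∈ D i, w ≠ 0 → ∃ x ∈ D i, Cfsg.sympForm m F w x ≠ 0)
    (horth : ∀ i j, i ≠ j → ∀ u ∈ D i, ∀ v ∈ D j, Cfsg.sympForm m F u v = 0)
    (j l r : Fin t) (hjl : j ≠ l) (a b : Fin m ⊕ Fin m → F) (ha : a ∈ D j) (hb : b ∈ D l)
    (hab : a + b ∈ D r) : a = 0 ∨ b = 0 := by
  by_cases hr : r = j
  · right
    apply eq_zero_of_perp D hnd l b hb
    intro x hx
    have h1 := horth r l (by rw [hr]; exact hjl) _ hab x hx
    rw [sf_add_left, horth j l hjl a ha x hx, zero_add] at h1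
    exact h1
  · left
    apply eq_zero_of_perp D hnd j a ha
    intro x hx
    have h1 := horth r j hr _ hab x hx
    rw [sf_add_left, horth l j hjl.symm b hb x hx, add_zero] at h1
    exact h1

theorem sStab_tv (horth : ∀ i j, i ≠ j → ∀ u ∈ D i, ∀ v ∈ D j, Cfsg.sympForm m F u v = 0)
    (i : Fin t) (z : Fin m ⊕ Fin m → F) (hz : z ∈ D i) (c : F) : sStab D (tv z c) := by
  refine ⟨1, fun j => ?_⟩
  rw [Equiv.Perm.one_apply]
  apply map_eq_of_le _ (fun x y h => mulVec_injective (tv z c) x y h) (D j) (D j) rfl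
  intro w hw
  rw [tv_val, tv_apply]
  by_cases hij : j = i
  · subst hij
    exact (D j).add_mem hw ((D j).smul_mem _ hz)
  · rw [horth j i hij w hw z hz, mul_zero, zero_smul, add_zero]
    exact hw

/-- families with the same support. -/
theorem sC_fam_same (hnd : ∀ i, ∀ w ∈ D i, w ≠ 0 → ∃ x ∈ D i, Cfsg.sympForm m F w x ≠ 0)
    (horth : ∀ i j, i ≠ j → ∀ u ∈ D i, ∀ v ∈ D j, Cfsg.sympForm m F u v = 0)
    (H : Subgroup (Matrix.symplecticGroup (Fin m) F))
    (hPH : ∀ A : Matrix.symplecticGroup (Fin m) F, sStab D A → A ∈ H)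
    (f f' : Fin t → (Fin m ⊕ Fin m → F)) (hf : ∀ i, f i ∈ D i) (hf' : ∀ i, f' i ∈ D i)
    (hsupp : ∀ i, f i = 0 ↔ f' i = 0) (h : sC H (∑ i, f i)) : sC H (∑ i, f' i) := by
  classical
  have key : ∀ A : Finset (Fin t), sC H (∑ i, if i ∈ A then f' i else f i) := by
    intro A
    induction A using Finset.induction_on with
    | empty => simpa using h
    | insert a A ha ih =>
      obtain ⟨g, hg⟩ : ∃ g : Fin t → (Fin m ⊕ Fin m → F),
          g = fun i => if i ∈ A then f' i else f i := ⟨_, rfl⟩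
      have hgD : ∀ i, g i ∈ D i := by
        intro i
        rw [hg]
        dsimp only
        split_ifs
        · exact hf' i
        · exact hf i
      have hga : g a = f a := by
        rw [hg]
        dsimp only
        rw [if_neg ha]
      obtain ⟨e, he⟩ : ∃ e : Fin m ⊕ Fin m → F, e = ∑ i ∈ Finset.univ.erase a, g i := ⟨_, rfl⟩
      have hsum1 : ∑ i, g i = f a + e := by
        rw [he, ← hga, Finset.add_sum_erase _ _ (Finset.mem_univ a)]
      have hsum2 : (∑ i, if i ∈ insert a A then f' i else f i) = f' a + e := by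
        rw [he, ← Finset.add_sum_erase _ _ (Finset.mem_univ a)]
        congr 1
        · rw [if_pos (Finset.mem_insert_self a A)]
        · apply Finset.sum_congr rfl
          intro i hi
          have hia : i ≠ a := Finset.ne_of_mem_erase hi
          rw [hg]
          dsimp only
          by_cases hiA : i ∈ A
          · rw [if_pos hiA, if_pos (Finset.mem_insert_of_mem hiA)]
          · rw [if_neg hiA, if_neg (fun h => hiA (Finset.mem_of_mem_insert_of_ne h hia))]
      have heperp : ∀ u ∈ D a, Cfsg.sympForm m F e u = 0 := by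
        intro u hu
        rw [he, sf_sum_left]
        apply Finset.sum_eq_zero
        intro i hi
        exact horth i a (Finset.ne_of_mem_erase hi) (g i) (hgD i) u hu
      rw [hsum2]
      have ih' : sC H (f a + e) := by
        rw [← hsum1, hg]
        exact ih
      by_cases hfa : f a = 0
      · rw [(hsupp a).mp hfa]
        rw [hfa] at ih'
        exact ih'
      · exact sp_chain H (D a) (hnd a) (fun u hu c => hPH _ (sStab_tv D horth a u hu c)) e
          heperp (f a) (f' a) (hf a) (hf' a) hfa (fun h0 => hfa ((hsupp a).mpr h0)) ih'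
  have h1 := key Finset.univ
  simpa using h1

/-- shrinking the support. -/
theorem sC_fam_sub (hnd : ∀ i, ∀ w ∈ D i, w ≠ 0 → ∃ x ∈ D i, Cfsg.sympForm m F w x ≠ 0)
    (horth : ∀ i j, i ≠ j → ∀ u ∈ D i, ∀ v ∈ D j, Cfsg.sympForm m F u v = 0)
    (hexc : ∀ i, ∀ w ∈ D i, w ≠ 0 → ∃ x ∈ D i, x ≠ 0 ∧ x ≠ w ∧ Cfsg.sympForm m F x w = 0)
    (H : Subgroup (Matrix.symplecticGroup (Fin m) F))
    (hPH : ∀ A : Matrix.symplecticGroup (Fin m) F, sStab D A → A ∈ H)
    (f f' : Fin t → (Fin m ⊕ Fin m → F)) (hf : ∀ i, f i ∈ D i) (hf' : ∀ i, f' i ∈ D i)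
    (hsupp : ∀ i, f i = 0 → f' i = 0) (h : sC H (∑ i, f i)) : sC H (∑ i, f' i) := by
  classical
  by_cases hall : ∀ i, f' i = 0
  · have h1 : ∑ i, f' i = 0 := Finset.sum_eq_zero (fun i _ => hall i)
    rw [h1]
    exact sC_zero H
  · push Not at hall
    obtain ⟨i₀, hi₀⟩ := hall
    obtain ⟨x₀, hx₀D, hx₀⟩ := hnd i₀ (f' i₀) (hf' i₀) hi₀
    choose! φ hφ using hexc
    obtain ⟨x, hxdef⟩ : ∃ x : Fin t → (Fin m ⊕ Fin m → F), x = fun i =>
        if f i = 0 then 0 else if f' i = 0 then f i else if i = i₀ then x₀ else φ i (f' i) :=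
      ⟨_, rfl⟩
    have hxD : ∀ i, x i ∈ D i := by
      intro i
      rw [hxdef]
      dsimp only
      split_ifs with h1 h2 h3
      · exact (D i).zero_mem
      · exact hf i
      · rw [h3]
        exact hx₀D
      · exact (hφ i (f' i) (hf' i) h2).1
    have hx0 : ∀ i, f i = 0 ↔ x i = 0 := by
      intro i
      rw [hxdef]
      dsimp only
      constructor
      · intro h1
        rw [if_pos h1]
      · intro h1
        by_contra hfi
        rw [if_neg hfi] at h1
        split_ifs at h1 with h2 h3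
        · exact hfi h1
        · rw [h1, sf_zero_right] at hx₀
          exact hx₀ rfl
        · exact (hφ i (f' i) (hf' i) h2).2.1 h1
    have hy0 : ∀ i, f i = 0 ↔ f' i - x i = 0 := by
      intro i
      constructor
      · intro h1
        rw [hsupp i h1, (hx0 i).mp h1, sub_zero]
      · intro h1
        by_contra hfi
        have h1' : f' i = x i := sub_eq_zero.mp h1
        rw [hxdef] at h1'
        dsimp only at h1'
        rw [if_neg hfi] at h1'
        split_ifs at h1' with h2 h3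
        · exact hfi (h1'.symm.trans h2)
        · rw [h3] at h1'
          rw [h1', sf_self] at hx₀
          exact hx₀ rfl
        · exact (hφ i (f' i) (hf' i) h2).2.2.1 h1'.symm
    have hyD : ∀ i, f' i - x i ∈ D i := fun i => (D i).sub_mem (hf' i) (hxD i)
    have hxC : sC H (∑ i, x i) := sC_fam_same D hnd horth H hPH f x hf hxD hx0 h
    have hyC : sC H (∑ i, (f' i - x i)) :=
      sC_fam_same D hnd horth H hPH f (fun i => f' i - x i) hf hyD hy0 h
    have hB : Cfsg.sympForm m F (∑ i, x i) (∑ i, (f' i - x i)) ≠ 0 := by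
      rw [sf_fam_fam D horth x (fun i => f' i - x i) hxD hyD, Finset.sum_eq_single i₀]
      · rw [sf_sub_right, sf_self, sub_zero]
        have h2 : x i₀ = x₀ := by
          rw [hxdef]
          dsimp only
          rw [if_neg (fun h => hi₀ (hsupp i₀ h)), if_neg hi₀, if_pos rfl]
        rw [h2, sf_anti]
        exact neg_ne_zero.mpr hx₀
      · intro i _ hi
        rw [sf_sub_right, sf_self, sub_zero, hxdef]
        dsimp only
        rw [if_neg hi]
        split_ifs with h1 h2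
        · exact sf_zero_left _
        · rw [h2]
          exact sf_zero_right _
        · exact (hφ i (f' i) (hf' i) h2).2.2.2
      · intro h
        exact absurd (Finset.mem_univ i₀) h
    have h3 := sC_add H _ _ hxC hyC hB
    rw [← Finset.sum_add_distrib] at h3
    have h4 : (∑ i, (x i + (f' i - x i))) = ∑ i, f' i :=
      Finset.sum_congr rfl (fun i _ => by abel)
    rw [h4] at h3
    exact h3

/-- the family with `a` at `i`, `b` at `j`. -/
def pfam (i j : Fin t) (a b : Fin m ⊕ Fin m → F) : Fin t → (Fin m ⊕ Fin m → F) :=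
  fun s => if s = i then a else if s = j then b else 0

theorem pfam_mem (i j : Fin t) (a b : Fin m ⊕ Fin m → F) (ha : a ∈ D i) (hb : b ∈ D j) :
    ∀ s, pfam i j a b s ∈ D s := by
  intro s
  unfold pfam
  split_ifs with h1 h2
  · rw [h1]
    exact ha
  · rw [h2]
    exact hb
  · exact (D s).zero_mem

theorem pfam_sum (i j : Fin t) (hij : i ≠ j) (a b : Fin m ⊕ Fin m → F) :
    ∑ s, pfam i j a b s = a + b := by
  rw [Fintype.sum_eq_add i j hij]
  · unfold pfam
    rw [if_pos rfl, if_neg hij.symm, if_pos rfl]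
  · intro s hs
    unfold pfam
    rw [if_neg hs.1, if_neg hs.2]

/-- all vectors supported on `S` are centres. -/
def sFull (H : Subgroup (Matrix.symplecticGroup (Fin m) F)) (S : Finset (Fin t)) : Prop :=
  ∀ f : Fin t → (Fin m ⊕ Fin m → F), (∀ i, f i ∈ D i) → (∀ i, i ∉ S → f i = 0) →
    sC H (∑ i, f i)

theorem sFull_of_one (hnd : ∀ i, ∀ w ∈ D i, w ≠ 0 → ∃ x ∈ D i, Cfsg.sympForm m F w x ≠ 0)
    (horth : ∀ i j, i ≠ j → ∀ u ∈ D i, ∀ v ∈ D j, Cfsg.sympForm m F u v = 0)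
    (hexc : ∀ i, ∀ w ∈ D i, w ≠ 0 → ∃ x ∈ D i, x ≠ 0 ∧ x ≠ w ∧ Cfsg.sympForm m F x w = 0)
    (H : Subgroup (Matrix.symplecticGroup (Fin m) F))
    (hPH : ∀ A : Matrix.symplecticGroup (Fin m) F, sStab D A → A ∈ H) (S : Finset (Fin t))
    (f : Fin t → (Fin m ⊕ Fin m → F)) (hf : ∀ i, f i ∈ D i) (hfS : ∀ i ∈ S, f i ≠ 0)
    (h : sC H (∑ i, f i)) : sFull D H S := by
  intro f' hf' hf'S
  refine sC_fam_sub D hnd horth hexc H hPH f f' hf hf' (fun i hi => hf'S i (fun hiS => ?_)) h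
  exact hfS i hiS hi

theorem sFull_single (horth : ∀ i j, i ≠ j → ∀ u ∈ D i, ∀ v ∈ D j, Cfsg.sympForm m F u v = 0)
    (H : Subgroup (Matrix.symplecticGroup (Fin m) F))
    (hPH : ∀ A : Matrix.symplecticGroup (Fin m) F, sStab D A → A ∈ H) (a : Fin t) :
    sFull D H {a} := by
  classical
  intro f hf hfS c
  have h1 : ∑ i, f i = f a := by
    rw [Finset.sum_eq_single a]
    · intro i _ hi
      exact hfS i (by rw [Finset.mem_singleton]; exact hi)
    · intro h
      exact absurd (Finset.mem_univ a) h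
  rw [h1]
  exact hPH _ (sStab_tv D horth a (f a) (hf a) c)

theorem sFull_insert (hnd : ∀ i, ∀ w ∈ D i, w ≠ 0 → ∃ x ∈ D i, Cfsg.sympForm m F w x ≠ 0)
    (horth : ∀ i j, i ≠ j → ∀ u ∈ D i, ∀ v ∈ D j, Cfsg.sympForm m F u v = 0)
    (hexc : ∀ i, ∀ w ∈ D i, w ≠ 0 → ∃ x ∈ D i, x ≠ 0 ∧ x ≠ w ∧ Cfsg.sympForm m F x w = 0)
    (H : Subgroup (Matrix.symplecticGroup (Fin m) F))
    (hPH : ∀ A : Matrix.symplecticGroup (Fin m) F, sStab D A → A ∈ H)
    (d : Fin t → (Fin m ⊕ Fin m → F)) (hd : ∀ i, d i ∈ D i) (hd0 : ∀ i, d i ≠ 0)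
    (S : Finset (Fin t)) (hS : sFull D H S) (i j : Fin t) (hi : i ∈ S) (hj : j ∉ S)
    (hpair : ∀ a ∈ D i, ∀ b ∈ D j, sC H (a + b)) : sFull D H (insert j S) := by
  classical
  have hij : i ≠ j := fun h => hj (h ▸ hi)
  obtain ⟨y₀, hy₀D, hy₀⟩ := hnd i (d i) (hd i) (hd0 i)
  obtain ⟨x, hxdef⟩ : ∃ x : Fin t → (Fin m ⊕ Fin m → F), x = fun s => if s ∈ S then d s else 0 :=
    ⟨_, rfl⟩
  have hxD : ∀ s, x s ∈ D s := by
    intro s
    rw [hxdef]
    dsimp only
    split_ifs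
    · exact hd s
    · exact (D s).zero_mem
  have hxC : sC H (∑ s, x s) := hS x hxD (fun s hs => by rw [hxdef]; dsimp only; rw [if_neg hs])
  have hyC : sC H (y₀ + d j) := hpair y₀ hy₀D (d j) (hd j)
  have hxi : x i = d i := by
    rw [hxdef]
    dsimp only
    rw [if_pos hi]
  have hxj : x j = 0 := by
    rw [hxdef]
    dsimp only
    rw [if_neg hj]
  have hB : Cfsg.sympForm m F (∑ s, x s) (y₀ + d j) ≠ 0 := by
    rw [sf_add_right, sf_fam_left D horth x hxD i y₀ hy₀D, sf_fam_left D horth x hxD j (d j) (hd j),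
      hxi, hxj, sf_zero_left, add_zero]
    exact hy₀
  have h1 := sC_add H _ _ hxC hyC hB
  have h2 : (∑ s, x s) + (y₀ + d j) = ∑ s, (x s + pfam i j y₀ (d j) s) := by
    rw [Finset.sum_add_distrib, pfam_sum i j hij]
  rw [h2] at h1
  refine sFull_of_one D hnd horth hexc H hPH (insert j S) _
    (fun s => (D s).add_mem (hxD s) (pfam_mem D i j y₀ (d j) hy₀D (hd j) s)) ?_ h1
  intro s hs
  rw [Finset.mem_insert] at hs
  unfold pfam
  by_cases hsi : s = i
  · rw [if_pos hsi, hsi, hxi]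
    intro h0
    have h3 : y₀ = -d i := by
      rw [eq_neg_iff_add_eq_zero, add_comm]
      exact h0
    rw [h3, ← neg_one_smul F (d i), sf_smul_right, sf_self, mul_zero] at hy₀
    exact hy₀ rfl
  · rw [if_neg hsi]
    by_cases hsj : s = j
    · rw [if_pos hsj, hsj, hxj, zero_add]
      exact hd0 j
    · rw [if_neg hsj, add_zero, hxdef]
      dsimp only
      rw [if_pos (hs.resolve_left hsj)]
      exact hd0 s

theorem sFull_all (hnd : ∀ i, ∀ w ∈ D i, w ≠ 0 → ∃ x ∈ D i, Cfsg.sympForm m F w x ≠ 0)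
    (horth : ∀ i j, i ≠ j → ∀ u ∈ D i, ∀ v ∈ D j, Cfsg.sympForm m F u v = 0)
    (hexc : ∀ i, ∀ w ∈ D i, w ≠ 0 → ∃ x ∈ D i, x ≠ 0 ∧ x ≠ w ∧ Cfsg.sympForm m F x w = 0)
    (H : Subgroup (Matrix.symplecticGroup (Fin m) F))
    (hPH : ∀ A : Matrix.symplecticGroup (Fin m) F, sStab D A → A ∈ H)
    (d : Fin t → (Fin m ⊕ Fin m → F)) (hd : ∀ i, d i ∈ D i) (hd0 : ∀ i, d i ≠ 0)
    (hpair : ∀ i j, i ≠ j → ∀ a ∈ D i, ∀ b ∈ D j, sC H (a + b)) :
    ∀ S : Finset (Fin t), S.Nonempty → sFull D H S := by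
  classical
  intro S hS
  induction hS using Finset.Nonempty.cons_induction with
  | singleton a => exact sFull_single D horth H hPH a
  | cons a s has hs ih =>
    obtain ⟨i, hi⟩ := hs
    rw [Finset.cons_eq_insert]
    exact sFull_insert D hnd horth hexc H hPH d hd hd0 s ih i a hi has
      (hpair i a (fun h => has (h ▸ hi)))

theorem pair_of_one (hnd : ∀ i, ∀ w ∈ D i, w ≠ 0 → ∃ x ∈ D i, Cfsg.sympForm m F w x ≠ 0)
    (horth : ∀ i j, i ≠ j → ∀ u ∈ D i, ∀ v ∈ D j, Cfsg.sympForm m F u v = 0)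
    (hexc : ∀ i, ∀ w ∈ D i, w ≠ 0 → ∃ x ∈ D i, x ≠ 0 ∧ x ≠ w ∧ Cfsg.sympForm m F x w = 0)
    (H : Subgroup (Matrix.symplecticGroup (Fin m) F))
    (hPH : ∀ A : Matrix.symplecticGroup (Fin m) F, sStab D A → A ∈ H)
    (i j : Fin t) (hij : i ≠ j) (a b : Fin m ⊕ Fin m → F) (ha : a ∈ D i) (hb : b ∈ D j)
    (ha0 : a ≠ 0) (hb0 : b ≠ 0) (h : sC H (a + b)) :
    ∀ a' ∈ D i, ∀ b' ∈ D j, sC H (a' + b') := by
  intro a' ha' b' hb'
  rw [← pfam_sum i j hij a b] at h
  rw [← pfam_sum i j hij a' b']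
  refine sC_fam_sub D hnd horth hexc H hPH _ _ (pfam_mem D i j a b ha hb)
    (pfam_mem D i j a' b' ha' hb') ?_ h
  intro s hs
  unfold pfam at hs ⊢
  by_cases hsi : s = i
  · rw [if_pos hsi] at hs
    exact absurd hs ha0
  · rw [if_neg hsi] at hs ⊢
    by_cases hsj : s = j
    · rw [if_pos hsj] at hs
      exact absurd hs hb0
    · rw [if_neg hsj]

omit D in
/-- a symplectic frame of a nondegenerate subspace. -/
theorem exists_symp_frame : ∀ (d : ℕ) (U : Submodule F (Fin m ⊕ Fin m → F)),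
    Module.finrank F U = d →
    (∀ w ∈ U, w ≠ 0 → ∃ x ∈ U, Cfsg.sympForm m F w x ≠ 0) →
    ∃ (r : ℕ) (e f : Fin r → (Fin m ⊕ Fin m → F)), (∀ a, e a ∈ U) ∧ (∀ a, f a ∈ U) ∧
      (∀ a b, Cfsg.sympForm m F (e a) (e b) = 0) ∧ (∀ a b, Cfsg.sympForm m F (f a) (f b) = 0) ∧
      (∀ a b, Cfsg.sympForm m F (e a) (f b) = if a = b then 1 else 0) ∧
      U ≤ Submodule.span F (Set.range e ∪ Set.range f) := by
  intro d
  induction d using Nat.strong_induction_on with
  | _ d ih =>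
    intro U hd hU
    by_cases hU0 : U = ⊥
    · refine ⟨0, Fin.elim0, Fin.elim0, fun a => a.elim0, fun a => a.elim0, fun a => a.elim0,
        fun a => a.elim0, fun a => a.elim0, ?_⟩
      rw [hU0]
      exact bot_le
    · obtain ⟨e₀, he₀U, he₀0⟩ := Submodule.exists_mem_ne_zero_of_ne_bot hU0
      obtain ⟨x, hxU, hx⟩ := hU e₀ he₀U he₀0
      obtain ⟨f₀, hf₀⟩ : ∃ f₀ : Fin m ⊕ Fin m → F, f₀ = (Cfsg.sympForm m F e₀ x)⁻¹ • x :=
        ⟨_, rfl⟩
      have hf₀U : f₀ ∈ U := by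
        rw [hf₀]
        exact U.smul_mem _ hxU
      have hef : Cfsg.sympForm m F e₀ f₀ = 1 := by
        rw [hf₀, sf_smul_right, inv_mul_cancel₀ hx]
      have hfe : Cfsg.sympForm m F f₀ e₀ = -1 := by
        rw [sf_anti, hef]
      obtain ⟨U₁, hU₁⟩ : ∃ U₁ : Submodule F (Fin m ⊕ Fin m → F), ∀ y, y ∈ U₁ ↔
          y ∈ U ∧ Cfsg.sympForm m F y e₀ = 0 ∧ Cfsg.sympForm m F y f₀ = 0 :=
        ⟨{ carrier := {y | y ∈ U ∧ Cfsg.sympForm m F y e₀ = 0 ∧ Cfsg.sympForm m F y f₀ = 0}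
           add_mem' := fun {a b} ha hb => ⟨U.add_mem ha.1 hb.1,
             by rw [sf_add_left, ha.2.1, hb.2.1, add_zero],
             by rw [sf_add_left, ha.2.2, hb.2.2, add_zero]⟩
           zero_mem' := ⟨U.zero_mem, sf_zero_left _, sf_zero_left _⟩
           smul_mem' := fun c a ha => ⟨U.smul_mem c ha.1,
             by rw [sf_smul_left, ha.2.1, mul_zero], by rw [sf_smul_left, ha.2.2, mul_zero]⟩ },
          fun y => Iff.rfl⟩
      have hle : U₁ ≤ U := fun y hy => ((hU₁ y).mp hy).1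
      have hlt : U₁ < U := by
        refine lt_of_le_of_ne hle (fun h => ?_)
        have h1 := he₀U
        rw [← h] at h1
        have h2 := ((hU₁ e₀).mp h1).2.2
        rw [hef] at h2
        exact one_ne_zero h2
      have hproj : ∀ y ∈ U, y - Cfsg.sympForm m F y f₀ • e₀ + Cfsg.sympForm m F y e₀ • f₀ ∈ U₁ := by
        intro y hy
        rw [hU₁]
        refine ⟨U.add_mem (U.sub_mem hy (U.smul_mem _ he₀U)) (U.smul_mem _ hf₀U), ?_, ?_⟩
        · rw [sf_add_left, sf_sub_left, sf_smul_left, sf_smul_left, sf_self, hfe]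
          ring
        · rw [sf_add_left, sf_sub_left, sf_smul_left, sf_smul_left, sf_self, hef]
          ring
      have hU₁nd : ∀ w ∈ U₁, w ≠ 0 → ∃ x ∈ U₁, Cfsg.sympForm m F w x ≠ 0 := by
        intro w hw hw0
        obtain ⟨hwU, hwe, hwf⟩ := (hU₁ w).mp hw
        obtain ⟨y, hyU, hy⟩ := hU w hwU hw0
        refine ⟨_, hproj y hyU, ?_⟩
        rw [sf_add_right, sf_sub_right, sf_smul_right, sf_smul_right, hwe, hwf, mul_zero,
          mul_zero, sub_zero, add_zero]
        exact hy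
      obtain ⟨r, e, f, heU, hfU, hee, hff, hef', hspan⟩ := ih (Module.finrank F U₁)
        (by rw [← hd]; exact Submodule.finrank_lt_finrank_of_lt hlt) U₁ rfl hU₁nd
      refine ⟨r + 1, (Fin.cons e₀ e : Fin (r + 1) → (Fin m ⊕ Fin m → F)),
        (Fin.cons f₀ f : Fin (r + 1) → (Fin m ⊕ Fin m → F)), ?_, ?_, ?_, ?_, ?_, ?_⟩
      · intro a
        refine Fin.cases ?_ (fun a => ?_) a
        · rw [Fin.cons_zero]
          exact he₀U
        · rw [Fin.cons_succ]
          exact hle (heU a)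
      · intro a
        refine Fin.cases ?_ (fun a => ?_) a
        · rw [Fin.cons_zero]
          exact hf₀U
        · rw [Fin.cons_succ]
          exact hle (hfU a)
      · intro a b
        refine Fin.cases ?_ (fun a => ?_) a <;> refine Fin.cases ?_ (fun b => ?_) b
        · rw [Fin.cons_zero]
          exact sf_self _
        · rw [Fin.cons_zero, Fin.cons_succ, sf_anti, ((hU₁ _).mp (heU b)).2.1, neg_zero]
        · rw [Fin.cons_zero, Fin.cons_succ]
          exact ((hU₁ _).mp (heU a)).2.1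
        · rw [Fin.cons_succ, Fin.cons_succ]
          exact hee a b
      · intro a b
        refine Fin.cases ?_ (fun a => ?_) a <;> refine Fin.cases ?_ (fun b => ?_) b
        · rw [Fin.cons_zero]
          exact sf_self _
        · rw [Fin.cons_zero, Fin.cons_succ, sf_anti, ((hU₁ _).mp (hfU b)).2.2, neg_zero]
        · rw [Fin.cons_zero, Fin.cons_succ]
          exact ((hU₁ _).mp (hfU a)).2.2
        · rw [Fin.cons_succ, Fin.cons_succ]
          exact hff a b
      · intro a b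
        refine Fin.cases ?_ (fun a => ?_) a <;> refine Fin.cases ?_ (fun b => ?_) b
        · rw [Fin.cons_zero, Fin.cons_zero, if_pos rfl]
          exact hef
        · rw [Fin.cons_zero, Fin.cons_succ, if_neg (Fin.succ_ne_zero b).symm, sf_anti,
            ((hU₁ _).mp (hfU b)).2.1, neg_zero]
        · rw [Fin.cons_zero, Fin.cons_succ, if_neg (Fin.succ_ne_zero a)]
          exact ((hU₁ _).mp (heU a)).2.2
        · rw [Fin.cons_succ, Fin.cons_succ, hef' a b]
          by_cases hab : a = b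
          · rw [if_pos hab, if_pos (by rw [hab])]
          · rw [if_neg hab, if_neg (fun h => hab (Fin.succ_injective _ h))]
      · intro y hy
        have hmono : Submodule.span F (Set.range e ∪ Set.range f) ≤ Submodule.span F
            (Set.range (Fin.cons e₀ e : Fin (r + 1) → (Fin m ⊕ Fin m → F))
              ∪ Set.range (Fin.cons f₀ f : Fin (r + 1) → (Fin m ⊕ Fin m → F))) := by
          apply Submodule.span_mono
          apply Set.union_subset_union
          · rintro _ ⟨a, rfl⟩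
            exact ⟨a.succ, by rw [Fin.cons_succ]⟩
          · rintro _ ⟨a, rfl⟩
            exact ⟨a.succ, by rw [Fin.cons_succ]⟩
        have h1 := hmono (hspan (hproj y hy))
        have h2 : y = (y - Cfsg.sympForm m F y f₀ • e₀ + Cfsg.sympForm m F y e₀ • f₀)
            + Cfsg.sympForm m F y f₀ • e₀ - Cfsg.sympForm m F y e₀ • f₀ := by abel
        rw [h2]
        refine Submodule.sub_mem _ (Submodule.add_mem _ h1 (Submodule.smul_mem _ _ ?_))
          (Submodule.smul_mem _ _ ?_)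
        · exact Submodule.subset_span (Or.inl ⟨0, by rw [Fin.cons_zero]⟩)
        · exact Submodule.subset_span (Or.inr ⟨0, by rw [Fin.cons_zero]⟩)

omit D in
theorem symp_frame_li {r : ℕ} (e f : Fin r → (Fin m ⊕ Fin m → F))
    (hee : ∀ a b, Cfsg.sympForm m F (e a) (e b) = 0)
    (hff : ∀ a b, Cfsg.sympForm m F (f a) (f b) = 0)
    (hef : ∀ a b, Cfsg.sympForm m F (e a) (f b) = if a = b then 1 else 0) :
    LinearIndependent F (Sum.elim e f) := by
  classical
  have hfe : ∀ a b, Cfsg.sympForm m F (f a) (e b) = if a = b then -1 else 0 := by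
    intro a b
    rw [sf_anti, hef]
    by_cases hab : a = b
    · rw [if_pos hab, if_pos hab.symm]
    · rw [if_neg hab, if_neg (fun h => hab h.symm), neg_zero]
  rw [Fintype.linearIndependent_iff]
  intro g hg
  have key : ∀ w, ∑ a, g (Sum.inl a) * Cfsg.sympForm m F (e a) w
      + ∑ b, g (Sum.inr b) * Cfsg.sympForm m F (f b) w = 0 := by
    intro w
    have h1 : Cfsg.sympForm m F (∑ s, g s • Sum.elim e f s) w = 0 := by
      rw [hg, sf_zero_left]
    rw [Fintype.sum_sum_type, sf_add_left, sf_sum_left, sf_sum_left] at h1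
    simp only [Sum.elim_inl, Sum.elim_inr, sf_smul_left] at h1
    exact h1
  intro s
  cases s with
  | inl a₀ =>
    have h2 := key (f a₀)
    simp only [hef, hff, mul_ite, mul_one, mul_zero, Finset.sum_ite_eq', Finset.mem_univ,
      if_true, Finset.sum_const_zero, add_zero] at h2
    exact h2
  | inr b₀ =>
    have h2 := key (e b₀)
    simp only [hee, hfe, mul_ite, mul_neg, mul_one, mul_zero, Finset.sum_ite_eq',
      Finset.mem_univ, if_true, Finset.sum_const_zero, zero_add, neg_eq_zero] at h2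
    exact h2

omit D in
theorem witt_frames_fintype {ι : Type*} [Fintype ι] (w w' : ι → (Fin m ⊕ Fin m → F))
    (hw : LinearIndependent F w) (hw' : LinearIndependent F w')
    (hiso : ∀ i j, Cfsg.sympForm m F (w' i) (w' j) = Cfsg.sympForm m F (w i) (w j)) :
    ∃ A : Matrix.symplecticGroup (Fin m) F, ∀ i,
      (A : Matrix (Fin m ⊕ Fin m) (Fin m ⊕ Fin m) F) *ᵥ w i = w' i := by
  classical
  obtain ⟨A, hA⟩ := witt_frames (w ∘ (Fintype.equivFin ι).symm) (w' ∘ (Fintype.equivFin ι).symm)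
    (hw.comp _ (Equiv.injective _)) (hw'.comp _ (Equiv.injective _)) (fun i j => hiso _ _)
  refine ⟨A, fun i => ?_⟩
  have h1 := hA (Fintype.equivFin ι i)
  rw [Function.comp_apply, Function.comp_apply, Equiv.symm_apply_apply] at h1
  exact h1

omit D in
theorem exists_basis_vectors_gen (W : Submodule F (Fin m ⊕ Fin m → F)) :
    ∃ (k : ℕ) (bv : Fin k → (Fin m ⊕ Fin m → F)), (∀ i, bv i ∈ W) ∧ LinearIndependent F bv ∧
      Submodule.span F (Set.range bv) = W := by
  obtain ⟨k, hk⟩ : ∃ k, Module.finrank F W = k := ⟨_, rfl⟩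
  have b := Module.finBasisOfFinrankEq F W hk
  obtain ⟨bv, hbv⟩ : ∃ bv : Fin k → (Fin m ⊕ Fin m → F), ∀ i, bv i = (b i : Fin m ⊕ Fin m → F) :=
    ⟨fun i => (b i : Fin m ⊕ Fin m → F), fun i => rfl⟩
  have hbW : ∀ i, bv i ∈ W := fun i => by rw [hbv]; exact (b i).2
  have hbLI : LinearIndependent F bv := by
    have h1 := b.linearIndependent.map' W.subtype (Submodule.ker_subtype W)
    have h2 : (⇑W.subtype ∘ ⇑b) = bv := by
      funext i
      rw [hbv]
      rfl
    rw [h2] at h1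
    exact h1
  refine ⟨k, bv, hbW, hbLI, ?_⟩
  apply Submodule.eq_of_le_of_finrank_eq
    (Submodule.span_le.mpr (by rintro _ ⟨i, rfl⟩; exact hbW i))
  rw [finrank_span_eq_card hbLI, hk, Fintype.card_fin]

omit D in
theorem mat_mem_of_span {ι : Type*} (M : Matrix (Fin m ⊕ Fin m) (Fin m ⊕ Fin m) F)
    (u : ι → (Fin m ⊕ Fin m → F)) (W' : Submodule F (Fin m ⊕ Fin m → F))
    (h : ∀ s, M *ᵥ u s ∈ W') : ∀ x ∈ Submodule.span F (Set.range u), M *ᵥ x ∈ W' := by
  have hle : Submodule.span F (Set.range u) ≤ W'.comap (Matrix.mulVecLin M) := by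
    rw [Submodule.span_le]
    rintro _ ⟨s, rfl⟩
    exact h s
  intro x hx
  exact hle hx

omit D in
theorem mat_fix_span {ι : Type*} (M : Matrix (Fin m ⊕ Fin m) (Fin m ⊕ Fin m) F)
    (u : ι → (Fin m ⊕ Fin m → F)) (h : ∀ s, M *ᵥ u s = u s) :
    ∀ x ∈ Submodule.span F (Set.range u), M *ᵥ x = x := by
  intro x hx
  have h1 : Set.EqOn (Matrix.mulVecLin M)
      (LinearMap.id : (Fin m ⊕ Fin m → F) →ₗ[F] (Fin m ⊕ Fin m → F)) (Set.range u) := by
    rintro _ ⟨i, rfl⟩
    show M *ᵥ u i = u i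
    exact h i
  exact LinearMap.eqOn_span h1 hx

/-- an element of `Sp` interchanging `D j` and `D l` and stabilising the other members. -/
theorem exists_sp_swap (hnd : ∀ i, ∀ w ∈ D i, w ≠ 0 → ∃ x ∈ D i, Cfsg.sympForm m F w x ≠ 0)
    (horth : ∀ i j, i ≠ j → ∀ u ∈ D i, ∀ v ∈ D j, Cfsg.sympForm m F u v = 0)
    (k : ℕ) (hfr : ∀ i, Module.finrank F (D i) = k) (j l : Fin t) (hjl : j ≠ l) :
    ∃ A : Matrix.symplecticGroup (Fin m) F, sStab D A ∧
      (∀ x ∈ D j, (A : Matrix (Fin m ⊕ Fin m) (Fin m ⊕ Fin m) F) *ᵥ x ∈ D l) ∧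
      (∀ x ∈ D l, (A : Matrix (Fin m ⊕ Fin m) (Fin m ⊕ Fin m) F) *ᵥ x ∈ D j) ∧
      ∀ i, i ≠ j → i ≠ l → ∀ x ∈ D i,
        (A : Matrix (Fin m ⊕ Fin m) (Fin m ⊕ Fin m) F) *ᵥ x ∈ D i := by
  classical
  obtain ⟨r, e, f, heU, hfU, hee, hff, hef, hspan⟩ :=
    exists_symp_frame (Module.finrank F (D j)) (D j) rfl (hnd j)
  obtain ⟨r', e', f', heU', hfU', hee', hff', hef', hspan'⟩ :=
    exists_symp_frame (Module.finrank F (D l)) (D l) rfl (hnd l)
  have hLI := symp_frame_li e f hee hff hef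
  have hLI' := symp_frame_li e' f' hee' hff' hef'
  have hmem : ∀ s, Sum.elim e f s ∈ D j := by
    intro s
    cases s with
    | inl a => exact heU a
    | inr a => exact hfU a
  have hmem' : ∀ s, Sum.elim e' f' s ∈ D l := by
    intro s
    cases s with
    | inl a => exact heU' a
    | inr a => exact hfU' a
  have hsp : Submodule.span F (Set.range (Sum.elim e f)) = D j := by
    apply le_antisymm
    · rw [Submodule.span_le]
      rintro _ ⟨s, rfl⟩
      exact hmem s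
    · rw [Set.Sum.elim_range]
      exact hspan
  have hsp' : Submodule.span F (Set.range (Sum.elim e' f')) = D l := by
    apply le_antisymm
    · rw [Submodule.span_le]
      rintro _ ⟨s, rfl⟩
      exact hmem' s
    · rw [Set.Sum.elim_range]
      exact hspan'
  have hr : r' = r := by
    have h1 := finrank_span_eq_card hLI
    rw [hsp, hfr, Fintype.card_sum, Fintype.card_fin] at h1
    have h2 := finrank_span_eq_card hLI'
    rw [hsp', hfr, Fintype.card_sum, Fintype.card_fin] at h2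
    omega
  subst hr
  obtain ⟨E, hE⟩ : ∃ E : Submodule F (Fin m ⊕ Fin m → F), ∀ x, x ∈ E ↔
      (∀ y ∈ D j, Cfsg.sympForm m F y x = 0) ∧ (∀ y ∈ D l, Cfsg.sympForm m F y x = 0) :=
    ⟨{ carrier := {x | (∀ y ∈ D j, Cfsg.sympForm m F y x = 0)
          ∧ (∀ y ∈ D l, Cfsg.sympForm m F y x = 0)}
       add_mem' := fun {a b} ha hb => ⟨fun y hy => by
           rw [sf_add_right, ha.1 y hy, hb.1 y hy, add_zero], fun y hy => by
           rw [sf_add_right, ha.2 y hy, hb.2 y hy, add_zero]⟩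
       zero_mem' := ⟨fun y _ => sf_zero_right y, fun y _ => sf_zero_right y⟩
       smul_mem' := fun c a ha => ⟨fun y hy => by rw [sf_smul_right, ha.1 y hy, mul_zero],
         fun y hy => by rw [sf_smul_right, ha.2 y hy, mul_zero]⟩ }, fun x => Iff.rfl⟩
  obtain ⟨kE, bv, hbE, hbLI, hbspan⟩ := exists_basis_vectors_gen E
  have hdj : Disjoint (D j) (D l ⊔ E) := by
    rw [Submodule.disjoint_def]
    intro x hx hx'
    obtain ⟨b, hb, c, hc, hbc⟩ := Submodule.mem_sup.mp hx'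
    apply eq_zero_of_perp D hnd j x hx
    intro y hy
    rw [← hbc, sf_anti, sf_add_right, horth j l hjl y hy b hb, ((hE c).mp hc).1 y hy, add_zero,
      neg_zero]
  have hdl : Disjoint (D l) (D j ⊔ E) := by
    rw [Submodule.disjoint_def]
    intro x hx hx'
    obtain ⟨b, hb, c, hc, hbc⟩ := Submodule.mem_sup.mp hx'
    apply eq_zero_of_perp D hnd l x hx
    intro y hy
    rw [← hbc, sf_anti, sf_add_right, horth l j hjl.symm y hy b hb, ((hE c).mp hc).2 y hy,
      add_zero, neg_zero]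
  have hLIw : LinearIndependent F (Sum.elim (Sum.elim e f) (Sum.elim (Sum.elim e' f') bv)) := by
    refine LinearIndependent.sum_type hLI (LinearIndependent.sum_type hLI' hbLI ?_) ?_
    · rw [hsp', hbspan]
      exact hdl.mono_right le_sup_right
    · rw [hsp, Set.Sum.elim_range, Submodule.span_union, hsp', hbspan]
      exact hdj
  have hLIw' : LinearIndependent F (Sum.elim (Sum.elim e' f') (Sum.elim (Sum.elim e f) bv)) := by
    refine LinearIndependent.sum_type hLI' (LinearIndependent.sum_type hLI hbLI ?_) ?_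
    · rw [hsp, hbspan]
      exact hdj.mono_right le_sup_right
    · rw [hsp', Set.Sum.elim_range, Submodule.span_union, hsp, hbspan]
      exact hdl
  have hG : ∀ s s', Cfsg.sympForm m F (Sum.elim e' f' s) (Sum.elim e' f' s')
      = Cfsg.sympForm m F (Sum.elim e f s) (Sum.elim e f s') := by
    intro s s'
    cases s with
    | inl a =>
      cases s' with
      | inl b => exact (hee' a b).trans (hee a b).symm
      | inr b => exact (hef' a b).trans (hef a b).symm
    | inr a =>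
      cases s' with
      | inl b =>
        show Cfsg.sympForm m F (f' a) (e' b) = Cfsg.sympForm m F (f a) (e b)
        rw [sf_anti, hef', sf_anti (f a), hef]
      | inr b => exact (hff' a b).trans (hff a b).symm
  have h12 : ∀ s s', Cfsg.sympForm m F (Sum.elim e f s) (Sum.elim e' f' s') = 0 :=
    fun s s' => horth j l hjl _ (hmem s) _ (hmem' s')
  have h21 : ∀ s s', Cfsg.sympForm m F (Sum.elim e' f' s) (Sum.elim e f s') = 0 :=
    fun s s' => horth l j hjl.symm _ (hmem' s) _ (hmem s')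
  have h1E : ∀ s a, Cfsg.sympForm m F (Sum.elim e f s) (bv a) = 0 :=
    fun s a => ((hE _).mp (hbE a)).1 _ (hmem s)
  have h2E : ∀ s a, Cfsg.sympForm m F (Sum.elim e' f' s) (bv a) = 0 :=
    fun s a => ((hE _).mp (hbE a)).2 _ (hmem' s)
  have hE1 : ∀ a s, Cfsg.sympForm m F (bv a) (Sum.elim e f s) = 0 := by
    intro a s
    rw [sf_anti, h1E, neg_zero]
  have hE2 : ∀ a s, Cfsg.sympForm m F (bv a) (Sum.elim e' f' s) = 0 := by
    intro a s
    rw [sf_anti, h2E, neg_zero]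
  obtain ⟨A, hA⟩ := witt_frames_fintype
    (Sum.elim (Sum.elim e f) (Sum.elim (Sum.elim e' f') bv))
    (Sum.elim (Sum.elim e' f') (Sum.elim (Sum.elim e f) bv)) hLIw hLIw' (by
      intro s s'
      rcases s with s | s | a <;> rcases s' with s' | s' | b
      · exact hG s s'
      · exact (h21 s s').trans (h12 s s').symm
      · exact (h2E s b).trans (h1E s b).symm
      · exact (h12 s s').trans (h21 s s').symm
      · exact (hG s s').symm
      · exact (h1E s b).trans (h2E s b).symm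
      · exact (hE2 a s').trans (hE1 a s').symm
      · exact (hE1 a s').trans (hE2 a s').symm
      · rfl)
  have hAj : ∀ x ∈ D j, (A : Matrix (Fin m ⊕ Fin m) (Fin m ⊕ Fin m) F) *ᵥ x ∈ D l := by
    intro x hx
    rw [← hsp] at hx
    refine mat_mem_of_span _ (Sum.elim e f) (D l) (fun s => ?_) x hx
    have h1 := hA (Sum.inl s)
    rw [Sum.elim_inl, Sum.elim_inl] at h1
    rw [h1]
    exact hmem' s
  have hAl : ∀ x ∈ D l, (A : Matrix (Fin m ⊕ Fin m) (Fin m ⊕ Fin m) F) *ᵥ x ∈ D j := by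
    intro x hx
    rw [← hsp'] at hx
    refine mat_mem_of_span _ (Sum.elim e' f') (D j) (fun s => ?_) x hx
    have h1 := hA (Sum.inr (Sum.inl s))
    rw [Sum.elim_inr, Sum.elim_inl, Sum.elim_inr, Sum.elim_inl] at h1
    rw [h1]
    exact hmem s
  have hAE : ∀ x ∈ E, (A : Matrix (Fin m ⊕ Fin m) (Fin m ⊕ Fin m) F) *ᵥ x = x := by
    intro x hx
    rw [← hbspan] at hx
    refine mat_fix_span _ bv (fun a => ?_) x hx
    have h1 := hA (Sum.inr (Sum.inr a))
    rw [Sum.elim_inr, Sum.elim_inr, Sum.elim_inr, Sum.elim_inr] at h1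
    exact h1
  have hAi : ∀ i, i ≠ j → i ≠ l → ∀ x ∈ D i,
      (A : Matrix (Fin m ⊕ Fin m) (Fin m ⊕ Fin m) F) *ᵥ x ∈ D i := by
    intro i hij hil x hx
    have hxE : x ∈ E := by
      rw [hE]
      exact ⟨fun y hy => horth j i hij.symm y hy x hx, fun y hy => horth l i hil.symm y hy x hx⟩
    rw [hAE x hxE]
    exact hx
  refine ⟨A, ⟨Equiv.swap j l, fun i => ?_⟩, hAj, hAl, hAi⟩
  have hinj : Function.Injective
      (A : Matrix (Fin m ⊕ Fin m) (Fin m ⊕ Fin m) F).mulVec :=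
    fun x y h => mulVec_injective A x y h
  by_cases hij : i = j
  · rw [hij, Equiv.swap_apply_left]
    exact map_eq_of_le _ hinj _ _ (by rw [hfr, hfr]) hAj
  · by_cases hil : i = l
    · rw [hil, Equiv.swap_apply_right]
      exact map_eq_of_le _ hinj _ _ (by rw [hfr, hfr]) hAl
    · rw [Equiv.swap_apply_of_ne_of_ne hij hil]
      exact map_eq_of_le _ hinj _ _ rfl (hAi i hij hil)

/-- an element outside the stabiliser produces a centre with two nonzero components. -/
theorem exists_two_comp (hnd : ∀ i, ∀ w ∈ D i, w ≠ 0 → ∃ x ∈ D i, Cfsg.sympForm m F w x ≠ 0)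
    (horth : ∀ i j, i ≠ j → ∀ u ∈ D i, ∀ v ∈ D j, Cfsg.sympForm m F u v = 0)
    (hexc : ∀ i, ∀ w ∈ D i, w ≠ 0 → ∃ x ∈ D i, x ≠ 0 ∧ x ≠ w ∧ Cfsg.sympForm m F x w = 0)
    (hsup : iSup D = ⊤) (k : ℕ) (hfr : ∀ i, Module.finrank F (D i) = k)
    (d : Fin t → (Fin m ⊕ Fin m → F)) (hd : ∀ i, d i ∈ D i) (hd0 : ∀ i, d i ≠ 0)
    (H : Subgroup (Matrix.symplecticGroup (Fin m) F))
    (hPH : ∀ A : Matrix.symplecticGroup (Fin m) F, sStab D A → A ∈ H)
    (g : Matrix.symplecticGroup (Fin m) F) (hgH : g ∈ H) (hg : ¬ sStab D g) :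
    ∃ (i₀ i₁ : Fin t) (a b : Fin m ⊕ Fin m → F), i₀ ≠ i₁ ∧ a ∈ D i₀ ∧ b ∈ D i₁ ∧ a ≠ 0 ∧ b ≠ 0 ∧
      sC H (a + b) := by
  classical
  by_contra hcon
  have hkey : ∀ i, ∀ w ∈ D i, ∃ j,
      (g : Matrix (Fin m ⊕ Fin m) (Fin m ⊕ Fin m) F) *ᵥ w ∈ D j := by
    intro i w hw
    by_contra hno
    push Not at hno
    obtain ⟨f, hf, hfs⟩ := exists_fam D hsup
      ((g : Matrix (Fin m ⊕ Fin m) (Fin m ⊕ Fin m) F) *ᵥ w)
    have hC : sC H (∑ i, f i) := by
      rw [hfs]
      exact sC_conj H w g hgH (fun c => hPH _ (sStab_tv D horth i w hw c))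
    obtain ⟨i₀, hi₀⟩ : ∃ i₀, f i₀ ≠ 0 := by
      by_contra h0
      push Not at h0
      apply hno i
      rw [← hfs, Finset.sum_eq_zero (fun s _ => h0 s)]
      exact (D i).zero_mem
    obtain ⟨i₁, hi₁, hi₁0⟩ : ∃ i₁, i₁ ≠ i₀ ∧ f i₁ ≠ 0 := by
      by_contra h0
      push Not at h0
      apply hno i₀
      rw [← hfs, Finset.sum_eq_single i₀ (fun s _ hs => h0 s hs)
        (fun h => absurd (Finset.mem_univ _) h)]
      exact hf i₀
    apply hcon
    refine ⟨i₀, i₁, f i₀, f i₁, hi₁.symm, hf i₀, hf i₁, hi₀, hi₁0, ?_⟩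
    rw [← pfam_sum i₀ i₁ hi₁.symm]
    refine sC_fam_sub D hnd horth hexc H hPH f _ hf (pfam_mem D i₀ i₁ _ _ (hf i₀) (hf i₁)) ?_ hC
    intro s hs
    unfold pfam
    by_cases hs0 : s = i₀
    · rw [hs0] at hs
      exact absurd hs hi₀
    · rw [if_neg hs0]
      by_cases hs1 : s = i₁
      · rw [hs1] at hs
        exact absurd hs hi₁0
      · rw [if_neg hs1]
  choose σ hσ using fun i => hkey i (d i) (hd i)
  have hmaps : ∀ i, ∀ w ∈ D i,
      (g : Matrix (Fin m ⊕ Fin m) (Fin m ⊕ Fin m) F) *ᵥ w ∈ D (σ i) := by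
    intro i w hw
    obtain ⟨j', hj'⟩ := hkey i w hw
    by_cases hjj : j' = σ i
    · rw [← hjj]
      exact hj'
    · obtain ⟨j'', hj''⟩ := hkey i (w + d i) ((D i).add_mem hw (hd i))
      rw [Matrix.mulVec_add] at hj''
      rcases two_comp D hnd horth j' (σ i) j'' hjj _ _ hj' (hσ i) hj'' with h | h
      · rw [h]
        exact (D _).zero_mem
      · exfalso
        exact hd0 i (mulVec_injective g _ 0 (by rw [h, Matrix.mulVec_zero]))
  have hinjg : Function.Injective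
      (g : Matrix (Fin m ⊕ Fin m) (Fin m ⊕ Fin m) F).mulVec :=
    fun x y h => mulVec_injective g x y h
  have hmap : ∀ i, (D i).map
      (Matrix.toLin' (g : Matrix (Fin m ⊕ Fin m) (Fin m ⊕ Fin m) F)) = D (σ i) :=
    fun i => map_eq_of_le _ hinjg _ _ (by rw [hfr, hfr]) (hmaps i)
  have hinj : Function.Injective σ := by
    intro i i' h
    by_contra hne
    have h1 : (D i).map (Matrix.toLin' (g : Matrix (Fin m ⊕ Fin m) (Fin m ⊕ Fin m) F))
        = (D i').map (Matrix.toLin' (g : Matrix (Fin m ⊕ Fin m) (Fin m ⊕ Fin m) F)) := by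
      rw [hmap, hmap, h]
    have hinj' : Function.Injective
        (Matrix.toLin' (g : Matrix (Fin m ⊕ Fin m) (Fin m ⊕ Fin m) F)) := by
      intro x y hxy
      rw [Matrix.toLin'_apply, Matrix.toLin'_apply] at hxy
      exact hinjg hxy
    have h2 : D i = D i' := Submodule.map_injective_of_injective hinj' h1
    exact hd0 i (eq_zero_of_mem_two D hnd horth i i' hne (d i) (hd i) (h2 ▸ hd i))
  exact hg ⟨Equiv.ofBijective σ (Finite.injective_iff_bijective.mp hinj), hmap⟩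

omit D in
/-- outside the case `dim U = 2`, `|F| = 2`: a third vector orthogonal to `w`. -/
theorem exists_exc [Fintype F] (U : Submodule F (Fin m ⊕ Fin m → F))
    (hU : ∀ w ∈ U, w ≠ 0 → ∃ x ∈ U, Cfsg.sympForm m F w x ≠ 0)
    (hex : ¬ (Module.finrank F U = 2 ∧ Fintype.card F = 2)) (w : Fin m ⊕ Fin m → F)
    (hw : w ∈ U) (hw0 : w ≠ 0) :
    ∃ x ∈ U, x ≠ 0 ∧ x ≠ w ∧ Cfsg.sympForm m F x w = 0 := by
  classical
  by_cases hF2 : Fintype.card F = 2
  · obtain ⟨K, hK⟩ : ∃ K : Submodule F (Fin m ⊕ Fin m → F), K = LinearMap.ker (sB m F w) :=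
      ⟨_, rfl⟩
    have hmemK : ∀ x, x ∈ K ↔ Cfsg.sympForm m F w x = 0 := by
      intro x
      rw [hK, LinearMap.mem_ker, sB_apply]
    have h1 : Module.finrank F (Fin m ⊕ Fin m → F) ≤ Module.finrank F K + 1 := by
      have h2 := LinearMap.finrank_range_add_finrank_ker (sB m F w)
      have h3 : Module.finrank F (LinearMap.range (sB m F w)) ≤ 1 := by
        have h4 := Submodule.finrank_le (LinearMap.range (sB m F w))
        rw [Module.finrank_self] at h4
        exact h4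
      rw [hK]
      omega
    have h2 := Submodule.finrank_sup_add_finrank_inf_eq U K
    have h3 := Submodule.finrank_le (U ⊔ K)
    have hlt : U ⊓ K < U := by
      refine lt_of_le_of_ne inf_le_left (fun h => ?_)
      obtain ⟨x, hxU, hx⟩ := hU w hw hw0
      have h4 : x ∈ U ⊓ K := by
        rw [h]
        exact hxU
      exact hx ((hmemK x).mp h4.2)
    have h4 := Submodule.finrank_lt_finrank_of_lt hlt
    have hwK : w ∈ U ⊓ K := ⟨hw, (hmemK w).mpr (sf_self w)⟩
    have h5 : Module.finrank F (U ⊓ K : Submodule F (Fin m ⊕ Fin m → F)) ≠ 0 := by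
      intro h0
      have h6 := Submodule.finrank_eq_zero.mp h0
      rw [h6] at hwK
      exact hw0 ((Submodule.mem_bot F).mp hwK)
    have h6 : 2 ≤ Module.finrank F (U ⊓ K : Submodule F (Fin m ⊕ Fin m → F)) := by
      have h7 : Module.finrank F U ≠ 2 := fun h => hex ⟨h, hF2⟩
      omega
    obtain ⟨x, hx, hxne⟩ : ∃ x ∈ U ⊓ K, x ∉ Submodule.span F {w} := by
      by_contra hcon
      push Not at hcon
      have hle : U ⊓ K ≤ Submodule.span F {w} := fun u hu => hcon u hu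
      have h7 := Submodule.finrank_mono hle
      rw [finrank_span_singleton hw0] at h7
      omega
    refine ⟨x, hx.1, ?_, ?_, ?_⟩
    · rintro rfl
      exact hxne (Submodule.zero_mem _)
    · rintro rfl
      exact hxne (Submodule.mem_span_singleton_self _)
    · rw [sf_anti, (hmemK x).mp hx.2, neg_zero]
  · obtain ⟨μ, hμ0, hμ1⟩ : ∃ μ : F, μ ≠ 0 ∧ μ ≠ 1 := by
      by_contra hcon
      push Not at hcon
      apply hF2
      apply le_antisymm
      · have h1 : (Finset.univ : Finset F) ⊆ {0, 1} := by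
          intro μ _
          by_cases hμ : μ = 0
          · rw [hμ]
            exact Finset.mem_insert_self _ _
          · rw [hcon μ hμ]
            exact Finset.mem_insert_of_mem (Finset.mem_singleton_self _)
        have h2 := Finset.card_le_card h1
        rw [Finset.card_univ] at h2
        exact h2.trans Finset.card_le_two
      · exact Fintype.one_lt_card
    refine ⟨μ • w, U.smul_mem _ hw, smul_ne_zero hμ0 hw0, ?_, ?_⟩
    · intro h
      have h1 : (μ - 1) • w = 0 := by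
        rw [sub_smul, one_smul, h, sub_self]
      rcases smul_eq_zero.mp h1 with h2 | h2
      · exact hμ1 (sub_eq_zero.mp h2)
      · exact hw0 h2
    · rw [sf_smul_left, sf_self, mul_zero]

/-- a subgroup of `Sp_2m(F)` containing the stabiliser of a nondegenerate decomposition and an
element outside it is everything (unless `k = 2` and `|F| = 2`). -/
theorem sp_decomp_max [Fintype F]
    (hnd : ∀ i, ∀ w ∈ D i, w ≠ 0 → ∃ x ∈ D i, Cfsg.sympForm m F w x ≠ 0)
    (horth : ∀ i j, i ≠ j → ∀ u ∈ D i, ∀ v ∈ D j, Cfsg.sympForm m F u v = 0)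
    (hsup : iSup D = ⊤) (k : ℕ) (hk : 0 < k) (hfr : ∀ i, Module.finrank F (D i) = k)
    (ht : 2 ≤ t) (hex : ¬ (k = 2 ∧ Fintype.card F = 2))
    (H : Subgroup (Matrix.symplecticGroup (Fin m) F))
    (hPH : ∀ A : Matrix.symplecticGroup (Fin m) F, sStab D A → A ∈ H)
    (g : Matrix.symplecticGroup (Fin m) F) (hgH : g ∈ H) (hg : ¬ sStab D g) : H = ⊤ := by
  classical
  have hexc : ∀ i, ∀ w ∈ D i, w ≠ 0 → ∃ x ∈ D i, x ≠ 0 ∧ x ≠ w ∧ Cfsg.sympForm m F x w = 0 :=
    fun i w hw hw0 => exists_exc (D i) (hnd i) (by rw [hfr]; exact hex) w hw hw0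
  have hDne : ∀ i, ∃ x ∈ D i, x ≠ 0 := fun i =>
    Submodule.exists_mem_ne_zero_of_ne_bot (by
      intro h
      have h1 := hfr i
      rw [h, finrank_bot] at h1
      omega)
  choose d hd hd0 using hDne
  obtain ⟨i₀, i₁, a, b, hne, ha, hb, ha0, hb0, hab⟩ :=
    exists_two_comp D hnd horth hexc hsup k hfr d hd hd0 H hPH g hgH hg
  have hp0 := pair_of_one D hnd horth hexc H hPH i₀ i₁ hne a b ha hb ha0 hb0 hab
  have hswap : ∀ j₁ j₂ j, j₁ ≠ j₂ → j ≠ j₁ → j ≠ j₂ →
      (∀ a ∈ D j₁, ∀ b ∈ D j₂, sC H (a + b)) → ∀ a ∈ D j₁, ∀ b ∈ D j, sC H (a + b) := by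
    intro j₁ j₂ j h12 hj1 hj2 hp
    obtain ⟨A, hAst, hA1, -, hA3⟩ := exists_sp_swap D hnd horth k hfr j₂ j hj2.symm
    have h1 := sC_conj H _ A (hPH A hAst) (hp (d j₁) (hd j₁) (d j₂) (hd j₂))
    rw [Matrix.mulVec_add] at h1
    refine pair_of_one D hnd horth hexc H hPH j₁ j hj1.symm _ _
      (hA3 j₁ h12 hj1.symm (d j₁) (hd j₁)) (hA1 (d j₂) (hd j₂)) ?_ ?_ h1
    · intro h0
      exact hd0 j₁ (mulVec_injective A _ 0 (by rw [h0, Matrix.mulVec_zero]))
    · intro h0
      exact hd0 j₂ (mulVec_injective A _ 0 (by rw [h0, Matrix.mulVec_zero]))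
  have hsymm : ∀ i j, (∀ a ∈ D i, ∀ b ∈ D j, sC H (a + b)) →
      ∀ a ∈ D j, ∀ b ∈ D i, sC H (a + b) := by
    intro i j h a ha b hb
    rw [add_comm]
    exact h b hb a ha
  have hpair : ∀ j l, j ≠ l → ∀ a ∈ D j, ∀ b ∈ D l, sC H (a + b) := by
    intro j l hjl
    have h1 : ∀ j, j ≠ i₀ → ∀ a ∈ D i₀, ∀ b ∈ D j, sC H (a + b) := by
      intro j hj
      by_cases hj1 : j = i₁
      · rw [hj1]
        exact hp0
      · exact hswap i₀ i₁ j hne hj hj1 hp0
    by_cases hj0 : j = i₀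
    · rw [hj0]
      exact h1 l (by rw [← hj0]; exact hjl.symm)
    · have h2 := hsymm i₀ j (h1 j hj0)
      by_cases hl0 : l = i₀
      · rw [hl0]
        exact h2
      · exact hswap j i₀ l hj0 hjl.symm hl0 h2
  have hfull := sFull_all D hnd horth hexc H hPH d hd hd0 hpair Finset.univ
    ⟨⟨0, by omega⟩, Finset.mem_univ _⟩
  rw [eq_top_iff, ← Cfsg.Agent.S0765.result m, Subgroup.closure_le]
  rintro A ⟨z, c, hA⟩
  have hA' : A = tv z c := Subtype.ext hA
  rw [hA']
  obtain ⟨f, hf, hfz⟩ := exists_fam D hsup z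
  rw [← hfz]
  exact hfull f hf (fun i hi => absurd (Finset.mem_univ i) hi) c

/-- the stabiliser of a nondegenerate decomposition is a proper subgroup. -/
theorem exists_not_sStab
    (hnd : ∀ i, ∀ w ∈ D i, w ≠ 0 → ∃ x ∈ D i, Cfsg.sympForm m F w x ≠ 0)
    (horth : ∀ i j, i ≠ j → ∀ u ∈ D i, ∀ v ∈ D j, Cfsg.sympForm m F u v = 0)
    (k : ℕ) (hk : 0 < k) (hfr : ∀ i, Module.finrank F (D i) = k) (ht : 2 ≤ t) :
    ∃ A : Matrix.symplecticGroup (Fin m) F, ¬ sStab D A := by
  classical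
  have hDne : ∀ i, ∃ x ∈ D i, x ≠ 0 := fun i =>
    Submodule.exists_mem_ne_zero_of_ne_bot (by
      intro h
      have h1 := hfr i
      rw [h, finrank_bot] at h1
      omega)
  choose d hd hd0 using hDne
  obtain ⟨i₀, hi₀⟩ : ∃ i₀ : Fin t, i₀ = ⟨0, by omega⟩ := ⟨_, rfl⟩
  obtain ⟨i₁, hi₁⟩ : ∃ i₁ : Fin t, i₁ = ⟨1, by omega⟩ := ⟨_, rfl⟩
  have hne : i₀ ≠ i₁ := by
    rw [hi₀, hi₁]
    intro h
    exact absurd (Fin.mk.inj h) (by omega)
  obtain ⟨x, hxD, hx⟩ := hnd i₀ (d i₀) (hd i₀) (hd0 i₀)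
  have hx' : Cfsg.sympForm m F x (d i₀) ≠ 0 := by
    rw [sf_anti]
    exact neg_ne_zero.mpr hx
  refine ⟨tv (d i₀ + d i₁) 1, ?_⟩
  rintro ⟨σ, hσ⟩
  have h1 : ((tv (d i₀ + d i₁) 1 : Matrix.symplecticGroup (Fin m) F) :
      Matrix (Fin m ⊕ Fin m) (Fin m ⊕ Fin m) F) *ᵥ x ∈ D (σ i₀) := by
    rw [← hσ i₀]
    exact ⟨x, hxD, Matrix.toLin'_apply _ _⟩
  rw [tv_val, tv_apply, sf_add_right, horth i₀ i₁ hne x hxD (d i₁) (hd i₁), add_zero, one_mul,
    smul_add, ← add_assoc] at h1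
  rcases two_comp D hnd horth i₀ i₁ (σ i₀) hne _ _
    ((D i₀).add_mem hxD ((D i₀).smul_mem _ (hd i₀))) ((D i₁).smul_mem _ (hd i₁)) h1 with h | h
  · apply hx
    have h2 : x = (-Cfsg.sympForm m F x (d i₀)) • d i₀ := by
      rw [neg_smul, eq_neg_iff_add_eq_zero]
      exact h
    rw [h2, sf_smul_right, sf_self, mul_zero]
  · exact hd0 i₁ ((smul_eq_zero.mp h).resolve_left hx')

omit D in
/-- generic bridge: maximality in `Cfsg.spGL` of `S₀ ⊓ spGL`. -/
theorem spGL_isMaximalIn_gen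
    (S₀ : Subgroup (Matrix.GeneralLinearGroup (Fin m ⊕ Fin m) F))
    (hlt : ∃ A : Matrix.symplecticGroup (Fin m) F,
      ((spEquiv m F A : ↥(Cfsg.spGL m F)) : Matrix.GeneralLinearGroup (Fin m ⊕ Fin m) F) ∉ S₀)
    (hmax : ∀ H : Subgroup (Matrix.symplecticGroup (Fin m) F),
      (∀ A : Matrix.symplecticGroup (Fin m) F,
        ((spEquiv m F A : ↥(Cfsg.spGL m F)) : Matrix.GeneralLinearGroup (Fin m ⊕ Fin m) F) ∈ S₀ →
          A ∈ H) →
      ∀ g ∈ H,
        ((spEquiv m F g : ↥(Cfsg.spGL m F)) : Matrix.GeneralLinearGroup (Fin m ⊕ Fin m) F) ∉ S₀ →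
        H = ⊤) :
    Cfsg.Geo.IsMaximalIn (Cfsg.spGL m F) (S₀ ⊓ Cfsg.spGL m F) := by
  classical
  have hmemP : ∀ A : Matrix.symplecticGroup (Fin m) F,
      ((spEquiv m F A : ↥(Cfsg.spGL m F)) : Matrix.GeneralLinearGroup (Fin m ⊕ Fin m) F)
        ∈ S₀ ⊓ Cfsg.spGL m F ↔
      ((spEquiv m F A : ↥(Cfsg.spGL m F)) : Matrix.GeneralLinearGroup (Fin m ⊕ Fin m) F) ∈ S₀ := by
    intro A
    constructor
    · intro h
      exact h.1
    · intro h
      exact ⟨h, (spEquiv m F A).2⟩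
  refine ⟨lt_of_le_of_ne inf_le_right ?_, ?_⟩
  · intro heq
    obtain ⟨A, hA⟩ := hlt
    apply hA
    apply (hmemP A).mp
    rw [heq]
    exact (spEquiv m F A).2
  · intro M hPM hMS
    by_cases hMP : M ≤ S₀ ⊓ Cfsg.spGL m F
    · left
      exact le_antisymm hMP hPM
    · right
      obtain ⟨g₀, hg₀M, hg₀P⟩ := SetLike.not_le_iff_exists.mp hMP
      have hkey := hmax
        (M.comap ((Cfsg.spGL m F).subtype.comp (spEquiv m F).toMonoidHom))
        (fun A hA => hPM ((hmemP A).mpr hA))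
        ((spEquiv m F).symm ⟨g₀, hMS hg₀M⟩) (by
          show ((spEquiv m F ((spEquiv m F).symm ⟨g₀, hMS hg₀M⟩) : ↥(Cfsg.spGL m F)) :
            Matrix.GeneralLinearGroup (Fin m ⊕ Fin m) F) ∈ M
          rw [MulEquiv.apply_symm_apply]
          exact hg₀M) (by
          intro h
          apply hg₀P
          have h1 := (hmemP ((spEquiv m F).symm ⟨g₀, hMS hg₀M⟩)).mpr h
          rw [MulEquiv.apply_symm_apply] at h1
          exact h1)
      apply le_antisymm hMS
      intro g' hg'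
      have h1 : (spEquiv m F).symm ⟨g', hg'⟩
          ∈ M.comap ((Cfsg.spGL m F).subtype.comp (spEquiv m F).toMonoidHom) := by
        rw [hkey]
        trivial
      have h2 : ((spEquiv m F ((spEquiv m F).symm ⟨g', hg'⟩) : ↥(Cfsg.spGL m F)) :
          Matrix.GeneralLinearGroup (Fin m ⊕ Fin m) F) ∈ M := h1
      rw [MulEquiv.apply_symm_apply] at h2
      exact h2

/-- membership in the decomposition stabiliser, for elements of `Sp`. -/
theorem mem_decompStab_iff (A : Matrix.symplecticGroup (Fin m) F) :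
    ((spEquiv m F A : ↥(Cfsg.spGL m F)) : Matrix.GeneralLinearGroup (Fin m ⊕ Fin m) F)
      ∈ Cfsg.Geo.decompositionStabilizer D ↔ sStab D A := Iff.rfl

end SpDecomp

end Cfsg.Agent.Lib.helper4
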