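import Mathlib
import Cfsg.Agent.Lib.helper4.SpDecomp

set_option autoImplicit false
set_option linter.unusedSectionVars false

/-!
# The isometry group of a quadratic form polarising to the symplectic form is maximal in
`Sp_2m(F)` (characteristic two)
-/

namespace Cfsg.Agent.Lib.helper4

open Matrix
open Cfsg.Agent.S0776 Cfsg.Agent.S0766 Cfsg.Agent.S0765

section SpQuad

variable {F : Type*} [Field F] {m : ℕ} (Q : (Fin m ⊕ Fin m → F) → F)

/-- `A` is a similarity of `Q`. -/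
def sQS (A : Matrix.symplecticGroup (Fin m) F) : Prop :=
  ∃ c : Fˣ, ∀ v, Q ((A : Matrix (Fin m ⊕ Fin m) (Fin m ⊕ Fin m) F) *ᵥ v) = (c : F) * Q v

theorem mem_quadSim_iff (A : Matrix.symplecticGroup (Fin m) F) :
    ((spEquiv m F A : ↥(Cfsg.spGL m F)) : Matrix.GeneralLinearGroup (Fin m ⊕ Fin m) F)
      ∈ Cfsg.Geo.quadSimilarityGroup Q ↔ sQS Q A := Iff.rfl

theorem q_add (hpol : ∀ u v, QuadraticMap.polar Q u v = Cfsg.sympForm m F u v)
    (x y : Fin m ⊕ Fin m → F) : Q (x + y) = Q x + Q y + Cfsg.sympForm m F x y := by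
  have h := hpol x y
  unfold QuadraticMap.polar at h
  linear_combination h

theorem q_tv (hsm : ∀ (c : F) (v : Fin m ⊕ Fin m → F), Q (c • v) = c ^ 2 * Q v)
    (hpol : ∀ u v, QuadraticMap.polar Q u v = Cfsg.sympForm m F u v)
    (z : Fin m ⊕ Fin m → F) (c : F) (x : Fin m ⊕ Fin m → F) :
    Q (((tv z c : Matrix.symplecticGroup (Fin m) F) :
      Matrix (Fin m ⊕ Fin m) (Fin m ⊕ Fin m) F) *ᵥ x)
      = Q x + Cfsg.sympForm m F x z ^ 2 * (c + c ^ 2 * Q z) := by
  rw [tv_val, tv_apply, q_add Q hpol, hsm, sf_smul_right]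
  ring

theorem tv_orth_sQS (hsm : ∀ (c : F) (v : Fin m ⊕ Fin m → F), Q (c • v) = c ^ 2 * Q v)
    (hpol : ∀ u v, QuadraticMap.polar Q u v = Cfsg.sympForm m F u v) (h2 : (2 : F) = 0)
    (z : Fin m ⊕ Fin m → F) (hz : Q z ≠ 0) : sQS Q (tv z (Q z)⁻¹) := by
  refine ⟨1, fun v => ?_⟩
  rw [q_tv Q hsm hpol, Units.val_one, one_mul]
  have h1 : (Q z)⁻¹ + (Q z)⁻¹ ^ 2 * Q z = 0 := by
    field_simp
    linear_combination h2
  rw [h1, mul_zero, add_zero]

theorem sf_exists_ne (a : Fin m ⊕ Fin m → F) (ha : a ≠ 0) :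
    ∃ w, Cfsg.sympForm m F a w ≠ 0 := by
  by_contra hcon
  push Not at hcon
  apply ha
  apply (sB_nondeg (m := m) (F := F)).1 a
  intro y
  rw [sB_apply]
  exact hcon y

/-- a nonsingular vector orthogonal to `k < m` given vectors. -/
theorem sq_exists_nonsing (hpol : ∀ u v, QuadraticMap.polar Q u v = Cfsg.sympForm m F u v)
    {k : ℕ} (hk : k < m) (x : Fin k → (Fin m ⊕ Fin m → F)) :
    ∃ z, (∀ i, Cfsg.sympForm m F z (x i) = 0) ∧ Q z ≠ 0 := by
  classical
  by_contra hcon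
  push Not at hcon
  obtain ⟨Φ, hΦ⟩ : ∃ Φ : (Fin m ⊕ Fin m → F) →ₗ[F] (Fin k → F),
      ∀ v i, Φ v i = Cfsg.sympForm m F v (x i) :=
    ⟨LinearMap.pi (fun i => (sB m F).flip (x i)), fun v i => sB_apply v (x i)⟩
  obtain ⟨Z, hZ⟩ : ∃ Z : Submodule F (Fin m ⊕ Fin m → F), Z = LinearMap.ker Φ := ⟨_, rfl⟩
  have hZmem : ∀ v, v ∈ Z ↔ ∀ i, Cfsg.sympForm m F v (x i) = 0 := by
    intro v
    rw [hZ, LinearMap.mem_ker]
    constructor
    · intro h i
      rw [← hΦ, h]
      rfl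
    · intro h
      funext i
      rw [hΦ, h]
      rfl
  have hfin : Module.finrank F (Fin m ⊕ Fin m → F) = 2 * m := by
    rw [Module.finrank_fintype_fun_eq_card, Fintype.card_sum, Fintype.card_fin]
    omega
  have hdimZ : 2 * m ≤ Module.finrank F Z + k := by
    have h1 := LinearMap.finrank_range_add_finrank_ker Φ
    have h2 : Module.finrank F (LinearMap.range Φ) ≤ k := by
      have h3 := Submodule.finrank_le (LinearMap.range Φ)
      rw [Module.finrank_fin_fun] at h3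
      exact h3
    rw [hfin, ← hZ] at h1
    omega
  have hZiso : ∀ z ∈ Z, ∀ z' ∈ Z, Cfsg.sympForm m F z z' = 0 := by
    intro z hz z' hz'
    have h1 := q_add Q hpol z z'
    rw [hcon z ((hZmem z).mp hz), hcon z' ((hZmem z').mp hz'),
      hcon (z + z') ((hZmem _).mp (Z.add_mem hz hz'))] at h1
    linear_combination -h1
  obtain ⟨d, hd⟩ : ∃ d : ℕ, d = Module.finrank F Z := ⟨_, rfl⟩
  obtain ⟨bZ⟩ : Nonempty (Module.Basis (Fin d) F Z) := ⟨by rw [hd]; exact Module.finBasis F Z⟩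
  have hz : LinearIndependent F (fun i => ((bZ i : Z) : Fin m ⊕ Fin m → F)) :=
    bZ.linearIndependent.map' Z.subtype (Submodule.ker_subtype Z)
  obtain ⟨Ψ, hΨ⟩ : ∃ Ψ : (Fin m ⊕ Fin m → F) →ₗ[F] (Fin d → F),
      ∀ v i, Ψ v i = Cfsg.sympForm m F ((bZ i : Z) : Fin m ⊕ Fin m → F) v :=
    ⟨LinearMap.pi (fun i => sB m F ((bZ i : Z) : Fin m ⊕ Fin m → F)),
      fun v i => sB_apply _ v⟩
  have hsurj : Function.Surjective Ψ := by
    intro b
    obtain ⟨v, hv⟩ := Cfsg.Agent.S0751.L_surj (RingHom.id F) (sB m F) (fun a => rfl) sB_nondeg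
      (fun i => ((bZ i : Z) : Fin m ⊕ Fin m → F)) hz b
    refine ⟨v, funext (fun i => ?_)⟩
    rw [hΨ, ← sB_apply]
    exact hv i
  have hZker : Z ≤ LinearMap.ker Ψ := by
    intro z hz
    rw [LinearMap.mem_ker]
    funext i
    rw [hΨ]
    exact hZiso _ (bZ i).2 z hz
  have h1 := LinearMap.finrank_range_add_finrank_ker Ψ
  rw [LinearMap.range_eq_top.mpr hsurj, finrank_top, Module.finrank_fin_fun, hfin] at h1
  have h2 := Submodule.finrank_mono hZker
  omega

/-- square roots in a finite field of characteristic two. -/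
theorem exists_sq_eq [Finite F] (h2 : (2 : F) = 0) (c : F) : ∃ l : F, l * l = c := by
  have hinj : Function.Injective (fun x : F => x * x) := by
    intro x y hxy
    have h1 : (x - y) * (x - y) = 0 := by
      have h3 : x * x = y * y := hxy
      linear_combination h3 + (y * y - x * y) * h2
    exact sub_eq_zero.mp (mul_self_eq_zero.mp h1)
  exact Finite.surjective_of_injective hinj c

/-- adjusting a vector to a prescribed value of `Q`, keeping the products with `k < m - 1`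
given vectors. -/
theorem sq_exists_adjust [Finite F]
    (hsm : ∀ (c : F) (v : Fin m ⊕ Fin m → F), Q (c • v) = c ^ 2 * Q v)
    (hpol : ∀ u v, QuadraticMap.polar Q u v = Cfsg.sympForm m F u v) (h2 : (2 : F) = 0)
    {k : ℕ} (hk : k + 1 < m) (x : Fin k → (Fin m ⊕ Fin m → F)) (w : Fin m ⊕ Fin m → F) (μ : F) :
    ∃ a, Q a = μ ∧ ∀ i, Cfsg.sympForm m F a (x i) = Cfsg.sympForm m F w (x i) := by
  obtain ⟨z, hzx, hz⟩ := sq_exists_nonsing Q hpol (k := k + 1) hk (Fin.cons w x)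
  have hzw : Cfsg.sympForm m F z w = 0 := by
    have h := hzx 0
    rw [Fin.cons_zero] at h
    exact h
  have hzx' : ∀ i, Cfsg.sympForm m F z (x i) = 0 := by
    intro i
    have h := hzx i.succ
    rw [Fin.cons_succ] at h
    exact h
  obtain ⟨l, hl⟩ := exists_sq_eq h2 ((μ - Q w) / Q z)
  refine ⟨w + l • z, ?_, fun i => ?_⟩
  · rw [q_add Q hpol, hsm, sf_smul_right, sf_anti, hzw, neg_zero, mul_zero, add_zero, pow_two,
      hl]
    field_simp
    ring
  · rw [sf_add_left, sf_smul_left, hzx', mul_zero, add_zero]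


/-- hyperbolic partner of a nonzero singular vector. -/
theorem sq_partner (hsm : ∀ (c : F) (v : Fin m ⊕ Fin m → F), Q (c • v) = c ^ 2 * Q v)
    (hpol : ∀ u v, QuadraticMap.polar Q u v = Cfsg.sympForm m F u v)
    (a : Fin m ⊕ Fin m → F) (ha : a ≠ 0) (hQa : Q a = 0) :
    ∃ a', Q a' = 0 ∧ Cfsg.sympForm m F a a' = 1 := by
  obtain ⟨w, hw⟩ := sf_exists_ne a ha
  obtain ⟨w', hw'⟩ : ∃ w' : Fin m ⊕ Fin m → F, w' = (Cfsg.sympForm m F a w)⁻¹ • w := ⟨_, rfl⟩
  have h1 : Cfsg.sympForm m F a w' = 1 := by rw [hw', sf_smul_right, inv_mul_cancel₀ hw]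
  refine ⟨w' + Q w' • a, ?_, ?_⟩
  · rw [q_add Q hpol, hsm, hQa, mul_zero, add_zero, sf_smul_right, sf_anti, h1]
    ring
  · rw [sf_add_right, sf_smul_right, sf_self, mul_zero, add_zero, h1]

theorem sq_zero (hsm : ∀ (c : F) (v : Fin m ⊕ Fin m → F), Q (c • v) = c ^ 2 * Q v) : Q 0 = 0 := by
  have h := hsm 0 0
  rw [zero_smul] at h
  rw [h]
  ring

/-- a subgroup of `Sp_2m(F)` containing the isometry group of `Q` and an element outside it is
everything. -/
theorem sp_quad_max [Finite F] (hm : 5 ≤ m)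
    (hsm : ∀ (c : F) (v : Fin m ⊕ Fin m → F), Q (c • v) = c ^ 2 * Q v)
    (hpol : ∀ u v, QuadraticMap.polar Q u v = Cfsg.sympForm m F u v) (h2 : (2 : F) = 0)
    (H : Subgroup (Matrix.symplecticGroup (Fin m) F))
    (hPH : ∀ A : Matrix.symplecticGroup (Fin m) F, sQS Q A → A ∈ H)
    (g : Matrix.symplecticGroup (Fin m) F) (hgH : g ∈ H) (hg : ¬ sQS Q g) : H = ⊤ := by
  classical
  have hO : ∀ z : Fin m ⊕ Fin m → F, Q z ≠ 0 → tv z (Q z)⁻¹ ∈ H :=
    fun z hz => hPH _ (tv_orth_sQS Q hsm hpol h2 z hz)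
  have hconj : ∀ (A : Matrix.symplecticGroup (Fin m) F) (z : Fin m ⊕ Fin m → F) (c : F),
      A ∈ H → tv z c ∈ H →
      tv ((A : Matrix (Fin m ⊕ Fin m) (Fin m ⊕ Fin m) F) *ᵥ z) c ∈ H := by
    intro A z c hA h
    have h1 : tv ((A : Matrix (Fin m ⊕ Fin m) (Fin m ⊕ Fin m) F) *ᵥ z) c = A * tv z c * A⁻¹ := by
      rw [tv_conj, mul_inv_cancel_right]
    rw [h1]
    exact H.mul_mem (H.mul_mem hA h) (H.inv_mem hA)
  have h2v : ∀ v : Fin m ⊕ Fin m → F, v + v = 0 := by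
    intro v
    have h : v + v = (2 : F) • v := by rw [two_smul]
    rw [h, h2, zero_smul]
  have hQ0 : Q 0 = 0 := sq_zero Q hsm
  -- scaling
  have hscale : ∀ a : Fin m ⊕ Fin m → F, a ≠ 0 → Q a = 0 → ∀ c₀ : F, c₀ ≠ 0 → tv a c₀ ∈ H →
      sC H a := by
    intro a ha hQa c₀ hc₀ hmem c
    by_cases hc : c = 0
    · rw [hc, tv_zero_right]
      exact H.one_mem
    obtain ⟨a', hQa', haa'⟩ := sq_partner Q hsm hpol a ha hQa
    obtain ⟨l, hl⟩ := exists_sq_eq h2 (c / c₀)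
    have hl0 : l ≠ 0 := by
      rintro rfl
      rw [mul_zero] at hl
      exact (div_ne_zero hc hc₀) hl.symm
    have hb : ∀ μ : F, Q (a + μ • a') = μ := by
      intro μ
      rw [q_add Q hpol, hsm, hQa, hQa', sf_smul_right, haa']
      ring
    have ha'a : Cfsg.sympForm m F a' a = -1 := by rw [sf_anti, haa']
    have hT1 : ∀ μ : F, μ ≠ 0 → ((tv (a + μ • a') μ⁻¹ : Matrix.symplecticGroup (Fin m) F) :
        Matrix (Fin m ⊕ Fin m) (Fin m ⊕ Fin m) F) *ᵥ a = μ • a' := by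
      intro μ hμ
      rw [tv_val, tv_apply, sf_add_right, sf_self, sf_smul_right, haa', zero_add, mul_one,
        inv_mul_cancel₀ hμ, one_smul, ← add_assoc, h2v, zero_add]
    have hT2 : ∀ μ : F, μ ≠ 0 → ((tv (a + μ • a') μ⁻¹ : Matrix.symplecticGroup (Fin m) F) :
        Matrix (Fin m ⊕ Fin m) (Fin m ⊕ Fin m) F) *ᵥ a' = (-μ⁻¹) • a := by
      intro μ hμ
      rw [tv_val, tv_apply, sf_add_right, sf_smul_right, sf_self, ha'a, mul_zero, add_zero,
        smul_add, smul_smul]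
      have h3 : μ⁻¹ * -1 * μ = -1 := by field_simp
      rw [h3]
      module
    have hmemb : ∀ μ : F, μ ≠ 0 → tv (a + μ • a') μ⁻¹ ∈ H := by
      intro μ hμ
      have h3 := hO (a + μ • a') (by rw [hb μ]; exact hμ)
      rw [hb μ] at h3
      exact h3
    have h3 := hconj (tv (a + (1 : F) • a') (1 : F)⁻¹ * tv (a + l • a') l⁻¹) a c₀
      (H.mul_mem (hmemb 1 one_ne_zero) (hmemb l hl0)) hmem
    rw [val_mul, ← Matrix.mulVec_mulVec, hT1 l hl0, Matrix.mulVec_smul, hT2 1 one_ne_zero,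
      smul_smul, tv_smul] at h3
    have e : l * -(1 : F)⁻¹ * (l * -(1 : F)⁻¹) * c₀ = c := by
      have h4 : l * l * c₀ = c := by
        rw [hl]
        field_simp
      rw [inv_one]
      linear_combination h4
    rw [e] at h3
    exact h3
  -- moving between singular vectors
  have hA : ∀ a y : Fin m ⊕ Fin m → F, sC H a → Q a = 0 → Q y = 0 →
      Cfsg.sympForm m F y a ≠ 0 → sC H y := by
    intro a y hsa hQa hQy hya
    have hQb : Q (y - a) = - Cfsg.sympForm m F y a := by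
      have h : y - a = y + (-1 : F) • a := by rw [neg_one_smul, sub_eq_add_neg]
      rw [h, q_add Q hpol, hsm, hQa, hQy, sf_smul_right]
      ring
    have hb0 : Q (y - a) ≠ 0 := by
      rw [hQb]
      exact neg_ne_zero.mpr hya
    have h1 := sC_conj H a (tv (y - a) (Q (y - a))⁻¹) (hO _ hb0) hsa
    have h3 : ((tv (y - a) (Q (y - a))⁻¹ : Matrix.symplecticGroup (Fin m) F) :
        Matrix (Fin m ⊕ Fin m) (Fin m ⊕ Fin m) F) *ᵥ a = y := by
      rw [tv_val, tv_apply, sf_sub_right, sf_self, sub_zero, sf_anti a y, ← hQb,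
        inv_mul_cancel₀ hb0, one_smul]
      abel
    rw [h3] at h1
    exact h1
  have hsing : ∀ a₀ : Fin m ⊕ Fin m → F, a₀ ≠ 0 → Q a₀ = 0 → sC H a₀ →
      ∀ y : Fin m ⊕ Fin m → F, Q y = 0 → sC H y := by
    intro a₀ ha₀ hQa₀ hs y hQy
    by_cases hy0 : y = 0
    · rw [hy0]
      exact sC_zero H
    by_cases hya : Cfsg.sympForm m F y a₀ = 0
    · obtain ⟨w, hw1, hw2⟩ : ∃ w, Cfsg.sympForm m F w a₀ ≠ 0 ∧ Cfsg.sympForm m F w y ≠ 0 := by
        obtain ⟨w₁, h1⟩ := sf_exists_ne a₀ ha₀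
        obtain ⟨w₂, h2'⟩ := sf_exists_ne y hy0
        have h1' : Cfsg.sympForm m F w₁ a₀ ≠ 0 := by
          rw [sf_anti]
          exact neg_ne_zero.mpr h1
        have h2'' : Cfsg.sympForm m F w₂ y ≠ 0 := by
          rw [sf_anti]
          exact neg_ne_zero.mpr h2'
        by_cases h3 : Cfsg.sympForm m F w₁ y = 0
        · by_cases h4 : Cfsg.sympForm m F w₂ a₀ = 0
          · refine ⟨w₁ + w₂, ?_, ?_⟩
            · rw [sf_add_left, h4, add_zero]
              exact h1'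
            · rw [sf_add_left, h3, zero_add]
              exact h2''
          · exact ⟨w₂, h4, h2''⟩
        · exact ⟨w₁, h1', h3⟩
      obtain ⟨a', hQa', ha'x⟩ := sq_exists_adjust Q hsm hpol h2 (k := 2) (by omega) ![a₀, y] w 0
      have h5 : Cfsg.sympForm m F a' a₀ ≠ 0 := by
        have h := ha'x 0
        rw [show Cfsg.sympForm m F a' a₀ = Cfsg.sympForm m F w a₀ from h]
        exact hw1
      have h6 : Cfsg.sympForm m F a' y ≠ 0 := by
        have h := ha'x 1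
        rw [show Cfsg.sympForm m F a' y = Cfsg.sympForm m F w y from h]
        exact hw2
      have h7 : sC H a' := hA a₀ a' hs hQa₀ hQa' h5
      exact hA a' y h7 hQa' hQy (by rw [sf_anti]; exact neg_ne_zero.mpr h6)
    · exact hA a₀ y hs hQa₀ hQy hya
  have hall : ∀ a₀ : Fin m ⊕ Fin m → F, a₀ ≠ 0 → Q a₀ = 0 → sC H a₀ →
      ∀ b : Fin m ⊕ Fin m → F, sC H b := by
    intro a₀ ha₀ hQa₀ hs b
    by_cases hQb : Q b = 0
    · exact hsing a₀ ha₀ hQa₀ hs b hQb
    have hb0 : b ≠ 0 := by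
      rintro rfl
      exact hQb hQ0
    obtain ⟨w₀, hw₀⟩ := sf_exists_ne b hb0
    have hw₀' : Cfsg.sympForm m F w₀ b ≠ 0 := by
      rw [sf_anti]
      exact neg_ne_zero.mpr hw₀
    obtain ⟨a, hQa, hax⟩ := sq_exists_adjust Q hsm hpol h2 (k := 1) (by omega) ![b]
      ((Q b / Cfsg.sympForm m F w₀ b) • w₀) 0
    have hab : Cfsg.sympForm m F a b = Q b := by
      have h := hax 0
      rw [show Cfsg.sympForm m F a b = Cfsg.sympForm m F ((Q b / Cfsg.sympForm m F w₀ b) • w₀) b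
        from h, sf_smul_left]
      field_simp
    have hQab : Q (a + b) = 0 := by
      rw [q_add Q hpol, hQa, hab]
      linear_combination Q b * h2
    have h1 := sC_add H a (a + b) (hsing a₀ ha₀ hQa₀ hs a hQa)
      (hsing a₀ ha₀ hQa₀ hs (a + b) hQab)
      (by rw [sf_add_right, sf_self, zero_add, hab]; exact hQb)
    have h3 : a + (a + b) = b := by rw [← add_assoc, h2v, zero_add]
    rw [h3] at h1
    exact h1
  obtain ⟨v, hv⟩ : ∃ v, Q ((g : Matrix (Fin m ⊕ Fin m) (Fin m ⊕ Fin m) F) *ᵥ v) ≠ Q v := by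
    by_contra hcon
    push Not at hcon
    exact hg ⟨1, fun v => by rw [Units.val_one, one_mul]; exact hcon v⟩
  have hex : ∃ a₀ : Fin m ⊕ Fin m → F, a₀ ≠ 0 ∧ Q a₀ = 0 ∧ sC H a₀ := by
    by_cases hQv : Q v = 0
    · have hgv : Q ((g : Matrix (Fin m ⊕ Fin m) (Fin m ⊕ Fin m) F) *ᵥ v) ≠ 0 := by
        rw [hQv] at hv
        exact hv
      have hv0 : v ≠ 0 := by
        rintro rfl
        rw [Matrix.mulVec_zero, hQ0] at hgv
        exact hgv rfl
      refine ⟨v, hv0, hQv, hscale v hv0 hQv _ (inv_ne_zero hgv) ?_⟩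
      have h1 := hconj g⁻¹ _ _ (H.inv_mem hgH) (hO _ hgv)
      rw [inv_mulVec_mulVec] at h1
      exact h1
    · by_cases hgv : Q ((g : Matrix (Fin m ⊕ Fin m) (Fin m ⊕ Fin m) F) *ᵥ v) = 0
      · have hv0 : v ≠ 0 := by
          rintro rfl
          exact hQv hQ0
        have hgv0 : (g : Matrix (Fin m ⊕ Fin m) (Fin m ⊕ Fin m) F) *ᵥ v ≠ 0 :=
          fun h => hv0 (mulVec_injective g v 0 (by rw [h, Matrix.mulVec_zero]))
        exact ⟨_, hgv0, hgv, hscale _ hgv0 hgv _ (inv_ne_zero hQv) (hconj g v _ hgH (hO v hQv))⟩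
      · obtain ⟨a, ha⟩ : ∃ a : Fin m ⊕ Fin m → F,
            a = (g : Matrix (Fin m ⊕ Fin m) (Fin m ⊕ Fin m) F) *ᵥ v := ⟨_, rfl⟩
        rw [← ha] at hv hgv
        have hc1 : tv a (Q v)⁻¹ ∈ H := by
          rw [ha]
          exact hconj g v _ hgH (hO v hQv)
        have hκ : (Q v)⁻¹ + (Q v)⁻¹ ^ 2 * Q a ≠ 0 := by
          intro h0
          apply hv
          field_simp at h0
          linear_combination h0 - Q v * h2
        have ha0 : a ≠ 0 := by
          rintro rfl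
          exact hgv hQ0
        obtain ⟨x₀, hx₀⟩ := sf_exists_ne a ha0
        have hx₀' : Cfsg.sympForm m F x₀ a ≠ 0 := by
          rw [sf_anti]
          exact neg_ne_zero.mpr hx₀
        obtain ⟨x, hQx, hxa⟩ := sq_exists_adjust Q hsm hpol h2 (k := 1) (by omega) ![a]
          ((Cfsg.sympForm m F x₀ a)⁻¹ • x₀) ((Q v)⁻¹ + (Q v)⁻¹ ^ 2 * Q a)
        have hxa1 : Cfsg.sympForm m F x a = 1 := by
          have h := hxa 0
          rw [show Cfsg.sympForm m F x a
            = Cfsg.sympForm m F ((Cfsg.sympForm m F x₀ a)⁻¹ • x₀) a from h, sf_smul_left,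
            inv_mul_cancel₀ hx₀']
        have hQy : Q (((tv a (Q v)⁻¹ : Matrix.symplecticGroup (Fin m) F) :
            Matrix (Fin m ⊕ Fin m) (Fin m ⊕ Fin m) F) *ᵥ x) = 0 := by
          rw [q_tv Q hsm hpol, hQx, hxa1]
          linear_combination ((Q v)⁻¹ + (Q v)⁻¹ ^ 2 * Q a) * h2
        have hQx0 : Q x ≠ 0 := by
          rw [hQx]
          exact hκ
        have hx0 : x ≠ 0 := by
          rintro rfl
          exact hQx0 hQ0
        have hy0 : ((tv a (Q v)⁻¹ : Matrix.symplecticGroup (Fin m) F) :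
            Matrix (Fin m ⊕ Fin m) (Fin m ⊕ Fin m) F) *ᵥ x ≠ 0 :=
          fun h => hx0 (mulVec_injective _ x 0 (by rw [h, Matrix.mulVec_zero]))
        exact ⟨_, hy0, hQy, hscale _ hy0 hQy _ (inv_ne_zero hQx0)
          (hconj (tv a (Q v)⁻¹) x _ hc1 (hO x hQx0))⟩
  obtain ⟨a₀, ha₀, hQa₀, hs⟩ := hex
  rw [eq_top_iff, ← Cfsg.Agent.S0765.result m, Subgroup.closure_le]
  rintro A ⟨z, c, hA'⟩
  have hA'' : A = tv z c := Subtype.ext hA'
  rw [hA'']
  exact hall a₀ ha₀ hQa₀ hs z c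

/-- the isometry group of `Q` is a proper subgroup of `Sp_2m(F)`. -/
theorem exists_not_sQS [Finite F] (hm : 3 ≤ m)
    (hsm : ∀ (c : F) (v : Fin m ⊕ Fin m → F), Q (c • v) = c ^ 2 * Q v)
    (hpol : ∀ u v, QuadraticMap.polar Q u v = Cfsg.sympForm m F u v) (h2 : (2 : F) = 0) :
    ∃ A : Matrix.symplecticGroup (Fin m) F, ¬ sQS Q A := by
  classical
  obtain ⟨p, hp⟩ : ∃ p : Fin m ⊕ Fin m → F, p ≠ 0 := by
    refine ⟨Pi.single (Sum.inl (⟨0, by omega⟩ : Fin m)) 1, fun h => ?_⟩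
    have h1 := congrFun h (Sum.inl (⟨0, by omega⟩ : Fin m))
    rw [Pi.single_eq_same, Pi.zero_apply] at h1
    exact one_ne_zero h1
  obtain ⟨w, hw⟩ := sf_exists_ne p hp
  have hw' : Cfsg.sympForm m F w p ≠ 0 := by
    rw [sf_anti]
    exact neg_ne_zero.mpr hw
  obtain ⟨a, hQa, hax⟩ := sq_exists_adjust Q hsm hpol h2 (k := 1) (by omega) ![p] w 0
  have ha : a ≠ 0 := by
    rintro rfl
    have h := hax 0
    rw [sf_zero_left] at h
    exact hw' h.symm
  obtain ⟨a', hQa', haa'⟩ := sq_partner Q hsm hpol a ha hQa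
  refine ⟨tv a 1, ?_⟩
  rintro ⟨c, hc⟩
  have h1 := hc a'
  rw [q_tv Q hsm hpol, hQa', hQa, mul_zero, sf_anti, haa'] at h1
  have h3 : (1 : F) = 0 := by linear_combination h1
  exact one_ne_zero h3

end SpQuad

end Cfsg.Agent.Lib.helper4
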