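import Mathlib
import Cfsg.Agent.Lib.helper4.OrthInvOmega
import Cfsg.Agent.Lib.helper4.SpTI
import Cfsg.Agent.Lib.helper4.SpDecomp
import Cfsg.Agent.Lib.helper4.SpQuad

set_option autoImplicit false

/-!
# Involutions of the symplectic group in characteristic two

Every involution of `Sp_2m(F)`, `F` finite of characteristic two, preserves a quadratic form whose
polar form is the symplectic form (`sp_invol_form`); its normal form as an isometry of that form
gives the classification of the involutions of `Sp_2m(F)`.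
-/

namespace Cfsg.Agent.Lib.helper4

open Cfsg.Agent.Lib.helper13
open Cfsg.Agent.S0776 Cfsg.Agent.S0766

section SpNF

variable {F : Type*} [Field F] [CharP F 2] {m : ℕ}

/-- in characteristic two the polar form of the hyperbolic form is the symplectic form -/
lemma polar_qP_sf (u v : Fin m ⊕ Fin m → F) :
    QuadraticMap.polar (⇑(Cfsg.Agent.S2562.qP F m)) u v = Cfsg.sympForm m F u v := by
  rw [Cfsg.Agent.S2562.polar_qP]
  unfold Cfsg.sympForm Matrix.J
  rw [Matrix.fromBlocks_mulVec]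
  simp only [dotProduct, Fintype.sum_sum_type, Sum.elim_inl, Sum.elim_inr, Matrix.zero_mulVec,
    Matrix.neg_mulVec, Matrix.one_mulVec, zero_add, add_zero, Pi.neg_apply,
    Function.comp]
  rw [← Finset.sum_add_distrib]
  apply Finset.sum_congr rfl
  intro i _
  rw [CharTwo.neg_eq]
  ring

omit [CharP F 2] in
lemma nondeg_of_polar_sf (Q : QuadraticForm F (Fin m ⊕ Fin m → F))
    (hpol : ∀ u v, QuadraticMap.polar (⇑Q) u v = Cfsg.sympForm m F u v) :
    (QuadraticMap.polarBilin Q).Nondegenerate := by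
  have h1 : QuadraticMap.polarBilin Q = sB m F := by
    apply LinearMap.ext₂
    intro u v
    rw [sB_apply]
    exact hpol u v
  rw [h1]
  exact sB_nondeg

/-- an involution of the symplectic group in characteristic two preserves a quadratic form whose
polar form is the symplectic form -/
theorem sp_invol_form [Fintype F] (M : Matrix (Fin m ⊕ Fin m) (Fin m ⊕ Fin m) F)
    (hM : M * M = 1)
    (hpres : ∀ u v, Cfsg.sympForm m F (M.mulVec u) (M.mulVec v) = Cfsg.sympForm m F u v) :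
    ∃ Q : QuadraticForm F (Fin m ⊕ Fin m → F),
      (∀ u v, QuadraticMap.polar (⇑Q) u v = Cfsg.sympForm m F u v) ∧
      ∀ v, Q (M.mulVec v) = Q v := by
  classical
  have : ExpChar F 2 := ExpChar.prime Nat.prime_two
  obtain ⟨Q₀, hQ₀def⟩ : ∃ Q₀ : QuadraticForm F (Fin m ⊕ Fin m → F),
      Q₀ = Cfsg.Agent.S2562.qP F m := ⟨_, rfl⟩
  have hpol₀ : ∀ u v, QuadraticMap.polar (⇑Q₀) u v = Cfsg.sympForm m F u v := by
    intro u v
    rw [hQ₀def]
    exact polar_qP_sf u v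
  have hQ₀ := nondeg_of_polar_sf Q₀ hpol₀
  have hpresP : ∀ u v, QuadraticMap.polar (⇑Q₀) (M.mulVec u) (M.mulVec v)
      = QuadraticMap.polar (⇑Q₀) u v := by
    intro u v
    rw [hpol₀, hpol₀, hpres]
  obtain ⟨D, hD⟩ : ∃ D : (Fin m ⊕ Fin m → F) → F, D = fun v => Q₀ (M.mulVec v) + Q₀ v :=
    ⟨_, rfl⟩
  have hDv : ∀ v, D v = Q₀ (M.mulVec v) + Q₀ v := fun v => by rw [hD]
  have hDadd : ∀ v w, D (v + w) = D v + D w := by
    intro v w
    rw [hDv, hDv, hDv, Matrix.mulVec_add, Q_add, Q_add, hpresP]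
    have h1 := CharTwo.add_self_eq_zero (QuadraticMap.polar (⇑Q₀) v w)
    linear_combination h1
  have hDsmul : ∀ (c : F) v, D (c • v) = c * c * D v := by
    intro c v
    rw [hDv, hDv, Matrix.mulVec_smul, QuadraticMap.map_smul, QuadraticMap.map_smul]
    simp only [smul_eq_mul]
    ring
  let φ : (Fin m ⊕ Fin m → F) →ₗ[F] F :=
    { toFun := fun v => (frobeniusEquiv F 2).symm (D v)
      map_add' := fun v w => by rw [hDadd, map_add]
      map_smul' := fun c v => by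
        have h1 : c * c = frobenius F 2 c := by rw [frobenius_def, pow_two]
        rw [hDsmul, map_mul, h1, frobeniusEquiv_symm_apply_frobenius, RingHom.id_apply,
          smul_eq_mul] }
  have hφ : ∀ v, φ v * φ v = D v := by
    intro v
    have h1 := frobenius_apply_frobeniusEquiv_symm F 2 (D v)
    rw [frobenius_def, pow_two] at h1
    exact h1
  obtain ⟨a₀, ha₀⟩ : ∃ a₀ : Fin m ⊕ Fin m → F, ∀ v, QuadraticMap.polar (⇑Q₀) a₀ v = φ v :=
    ⟨(LinearMap.BilinForm.toDual (QuadraticMap.polarBilin Q₀) hQ₀).symm φ, fun v =>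
      LinearMap.BilinForm.apply_toDual_symm_apply (B := QuadraticMap.polarBilin Q₀) (hB := hQ₀)
        φ v⟩
  -- `a₀` is orthogonal to the fixed vectors, hence lies in the image of `M - 1`
  have ha₀fix : a₀ ∈ orthSub Q₀ (fixSub M) := by
    rw [mem_orthSub]
    intro v hv
    rw [mem_fixSub] at hv
    rw [QuadraticMap.polar_comm, ha₀ v]
    have h1 := hφ v
    rw [hDv, hv, CharTwo.add_self_eq_zero] at h1
    exact mul_self_eq_zero.mp h1
  have hrange : LinearMap.range (Matrix.toLin' (M - 1)) = orthSub Q₀ (fixSub M) := by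
    apply Submodule.eq_of_le_of_finrank_eq
    · rintro x ⟨z, rfl⟩
      rw [mem_orthSub]
      intro v hv
      rw [mem_fixSub] at hv
      rw [Matrix.toLin'_apply, Matrix.sub_mulVec, Matrix.one_mulVec,
        QuadraticMap.polar_sub_right]
      nth_rewrite 1 [← hv]
      rw [hpresP, sub_self]
    · rw [finrank_orthSub Q₀ hQ₀]
      have h1 := rank_sub_one_add_fix M
      have h2 : (M - 1).rank = Module.finrank F ↥(LinearMap.range (Matrix.toLin' (M - 1))) := rfl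
      omega
  rw [← hrange] at ha₀fix
  obtain ⟨b, hb⟩ := ha₀fix
  rw [Matrix.toLin'_apply, Matrix.sub_mulVec, Matrix.one_mulVec, sub_eq_add_neg, c2_neg] at hb
  obtain ⟨ℓ, hℓ⟩ : ∃ ℓ : (Fin m ⊕ Fin m → F) →ₗ[F] F,
      ∀ v, ℓ v = QuadraticMap.polar (⇑Q₀) b v := ⟨QuadraticMap.polarBilin Q₀ b, fun v => rfl⟩
  refine ⟨Q₀ + QuadraticMap.linMulLin ℓ ℓ, ?_, ?_⟩
  · intro u v
    rw [← hpol₀]
    unfold QuadraticMap.polar
    simp only [add_apply, QuadraticMap.linMulLin_apply, map_add]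
    have h1 := CharTwo.add_self_eq_zero (ℓ u * ℓ v)
    linear_combination h1
  · intro v
    simp only [add_apply, QuadraticMap.linMulLin_apply]
    rw [hℓ, hℓ]
    have h1 : Q₀ (M.mulVec v) = D v + Q₀ v := by
      rw [hDv, add_assoc, CharTwo.add_self_eq_zero, add_zero]
    have h2 : QuadraticMap.polar (⇑Q₀) (M.mulVec b) v
        = QuadraticMap.polar (⇑Q₀) b (M.mulVec v) := by
      have h3 := hpresP b (M.mulVec v)
      rw [Matrix.mulVec_mulVec, hM, Matrix.one_mulVec] at h3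
      exact h3
    have h3 : D v = (QuadraticMap.polar (⇑Q₀) b (M.mulVec v) + QuadraticMap.polar (⇑Q₀) b v)
        * (QuadraticMap.polar (⇑Q₀) b (M.mulVec v) + QuadraticMap.polar (⇑Q₀) b v) := by
      rw [← hφ, ← ha₀, ← hb, QuadraticMap.polar_add_left, h2]
    rw [h1, h3, CharTwo.add_mul_self]
    have h4 := CharTwo.add_self_eq_zero
      (QuadraticMap.polar (⇑Q₀) b (M.mulVec v) * QuadraticMap.polar (⇑Q₀) b (M.mulVec v))
    linear_combination h4

/-- an involution of `Sp` has a normal form of shape `σ`, relative to some quadratic form with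
polar form the symplectic form -/
def IsSpNF {κ : Type} [Fintype κ] [DecidableEq κ] (σ : κ → κ)
    (t : Matrix.symplecticGroup (Fin m) F) : Prop :=
  ∃ (Q : QuadraticForm F (Fin m ⊕ Fin m → F)) (t' : ↥(Cfsg.isometryGroup F ⇑Q)),
    (∀ u v, QuadraticMap.polar (⇑Q) u v = Cfsg.sympForm m F u v) ∧
    mat Q t' = (t : Matrix (Fin m ⊕ Fin m) (Fin m ⊕ Fin m) F) ∧ IsNF Q σ t'

omit [CharP F 2] in
lemma sp_coe_mul (a b : Matrix.symplecticGroup (Fin m) F) :
    ((a * b : Matrix.symplecticGroup (Fin m) F) : Matrix (Fin m ⊕ Fin m) (Fin m ⊕ Fin m) F)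
      = (a : Matrix (Fin m ⊕ Fin m) (Fin m ⊕ Fin m) F)
        * (b : Matrix (Fin m ⊕ Fin m) (Fin m ⊕ Fin m) F) := rfl

omit [CharP F 2] in
lemma sp_coe_one :
    ((1 : Matrix.symplecticGroup (Fin m) F) : Matrix (Fin m ⊕ Fin m) (Fin m ⊕ Fin m) F) = 1 := rfl

/-- every involution of `Sp` has a normal form -/
theorem spnf_of_invol [Fintype F] (t : Matrix.symplecticGroup (Fin m) F) (ht : orderOf t = 2) :
    (∃ s, 1 ≤ s ∧ IsSpNF (id : Fin s → Fin s) t) ∨
      (∃ k, 1 ≤ k ∧ IsSpNF (Sum.swap : Fin k ⊕ Fin k → Fin k ⊕ Fin k) t) := by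
  classical
  have ht2 : t * t = 1 := by
    rw [← pow_two, ← ht]
    exact pow_orderOf_eq_one t
  have hM : (t : Matrix (Fin m ⊕ Fin m) (Fin m ⊕ Fin m) F)
      * (t : Matrix (Fin m ⊕ Fin m) (Fin m ⊕ Fin m) F) = 1 := by
    rw [← sp_coe_mul, ht2, sp_coe_one]
  obtain ⟨Q, hpol, hpres⟩ := sp_invol_form (t : Matrix (Fin m ⊕ Fin m) (Fin m ⊕ Fin m) F) hM
    (fun u v => sp_pres t u v)
  have hQ := nondeg_of_polar_sf Q hpol
  obtain ⟨t', ht'⟩ : ∃ t' : ↥(Cfsg.isometryGroup F ⇑Q),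
      mat Q t' = (t : Matrix (Fin m ⊕ Fin m) (Fin m ⊕ Fin m) F) :=
    ⟨⟨⟨(t : Matrix (Fin m ⊕ Fin m) (Fin m ⊕ Fin m) F),
      (t : Matrix (Fin m ⊕ Fin m) (Fin m ⊕ Fin m) F), hM, hM⟩, fun u _ => hpres u⟩, rfl⟩
  have ht'2 : orderOf t' = 2 := by
    haveI : Fact (Nat.Prime 2) := ⟨Nat.prime_two⟩
    apply orderOf_eq_prime
    · rw [pow_two]
      apply isom_ext
      show mat Q (t' * t') = mat Q 1
      rw [mat_mul, ht', hM, mat_one]
    · intro h1
      have h2 : (t : Matrix (Fin m ⊕ Fin m) (Fin m ⊕ Fin m) F) = 1 := by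
        rw [← ht', h1, mat_one]
      have h3 : t = 1 := Subtype.ext h2
      rw [h3, orderOf_one] at ht
      omega
  rcases nf_of_invol Q hQ t' ht'2 with ⟨s, hs, h⟩ | ⟨k, hk, h⟩
  · exact Or.inl ⟨s, hs, Q, t', hpol, ht', h⟩
  · exact Or.inr ⟨k, hk, Q, t', hpol, ht', h⟩

omit [CharP F 2] in
/-- the explicit form of an involution with a normal form -/
lemma spnf_formula {κ : Type} [Fintype κ] [DecidableEq κ] (σ : κ → κ)
    (t : Matrix.symplecticGroup (Fin m) F) (h : IsSpNF σ t) :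
    ∃ u : κ → (Fin m ⊕ Fin m → F), LinearIndependent F u ∧
      (∀ x y, Cfsg.sympForm m F (u x) (u y) = 0) ∧
      ∀ v, (t : Matrix (Fin m ⊕ Fin m) (Fin m ⊕ Fin m) F).mulVec v
        = v + ∑ y, Cfsg.sympForm m F (u y) v • u (σ y) := by
  obtain ⟨Q, t', hpol, hmat, u, ⟨hli, hu, hQu⟩, htf⟩ := h
  refine ⟨u, hli, fun x y => by rw [← hpol]; exact hu x y, fun v => ?_⟩
  rw [← hmat, htf]
  congr 1
  apply Finset.sum_congr rfl
  intro y _
  rw [hpol]

omit [CharP F 2] in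
/-- involutions with normal forms of the same shape are conjugate -/
theorem spnf_conj {κ : Type} [Fintype κ] [DecidableEq κ] (σ : κ → κ)
    (a b : Matrix.symplecticGroup (Fin m) F) (ha : IsSpNF σ a) (hb : IsSpNF σ b) :
    IsConj a b := by
  classical
  obtain ⟨u, hli, hu, haf⟩ := spnf_formula σ a ha
  obtain ⟨u', hli', hu', hbf⟩ := spnf_formula σ b hb
  obtain ⟨A, hA⟩ := witt_frames_fintype u u' hli hli' (fun i j => by rw [hu', hu])
  rw [isConj_iff]
  refine ⟨A, ?_⟩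
  apply Subtype.ext
  apply Matrix.mulVec_injective
  funext v
  rw [sp_coe_mul, sp_coe_mul, ← Matrix.mulVec_mulVec, ← Matrix.mulVec_mulVec]
  obtain ⟨w, hw⟩ : ∃ w, w = ((A⁻¹ : Matrix.symplecticGroup (Fin m) F) :
      Matrix (Fin m ⊕ Fin m) (Fin m ⊕ Fin m) F).mulVec v := ⟨_, rfl⟩
  have hAw : (A : Matrix (Fin m ⊕ Fin m) (Fin m ⊕ Fin m) F).mulVec w = v := by
    rw [hw, Matrix.mulVec_mulVec, ← sp_coe_mul, mul_inv_cancel, sp_coe_one, Matrix.one_mulVec]
  rw [← hw, haf, Matrix.mulVec_add, Matrix.mulVec_sum, hAw, hbf]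
  congr 1
  apply Finset.sum_congr rfl
  intro y _
  rw [Matrix.mulVec_smul, hA, ← hAw, ← hA y, sp_pres]

/-- the value `f(v, t v)` in terms of the quadratic form -/
lemma spnf_sf_eq (Q : QuadraticForm F (Fin m ⊕ Fin m → F))
    (hpol : ∀ u v, QuadraticMap.polar (⇑Q) u v = Cfsg.sympForm m F u v)
    (t' : ↥(Cfsg.isometryGroup F ⇑Q)) (v : Fin m ⊕ Fin m → F) :
    Cfsg.sympForm m F v ((mat Q t').mulVec v) = Q ((mat Q t').mulVec v + v) := by
  rw [← hpol, add_comm ((mat Q t').mulVec v) v]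
  unfold QuadraticMap.polar
  have h1 : Q ((mat Q t').mulVec v) = Q v := isom_pres Q t' v
  rw [h1]
  have h2 := CharTwo.add_self_eq_zero (Q v)
  linear_combination -h2

lemma spnf_rank {κ : Type} [Fintype κ] [DecidableEq κ] (σ : κ → κ) (hσ : ∀ x, σ (σ x) = x)
    (t : Matrix.symplecticGroup (Fin m) F) (h : IsSpNF σ t) :
    ((t : Matrix (Fin m ⊕ Fin m) (Fin m ⊕ Fin m) F) - 1).rank = Fintype.card κ := by
  obtain ⟨Q, t', hpol, hmat, h⟩ := h
  rw [← hmat]
  exact nf_rank Q (nondeg_of_polar_sf Q hpol) σ hσ t' h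

omit [CharP F 2] in
lemma spnf_card_le {κ : Type} [Fintype κ] [DecidableEq κ] (σ : κ → κ)
    (t : Matrix.symplecticGroup (Fin m) F) (h : IsSpNF σ t) : Fintype.card κ ≤ m := by
  obtain ⟨Q, t', hpol, hmat, h⟩ := h
  have h1 := nf_card_le Q (nondeg_of_polar_sf Q hpol) σ t' h
  simp only [Fintype.card_sum, Fintype.card_fin] at h1
  omega

lemma spnf_alt {κ : Type} [Fintype κ] [DecidableEq κ] (σ : κ → κ) (hσ : ∀ x, σ (σ x) = x)
    (hfp : ∀ x, σ x ≠ x) (t : Matrix.symplecticGroup (Fin m) F) (h : IsSpNF σ t)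
    (v : Fin m ⊕ Fin m → F) :
    Cfsg.sympForm m F v ((t : Matrix (Fin m ⊕ Fin m) (Fin m ⊕ Fin m) F).mulVec v) = 0 := by
  obtain ⟨Q, t', hpol, hmat, h⟩ := h
  rw [← hmat, spnf_sf_eq Q hpol t' v]
  exact nf_alt Q σ hσ hfp t' h v

/-- for a normal form with `σ = id` the set `f(v, t v) = 0` is a hyperplane -/
lemma spnf_hyp {κ : Type} [Fintype κ] [DecidableEq κ] [Nonempty κ] (σ : κ → κ)
    (hfp : ∀ x, σ x = x) (t : Matrix.symplecticGroup (Fin m) F) (h : IsSpNF σ t) :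
    ∃ z : Fin m ⊕ Fin m → F, z ≠ 0 ∧ ∀ v,
      Cfsg.sympForm m F v ((t : Matrix (Fin m ⊕ Fin m) (Fin m ⊕ Fin m) F).mulVec v)
        = Cfsg.sympForm m F z v * Cfsg.sympForm m F z v := by
  obtain ⟨Q, t', hpol, hmat, u, hstd, htf⟩ := h
  have hz : ∑ y, u y ≠ 0 := by
    intro h
    have h1 := Fintype.linearIndependent_iff.mp hstd.1 (fun _ => (1 : F))
      (by simpa using h) (Classical.arbitrary κ)
    exact one_ne_zero h1
  refine ⟨∑ y, u y, hz, fun v => ?_⟩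
  rw [← hmat, spnf_sf_eq Q hpol t' v, nf_Q_N Q σ (fun x => by rw [hfp, hfp]) t' u hstd htf]
  have h1 : ∑ y, QuadraticMap.polar (⇑Q) (u y) v * QuadraticMap.polar (⇑Q) (u y) v
      * (if σ y = y then 1 else 0)
      = (∑ y, QuadraticMap.polar (⇑Q) (u y) v) * (∑ y, QuadraticMap.polar (⇑Q) (u y) v) := by
    rw [CharTwo.sum_mul_self]
    apply Finset.sum_congr rfl
    intro y _
    rw [if_pos (hfp y), mul_one]
  have h2 : ∑ y, QuadraticMap.polar (⇑Q) (u y) v = QuadraticMap.polar (⇑Q) (∑ y, u y) v := by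
    show ∑ y, QuadraticMap.polarBilin Q (u y) v = QuadraticMap.polarBilin Q (∑ y, u y) v
    rw [map_sum, LinearMap.sum_apply]
  rw [h1, h2, hpol]

lemma spnf_orderOf {κ : Type} [Fintype κ] [DecidableEq κ] [Nonempty κ] (σ : κ → κ)
    (hσ : ∀ x, σ (σ x) = x) (t : Matrix.symplecticGroup (Fin m) F) (h : IsSpNF σ t) :
    orderOf t = 2 := by
  obtain ⟨Q, t', hpol, hmat, h⟩ := h
  have h1 := nf_orderOf Q (nondeg_of_polar_sf Q hpol) σ hσ t' h
  have h2 : t' * t' = 1 := by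
    rw [← pow_two, ← h1]
    exact pow_orderOf_eq_one t'
  haveI : Fact (Nat.Prime 2) := ⟨Nat.prime_two⟩
  apply orderOf_eq_prime
  · rw [pow_two]
    apply Subtype.ext
    rw [sp_coe_mul, ← hmat, ← mat_mul, h2, mat_one, sp_coe_one]
  · intro h3
    have h4 : t' = 1 := by
      apply isom_ext
      show mat Q t' = mat Q 1
      rw [hmat, h3, sp_coe_one, mat_one]
    rw [h4, orderOf_one] at h1
    omega

/-- an isometry of the hyperbolic form is symplectic -/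
lemma spnf_of_orth {κ : Type} [Fintype κ] [DecidableEq κ] (σ : κ → κ)
    (t₀ : ↥(Cfsg.isometryGroup F ⇑(Cfsg.Agent.S2562.qP F m)))
    (h : IsNF (Cfsg.Agent.S2562.qP F m) σ t₀) :
    ∃ t : Matrix.symplecticGroup (Fin m) F, IsSpNF σ t := by
  classical
  have h1 : mat (Cfsg.Agent.S2562.qP F m) t₀ * mat (Cfsg.Agent.S2562.qP F m) t₀⁻¹ = 1 := by
    rw [← mat_mul, mul_inv_cancel, mat_one]
  have h2 : mat (Cfsg.Agent.S2562.qP F m) t₀⁻¹ * mat (Cfsg.Agent.S2562.qP F m) t₀ = 1 := by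
    rw [← mat_mul, inv_mul_cancel, mat_one]
  obtain ⟨g, hg⟩ : ∃ g : (Fin m ⊕ Fin m → F) ≃ₗ[F] (Fin m ⊕ Fin m → F),
      ∀ v, g v = (mat (Cfsg.Agent.S2562.qP F m) t₀).mulVec v :=
    ⟨LinearEquiv.ofLinearMap (Matrix.toLin' (mat (Cfsg.Agent.S2562.qP F m) t₀))
      (Matrix.toLin' (mat (Cfsg.Agent.S2562.qP F m) t₀⁻¹))
      (by rw [← Matrix.toLin'_mul, h1, Matrix.toLin'_one])
      (by rw [← Matrix.toLin'_mul, h2, Matrix.toLin'_one]), fun v => rfl⟩
  obtain ⟨A, hA⟩ := sp_of_linearEquiv g (fun u v => by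
    rw [hg, hg, ← polar_qP_sf, ← polar_qP_sf]
    exact isom_polar _ t₀ u v)
  have hmat : mat (Cfsg.Agent.S2562.qP F m) t₀
      = (A : Matrix (Fin m ⊕ Fin m) (Fin m ⊕ Fin m) F) := by
    apply Matrix.mulVec_injective
    funext v
    rw [hA, hg]
  exact ⟨A, Cfsg.Agent.S2562.qP F m, t₀, polar_qP_sf, hmat, h⟩

omit [CharP F 2] in
lemma sp_conj_mulVec (a b c : Matrix.symplecticGroup (Fin m) F) (hc : c * a * c⁻¹ = b)
    (v : Fin m ⊕ Fin m → F) :
    (b : Matrix (Fin m ⊕ Fin m) (Fin m ⊕ Fin m) F).mulVec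
      ((c : Matrix (Fin m ⊕ Fin m) (Fin m ⊕ Fin m) F).mulVec v)
    = (c : Matrix (Fin m ⊕ Fin m) (Fin m ⊕ Fin m) F).mulVec
      ((a : Matrix (Fin m ⊕ Fin m) (Fin m ⊕ Fin m) F).mulVec v) := by
  have h1 : b * c = c * a := by
    rw [← hc]
    group
  rw [Matrix.mulVec_mulVec, Matrix.mulVec_mulVec, ← sp_coe_mul, ← sp_coe_mul, h1]

omit [CharP F 2] in
/-- the rank of `t - 1` is a class invariant -/
lemma sp_rank_conj (a b : Matrix.symplecticGroup (Fin m) F) (h : IsConj a b) :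
    ((a : Matrix (Fin m ⊕ Fin m) (Fin m ⊕ Fin m) F) - 1).rank
      = ((b : Matrix (Fin m ⊕ Fin m) (Fin m ⊕ Fin m) F) - 1).rank := by
  classical
  obtain ⟨c, hc⟩ := isConj_iff.mp h
  have h1 : (c : Matrix (Fin m ⊕ Fin m) (Fin m ⊕ Fin m) F)
      * ((c⁻¹ : Matrix.symplecticGroup (Fin m) F) : Matrix (Fin m ⊕ Fin m) (Fin m ⊕ Fin m) F)
      = 1 := by
    rw [← sp_coe_mul, mul_inv_cancel, sp_coe_one]
  have h2 : (b : Matrix (Fin m ⊕ Fin m) (Fin m ⊕ Fin m) F) - 1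
      = (c : Matrix (Fin m ⊕ Fin m) (Fin m ⊕ Fin m) F)
        * ((a : Matrix (Fin m ⊕ Fin m) (Fin m ⊕ Fin m) F) - 1)
        * ((c⁻¹ : Matrix.symplecticGroup (Fin m) F) :
          Matrix (Fin m ⊕ Fin m) (Fin m ⊕ Fin m) F) := by
    rw [← hc, sp_coe_mul, sp_coe_mul, Matrix.mul_sub, Matrix.sub_mul, Matrix.mul_one, h1]
  rw [h2, Matrix.rank_mul_eq_left_of_isUnit_det _ _ (SymplecticGroup.symplectic_det c⁻¹.2),
    Matrix.rank_mul_eq_right_of_isUnit_det _ _ (SymplecticGroup.symplectic_det c.2)]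

omit [CharP F 2] in
/-- the number of solutions of `f(v, t v) = 0` is a class invariant -/
lemma sp_card_conj (a b : Matrix.symplecticGroup (Fin m) F) (h : IsConj a b) :
    Nat.card {v : Fin m ⊕ Fin m → F // Cfsg.sympForm m F v
        ((a : Matrix (Fin m ⊕ Fin m) (Fin m ⊕ Fin m) F).mulVec v) = 0}
      = Nat.card {v : Fin m ⊕ Fin m → F // Cfsg.sympForm m F v
        ((b : Matrix (Fin m ⊕ Fin m) (Fin m ⊕ Fin m) F).mulVec v) = 0} := by
  classical
  obtain ⟨c, hc⟩ := isConj_iff.mp h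
  let e : (Fin m ⊕ Fin m → F) ≃ (Fin m ⊕ Fin m → F) :=
    { toFun := fun v => (c : Matrix (Fin m ⊕ Fin m) (Fin m ⊕ Fin m) F).mulVec v
      invFun := fun v => ((c⁻¹ : Matrix.symplecticGroup (Fin m) F) :
        Matrix (Fin m ⊕ Fin m) (Fin m ⊕ Fin m) F).mulVec v
      left_inv := fun v => by
        show ((c⁻¹ : Matrix.symplecticGroup (Fin m) F) :
          Matrix (Fin m ⊕ Fin m) (Fin m ⊕ Fin m) F).mulVec
            ((c : Matrix (Fin m ⊕ Fin m) (Fin m ⊕ Fin m) F).mulVec v) = v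
        rw [Matrix.mulVec_mulVec, ← sp_coe_mul, inv_mul_cancel, sp_coe_one, Matrix.one_mulVec]
      right_inv := fun v => by
        show (c : Matrix (Fin m ⊕ Fin m) (Fin m ⊕ Fin m) F).mulVec
          (((c⁻¹ : Matrix.symplecticGroup (Fin m) F) :
            Matrix (Fin m ⊕ Fin m) (Fin m ⊕ Fin m) F).mulVec v) = v
        rw [Matrix.mulVec_mulVec, ← sp_coe_mul, mul_inv_cancel, sp_coe_one, Matrix.one_mulVec] }
  apply Nat.card_congr
  refine e.subtypeEquiv (fun v => ?_)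
  show _ ↔ Cfsg.sympForm m F ((c : Matrix (Fin m ⊕ Fin m) (Fin m ⊕ Fin m) F).mulVec v)
    ((b : Matrix (Fin m ⊕ Fin m) (Fin m ⊕ Fin m) F).mulVec
      ((c : Matrix (Fin m ⊕ Fin m) (Fin m ⊕ Fin m) F).mulVec v)) = 0
  rw [sp_conj_mulVec a b c hc, sp_pres]

omit [CharP F 2] in
lemma sp_card_all [Fintype F] (P : (Fin m ⊕ Fin m → F) → Prop) (hall : ∀ v, P v) :
    Nat.card {v : Fin m ⊕ Fin m → F // P v} = Fintype.card F ^ (2 * m) := by
  rw [Nat.card_congr (Equiv.subtypeUnivEquiv hall), Nat.card_eq_fintype_card, Fintype.card_fun,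
    Fintype.card_sum, Fintype.card_fin, two_mul]

omit [CharP F 2] in
lemma sp_card_hyp [Fintype F] (z : Fin m ⊕ Fin m → F) (hz : z ≠ 0) :
    Nat.card {v : Fin m ⊕ Fin m → F // Cfsg.sympForm m F z v * Cfsg.sympForm m F z v = 0}
      * Fintype.card F = Fintype.card F ^ (2 * m) := by
  classical
  have e : {v : Fin m ⊕ Fin m → F // Cfsg.sympForm m F z v * Cfsg.sympForm m F z v = 0}
      ≃ ↥(LinearMap.ker (sB m F z)) :=
    Equiv.subtypeEquivRight (fun v => by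
      rw [LinearMap.mem_ker, sB_apply]
      exact mul_self_eq_zero)
  rw [Nat.card_congr e, Module.natCard_eq_pow_finrank (K := F) (V := ↥(LinearMap.ker (sB m F z))),
    Nat.card_eq_fintype_card]
  have h1 := LinearMap.finrank_range_add_finrank_ker (sB m F z)
  have h2 : LinearMap.range (sB m F z) = ⊤ := by
    rw [LinearMap.range_eq_top]
    obtain ⟨w, hw⟩ := sf_exists_ne z hz
    intro c
    refine ⟨(c / Cfsg.sympForm m F z w) • w, ?_⟩
    rw [map_smul, sB_apply, smul_eq_mul, div_mul_cancel₀ c hw]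
  rw [h2, finrank_top, Module.finrank_self, Module.finrank_fintype_fun_eq_card, Fintype.card_sum,
    Fintype.card_fin] at h1
  rw [← pow_succ]
  congr 1
  omega

lemma spnf_card_id [Fintype F] {κ : Type} [Fintype κ] [DecidableEq κ] [Nonempty κ] (σ : κ → κ)
    (hfp : ∀ x, σ x = x) (t : Matrix.symplecticGroup (Fin m) F) (h : IsSpNF σ t) :
    Nat.card {v : Fin m ⊕ Fin m → F // Cfsg.sympForm m F v
        ((t : Matrix (Fin m ⊕ Fin m) (Fin m ⊕ Fin m) F).mulVec v) = 0} * Fintype.card F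
      = Fintype.card F ^ (2 * m) := by
  obtain ⟨z, hz, hzv⟩ := spnf_hyp σ hfp t h
  have e : {v : Fin m ⊕ Fin m → F // Cfsg.sympForm m F v
        ((t : Matrix (Fin m ⊕ Fin m) (Fin m ⊕ Fin m) F).mulVec v) = 0}
      ≃ {v : Fin m ⊕ Fin m → F // Cfsg.sympForm m F z v * Cfsg.sympForm m F z v = 0} :=
    Equiv.subtypeEquivRight (fun v => by rw [hzv])
  rw [Nat.card_congr e]
  exact sp_card_hyp z hz

lemma spnf_not_alt {κ : Type} [Fintype κ] [DecidableEq κ] [Nonempty κ] (σ : κ → κ)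
    (hfp : ∀ x, σ x = x) (t : Matrix.symplecticGroup (Fin m) F) (h : IsSpNF σ t) :
    ¬ ∀ v, Cfsg.sympForm m F v
      ((t : Matrix (Fin m ⊕ Fin m) (Fin m ⊕ Fin m) F).mulVec v) = 0 := by
  obtain ⟨z, hz, hzv⟩ := spnf_hyp σ hfp t h
  intro hall
  obtain ⟨w, hw⟩ := sf_exists_ne z hz
  have h1 := hall w
  rw [hzv] at h1
  exact hw (mul_self_eq_zero.mp h1)

lemma spnf_card_swap [Fintype F] {κ : Type} [Fintype κ] [DecidableEq κ] (σ : κ → κ)
    (hσ : ∀ x, σ (σ x) = x) (hfp : ∀ x, σ x ≠ x) (t : Matrix.symplecticGroup (Fin m) F)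
    (h : IsSpNF σ t) :
    Nat.card {v : Fin m ⊕ Fin m → F // Cfsg.sympForm m F v
        ((t : Matrix (Fin m ⊕ Fin m) (Fin m ⊕ Fin m) F).mulVec v) = 0}
      = Fintype.card F ^ (2 * m) :=
  sp_card_all _ (spnf_alt σ hσ hfp t h)

omit [CharP F 2] in
/-- being of alternating type is a class invariant -/
lemma sp_alt_conj (a b : Matrix.symplecticGroup (Fin m) F) (h : IsConj a b)
    (halt : ∀ v, Cfsg.sympForm m F v
      ((a : Matrix (Fin m ⊕ Fin m) (Fin m ⊕ Fin m) F).mulVec v) = 0) (v : Fin m ⊕ Fin m → F) :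
    Cfsg.sympForm m F v ((b : Matrix (Fin m ⊕ Fin m) (Fin m ⊕ Fin m) F).mulVec v) = 0 := by
  obtain ⟨c, hc⟩ := isConj_iff.mp h
  obtain ⟨w, hw⟩ : ∃ w, w = ((c⁻¹ : Matrix.symplecticGroup (Fin m) F) :
      Matrix (Fin m ⊕ Fin m) (Fin m ⊕ Fin m) F).mulVec v := ⟨_, rfl⟩
  have hcw : (c : Matrix (Fin m ⊕ Fin m) (Fin m ⊕ Fin m) F).mulVec w = v := by
    rw [hw, Matrix.mulVec_mulVec, ← sp_coe_mul, mul_inv_cancel, sp_coe_one, Matrix.one_mulVec]
  rw [← hcw, sp_conj_mulVec a b c hc, sp_pres]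
  exact halt w

end SpNF

end Cfsg.Agent.Lib.helper4
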