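import Mathlib
import Cfsg.Agent.Lib.helper4.UFrames
import Cfsg.Agent.Lib.helper4.USimple
import Cfsg.Agent.Lib.helper4.USU
import Cfsg.Agent.Lib.helper4.URank

set_option autoImplicit false
set_option linter.unusedSectionVars false

/-!
# Normal form of unitary involutions in characteristic two
-/

namespace Cfsg.Agent.Lib.helper4

open Matrix

section UInvNF

variable {F : Type*} [Field F] [Fintype F] {q : ℕ} {n : ℕ}

/-- normal form of a unitary involution in characteristic 2: `x ↦ x + Σ h(x, w_i) w_i` for a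
linearly independent totally isotropic family `w`. -/
def IsUNF (q : ℕ) (M : Matrix (Fin n) (Fin n) F) {s : ℕ} (w : Fin s → (Fin n → F)) : Prop :=
  LinearIndependent F w ∧ (∀ i j, Cfsg.hermForm n F q (w i) (w j) = 0) ∧
    ∀ v, M *ᵥ v = v + ∑ i, Cfsg.hermForm n F q v (w i) • w i

theorem vec_add_self [CharP F 2] (x : Fin n → F) : x + x = 0 := by
  funext i
  exact CharTwo.add_self_eq_zero (x i)

theorem mat_eq_one_of_mulVec (M : Matrix (Fin n) (Fin n) F) (h : ∀ v, M *ᵥ v = v) : M = 1 := by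
  apply Matrix.toLin'.injective
  apply LinearMap.ext
  intro v
  rw [Matrix.toLin'_apply, Matrix.toLin'_one]
  exact h v

theorem unf_step [CharP F 2] (hF : Fintype.card F = q ^ 2) (M : Matrix (Fin n) (Fin n) F)
    (hpres : ∀ u v, Cfsg.hermForm n F q (M *ᵥ u) (M *ᵥ v) = Cfsg.hermForm n F q u v)
    (hMM : M * M = 1) (hM1 : M ≠ 1) :
    ∃ (w u : Fin n → F), Cfsg.hermForm n F q w w = 0 ∧ Cfsg.hermForm n F q w u = 1 ∧
      M *ᵥ w = w ∧ M *ᵥ u = u + w := by
  have hq := uq_ge_two hF
  have hMMv : ∀ x, M *ᵥ (M *ᵥ x) = x := by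
    intro x
    rw [Matrix.mulVec_mulVec, hMM, Matrix.one_mulVec]
  have hadj : ∀ x y, Cfsg.hermForm n F q (M *ᵥ x) y = Cfsg.hermForm n F q x (M *ᵥ y) := by
    intro x y
    rw [← hpres x (M *ᵥ y), hMMv]
  obtain ⟨β, hβ⟩ : ∃ β : (Fin n → F) → (Fin n → F) → F,
      ∀ x y, β x y = Cfsg.hermForm n F q (M *ᵥ x + x) y := ⟨_, fun _ _ => rfl⟩
  have hβsymm : ∀ x y, (β x y) ^ q = β y x := by
    intro x y
    rw [hβ, hβ, herm_symm hF, herm_add_left, herm_add_right hF, hadj]
  have hβadd : ∀ x y z, β (x + y) z = β x z + β y z := by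
    intro x y z
    rw [hβ, hβ, hβ, Matrix.mulVec_add, ← herm_add_left]
    congr 1
    abel
  have hβadd' : ∀ x y z, β x (y + z) = β x y + β x z := by
    intro x y z
    rw [hβ, hβ, hβ, herm_add_right hF]
  have hβsmul : ∀ (c : F) x z, β (c • x) z = c * β x z := by
    intro c x z
    rw [hβ, hβ, Matrix.mulVec_smul, ← smul_add, herm_smul_left]
  have hβsmul' : ∀ (c : F) x z, β x (c • z) = c ^ q * β x z := by
    intro c x z
    rw [hβ, hβ, herm_smul_right]
  have hex : ∃ u, β u u ≠ 0 := by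
    by_contra hcon
    push Not at hcon
    have h1 : ∀ x y, β x y + β y x = 0 := by
      intro x y
      have h2 := hcon (x + y)
      rw [hβadd, hβadd', hβadd', hcon, hcon] at h2
      linear_combination h2
    obtain ⟨c, hc⟩ := exists_frob_ne hF
    have h3 : ∀ x y, β y x = 0 := by
      intro x y
      have h4 := h1 (c • x) y
      rw [hβsmul, hβsmul'] at h4
      have h5 : (c ^ q - c) * β y x = 0 := by linear_combination h4 - c * h1 x y
      rcases mul_eq_zero.mp h5 with h6 | h6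
      · exact absurd (sub_eq_zero.mp h6) hc
      · exact h6
    apply hM1
    apply mat_eq_one_of_mulVec
    intro y
    have h7 : M *ᵥ y + y = 0 := by
      apply herm_nondeg hF
      intro x
      rw [← hβ]
      exact h3 x y
    calc M *ᵥ y = (M *ᵥ y + y) + y := by rw [add_assoc, vec_add_self, add_zero]
      _ = y := by rw [h7, zero_add]
  obtain ⟨u, hu⟩ := hex
  obtain ⟨c, hc⟩ := unorm_surj hF (β u u)⁻¹ (by rw [inv_pow, hβsymm])
  have hβ1 : β (c • u) (c • u) = 1 := by
    rw [hβsmul, hβsmul', ← mul_assoc, ← pow_succ', hc, inv_mul_cancel₀ hu]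
  refine ⟨M *ᵥ (c • u) + c • u, c • u, ?_, ?_, ?_, ?_⟩
  · rw [herm_add_left, herm_add_right hF, herm_add_right hF, hpres, ← hadj (c • u) (c • u)]
    linear_combination (Cfsg.hermForm n F q (c • u) (c • u)
      + Cfsg.hermForm n F q (M *ᵥ (c • u)) (c • u)) * (CharTwo.two_eq_zero : (2 : F) = 0)
  · rw [← hβ]
    exact hβ1
  · rw [Matrix.mulVec_add, hMMv, add_comm]
  · rw [add_comm (M *ᵥ (c • u)) (c • u), ← add_assoc, vec_add_self, zero_add]

/-- the fixed space of a matrix. -/
def ufix (M : Matrix (Fin n) (Fin n) F) : Submodule F (Fin n → F) :=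
  LinearMap.eqLocus M.mulVecLin LinearMap.id

theorem mem_ufix (M : Matrix (Fin n) (Fin n) F) (x : Fin n → F) : x ∈ ufix M ↔ M *ᵥ x = x := by
  unfold ufix
  rw [LinearMap.mem_eqLocus, Matrix.mulVecLin_apply, LinearMap.id_apply]

theorem ufix_le (M : Matrix (Fin n) (Fin n) F) : Module.finrank F (ufix M) ≤ n := by
  have h := Submodule.finrank_le (ufix M)
  rw [Module.finrank_fin_fun] at h
  exact h

theorem unf_reduce [CharP F 2] (hF : Fintype.card F = q ^ 2) (M : Matrix (Fin n) (Fin n) F)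
    (hpres : ∀ u v, Cfsg.hermForm n F q (M *ᵥ u) (M *ᵥ v) = Cfsg.hermForm n F q u v)
    (hMM : M * M = 1) (hM1 : M ≠ 1) :
    ∃ M' : Matrix (Fin n) (Fin n) F,
      (∀ u v, Cfsg.hermForm n F q (M' *ᵥ u) (M' *ᵥ v) = Cfsg.hermForm n F q u v) ∧
      M' * M' = 1 ∧ Module.finrank F (ufix M) < Module.finrank F (ufix M') ∧
      ∀ (s : ℕ) (w' : Fin s → (Fin n → F)), IsUNF q M' w' →
        ∃ w : Fin (s + 1) → (Fin n → F), IsUNF q M w := by
  have hq := uq_ge_two hF
  obtain ⟨w, u, hww, hwu, hMw, hMu⟩ := unf_step hF M hpres hMM hM1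
  have huw : Cfsg.hermForm n F q u w = 1 := by rw [← herm_symm hF, hwu, one_pow]
  have hMMv : ∀ x, M *ᵥ (M *ᵥ x) = x := by
    intro x
    rw [Matrix.mulVec_mulVec, hMM, Matrix.one_mulVec]
  have hMxw : ∀ x, Cfsg.hermForm n F q (M *ᵥ x) w = Cfsg.hermForm n F q x w := by
    intro x
    have h1 := hpres x w
    rw [hMw] at h1
    exact h1
  have hM'v : ∀ x, (Cfsg.unitaryTransvection n q w 1 * M) *ᵥ x
      = M *ᵥ x + Cfsg.hermForm n F q x w • w := by
    intro x
    rw [← Matrix.mulVec_mulVec, utv_mulVec, one_mul, hMxw]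
  have hM'w : (Cfsg.unitaryTransvection n q w 1 * M) *ᵥ w = w := by
    rw [hM'v, hMw, hww, zero_smul, add_zero]
  have hM'u : (Cfsg.unitaryTransvection n q w 1 * M) *ᵥ u = u := by
    rw [hM'v, hMu, huw, one_smul, add_assoc, vec_add_self, add_zero]
  refine ⟨Cfsg.unitaryTransvection n q w 1 * M, ?_, ?_, ?_, ?_⟩
  · intro x y
    rw [← Matrix.mulVec_mulVec, ← Matrix.mulVec_mulVec, herm_utv hF w hww, hpres, one_pow,
      CharTwo.add_self_eq_zero, zero_mul, add_zero]
  · apply mat_eq_one_of_mulVec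
    intro x
    rw [← Matrix.mulVec_mulVec, hM'v x, hM'v, Matrix.mulVec_add, Matrix.mulVec_smul, hMMv, hMw,
      herm_add_left, herm_smul_left, hww, mul_zero, add_zero, hMxw, add_assoc, vec_add_self,
      add_zero]
  · apply Submodule.finrank_lt_finrank_of_lt
    rw [SetLike.lt_iff_le_and_exists]
    refine ⟨?_, u, ?_, ?_⟩
    · intro x hx
      rw [mem_ufix] at hx ⊢
      rw [hM'v, hx]
      have h0 : Cfsg.hermForm n F q x w = 0 := by
        have hw : w = M *ᵥ u + u := by rw [hMu, add_comm u w, add_assoc, vec_add_self, add_zero]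
        have h1 : Cfsg.hermForm n F q x (M *ᵥ u) = Cfsg.hermForm n F q x u := by
          have h2 := hpres x u
          rw [hx] at h2
          exact h2
        rw [hw, herm_add_right hF, h1, CharTwo.add_self_eq_zero]
      rw [h0, zero_smul, add_zero]
    · rw [mem_ufix]
      exact hM'u
    · rw [mem_ufix, hMu]
      intro h
      have hw0 : w = 0 := by simpa using h
      rw [hw0, herm_zero_left] at hwu
      exact zero_ne_one hwu
  · rintro s w' ⟨hli, hti, hv⟩
    have hw0 : ∀ i, Cfsg.hermForm n F q w (w' i) = 0 := by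
      have h1 := hv w
      rw [hM'w] at h1
      have h2 : ∑ i, Cfsg.hermForm n F q w (w' i) • w' i = 0 := by
        have h3 : w + ∑ i, Cfsg.hermForm n F q w (w' i) • w' i = w + 0 := by rw [← h1, add_zero]
        exact add_left_cancel h3
      exact Fintype.linearIndependent_iff.mp hli _ h2
    have hu0 : ∀ i, Cfsg.hermForm n F q u (w' i) = 0 := by
      have h1 := hv u
      rw [hM'u] at h1
      have h2 : ∑ i, Cfsg.hermForm n F q u (w' i) • w' i = 0 := by
        have h3 : u + ∑ i, Cfsg.hermForm n F q u (w' i) • w' i = u + 0 := by rw [← h1, add_zero]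
        exact add_left_cancel h3
      exact Fintype.linearIndependent_iff.mp hli _ h2
    have hw0' : ∀ i, Cfsg.hermForm n F q (w' i) w = 0 := by
      intro i
      rw [← herm_symm hF, hw0, zero_pow (by omega)]
    have hu0' : ∀ i, Cfsg.hermForm n F q (w' i) u = 0 := by
      intro i
      rw [← herm_symm hF, hu0, zero_pow (by omega)]
    refine ⟨Fin.cons w w', ?_, ?_, ?_⟩
    · rw [linearIndependent_finCons]
      refine ⟨hli, fun hmem => ?_⟩
      have h1 := herm_orth_span hF w' u hu0' w hmem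
      rw [hwu] at h1
      exact one_ne_zero h1
    · intro i j
      refine Fin.cases ?_ (fun i' => ?_) i <;> refine Fin.cases ?_ (fun j' => ?_) j
      · simp only [Fin.cons_zero]
        exact hww
      · simp only [Fin.cons_zero, Fin.cons_succ]
        exact hw0 j'
      · simp only [Fin.cons_zero, Fin.cons_succ]
        exact hw0' i'
      · simp only [Fin.cons_succ]
        exact hti i' j'
    · intro v
      rw [Fin.sum_univ_succ]
      simp only [Fin.cons_zero, Fin.cons_succ]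
      have h1 := hM'v v
      rw [hv] at h1
      calc M *ᵥ v = (M *ᵥ v + Cfsg.hermForm n F q v w • w) + Cfsg.hermForm n F q v w • w := by
            rw [add_assoc, vec_add_self, add_zero]
        _ = v + (Cfsg.hermForm n F q v w • w + ∑ i, Cfsg.hermForm n F q v (w' i) • w' i) := by
            rw [← h1]
            abel

theorem unf_exists [CharP F 2] (hF : Fintype.card F = q ^ 2) (M : Matrix (Fin n) (Fin n) F)
    (hpres : ∀ u v, Cfsg.hermForm n F q (M *ᵥ u) (M *ᵥ v) = Cfsg.hermForm n F q u v)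
    (hMM : M * M = 1) : ∃ (s : ℕ) (w : Fin s → (Fin n → F)), IsUNF q M w := by
  have hone : M = 1 → ∃ (s : ℕ) (w : Fin s → (Fin n → F)), IsUNF q M w := by
    intro hM1
    refine ⟨0, fun i => i.elim0, linearIndependent_empty_type, fun i => i.elim0, fun v => ?_⟩
    rw [hM1, Matrix.one_mulVec, Finset.univ_eq_empty, Finset.sum_empty, add_zero]
  obtain ⟨k, hk⟩ : ∃ k, n ≤ Module.finrank F (ufix M) + k := ⟨n, by omega⟩
  induction k generalizing M with
  | zero =>
    by_cases hM1 : M = 1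
    · exact hone hM1
    · obtain ⟨M', h1, h2, h3, h4⟩ := unf_reduce hF M hpres hMM hM1
      have := ufix_le M'
      omega
  | succ k ih =>
    by_cases hM1 : M = 1
    · exact hone hM1
    · obtain ⟨M', h1, h2, h3, h4⟩ := unf_reduce hF M hpres hMM hM1
      obtain ⟨s, w', hw'⟩ := ih M' h1 h2 (fun hM' => by
        refine ⟨0, fun i => i.elim0, linearIndependent_empty_type, fun i => i.elim0, fun v => ?_⟩
        rw [hM', Matrix.one_mulVec, Finset.univ_eq_empty, Finset.sum_empty, add_zero]) (by omega)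
      obtain ⟨w, hw⟩ := h4 s w' hw'
      exact ⟨s + 1, w, hw⟩

theorem unf_rank (hF : Fintype.card F = q ^ 2) (M : Matrix (Fin n) (Fin n) F) {s : ℕ}
    (w : Fin s → (Fin n → F)) (h : IsUNF q M w) : (M - 1).rank = s := by
  classical
  obtain ⟨hli, hti, hv⟩ := h
  have hr : LinearMap.range (M - 1).mulVecLin = Submodule.span F (Set.range w) := by
    apply le_antisymm
    · rintro _ ⟨v, rfl⟩
      rw [Matrix.mulVecLin_apply, Matrix.sub_mulVec, Matrix.one_mulVec, hv, add_sub_cancel_left]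
      exact Submodule.sum_mem _
        (fun i _ => Submodule.smul_mem _ _ (Submodule.subset_span ⟨i, rfl⟩))
    · rw [Submodule.span_le]
      rintro _ ⟨i, rfl⟩
      obtain ⟨v, hv'⟩ := Cfsg.Agent.S0751.L_surj (ufrob hF) (uB hF n) (ufrob_invol hF)
        (uB_nondeg hF) w hli (fun j => if j = i then 1 else 0)
      refine ⟨v, ?_⟩
      rw [Matrix.mulVecLin_apply, Matrix.sub_mulVec, Matrix.one_mulVec, hv, add_sub_cancel_left]
      have h1 : ∀ j, Cfsg.hermForm n F q v (w j) = if j = i then 1 else 0 := fun j => by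
        rw [← uB_apply hF]
        exact hv' j
      simp only [h1, ite_smul, one_smul, zero_smul, Finset.sum_ite_eq', Finset.mem_univ, if_true]
  unfold Matrix.rank
  rw [hr, finrank_span_eq_card hli, Fintype.card_fin]

theorem unf_conj (hF : Fintype.card F = q ^ 2) (M M' : Matrix (Fin n) (Fin n) F) {s : ℕ}
    (w w' : Fin s → (Fin n → F)) (h : IsUNF q M w) (h' : IsUNF q M' w') :
    ∃ A : Matrix.GeneralLinearGroup (Fin n) F, A ∈ Cfsg.GU n F q ∧
      (A : Matrix (Fin n) (Fin n) F) * M = M' * (A : Matrix (Fin n) (Fin n) F) := by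
  obtain ⟨hli, hti, hv⟩ := h
  obtain ⟨hli', hti', hv'⟩ := h'
  obtain ⟨A, hA, hAw⟩ := u_witt_frames hF w w' hli hli' (fun i j => by rw [hti, hti'])
  refine ⟨A, hA, ?_⟩
  apply Matrix.toLin'.injective
  apply LinearMap.ext
  intro x
  rw [Matrix.toLin'_apply, Matrix.toLin'_apply, ← Matrix.mulVec_mulVec, ← Matrix.mulVec_mulVec, hv,
    hv', Matrix.mulVec_add, Matrix.mulVec_sum]
  congr 1
  apply Finset.sum_congr rfl
  intro i _
  rw [Matrix.mulVec_smul, hAw]
  congr 1
  rw [← hAw i]
  exact ((mem_GU_iff A).mp hA x (w i)).symm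

theorem unf_cent_det [CharP F 2] (hF : Fintype.card F = q ^ 2) (M : Matrix (Fin n) (Fin n) F)
    {s : ℕ} (w : Fin (s + 1) → (Fin n → F)) (h : IsUNF q M w) (y : F) (hy : y ^ (q + 1) = 1) :
    ∃ g : Matrix.GeneralLinearGroup (Fin n) F, g ∈ Cfsg.GU n F q ∧
      (g : Matrix (Fin n) (Fin n) F) * M = M * (g : Matrix (Fin n) (Fin n) F) ∧
      (g : Matrix (Fin n) (Fin n) F).det = y := by
  classical
  obtain ⟨hli, hti, hv⟩ := h
  have hq := uq_ge_two hF
  have hqe : 2 ∣ q := by
    have h1 : ((q ^ 2 : ℕ) : F) = 0 := by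
      rw [← hF]
      exact Nat.cast_card_eq_zero F
    rw [Nat.cast_pow] at h1
    have h2 : (q : F) = 0 := by simpa using h1
    exact (CharP.cast_eq_zero_iff F 2 q).mp h2
  obtain ⟨t, ht⟩ := hqe
  obtain ⟨l, hl⟩ : ∃ l : F, l = y ^ (t + 1) := ⟨_, rfl⟩
  have hl1 : l * l ^ q = 1 := by
    rw [← pow_succ', hl, ← pow_mul, mul_comm, pow_mul, hy, one_pow]
  have hl2 : l * l = y := by
    rw [hl, ← pow_add]
    have h1 : t + 1 + (t + 1) = (q + 1) + 1 := by omega
    rw [h1, pow_succ, hy, one_mul]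
  obtain ⟨b₀, hb₀⟩ := Cfsg.Agent.S0751.L_surj (ufrob hF) (uB hF n) (ufrob_invol hF)
    (uB_nondeg hF) w hli (fun j => if j = 0 then 1 else 0)
  have hb₀' : ∀ j, Cfsg.hermForm n F q b₀ (w j) = if j = 0 then 1 else 0 := fun j => by
    rw [← uB_apply hF]
    exact hb₀ j
  obtain ⟨c, hc⟩ := utrace_surj hF (Cfsg.hermForm n F q b₀ b₀) (herm_self_fixed hF b₀)
  obtain ⟨b, hb⟩ : ∃ b, b = b₀ + c • w 0 := ⟨_, rfl⟩
  have hbw : ∀ j, Cfsg.hermForm n F q b (w j) = if j = 0 then 1 else 0 := by
    intro j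
    rw [hb, herm_add_left, herm_smul_left, hti, mul_zero, add_zero, hb₀']
  have hwb : ∀ j, Cfsg.hermForm n F q (w j) b = if j = 0 then 1 else 0 := by
    intro j
    rw [← herm_symm hF, hbw]
    split_ifs
    · rw [one_pow]
    · rw [zero_pow (by omega)]
  have hbb : Cfsg.hermForm n F q b b = 0 := by
    have h1 : Cfsg.hermForm n F q b b₀ = Cfsg.hermForm n F q b₀ b₀ + c := by
      rw [hb, herm_add_left, herm_smul_left, ← herm_symm hF b₀ (w 0), hb₀', if_pos rfl, one_pow,
        mul_one]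
    have h2 : Cfsg.hermForm n F q b b = Cfsg.hermForm n F q b b₀ + c ^ q := by
      have h3 : Cfsg.hermForm n F q b (b₀ + c • w 0) = Cfsg.hermForm n F q b b₀ + c ^ q := by
        rw [herm_add_right hF, herm_smul_right, hbw, if_pos rfl, mul_one]
      rw [← hb] at h3
      exact h3
    rw [h2, h1]
    linear_combination hc + Cfsg.hermForm n F q b₀ b₀ * (CharTwo.two_eq_zero : (2 : F) = 0)
  obtain ⟨g, hg, hgv, hgdet⟩ := exists_gu_torus hF (w 0) b (hti 0 0) hbb
    (by rw [hwb, if_pos rfl]) l l hl1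
  refine ⟨g, hg, ?_, by rw [hgdet, hl2]⟩
  apply Matrix.toLin'.injective
  apply LinearMap.ext
  intro x
  rw [Matrix.toLin'_apply, Matrix.toLin'_apply, ← Matrix.mulVec_mulVec, ← Matrix.mulVec_mulVec, hv,
    hv, Matrix.mulVec_add, Matrix.mulVec_sum]
  congr 1
  apply Finset.sum_congr rfl
  intro i _
  rw [Matrix.mulVec_smul, hgv (w i), hti, mul_zero, zero_smul, add_zero, hwb, hgv x, herm_add_left,
    herm_add_left, herm_smul_left, herm_smul_left, hbw, hti]
  by_cases hi : i = 0
  · subst hi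
    simp only [if_true, mul_one, mul_zero, add_zero]
    rw [smul_add, smul_smul, ← add_smul]
    congr 1
    ring
  · simp only [if_neg hi, mul_zero, zero_smul, add_zero]

theorem su_invol_conj_of_rank [CharP F 2] (hF : Fintype.card F = q ^ 2) (a b : Cfsg.SU n F q)
    (ha : a * a = 1) (hb : b * b = 1) (hb1 : b ≠ 1)
    (hr : (suM a - 1).rank = (suM b - 1).rank) : IsConj a b := by
  have hq := uq_ge_two hF
  obtain ⟨s, w, hw⟩ := unf_exists hF (suM a) (su_pres a) (by rw [← suM_mul, ha, suM_one])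
  obtain ⟨s', w', hw'⟩ := unf_exists hF (suM b) (su_pres b) (by rw [← suM_mul, hb, suM_one])
  have hs : s = s' := by rw [← unf_rank hF _ w hw, ← unf_rank hF _ w' hw', hr]
  subst hs
  obtain ⟨A, hA, hAM⟩ := unf_conj hF _ _ w w' hw hw'
  cases s with
  | zero =>
    exfalso
    apply hb1
    apply suM_injective
    rw [suM_one]
    apply mat_eq_one_of_mulVec
    intro v
    rw [hw'.2.2 v, Finset.univ_eq_empty, Finset.sum_empty, add_zero]
  | succ s =>
    have hdet := congrArg Units.val (Cfsg.Agent.S0783.det_pow_of_mem hF n A hA)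
    rw [Units.val_pow_eq_pow_val, Matrix.GeneralLinearGroup.val_det_apply, Units.val_one] at hdet
    have hdet0 : (A : Matrix (Fin n) (Fin n) F).det ≠ 0 := by
      intro h0
      rw [h0, zero_pow (by omega)] at hdet
      exact zero_ne_one hdet
    obtain ⟨g, hg, hgM, hgdet⟩ := unf_cent_det hF (suM b) w' hw'
      ((A : Matrix (Fin n) (Fin n) F).det)⁻¹ (by rw [inv_pow, hdet, inv_one])
    obtain ⟨C, hC⟩ := su_mk (q := q)
      ((g : Matrix (Fin n) (Fin n) F) * (A : Matrix (Fin n) (Fin n) F)) (by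
        intro u v
        rw [← Matrix.mulVec_mulVec, ← Matrix.mulVec_mulVec, (mem_GU_iff g).mp hg,
          (mem_GU_iff A).mp hA]) (by rw [Matrix.det_mul, hgdet, inv_mul_cancel₀ hdet0])
    rw [isConj_iff]
    refine ⟨C, ?_⟩
    rw [mul_inv_eq_iff_eq_mul]
    apply suM_injective
    rw [suM_mul, suM_mul]
    show ((C : Matrix.SpecialLinearGroup (Fin n) F) : Matrix (Fin n) (Fin n) F) * suM a
      = suM b * ((C : Matrix.SpecialLinearGroup (Fin n) F) : Matrix (Fin n) (Fin n) F)
    rw [hC, Matrix.mul_assoc, hAM, ← Matrix.mul_assoc, hgM, Matrix.mul_assoc]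

end UInvNF

end Cfsg.Agent.Lib.helper4
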